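import Cfsg.Agent.Components.ExtendedLayer
import Cfsg.Agent.Transfer.Fusion
import Cfsg.Agent.OddLocal.ZJ
import Cfsg.Agent.Core.ThompsonComplement
import Cfsg.Agent.LocalEven.CharP
import Cfsg.Agent.LocalEven.PReducedTheory
import Cfsg.Agent.Linear.SL2Facts
import Cfsg.Prelude.Def_BaumannBlocks

/-!
Basic lemmas on `B(T)`-blocks in a group of characteristic `p`.
-/

set_option autoImplicit false
set_option linter.style.haveILetI false

open scoped commutatorElement

namespace Cfsg.Agent.Components.Block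

variable {G : Type*} [Group G] {p : ℕ}

/-- The second argument normalizes a commutator subgroup. -/
theorem right_le_normalizer_commutator [Finite G] (A B : Subgroup G) :
    B ≤ Subgroup.normalizer ((⁅A, B⁆ : Subgroup G) : Set G) := by
  intro b hb
  rw [← LocalEven.cj_eq_self_iff]
  refine Subgroup.eq_of_le_of_card_ge ?_ (LocalEven.card_cj _ _).ge
  rw [LocalEven.cj, Subgroup.commutator_def, MonoidHom.map_closure, ← Subgroup.commutator_def]
  refine (Subgroup.closure_le _).mpr ?_
  rintro _ ⟨_, ⟨a, ha, b', hb', rfl⟩, rfl⟩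
  have : (MulAut.conj b).toMonoidHom ⁅a, b'⁆ = ⁅a, b⁆⁻¹ * ⁅a, b * b'⁆ := by
    simp only [commutatorElement_def, MulEquiv.coe_toMonoidHom, MulAut.conj_apply]
    group
  rw [this]
  exact Subgroup.mul_mem _ (Subgroup.inv_mem _ (Subgroup.commutator_mem_commutator ha hb))
    (Subgroup.commutator_mem_commutator ha (B.mul_mem hb hb'))

/-- An element of order prime to `p` of `E ⊔ N`, `N` a `p`-group normalizing `E`, lies in `E`. -/
theorem mem_of_coprime_sup [Finite G] [hp : Fact p.Prime] {E N : Subgroup G} (hN : IsPGroup p N)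
    (hNE : N ≤ Subgroup.normalizer (E : Set G)) {g : G} (hg : g ∈ E ⊔ N) (hcop : (orderOf g).Coprime p) :
    g ∈ E := by
  rw [← SetLike.mem_coe, Subgroup.coe_mul_of_right_le_normalizer_left E N hNE] at hg
  obtain ⟨x, hx, n, hn, rfl⟩ := hg
  set H := Subgroup.normalizer (E : Set G)
  haveI : (E.subgroupOf H).Normal := Subgroup.normal_in_normalizer
  set π := QuotientGroup.mk' (E.subgroupOf H)
  have hxH : x ∈ H := Subgroup.le_normalizer hx
  have h1 : π ⟨x * n, H.mul_mem hxH (hNE hn)⟩ = π ⟨n, hNE hn⟩ := by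
    rw [show (⟨x * n, H.mul_mem hxH (hNE hn)⟩ : H) = ⟨x, hxH⟩ * ⟨n, hNE hn⟩ from rfl, map_mul,
      show π ⟨x, hxH⟩ = 1 from (QuotientGroup.eq_one_iff _).mpr hx, one_mul]
  obtain ⟨k, hk⟩ := IsPGroup.iff_orderOf.mp hN ⟨n, hn⟩
  rw [Subgroup.orderOf_mk] at hk
  have hd1 := orderOf_map_dvd π (⟨x * n, H.mul_mem hxH (hNE hn)⟩ : H)
  have hd2 := orderOf_map_dvd π (⟨n, hNE hn⟩ : H)
  rw [Subgroup.orderOf_mk] at hd1 hd2
  rw [← h1, hk] at hd2
  have h3 : π ⟨x * n, H.mul_mem hxH (hNE hn)⟩ = 1 :=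
    orderOf_eq_one_iff.mp (Nat.eq_one_of_dvd_coprimes (hcop.pow_right k) hd1 hd2)
  exact (QuotientGroup.eq_one_iff (⟨x * n, H.mul_mem hxH (hNE hn)⟩ : H)).mp h3

/-- `O^p(E)` is generated by the elements of `E` of order prime to `p`. -/
theorem pResidualOf_eq (E : Subgroup G) :
    Cfsg.pResidualOf p E = Subgroup.closure {g : G | g ∈ E ∧ (orderOf g).Coprime p} := by
  rw [Cfsg.pResidualOf, Cfsg.pResidual, MonoidHom.map_closure]
  congr 1
  ext g
  constructor
  · rintro ⟨e, he, rfl⟩
    exact ⟨e.2, (Subgroup.orderOf_coe e).symm ▸ he⟩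
  · rintro ⟨hg, hcop⟩
    exact ⟨⟨g, hg⟩, show (orderOf (⟨g, hg⟩ : E)).Coprime p by rwa [Subgroup.orderOf_mk], rfl⟩

theorem le_of_coprime_mem {E K : Subgroup G} (hE : Cfsg.pResidualOf p E = E)
    (h : ∀ e ∈ E, (orderOf e).Coprime p → e ∈ K) : E ≤ K := by
  rw [← hE, pResidualOf_eq]
  exact (Subgroup.closure_le _).mpr fun e he => h e he.1 he.2

/-- If `E = O^p(E)` centralizes `[v, E]` and `[v, E]` has exponent `p`, then `E` centralizes `v`. -/
theorem le_centralizer_of_central_commutator [hp : Fact p.Prime] {E : Subgroup G}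
    (hE : Cfsg.pResidualOf p E = E) {v : G}
    (h : ∀ e ∈ E, ⁅v, e⁆ ^ p = 1 ∧ Commute ⁅v, e⁆ e) : E ≤ Subgroup.centralizer ({v} : Set G) := by
  refine le_of_coprime_mem hE fun e he hcop => ?_
  obtain ⟨hlp, hc⟩ := h e he
  have h1 : (⁅v, e⁆ * e) ^ orderOf e = 1 := by
    have : ⁅v, e⁆ * e = MulAut.conj v e := by
      simp only [commutatorElement_def, MulAut.conj_apply]; group
    rw [this, ← map_pow, pow_orderOf_eq_one, map_one]
  rw [hc.mul_pow, pow_orderOf_eq_one, mul_one] at h1
  have h2 : orderOf ⁅v, e⁆ = 1 :=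
    Nat.eq_one_of_dvd_coprimes hcop (orderOf_dvd_of_pow_eq_one h1) (orderOf_dvd_of_pow_eq_one hlp)
  exact Subgroup.mem_centralizer_singleton_iff.mpr
    (commutatorElement_eq_one_iff_mul_comm.mp (orderOf_eq_one_iff.mp h2)).symm

section Baumann

variable [Finite G] [hp : Fact p.Prime]

theorem thompson_le_baumann (T : Subgroup G) :
    Cfsg.thompsonSubgroupOf p T ≤ Cfsg.baumannSubgroupOf p T :=
  le_inf (Subgroup.map_subtype_le _) (Subgroup.le_centralizer_iff.mp
    ((LocalEven.omegaOne_le _).trans inf_le_right))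

theorem thompson_eq_of_sylow (T S : Sylow p G)
    (h : Cfsg.baumannSubgroupOf p (T : Subgroup G) ≤ (S : Subgroup G)) :
    Cfsg.thompsonSubgroupOf p (S : Subgroup G) = Cfsg.thompsonSubgroupOf p (T : Subgroup G) := by
  obtain ⟨g, hg⟩ := MulAction.exists_smul_eq G T S
  have hST : (T : Subgroup G).map (MulAut.conj g).toMonoidHom = (S : Subgroup G) := by
    rw [← hg]; rfl
  refine (Subgroup.eq_of_le_of_card_ge ?_ ?_).symm
  · have hJS : Cfsg.thompsonSubgroupOf p (T : Subgroup G) ≤ (S : Subgroup G) :=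
      (thompson_le_baumann _).trans h
    rw [Cfsg.thompsonSubgroupOf, Subgroup.map_le_iff_le_comap]
    refine sSup_le fun A hA => Subgroup.map_le_iff_le_comap.mp ?_
    refine OddLocal.ZJ.MaxIn.le_thompson ⟨PLocal.isEA_map hA.1 _,
      le_trans (fun x hx => ?_) hJS, fun D hD hDS => ?_⟩
    · obtain ⟨a, ha, rfl⟩ := hx
      exact ⟨a, PLocal.le_thompsonSubgroup hA ha, rfl⟩
    · rw [← Subgroup.card_map_of_injective (f := (MulAut.conj g⁻¹).toMonoidHom) (MulAut.conj g⁻¹).injective (K := D)]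
      refine PLocal.maxEA_subgroup_map hA _ (PLocal.isEA_map hD _) ?_
      rintro _ ⟨d, hd, rfl⟩
      obtain ⟨t, ht, he⟩ := hST.ge (hDS hd)
      rw [← he]
      show g⁻¹ * (g * t * g⁻¹) * g⁻¹⁻¹ ∈ (T : Subgroup G)
      rw [show g⁻¹ * (g * t * g⁻¹) * g⁻¹⁻¹ = t by group]
      exact ht
  · rw [← hST, ← Core.ThompsonComplement.thompsonSubgroupOf_map _ ((MulAut.conj g).injective.injOn)]
    exact (Subgroup.card_map_of_injective (MulAut.conj g).injective).le

/-- A `p`-group containing `B(T)` normalizes it. -/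
theorem le_normalizer_baumann (T : Sylow p G) {R : Subgroup G} (hR : IsPGroup p R)
    (hBR : Cfsg.baumannSubgroupOf p (T : Subgroup G) ≤ R) :
    R ≤ Subgroup.normalizer (Cfsg.baumannSubgroupOf p (T : Subgroup G) : Set G) := by
  obtain ⟨S, hS⟩ := hR.exists_le_sylow
  have hJ := thompson_eq_of_sylow T S (hBR.trans hS)
  set Z := Cfsg.centerThompsonOf p (T : Subgroup G) with hZ
  set ω := Cfsg.omegaOne p Z with hω
  set Cω := Subgroup.centralizer (ω : Set G) with hCω
  have hN : ∀ U : Sylow p G, Cfsg.thompsonSubgroupOf p (U : Subgroup G) = Cfsg.thompsonSubgroupOf p (T : Subgroup G) →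
      (U : Subgroup G) ≤ Subgroup.normalizer (ω : Set G) := fun U hU =>
    (Subgroup.le_normalizer.trans (OddLocal.normalizer_le_normalizer_thompson p _)).trans
      (hU ▸ (LocalEven.normalizer_inf_centralizer _).trans (LocalEven.normalizer_le_normalizer_omegaOne _))
  set M := Subgroup.normalizer (ω : Set G) with hM
  have hTM : (T : Subgroup G) ≤ M := hN T rfl
  have hCM : Cω ≤ M := Subgroup.centralizer_le_normalizer _
  have hSM : (S : Subgroup G) ≤ M := hN S hJ
  have heq : (S : Subgroup G) ⊓ Cω = Cfsg.baumannSubgroupOf p (T : Subgroup G) := by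
    refine (Subgroup.eq_of_le_of_card_ge (le_inf (hBR.trans hS) inf_le_right) ?_).symm
    haveI hn : (Cω.subgroupOf M).Normal :=
      Subgroup.normal_subgroupOf_of_le_normalizer (LocalEven.normalizer_le_normalizer_cent ω)
    have hdvd := not_dvd_relIndex_of_isSubnormal (T.subtype hTM) hn.isSubnormal
    rw [Sylow.coe_subtype, Subgroup.relIndex_subgroupOf hCM, ← Subgroup.inf_relIndex_right] at hdvd
    set B' := (T : Subgroup G) ⊓ Cω with hB'
    have hle : B' ≤ (S : Subgroup G) ⊓ Cω := le_inf (hBR.trans hS) inf_le_right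
    have h1 : B'.relIndex ((S : Subgroup G) ⊓ Cω) ∣ B'.relIndex Cω :=
      Dvd.intro _ (Subgroup.relIndex_mul_relIndex _ _ _ hle inf_le_right)
    obtain ⟨k, hk⟩ := (S.isPGroup'.to_le (inf_le_left : (S : Subgroup G) ⊓ Cω ≤ _)).exists_card_eq
    have h2 : B'.relIndex ((S : Subgroup G) ⊓ Cω) = 1 := Nat.eq_one_of_dvd_coprimes
      ((hp.out.coprime_iff_not_dvd.mpr hdvd).pow_left k) (hk ▸ Subgroup.relIndex_dvd_card _ _) h1
    exact (Subgroup.card_le_of_le (Subgroup.relIndex_eq_one.mp h2))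
  rw [← heq]
  refine hS.trans ?_
  exact (le_inf Subgroup.le_normalizer (hSM.trans (LocalEven.normalizer_le_normalizer_cent ω))).trans
    Subgroup.inf_normalizer_le_normalizer_inf

theorem baumann_le_normalizer {T E : Subgroup G} (hE : ⁅E, Cfsg.baumannSubgroupOf p T⁆ = E) :
    Cfsg.baumannSubgroupOf p T ≤ Subgroup.normalizer (E : Set G) := by
  have h := right_le_normalizer_commutator E (Cfsg.baumannSubgroupOf p T)
  rwa [hE] at h

/-- A `p`-group normalized by `B(T)` and by the block normalizes the block. -/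
theorem le_normalizer_block (T : Sylow p G) {E Q : Subgroup G} (hE : Cfsg.pResidualOf p E = E)
    (hEB : ⁅E, Cfsg.baumannSubgroupOf p (T : Subgroup G)⁆ = E) (hQ : IsPGroup p Q)
    (hBQ : Cfsg.baumannSubgroupOf p (T : Subgroup G) ≤ Subgroup.normalizer (Q : Set G))
    (hEQ : E ≤ Subgroup.normalizer (Q : Set G)) : Q ≤ Subgroup.normalizer (E : Set G) := by
  set B := Cfsg.baumannSubgroupOf p (T : Subgroup G) with hB
  have hBE : B ≤ Subgroup.normalizer (E : Set G) := baumann_le_normalizer hEB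
  have hBp : IsPGroup p B := T.isPGroup'.to_le inf_le_left
  have hQB : Q ≤ Subgroup.normalizer (B : Set G) :=
    le_sup_left.trans (le_normalizer_baumann T (hQ.to_sup_of_normal_left' hBp hBQ) le_sup_right)
  set N := Q ⊓ Subgroup.normalizer (E : Set G) with hN
  by_contra hne
  have hlt : N < Q := lt_of_le_of_ne inf_le_left fun e => hne (e ▸ inf_le_right)
  set M := Q ⊓ Subgroup.normalizer (N : Set G) with hMdef
  have hNM : N < M := Transfer.lt_inf_normalizer hQ hlt
  have hBN : B ≤ Subgroup.normalizer (N : Set G) :=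
    (le_inf hBQ (hBE.trans Subgroup.le_normalizer)).trans Subgroup.inf_normalizer_le_normalizer_inf
  have hEN : E ≤ Subgroup.normalizer (N : Set G) :=
    (le_inf hEQ (Subgroup.le_normalizer.trans Subgroup.le_normalizer)).trans Subgroup.inf_normalizer_le_normalizer_inf
  have hM' : ∀ g : G, g ∈ Subgroup.normalizer (Q : Set G) → g ∈ Subgroup.normalizer (N : Set G) →
      g ∈ Subgroup.normalizer (M : Set G) := fun g h1 h2 =>
    Subgroup.inf_normalizer_le_normalizer_inf ⟨h1, Subgroup.le_normalizer h2⟩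
  -- the elements centralizing `M` modulo `N`
  set W := Subgroup.normalizer (M : Set G) ⊓ Subgroup.normalizer (N : Set G) with hW
  let K : Subgroup G :=
    { carrier := {g | g ∈ W ∧ ∀ m ∈ M, g * m * g⁻¹ * m⁻¹ ∈ N}
      one_mem' := ⟨W.one_mem, fun m _ => by simp [N.one_mem]⟩
      mul_mem' := fun {g h} hg hh => ⟨W.mul_mem hg.1 hh.1, fun m hm => by
        have h1 := (Subgroup.mem_normalizer_iff.mp hg.1.2 _).mp (hh.2 m hm)
        have h2 := hg.2 m hm
        have : g * h * m * (g * h)⁻¹ * m⁻¹ = g * (h * m * h⁻¹ * m⁻¹) * g⁻¹ * (g * m * g⁻¹ * m⁻¹) := by group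
        rw [this]
        exact N.mul_mem h1 h2⟩
      inv_mem' := fun {g} hg => ⟨W.inv_mem hg.1, fun m hm => by
        have h1 := (Subgroup.mem_normalizer_iff.mp (W.inv_mem hg.1).2 _).mp (N.inv_mem (hg.2 m hm))
        simpa [mul_assoc] using h1⟩ }
  have hBK : B ≤ K := fun b hb => ⟨⟨hM' b (hBQ hb) (hBN hb), hBN hb⟩, fun m hm => by
    refine ⟨Q.mul_mem ((Subgroup.mem_normalizer_iff.mp (hBQ hb) m).mp hm.1) (Q.inv_mem hm.1), ?_⟩
    apply hBE
    have h1 := (Subgroup.mem_normalizer_iff.mp (hQB hm.1) _).mp (B.inv_mem hb)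
    have : b * m * b⁻¹ * m⁻¹ = b * (m * b⁻¹ * m⁻¹) := by group
    rw [this]
    exact B.mul_mem hb h1⟩
  have hEW : E ≤ W := fun e he => ⟨hM' e (hEQ he) (hEN he), hEN he⟩
  have hKn : ∀ w ∈ W, ∀ g ∈ K, w * g * w⁻¹ ∈ K := fun w hw g hg =>
    ⟨W.mul_mem (W.mul_mem hw hg.1) (W.inv_mem hw), fun m hm => by
      have hm' : w⁻¹ * m * w ∈ M := by
        have := (Subgroup.mem_normalizer_iff.mp (W.inv_mem hw).1 m).mp hm
        simpa using this
      have := (Subgroup.mem_normalizer_iff.mp hw.2 _).mp (hg.2 _ hm')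
      simpa [mul_assoc] using this⟩
  have hEK : E ≤ K := by
    rw [← hEB]
    refine Subgroup.commutator_le.mpr fun e he b hb => ?_
    rw [commutatorElement_def]
    exact K.mul_mem (hKn e (hEW he) b (hBK hb)) (K.inv_mem (hBK hb))
  -- so `M` normalizes `E`
  have hME : M ≤ Subgroup.normalizer (E : Set G) := by
    intro m hm
    rw [← LocalEven.cj_eq_self_iff]
    refine Subgroup.eq_of_le_of_card_ge ?_ (LocalEven.card_cj _ _).ge
    rw [LocalEven.cj, Subgroup.map_le_iff_le_comap]
    refine le_of_coprime_mem hE fun e he hcop => ?_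
    show m * e * m⁻¹ ∈ E
    refine mem_of_coprime_sup (hQ.to_le hlt.le) inf_le_right ?_ ?_
    · have h1 := (hEK he).2 m hm
      have : m * e * m⁻¹ = (e * m * e⁻¹ * m⁻¹)⁻¹ * e := by group
      rw [this]
      exact Subgroup.mul_mem _ (Subgroup.mem_sup_right (N.inv_mem h1)) (Subgroup.mem_sup_left he)
    · rwa [show m * e * m⁻¹ = (MulAut.conj m).toMonoidHom e from rfl,
        orderOf_injective _ (MulAut.conj m).injective]
  exact hNM.not_ge (le_inf inf_le_left hME)

end Baumann

section Irreducible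

/-- An additive subgroup of `F²` invariant under the derived group of `SL₂(F)` is trivial or everything. -/
theorem addSubgroup_eq_top_of_sl2 {F : Type*} [Field F] [Fintype F] (S : AddSubgroup (Fin 2 → F))
    (hinv : ∀ M ∈ commutator (Matrix.SpecialLinearGroup (Fin 2) F), ∀ v ∈ S,
      (M : Matrix (Fin 2) (Fin 2) F).mulVec v ∈ S)
    {v : Fin 2 → F} (hv : v ∈ S) (hv0 : v ≠ 0) : S = ⊤ := by
  refine (AddSubgroup.eq_top_iff' S).mpr fun w => ?_
  let X : F → Matrix.SpecialLinearGroup (Fin 2) F := fun t => ⟨!![1, t; 0, 1], by simp [Matrix.det_fin_two]⟩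
  let Y : F → Matrix.SpecialLinearGroup (Fin 2) F := fun t => ⟨!![1, 0; t, 1], by simp [Matrix.det_fin_two]⟩
  have hw : w = ![w 0, w 1] := by funext i; fin_cases i <;> rfl
  have hvv : v = ![v 0, v 1] := by funext i; fin_cases i <;> rfl
  have hne : v 0 ≠ 0 ∨ v 1 ≠ 0 := by
    by_contra h
    simp only [not_or, not_not] at h
    apply hv0
    funext i
    fin_cases i <;> simp [h.1, h.2]
  rcases le_or_gt 4 (Fintype.card F) with hq | hq
  · have hall : ∀ M : Matrix.SpecialLinearGroup (Fin 2) F, ∀ u ∈ S,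
        (M : Matrix (Fin 2) (Fin 2) F).mulVec u ∈ S := fun M u hu =>
      hinv M (by rw [Linear.sl2_perfect hq]; exact Subgroup.mem_top M) u hu
    have hx : ∀ a b t : F, ![a, b] ∈ S → ![t * b, 0] ∈ S := fun a b t h => by
      have := S.sub_mem (hall (X t) _ h) h
      convert this using 1
      funext i; fin_cases i <;> simp [X, Matrix.mulVec, dotProduct, Fin.sum_univ_two, mul_comm]
    have hy : ∀ a b t : F, ![a, b] ∈ S → ![0, t * a] ∈ S := fun a b t h => by
      have := S.sub_mem (hall (Y t) _ h) h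
      convert this using 1
      funext i; fin_cases i <;> simp [Y, Matrix.mulVec, dotProduct, Fin.sum_univ_two, mul_comm]
    have h10 : ∀ c : F, ![c, 0] ∈ S := by
      intro c
      rcases hne with h0 | h1
      · have := hy (v 0) (v 1) (v 0)⁻¹ (hvv ▸ hv)
        rw [inv_mul_cancel₀ h0] at this
        simpa using hx 0 1 c this
      · have := hx (v 0) (v 1) (c * (v 1)⁻¹) (hvv ▸ hv)
        rwa [mul_assoc, inv_mul_cancel₀ h1, mul_one] at this
    have h01 : ![0, w 1] ∈ S := by simpa using hy 1 0 (w 1) (h10 1)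
    rw [hw]
    convert S.add_mem (h10 (w 0)) h01 using 1
    funext i; fin_cases i <;> simp
  · have hsmall : ∀ c : F, c = 0 ∨ c = 1 ∨ c = -1 := by
      classical
      intro c
      by_contra hc
      simp only [not_or] at hc
      obtain ⟨h0, h1, h2⟩ := hc
      have hsub : ({0, 1, c} : Finset F) = Finset.univ := by
        refine Finset.eq_univ_of_card _ (le_antisymm (Finset.card_le_univ _) ?_)
        rw [Finset.card_eq_three.mpr ⟨0, 1, c, zero_ne_one, Ne.symm h0, Ne.symm h1, rfl⟩]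
        omega
      have hm : -c ∈ ({0, 1, c} : Finset F) := hsub ▸ Finset.mem_univ _
      simp only [Finset.mem_insert, Finset.mem_singleton] at hm
      rcases hm with hm | hm | hm
      · exact h0 (neg_eq_zero.mp hm)
      · exact h2 (by rw [← hm, neg_neg])
      · have h3 : (1 : F) + c ∈ ({0, 1, c} : Finset F) := hsub ▸ Finset.mem_univ _
        simp only [Finset.mem_insert, Finset.mem_singleton] at h3
        rcases h3 with h3 | h3 | h3
        · exact h2 (eq_neg_of_add_eq_zero_right h3)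
        · exact h0 (by simpa using h3)
        · exact one_ne_zero (by simpa using h3 : (1 : F) = 0)
    set M : Matrix.SpecialLinearGroup (Fin 2) F := ⁅X 1, Y 1⁆ with hMdef
    have hMC : M ∈ commutator (Matrix.SpecialLinearGroup (Fin 2) F) :=
      Subgroup.commutator_mem_commutator (Subgroup.mem_top _) (Subgroup.mem_top _)
    have hM : (M : Matrix (Fin 2) (Fin 2) F) = !![3, -1; 1, 0] := by
      rw [hMdef, commutatorElement_def, Matrix.SpecialLinearGroup.coe_mul, Matrix.SpecialLinearGroup.coe_mul,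
        Matrix.SpecialLinearGroup.coe_mul, Matrix.SpecialLinearGroup.coe_inv, Matrix.SpecialLinearGroup.coe_inv]
      ext i j
      fin_cases i <;> fin_cases j <;>
        simp [X, Y, Matrix.adjugate_fin_two, Matrix.mul_apply, Fin.sum_univ_two] <;> norm_num
    have hsmul : ∀ c : F, ∀ u ∈ S, c • u ∈ S := fun c u hu => by
      rcases hsmall c with rfl | rfl | rfl
      · rw [zero_smul]; exact S.zero_mem
      · rwa [one_smul]
      · rw [neg_one_smul]; exact S.neg_mem hu
    have hMv : ![3 * v 0 - v 1, v 0] ∈ S := by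
      have := hinv M hMC v hv
      rw [hM] at this
      convert this using 1
      funext i; fin_cases i <;>
        simp only [Matrix.mulVec, dotProduct, Fin.sum_univ_two, Matrix.of_apply, Matrix.cons_val', Matrix.cons_val_zero,
          Matrix.cons_val_one, Matrix.cons_val_fin_one, Fin.zero_eta, Fin.mk_one, Fin.isValue] <;> ring
    set D : F := v 0 * v 0 - (3 * v 0 - v 1) * v 1 with hD
    have hD0 : D ≠ 0 := by
      have h5 : v 0 = -v 1 → D ≠ 0 := by
        intro h e
        have h5' : (5 : F) * (v 1 * v 1) = 0 := by rw [hD, h] at e; linear_combination e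
        have hv1 : v 1 ≠ 0 := fun h0 => by
          rcases hne with h' | h'
          · exact h' (by rw [h, h0, neg_zero])
          · exact h' h0
        have h50 : (5 : F) = 0 := by
          rcases mul_eq_zero.mp h5' with h' | h'
          · exact h'
          · exact absurd h' (mul_ne_zero hv1 hv1)
        have hc : ((Fintype.card F : ℕ) : F) = 0 := FiniteField.cast_card_eq_zero F
        have hlt := Fintype.one_lt_card (α := F)
        interval_cases hk : Fintype.card F
        · norm_num at hc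
          exact one_ne_zero (by linear_combination h50 - 2 * hc : (1 : F) = 0)
        · norm_num at hc
          exact one_ne_zero (by linear_combination 2 * hc - h50 : (1 : F) = 0)
      rcases hsmall (v 0) with h0 | h0 | h0 <;> rcases hsmall (v 1) with h1 | h1 | h1 <;>
        first
          | (rw [hD, h0, h1]; norm_num; done)
          | (refine h5 ?_; simp [h0, h1]; done)
          | (exfalso; exact hne.elim (fun h' => h' h0) (fun h' => h' h1))
    set i' : F := (v 0 * w 0 - (3 * v 0 - v 1) * w 1) / D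
    set j' : F := (v 0 * w 1 - v 1 * w 0) / D
    have : w = i' • v + j' • ![3 * v 0 - v 1, v 0] := by
      funext i
      fin_cases i <;> simp [i', j'] <;> field_simp <;> rw [hD] <;> ring
    rw [this]
    exact S.add_mem (hsmul _ _ hv) (hsmul _ _ hMv)

/-- An additive subgroup of the even weight vectors invariant under even permutations is trivial or everything. -/
theorem mem_of_alternating {n : ℕ} (hn : Odd n) (S : AddSubgroup (Fin n → ZMod 2))
    (hinv : ∀ σ ∈ alternatingGroup (Fin n), ∀ v ∈ S, (fun i => v (σ i)) ∈ S)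
    {v : Fin n → ZMod 2} (hv : v ∈ S) (hv0 : v ≠ 0) (hsum : ∑ i, v i = 0)
    {w : Fin n → ZMod 2} (hw : ∑ i, w i = 0) : w ∈ S := by
  classical
  have h01 : ∀ x : ZMod 2, x = 0 ∨ x = 1 := by decide
  obtain ⟨i, hi⟩ : ∃ i, v i = 1 := by
    obtain ⟨i, hi⟩ := Function.ne_iff.mp hv0
    exact ⟨i, (h01 (v i)).resolve_left hi⟩
  obtain ⟨j, hj⟩ : ∃ j, v j = 0 := by
    by_contra h
    simp only [not_exists] at h
    rw [Finset.sum_congr rfl (fun k _ => (h01 (v k)).resolve_left (h k))] at hsum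
    simp only [Finset.sum_const, Finset.card_univ, Fintype.card_fin, nsmul_eq_mul, mul_one] at hsum
    rw [ZMod.natCast_eq_zero_iff_even] at hsum
    exact Nat.not_even_iff_odd.mpr hn hsum
  have hij : i ≠ j := fun e => by rw [e, hj] at hi; exact zero_ne_one hi
  let E : Fin n → Fin n → (Fin n → ZMod 2) := fun a b => Pi.single a 1 + Pi.single b 1
  -- the three-cycle `a ↦ b ↦ c ↦ a`
  have hcyc : ∀ a b c : Fin n, a ≠ b → a ≠ c → b ≠ c → ∃ σ ∈ alternatingGroup (Fin n),
      σ a = b ∧ σ b = c ∧ σ c = a ∧ ∀ x, x ≠ a → x ≠ b → x ≠ c → σ x = x := by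
    intro a b c hab hac hbc
    refine ⟨Equiv.swap a b * Equiv.swap b c, ?_, ?_, ?_, ?_, ?_⟩
    · rw [Equiv.Perm.mem_alternatingGroup, map_mul, Equiv.Perm.sign_swap hab, Equiv.Perm.sign_swap hbc]
      rfl
    · rw [Equiv.Perm.mul_apply, Equiv.swap_apply_of_ne_of_ne hab hac, Equiv.swap_apply_left]
    · rw [Equiv.Perm.mul_apply, Equiv.swap_apply_left, Equiv.swap_apply_of_ne_of_ne hac.symm hbc.symm]
    · rw [Equiv.Perm.mul_apply, Equiv.swap_apply_right, Equiv.swap_apply_right]
    · intro x hxa hxb hxc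
      rw [Equiv.Perm.mul_apply, Equiv.swap_apply_of_ne_of_ne hxb hxc, Equiv.swap_apply_of_ne_of_ne hxa hxb]
  -- a third point
  obtain ⟨k, hki, hkj⟩ : ∃ k, k ≠ i ∧ k ≠ j := by
    by_contra h
    simp only [not_exists, not_and, not_not] at h
    have hsub : (Finset.univ : Finset (Fin n)) = {i, j} := by
      ext x; simp only [Finset.mem_univ, Finset.mem_insert, Finset.mem_singleton, true_iff]
      by_cases hx : x = i
      · exact Or.inl hx
      · exact Or.inr (h x hx)
    have := congrArg Finset.card hsub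
    rw [Finset.card_univ, Fintype.card_fin, Finset.card_pair hij] at this
    rw [this] at hn
    exact absurd hn (by decide)
  obtain ⟨σ, hσ, hσi, hσj, hσk, hσx⟩ := hcyc i j k hij hki.symm hkj.symm
  have hdiff := S.sub_mem (hinv σ hσ v hv) hv
  have hedge : ∃ a b, a ≠ b ∧ E a b ∈ S := by
    rcases h01 (v k) with hk | hk
    · refine ⟨i, k, hki.symm, ?_⟩
      convert hdiff using 1
      funext x
      by_cases hxi : x = i
      · subst hxi; simp [E, hσi, hj, hi, hki.symm]
      · by_cases hxk : x = k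
        · subst hxk; simp [E, hσk, hi, hk, hki]
        · by_cases hxj : x = j
          · subst hxj; simp [E, hσj, hk, hj, hxi, hxk]
          · simp [E, hxi, hxk, hσx x hxi hxj hxk]
    · refine ⟨i, j, hij, ?_⟩
      convert hdiff using 1
      funext x
      by_cases hxi : x = i
      · subst hxi; simp [E, hσi, hj, hi, hij]
      · by_cases hxj : x = j
        · subst hxj; simp [E, hσj, hk, hj, hxi]
        · by_cases hxk : x = k
          · subst hxk; simp [E, hσk, hi, hk, hxi, hxj]
          · simp [E, hxi, hxj, hσx x hxi hxj hxk]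
  obtain ⟨a, b, hab, hE⟩ := hedge
  -- all pairs at `a`
  have hall : ∀ c, E a c ∈ S := by
    intro c
    by_cases hca : c = a
    · subst hca
      have : E c c = 0 := by funext x; simp only [E, Pi.add_apply]; exact CharTwo.add_self_eq_zero _
      rw [this]
      exact S.zero_mem
    by_cases hcb : c = b
    · subst hcb; exact hE
    obtain ⟨τ, hτ, hτa, hτb, hτc, hτx⟩ := hcyc a b c hab (Ne.symm hca) (Ne.symm hcb)
    convert hinv τ hτ _ hE using 1
    funext x
    by_cases hxa : x = a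
    · subst hxa; simp [E, hτa, hab, hab.symm, Ne.symm hca]
    · by_cases hxb : x = b
      · subst hxb; simp [E, hτb, hca, hcb, hxa, Ne.symm hcb]
      · by_cases hxc : x = c
        · subst hxc; simp [E, hτc, hab, hca]
        · simp [E, hτx x hxa hxb hxc, hxa, hxb, hxc]
  have hwsum : w = ∑ c, (if w c = 1 then E a c else 0) := by
    funext x
    rw [Finset.sum_apply]
    have e : ∀ c, (if w c = 1 then E a c else 0) x =
        w c * ((Pi.single a 1 : Fin n → ZMod 2) x) + w c * ((Pi.single c 1 : Fin n → ZMod 2) x) := fun c => by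
      rcases h01 (w c) with h | h <;> simp [h, E]
    rw [Finset.sum_congr rfl (fun c _ => e c), Finset.sum_add_distrib, ← Finset.sum_mul, hw, zero_mul, zero_add]
    simp [Pi.single_apply]
  rw [hwsum]
  refine S.sum_mem fun c _ => ?_
  split
  · exact hall c
  · exact S.zero_mem

/-- The image of a subgroup under a homomorphism into a multiplicative copy of an additive group. -/
def imageAdd {U V : Type*} [Group U] [AddGroup V] (ψ : U →* Multiplicative V) (L : Subgroup U) :
    AddSubgroup V where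
  carrier := {v | ∃ l ∈ L, Multiplicative.toAdd (ψ l) = v}
  zero_mem' := ⟨1, L.one_mem, by rw [map_one]; rfl⟩
  add_mem' := by
    rintro _ _ ⟨a, ha, rfl⟩ ⟨b, hb, rfl⟩
    exact ⟨a * b, L.mul_mem ha hb, by rw [map_mul]; rfl⟩
  neg_mem' := by
    rintro _ ⟨a, ha, rfl⟩
    exact ⟨a⁻¹, L.inv_mem ha, by rw [map_inv]; rfl⟩

theorem sl2_section_irreducible {F : Type} [Field F] [Fintype F] {E U U₀ L : Subgroup G}
    (h : Cfsg.ActsAsSL2OnSection F (commutator (Matrix.SpecialLinearGroup (Fin 2) F)) E U U₀)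
    (hLU : L ≤ U) (hLn : E ≤ Subgroup.normalizer (L : Set G)) (hL : ¬ L ≤ U₀) : U ≤ L ⊔ U₀ := by
  obtain ⟨-, -, ρ, ψ, hρ, -, hker, hact⟩ := h
  set S := imageAdd ψ (L.subgroupOf U) with hS
  obtain ⟨l, hl, hl0⟩ := SetLike.not_le_iff_exists.mp hL
  have hlS : Multiplicative.toAdd (ψ ⟨l, hLU hl⟩) ∈ S := ⟨_, hl, rfl⟩
  have hne : Multiplicative.toAdd (ψ ⟨l, hLU hl⟩) ≠ 0 := fun e =>
    hl0 ((hker ⟨l, hLU hl⟩).mp (Multiplicative.toAdd.injective e))
  have htop := addSubgroup_eq_top_of_sl2 S (fun M hM v hv => by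
    rw [← hρ] at hM
    obtain ⟨e, rfl⟩ := hM
    obtain ⟨u, hu, rfl⟩ := hv
    obtain ⟨w, hw, hw'⟩ := hact e u
    refine ⟨w, ?_, hw'⟩
    rw [Subgroup.mem_subgroupOf, hw]
    exact (Subgroup.mem_normalizer_iff.mp (hLn e.2) _).mp hu) hlS hne
  intro u hu
  obtain ⟨m, hm, hm'⟩ := (htop.ge (AddSubgroup.mem_top (Multiplicative.toAdd (ψ ⟨u, hu⟩))) : _ ∈ S)
  have h1 : ((m⁻¹ * ⟨u, hu⟩ : U) : G) ∈ U₀ := (hker _).mp (by
    rw [map_mul, map_inv, Multiplicative.toAdd.injective hm', inv_mul_cancel])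
  have : u = (m : G) * ((m⁻¹ * ⟨u, hu⟩ : U) : G) := by simp
  rw [this]
  exact Subgroup.mul_mem _ (Subgroup.mem_sup_left hm) (Subgroup.mem_sup_right h1)

theorem perm_section_irreducible {n : ℕ} (hn : Odd n) {E U U₀ L : Subgroup G}
    (h : Cfsg.ActsAsOddPermModuleOnSection n (alternatingGroup (Fin n)) E U U₀)
    (hLU : L ≤ U) (hLn : E ≤ Subgroup.normalizer (L : Set G)) (hL : ¬ L ≤ U₀) : U ≤ L ⊔ U₀ := by
  obtain ⟨-, -, ρ, ψ, hρ, heven, -, hker, hact⟩ := h
  set S := imageAdd ψ (L.subgroupOf U) with hS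
  obtain ⟨l, hl, hl0⟩ := SetLike.not_le_iff_exists.mp hL
  have hlS : Multiplicative.toAdd (ψ ⟨l, hLU hl⟩) ∈ S := ⟨_, hl, rfl⟩
  have hne : Multiplicative.toAdd (ψ ⟨l, hLU hl⟩) ≠ 0 := fun e =>
    hl0 ((hker ⟨l, hLU hl⟩).mp (Multiplicative.toAdd.injective e))
  have hinv : ∀ σ ∈ alternatingGroup (Fin n), ∀ v ∈ S, (fun i => v (σ i)) ∈ S := by
    intro σ hσ v hv
    have hσ' : σ⁻¹ ∈ ρ.range := by rw [hρ]; exact inv_mem hσ
    obtain ⟨e, he⟩ := hσ'
    obtain ⟨u, hu, rfl⟩ := hv
    obtain ⟨w, hw, hw'⟩ := hact e u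
    refine ⟨w, ?_, ?_⟩
    · rw [Subgroup.mem_subgroupOf, hw]
      exact (Subgroup.mem_normalizer_iff.mp (hLn e.2) _).mp hu
    · funext i
      rw [hw' i, he, inv_inv]
  intro u hu
  obtain ⟨m, hm, hm'⟩ := mem_of_alternating hn S hinv hlS hne (heven _) (heven ⟨u, hu⟩)
  have h1 : ((m⁻¹ * ⟨u, hu⟩ : U) : G) ∈ U₀ := (hker _).mp (by
    rw [map_mul, map_inv, Multiplicative.toAdd.injective hm', inv_mul_cancel])
  have : u = (m : G) * ((m⁻¹ * ⟨u, hu⟩ : U) : G) := by simp
  rw [this]
  exact Subgroup.mul_mem _ (Subgroup.mem_sup_left hm) (Subgroup.mem_sup_right h1)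

end Irreducible

section Main

variable [Finite G] [hp : Fact p.Prime]

/-- The location of `W_E` and the action of `J(T)` on it. -/
theorem block_location (hG : Subgroup.centralizer (Cfsg.pCore p G : Set G) ≤ Cfsg.pCore p G)
    (T : Sylow p G) {E : Subgroup G} (hE : Cfsg.IsBaumannBlock p (T : Subgroup G) E) :
    Cfsg.pResidualOf p (E ⊔ Cfsg.pCore p G) = E ∧
    ⁅Cfsg.omegaOneCenter p (Cfsg.pCoreOf p E), E⁆ ≤ Cfsg.omegaOneCenter p (Cfsg.pCore p G) ∧
    ⁅⁅Cfsg.omegaOneCenter p (Cfsg.pCoreOf p E), E⁆, Cfsg.thompsonSubgroupOf p (T : Subgroup G)⁆ ≠ ⊥ := by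
  obtain ⟨hres, hEB, -, hEZ, hcase⟩ := hE
  set O := Cfsg.pCore p G with hO
  set B := Cfsg.baumannSubgroupOf p (T : Subgroup G) with hB
  set Q := Cfsg.pCoreOf p E with hQ
  set W := Cfsg.omegaOneCenter p Q with hW
  set Z := W ⊓ Subgroup.centralizer (E : Set G) with hZ
  haveI hOn : O.Normal := Cfsg.pCore_normal p G
  have hOp : IsPGroup p O := Core.isPGroup_pCore p G
  have hOT : O ≤ (T : Subgroup G) := hOp.le_sylow_of_normal T
  have hall : ∀ X : Subgroup G, X ≤ Subgroup.normalizer (O : Set G) := fun X => by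
    rw [Subgroup.normalizer_eq_top]; exact le_top
  have hON : O ≤ Subgroup.normalizer (E : Set G) := le_normalizer_block T hres hEB hOp (hall _) (hall _)
  refine ⟨le_antisymm ?_ ?_, ?_⟩
  · rw [pResidualOf_eq]
    exact (Subgroup.closure_le _).mpr fun g hg => mem_of_coprime_sup hOp hON hg.1 hg.2
  · conv_lhs => rw [← hres, pResidualOf_eq]
    rw [pResidualOf_eq]
    exact Subgroup.closure_mono fun g hg => ⟨Subgroup.mem_sup_left hg.1, hg.2⟩
  set V₀ := Cfsg.omegaOneCenter p O with hV₀
  haveI hV₀n : V₀.Normal := Subgroup.normalizer_eq_top_iff.mp (top_le_iff.mp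
    ((hall ⊤).trans (LocalEven.normalizer_le_normalizer_omegaZ O)))
  set L := ⁅V₀, E⁆ with hL
  have hLV : L ≤ V₀ := Subgroup.commutator_le_left _ _
  have hV₀O : V₀ ≤ O := (LocalEven.omegaOne_le _).trans inf_le_left
  have hLE : L ≤ E := Subgroup.le_normalizer_iff_commutator_le_right.mp (hV₀O.trans hON)
  have hLn : E ≤ Subgroup.normalizer (L : Set G) := right_le_normalizer_commutator V₀ E
  have hLQ : L ≤ Q := LocalEven.le_op hLE hLn (hOp.to_le (hLV.trans hV₀O))
  have hLp : ∀ l ∈ L, l ^ p = 1 := fun l hl => (LocalEven.mem_omegaZ.mp (hLV hl)).2.2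
  have hVc : ∀ v ∈ V₀, ∀ v' ∈ V₀, Commute v v' := fun v hv v' hv' =>
    Subgroup.mem_centralizer_iff.mp (LocalEven.mem_omegaZ.mp hv').2.1 v (hV₀O hv)
  have hLne : L ≠ ⊥ := fun h => hEZ (le_bot_iff.mp (by
    rw [Subgroup.commutator_comm, ← h]
    refine Subgroup.commutator_mono (fun z hz => ?_) le_rfl
    obtain ⟨h1, h2, h3⟩ := LocalEven.mem_omegaZ.mp hz
    have h4 := Subgroup.centralizer_le hOT h2
    exact LocalEven.mem_omegaZ.mpr ⟨hG h4, h4, h3⟩))
  have hLc : ¬ L ≤ Subgroup.centralizer (E : Set G) := fun h => hLne (by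
    rw [hL, Subgroup.commutator_eq_bot_iff_le_centralizer]
    refine fun v hv => Subgroup.mem_centralizer_iff.mpr fun e he => ?_
    refine (Subgroup.mem_centralizer_singleton_iff.mp (le_centralizer_of_central_commutator hres (fun x hx => ?_) he))
    exact ⟨hLp _ (Subgroup.commutator_mem_commutator hv hx),
      (Subgroup.mem_centralizer_iff.mp (h (Subgroup.commutator_mem_commutator hv hx)) x hx).symm⟩)
  have hEQ : E ≤ Subgroup.normalizer (Q : Set G) := LocalEven.map_pCore_normalized E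
  have hEW : E ≤ Subgroup.normalizer (W : Set G) :=
    hEQ.trans (LocalEven.normalizer_le_normalizer_omegaZ Q)
  have hQc : Q = W → ∀ q ∈ Q, q ∈ W := fun h q hq => h ▸ hq
  have hLW : L ≤ W ∧ W ≤ L ⊔ Z := by
    rcases hcase with ⟨F, hf, hfin, n, hcard, -, hsec, hQW⟩ | ⟨-, m, -, hsec, hQW⟩
    · have hLW : L ≤ W := by
        rcases hQW with h | ⟨-, hsec', hQQ, -, hcen, hcard3, -⟩
        · exact h ▸ hLQ
        by_contra hnot
        have hQ2 := sl2_section_irreducible hsec' hLQ hLn hnot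
        have hWQ : W ≤ Q := (LocalEven.omegaOne_le _).trans inf_le_left
        have hQab : ⁅Q, Q⁆ = ⊥ := by
          rw [Subgroup.commutator_eq_bot_iff_le_centralizer]
          have hWc : W ≤ Subgroup.centralizer (Q : Set G) := (LocalEven.omegaOne_le _).trans inf_le_right
          have hLc' : L ≤ Subgroup.centralizer (L : Set G) := fun x hx =>
            Subgroup.mem_centralizer_iff.mpr fun y hy => (hVc y (hLV hy) x (hLV hx)).eq
          have hLWc : L ⊔ W ≤ Subgroup.centralizer ((L ⊔ W : Subgroup G) : Set G) := by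
            refine sup_le ?_ (hWc.trans (Subgroup.centralizer_le (sup_le hLQ hWQ)))
            refine Subgroup.le_centralizer_iff.mp (sup_le hLc' ?_)
            exact hWc.trans (Subgroup.centralizer_le hLQ)
          exact hQ2.trans (hLWc.trans (Subgroup.centralizer_le hQ2))
        rw [hQab] at hQQ
        rw [hcen, ← hQQ, Subgroup.card_bot] at hcard3
        have hn0 : n = 0 := by
          by_contra h0
          exact absurd (Nat.one_lt_pow h0 (by norm_num : 1 < 3)) (by omega)
        rw [hn0, pow_zero] at hcard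
        exact absurd hcard (Fintype.one_lt_card (α := F)).ne'
      exact ⟨hLW, sl2_section_irreducible hsec hLW hLn fun h => hLc (h.trans inf_le_right)⟩
    · have hLW : L ≤ W := hQW ▸ hLQ
      exact ⟨hLW, perm_section_irreducible ⟨m, rfl⟩ hsec hLW hLn fun h => hLc (h.trans inf_le_right)⟩
  have hZn : L ≤ Subgroup.normalizer (Z : Set G) := by
    intro l hl
    have hWc : ∀ w ∈ W, Commute l w := fun w hw =>
      Subgroup.mem_centralizer_iff.mp (((LocalEven.omegaOne_le _).trans inf_le_right) hw) l (hLQ hl)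
    refine Subgroup.centralizer_le_normalizer _ (Subgroup.mem_centralizer_iff.mpr fun w hw => ?_)
    exact (hWc w hw.1).eq.symm
  have hWE : ⁅W, E⁆ ≤ L := by
    refine Subgroup.commutator_le.mpr fun w hw e he => ?_
    have hw' := hLW.2 hw
    rw [← SetLike.mem_coe, Subgroup.coe_mul_of_left_le_normalizer_right L Z hZn] at hw'
    obtain ⟨l, hl, z, hz, rfl⟩ := hw'
    have hze : z * e = e * z := (Subgroup.mem_centralizer_iff.mp hz.2 e he).symm
    have : ⁅l * z, e⁆ = ⁅l, e⁆ := by
      rw [commutatorElement_def, commutatorElement_def]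
      calc l * z * e * (l * z)⁻¹ * e⁻¹ = l * (z * e) * z⁻¹ * l⁻¹ * e⁻¹ := by group
        _ = l * (e * z) * z⁻¹ * l⁻¹ * e⁻¹ := by rw [hze]
        _ = _ := by group
    rw [this, commutatorElement_def]
    have h1 : e * l⁻¹ * e⁻¹ ∈ L := (Subgroup.mem_normalizer_iff.mp (hLn he) _).mp (L.inv_mem hl)
    have := L.mul_mem hl h1
    simpa [mul_assoc] using this
  refine ⟨hWE.trans hLV, fun hJ => ?_⟩
  set WE := ⁅W, E⁆ with hWEdef
  have hWEn : E ≤ Subgroup.normalizer (WE : Set G) := right_le_normalizer_commutator W E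
  have hnc : ¬ WE ≤ Subgroup.centralizer (E : Set G) := fun h => hLc (by
    intro l hl
    have hl' := hLW.1 hl
    refine Subgroup.mem_centralizer_iff.mpr fun e he => ?_
    refine Subgroup.mem_centralizer_singleton_iff.mp (le_centralizer_of_central_commutator hres (fun x hx => ?_) he)
    exact ⟨hLp _ (hWE (Subgroup.commutator_mem_commutator hl' hx)),
      (Subgroup.mem_centralizer_iff.mp (h (Subgroup.commutator_mem_commutator hl' hx)) x hx).symm⟩)
  apply hnc
  -- `WE` lies in `Ω₁(Z(J(T)))`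
  have hJW : WE ≤ Cfsg.omegaOne p (Cfsg.centerThompsonOf p (T : Subgroup G)) := by
    intro w hw
    have hwV := hLV (hWE hw)
    obtain ⟨hwO, hwc, hwp⟩ := LocalEven.mem_omegaZ.mp hwV
    have hwJ : w ∈ Subgroup.centralizer (Cfsg.thompsonSubgroupOf p (T : Subgroup G) : Set G) :=
      Subgroup.commutator_eq_bot_iff_le_centralizer.mp hJ hw
    obtain ⟨A, hA⟩ := OddLocal.ZJ.exists_maxIn p (T : Subgroup G)
    have hAJ := hA.le_thompson
    have hEA : Cfsg.IsElementaryAbelian p (A ⊔ Subgroup.zpowers w) := by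
      refine PLocal.isEA_sup hA.ea (PLocal.isEA_zpowers hwp) fun a ha => ?_
      refine Subgroup.mem_centralizer_iff.mpr ?_
      rintro _ ⟨i, rfl⟩
      exact ((show Commute a w from Subgroup.mem_centralizer_iff.mp hwJ a (hAJ ha)).zpow_right i).eq.symm
    have heq : A = A ⊔ Subgroup.zpowers w := Subgroup.eq_of_le_of_card_ge le_sup_left
      (hA.max _ hEA (sup_le hA.le (Subgroup.zpowers_le.mpr (hOT hwO))))
    have hwA : w ∈ A := by rw [heq]; exact Subgroup.mem_sup_right (Subgroup.mem_zpowers w)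
    exact Subgroup.subset_closure ⟨Subgroup.mem_inf.mpr ⟨hAJ hwA, hwJ⟩, hwp⟩
  have hBC : B ≤ Subgroup.centralizer (WE : Set G) :=
    inf_le_right.trans (Subgroup.centralizer_le hJW)
  have hEC : E ≤ Subgroup.centralizer (WE : Set G) := by
    rw [← hEB]
    refine Subgroup.commutator_le.mpr fun e he b hb => ?_
    rw [commutatorElement_def]
    exact Subgroup.mul_mem _ ((Subgroup.mem_normalizer_iff.mp
      (LocalEven.normalizer_le_normalizer_cent WE (hWEn he)) b).mp (hBC hb))
      (Subgroup.inv_mem _ (hBC hb))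
  exact Subgroup.le_centralizer_iff.mp hEC

end Main

end Cfsg.Agent.Components.Block
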