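import Cfsg.Agent.Components.BaumannBlock
import Cfsg.Agent.Coprime.PxQ

/-!
Abstract lemmas for two subnormal blocks: small sections, coprime elements, pairs.
-/

set_option autoImplicit false
set_option linter.style.haveILetI false

open scoped commutatorElement

namespace Cfsg.Agent.Components.BlockPair

variable {G : Type*} [Group G]

/-- An element fixing its own commutator with `a`, of order prime to the order of the commutator. -/
theorem commute_of_fixed_commutator {p n j : ℕ} [hp : Fact p.Prime] {k a : G} (hk : k ^ n = 1)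
    (hn : n.Coprime p) (hc : k * (k * a * k⁻¹ * a⁻¹) * k⁻¹ = k * a * k⁻¹ * a⁻¹)
    (hpow : (k * a * k⁻¹ * a⁻¹) ^ p ^ j = 1) : k * a = a * k := by
  set c := k * a * k⁻¹ * a⁻¹ with hcdef
  have hck : Commute c k := by
    have := congrArg (fun x => x * k) hc
    simp only [inv_mul_cancel_right] at this
    exact this.symm
  have h1 : MulAut.conj a k = a * k * a⁻¹ := MulAut.conj_apply a k
  have h2 : MulAut.conj a k = c⁻¹ * k := by rw [h1, hcdef]; group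
  have h3 : (c⁻¹ * k) ^ n = 1 := by rw [← h2, ← map_pow, hk, map_one]
  rw [hck.inv_left.mul_pow, hk, mul_one, inv_pow, inv_eq_one] at h3
  have h4 : orderOf c = 1 := Nat.eq_one_of_dvd_coprimes (hn.pow_right j)
    (orderOf_dvd_of_pow_eq_one h3) (orderOf_dvd_of_pow_eq_one hpow)
  have h5 : c = 1 := orderOf_eq_one_iff.mp h4
  rw [hcdef] at h5
  have := congrArg (fun x => x * a * k) h5
  simpa [mul_assoc] using this

theorem pResidual_map (p : ℕ) (E : Subgroup G) (φ : G ≃* G) :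
    Cfsg.pResidualOf p (E.map φ.toMonoidHom) = (Cfsg.pResidualOf p E).map φ.toMonoidHom := by
  rw [Block.pResidualOf_eq, Block.pResidualOf_eq, MonoidHom.map_closure]
  congr 1
  ext x
  constructor
  · rintro ⟨⟨e, he, rfl⟩, hc⟩
    exact ⟨e, ⟨he, by rwa [MulEquiv.coe_toMonoidHom, MulEquiv.orderOf_eq] at hc⟩, rfl⟩
  · rintro ⟨e, ⟨he, hc⟩, rfl⟩
    exact ⟨⟨e, he, rfl⟩, by rwa [MulEquiv.coe_toMonoidHom, MulEquiv.orderOf_eq]⟩

/-- Conjugates normalize. -/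
theorem norm_conj {g : G} {H K : Subgroup G} (h : H ≤ Subgroup.normalizer (K : Set G)) :
    H.map (MulAut.conj g).toMonoidHom ≤
      Subgroup.normalizer ((K.map (MulAut.conj g).toMonoidHom : Subgroup G) : Set G) :=
  (Subgroup.map_mono h).trans (Subgroup.le_normalizer_map _)

theorem commutator_sup_le {L Z P : Subgroup G} (hL : L ≤ Subgroup.normalizer (Z : Set G))
    (hP : P ≤ Subgroup.normalizer (Z : Set G)) (hc : ⁅L, P⁆ ≤ L ⊔ Z) :
    ⁅L ⊔ Z, P⁆ ≤ ⁅L, P⁆ ⊔ Z := by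
  refine Subgroup.commutator_le.mpr fun x hx q hq => ?_
  rw [← SetLike.mem_coe, Subgroup.coe_mul_of_left_le_normalizer_right L Z hL] at hx
  obtain ⟨l, hl, z, hz, rfl⟩ := hx
  rw [show ⁅l * z, q⁆ = l * ⁅z, q⁆ * l⁻¹ * ⁅l, q⁆ by rw [commutatorElement_def, commutatorElement_def, commutatorElement_def]; group]
  refine Subgroup.mul_mem _ (Subgroup.mem_sup_right ?_) (Subgroup.mem_sup_left (Subgroup.commutator_mem_commutator hl hq))
  refine (Subgroup.mem_normalizer_iff.mp (hL hl) _).mp ?_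
  rw [commutatorElement_def, mul_assoc, mul_assoc, ← mul_assoc q]
  exact Z.mul_mem hz ((Subgroup.mem_normalizer_iff.mp (hP hq) _).mp (Z.inv_mem hz))

/-- A group normalizing `A` and `B`, moving `e` only by elements acting trivially on `A / B`,
normalizes the image of `[·, e]` on `A / B`. -/
theorem closure_comm_invariant {A B : Subgroup G} {e f x : G}
    (hfA : f ∈ Subgroup.normalizer (A : Set G)) (hfB : f ∈ Subgroup.normalizer (B : Set G))
    (heB : e ∈ Subgroup.normalizer (B : Set G)) (hef : f * e * f⁻¹ = e * x)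
    (hx : ∀ a ∈ A, ⁅a, x⁆ ∈ B) {m : G}
    (hm : m ∈ Subgroup.closure {y | ∃ a ∈ A, y = ⁅a, e⁆} ⊔ B) :
    f * m * f⁻¹ ∈ Subgroup.closure {y | ∃ a ∈ A, y = ⁅a, e⁆} ⊔ B := by
  set M := Subgroup.closure {y | ∃ a ∈ A, y = ⁅a, e⁆} ⊔ B
  suffices h : M ≤ M.comap (MulAut.conj f).toMonoidHom from h hm
  refine sup_le ((Subgroup.closure_le _).mpr ?_) fun b hb => Subgroup.mem_sup_right ((Subgroup.mem_normalizer_iff.mp hfB b).mp hb)
  rintro _ ⟨a, ha, rfl⟩
  show MulAut.conj f ⁅a, e⁆ ∈ M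
  have h1 : MulAut.conj f ⁅a, e⁆ = ⁅f * a * f⁻¹, e⁆ * (e * ⁅f * a * f⁻¹, x⁆ * e⁻¹) := by
    rw [map_commutatorElement, MulAut.conj_apply, MulAut.conj_apply, hef]
    simp only [commutatorElement_def]
    group
  rw [h1]
  have hfa := (Subgroup.mem_normalizer_iff.mp hfA a).mp ha
  exact Subgroup.mul_mem _ (Subgroup.mem_sup_left (Subgroup.subset_closure ⟨_, hfa, rfl⟩))
    (Subgroup.mem_sup_right ((Subgroup.mem_normalizer_iff.mp heB _).mp (hx _ hfa)))

/-- A small natural section: `A / B` of order `p²` acted on by a group of order `3` or `8` modulo `O`. -/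
structure Small (p r t : ℕ) (O E A B : Subgroup G) : Prop where
  le : B ≤ A
  nA : E ≤ Subgroup.normalizer (A : Set G)
  nB : E ≤ Subgroup.normalizer (B : Set G)
  AB : A ≤ Subgroup.normalizer (B : Set G)
  nc : ∀ u ∈ A, ¬ A ≤ Subgroup.zpowers u ⊔ B
  two : ∀ e ∈ E, e * e ∉ O → ∀ u ∈ A, u ∉ B → ∀ M : Subgroup G, B ≤ M → u ∈ M → e * u * e⁻¹ ∈ M → A ≤ M
  sq : ∀ e ∈ E, e * e ∉ O → ∀ u ∈ A, e * (e * u * e⁻¹) * e⁻¹ * u * ((e * u * e⁻¹) ^ t)⁻¹ ∈ B
  trans : ∀ u ∈ A, u ∉ B → ∀ w ∈ A, w ∉ B → ∃ e ∈ E, (e * u * e⁻¹)⁻¹ * w ∈ B ∧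
    (e * e ∈ O → w ∈ Subgroup.zpowers u ⊔ B)
  fix : ∀ e ∈ E, ∀ u ∈ A, u ∉ B → e * u * e⁻¹ * u⁻¹ ∈ B → e ∈ O
  pow : ∀ e ∈ E, e ^ r ^ 2 ∈ O
  gen : ∀ e ∈ E, ∃ h ∈ E, h * h ∉ O ∧ (e * h) * (e * h) ∉ O
  nab : t = 1 ∨ ∀ e ∈ E, e * e ∉ O → ∃ h ∈ E, ∃ a ∈ A,
    e * (h * a * h⁻¹) * e⁻¹ * (h * (e * a * e⁻¹) * h⁻¹)⁻¹ ∉ B

/-- A section on which some element has a proper nontrivial commutator image. -/
def CompEl (E A B : Subgroup G) : Prop :=
  ∃ e ∈ E, (∃ a ∈ A, ⁅a, e⁆ ∉ B) ∧ ¬ A ≤ Subgroup.closure {y | ∃ a ∈ A, y = ⁅a, e⁆} ⊔ B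

theorem Small.map {p r t : ℕ} {O E A B : Subgroup G} (h : Small p r t O E A B) (φ : G ≃* G)
    (hO : O.map φ.toMonoidHom = O) :
    Small p r t O (E.map φ.toMonoidHom) (A.map φ.toMonoidHom) (B.map φ.toMonoidHom) := by
  have hm : ∀ {H : Subgroup G} {x : G}, φ x ∈ H.map φ.toMonoidHom ↔ x ∈ H := fun {H x} =>
    ⟨fun ⟨y, hy, e⟩ => φ.injective e ▸ hy, fun hx => ⟨x, hx, rfl⟩⟩
  have hOm : ∀ {x : G}, φ x ∈ O ↔ x ∈ O := fun {x} => by
    constructor
    · intro hx; rw [← hO] at hx; exact hm.mp hx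
    · intro hx; rw [← hO]; exact hm.mpr hx
  refine ⟨Subgroup.map_mono h.le, (Subgroup.map_mono h.nA).trans (Subgroup.le_normalizer_map _),
    (Subgroup.map_mono h.nB).trans (Subgroup.le_normalizer_map _),
    (Subgroup.map_mono h.AB).trans (Subgroup.le_normalizer_map _), ?_, ?_, ?_, ?_, ?_, ?_, ?_, ?_⟩
  · rintro _ ⟨u, hu, rfl⟩ hle
    refine h.nc u hu ?_
    rw [← MonoidHom.map_zpowers, ← Subgroup.map_sup] at hle
    exact (Subgroup.map_le_map_iff_of_injective (f := φ.toMonoidHom) φ.injective).mp hle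
  · rintro _ ⟨e, he, rfl⟩ hee _ ⟨u, hu, rfl⟩ huB M hBM huM heM _ ⟨a, ha, rfl⟩
    simp only [MulEquiv.coe_toMonoidHom, ← map_mul, ← map_inv, hOm, hm] at hee huB huM heM ⊢
    exact h.two e he hee u hu huB (M.comap φ.toMonoidHom)
      (fun b hb => hBM (hm.mpr hb)) huM heM ha
  · rintro _ ⟨e, he, rfl⟩ hee _ ⟨u, hu, rfl⟩
    simp only [MulEquiv.coe_toMonoidHom, ← map_mul, ← map_inv, ← map_pow, hOm, hm] at hee ⊢
    exact h.sq e he hee u hu
  · rintro _ ⟨u, hu, rfl⟩ huB _ ⟨w, hw, rfl⟩ hwB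
    simp only [MulEquiv.coe_toMonoidHom, hm] at huB hwB
    obtain ⟨e, he, h1, h2⟩ := h.trans u hu huB w hw hwB
    refine ⟨φ e, hm.mpr he, ?_, fun hee => ?_⟩
    · simp only [MulEquiv.coe_toMonoidHom, ← map_mul, ← map_inv, hm]
      exact h1
    · rw [← map_mul, hOm] at hee
      rw [← MonoidHom.map_zpowers, ← Subgroup.map_sup]
      exact ⟨w, h2 hee, rfl⟩
  · rintro _ ⟨e, he, rfl⟩ _ ⟨u, hu, rfl⟩ huB hfx
    simp only [MulEquiv.coe_toMonoidHom, ← map_mul, ← map_inv, hOm, hm] at huB hfx ⊢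
    exact h.fix e he u hu huB hfx
  · rintro _ ⟨e, he, rfl⟩
    simp only [MulEquiv.coe_toMonoidHom, ← map_pow, hOm]
    exact h.pow e he
  · rintro _ ⟨e, he, rfl⟩
    obtain ⟨g, hg, h1, h2⟩ := h.gen e he
    refine ⟨φ g, hm.mpr hg, ?_⟩
    simp only [MulEquiv.coe_toMonoidHom, ← map_mul, hOm]
    exact ⟨h1, h2⟩
  · refine h.nab.imp_right fun hn => ?_
    rintro _ ⟨e, he, rfl⟩ hee
    simp only [MulEquiv.coe_toMonoidHom, ← map_mul, hOm] at hee
    obtain ⟨g, hg, a, ha, hne⟩ := hn e he hee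
    refine ⟨φ g, hm.mpr hg, φ a, hm.mpr ha, ?_⟩
    simp only [MulEquiv.coe_toMonoidHom, ← map_mul, ← map_inv, hm]
    exact hne

theorem Small.exists_gen {p r t : ℕ} {O E A B : Subgroup G} (h : Small p r t O E A B) :
    ∃ e ∈ E, e * e ∉ O := by
  obtain ⟨e, he, h1, -⟩ := h.gen 1 E.one_mem
  exact ⟨e, he, h1⟩

/-- A subgroup containing the elements with square outside `O` contains all. -/
theorem Small.le_of_gen {p r t : ℕ} {O E A B K : Subgroup G} (h : Small p r t O E A B)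
    (hK : ∀ e ∈ E, e * e ∉ O → e ∈ K) : E ≤ K := fun e he => by
  obtain ⟨g, hg, h1, h2⟩ := h.gen e he
  simpa using K.mul_mem (hK _ (E.mul_mem he hg) h2) (K.inv_mem (hK g hg h1))

/-- The subgroup of `A` on which `f` and `e` agree modulo `B`. -/
def agree (A B : Subgroup G) (hAB : A ≤ Subgroup.normalizer (B : Set G)) (e f : G)
    (he : ∀ a ∈ A, e * a * e⁻¹ ∈ A) : Subgroup G where
  carrier := {a | a ∈ A ∧ f * a * f⁻¹ * (e * a * e⁻¹)⁻¹ ∈ B}
  one_mem' := ⟨A.one_mem, by simp [B.one_mem]⟩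
  mul_mem' := fun {a b} ha hb => ⟨A.mul_mem ha.1 hb.1, by
    have hea := (Subgroup.mem_normalizer_iff.mp (hAB (he a ha.1)) _).mp hb.2
    have : f * (a * b) * f⁻¹ * (e * (a * b) * e⁻¹)⁻¹ =
        (f * a * f⁻¹ * (e * a * e⁻¹)⁻¹) *
          ((e * a * e⁻¹) * (f * b * f⁻¹ * (e * b * e⁻¹)⁻¹) * (e * a * e⁻¹)⁻¹) := by group
    rw [this]
    exact B.mul_mem ha.2 hea⟩
  inv_mem' := fun {a} ha => ⟨A.inv_mem ha.1, by
    have hea := (Subgroup.mem_normalizer_iff.mp (hAB (A.inv_mem (he a ha.1))) _).mp (B.inv_mem ha.2)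
    have : f * a⁻¹ * f⁻¹ * (e * a⁻¹ * e⁻¹)⁻¹ =
        (e * a * e⁻¹)⁻¹ * (f * a * f⁻¹ * (e * a * e⁻¹)⁻¹)⁻¹ * (e * a * e⁻¹)⁻¹⁻¹ := by group
    rw [this]
    exact hea⟩

theorem mem_agree {A B : Subgroup G} {hAB : A ≤ Subgroup.normalizer (B : Set G)} {e f a : G}
    {he : ∀ a ∈ A, e * a * e⁻¹ ∈ A} :
    a ∈ agree A B hAB e f he ↔ a ∈ A ∧ f * a * f⁻¹ * (e * a * e⁻¹)⁻¹ ∈ B := Iff.rfl

theorem le_agree_of_bot {A B : Subgroup G} {hAB : A ≤ Subgroup.normalizer (B : Set G)} {e f : G}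
    {he : ∀ a ∈ A, e * a * e⁻¹ ∈ A} (hfB : ∀ b ∈ B, f * b * f⁻¹ ∈ B)
    (heB : ∀ b ∈ B, e * b * e⁻¹ ∈ B) (hBA : B ≤ A) : B ≤ agree A B hAB e f he :=
  fun b hb => ⟨hBA hb, B.mul_mem (hfB b hb) (B.inv_mem (heB b hb))⟩

/-- An element commuting with a small group on its section is `±1` there (`t = 0`). -/
theorem Small.scalar {p r : ℕ} {O E A B : Subgroup G} (h : Small p r 0 O E A B) (k : G)
    (hkA : ∀ a ∈ A, k * a * k⁻¹ ∈ A) (hkB : ∀ b ∈ B, k * b * k⁻¹ ∈ B)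
    (hkB' : ∀ a ∈ A, k * a * k⁻¹ ∈ B → a ∈ B)
    (hexp : ∀ a ∈ A, a * a * a ∈ B) (hcomm : ∀ a ∈ A, ∀ b ∈ A, ⁅a, b⁆ ∈ B)
    (hk : ∀ e ∈ E, ∀ a ∈ A, k * (e * a * e⁻¹) * k⁻¹ * (e * (k * a * k⁻¹) * e⁻¹)⁻¹ ∈ B) :
    (∀ a ∈ A, k * a * k⁻¹ * a⁻¹ ∈ B) ∨ (∀ a ∈ A, k * a * k⁻¹ * a ∈ B) := by
  have hnA : ∀ e ∈ E, ∀ a ∈ A, e * a * e⁻¹ ∈ A := fun e he a ha =>
    (Subgroup.mem_normalizer_iff.mp (h.nA he) a).mp ha
  have hnB : ∀ e ∈ E, ∀ a ∈ B, e * a * e⁻¹ ∈ B := fun e he a ha =>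
    (Subgroup.mem_normalizer_iff.mp (h.nB he) a).mp ha
  obtain ⟨u, hu, huB⟩ : ∃ u ∈ A, u ∉ B := by
    by_contra hcon
    push Not at hcon
    exact h.nc 1 A.one_mem (fun a ha => Subgroup.mem_sup_right (hcon a ha))
  obtain ⟨e₀, he₀, he₀O⟩ := h.exists_gen
  have hkuA := hkA u hu
  have hkuB : k * u * k⁻¹ ∉ B := fun hb => huB (hkB' u hu hb)
  obtain ⟨e, he, heq, hsmall⟩ := h.trans u hu huB _ hkuA hkuB
  by_cases hee : e * e ∈ O
  · -- `k u` is a power of `u`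
    have hz := hsmall hee
    rw [← SetLike.mem_coe, Subgroup.coe_mul_of_left_le_normalizer_right _ _
      ((Subgroup.zpowers_le.mpr hu).trans h.AB)] at hz
    obtain ⟨_, ⟨i, rfl⟩, b, hb, hib⟩ := hz
    have hmod : k * u * k⁻¹ * u⁻¹ ∈ B ∨ k * u * k⁻¹ * u ∈ B := by
      have hu3 := hexp u hu
      have hcl : ∀ c : G, c ∈ A → c * b * c⁻¹ ∈ B := fun c hc =>
        (Subgroup.mem_normalizer_iff.mp (h.AB hc) b).mp hb
      have h3 : ∀ j : ℤ, (u * u * u) ^ j ∈ B := fun j => B.zpow_mem hu3 j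
      have hu3' : u * u * u = u ^ (3 : ℤ) := by rw [zpow_ofNat, pow_succ, pow_succ, pow_one]
      rcases (show i % 3 = 0 ∨ i % 3 = 1 ∨ i % 3 = 2 by omega) with hi | hi | hi
      · exfalso
        apply hkuB
        rw [← hib]
        refine B.mul_mem ?_ hb
        show u ^ i ∈ B
        rw [show i = 3 * (i / 3) by omega, zpow_mul, ← hu3']
        exact h3 _
      · left
        rw [← hib]
        show u ^ i * b * u⁻¹ ∈ B
        have he' : u ^ i * b * u⁻¹ = (u * u * u) ^ (i / 3) * (u * b * u⁻¹) := by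
          rw [hu3', ← zpow_mul]
          conv_lhs => rw [show i = 3 * (i / 3) + 1 by omega, zpow_add, zpow_one]
          group
        rw [he']
        exact B.mul_mem (h3 _) (hcl u hu)
      · right
        rw [← hib]
        show u ^ i * b * u ∈ B
        have he' : u ^ i * b * u = (u * u * u) ^ (i / 3 + 1) * (u⁻¹ * b * (u⁻¹)⁻¹) := by
          rw [hu3', ← zpow_mul]
          conv_lhs => rw [show i = 3 * (i / 3 + 1) + (-1) by omega, zpow_add]
          group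
        rw [he']
        exact B.mul_mem (h3 _) (hcl u⁻¹ (A.inv_mem hu))
    have heu := hnA e₀ he₀ u hu
    rcases hmod with hm | hm
    · left
      have hle := h.two e₀ he₀ he₀O u hu huB (agree A B h.AB 1 k (fun a ha => by simpa using ha))
        (le_agree_of_bot hkB (fun b hb => by simpa using hb) h.le)
        (mem_agree.mpr ⟨hu, by simpa using hm⟩) (mem_agree.mpr ⟨heu, by
          have h1 := hk e₀ he₀ u hu
          have h2 := hnB e₀ he₀ _ hm
          have := B.mul_mem h1 h2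
          simp only [one_mul, inv_one, mul_one]
          convert this using 1
          group⟩)
      intro a ha
      simpa using (mem_agree.mp (hle ha)).2
    · right
      let K : Subgroup G :=
        { carrier := {a | a ∈ A ∧ k * a * k⁻¹ * a ∈ B}
          one_mem' := ⟨A.one_mem, by simp [B.one_mem]⟩
          mul_mem' := fun {a b} ha hb => ⟨A.mul_mem ha.1 hb.1, by
            have h2 := (Subgroup.mem_normalizer_iff.mp (h.AB (hkA a ha.1)) _).mp hb.2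
            have h3 := (Subgroup.mem_normalizer_iff.mp (h.AB (hkA a ha.1)) _).mp
              (hcomm b⁻¹ (A.inv_mem hb.1) a ha.1)
            have e1 : k * (a * b) * k⁻¹ * (a * b) =
                (k * a * k⁻¹ * (k * b * k⁻¹ * b) * (k * a * k⁻¹)⁻¹) *
                ((k * a * k⁻¹) * ⁅b⁻¹, a⁆ * (k * a * k⁻¹)⁻¹) * (k * a * k⁻¹ * a) := by
              rw [commutatorElement_def]; group
            rw [e1]
            exact B.mul_mem (B.mul_mem h2 h3) ha.2⟩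
          inv_mem' := fun {a} ha => ⟨A.inv_mem ha.1, by
            have h2 := (Subgroup.mem_normalizer_iff.mp (h.AB ha.1) _).mp (B.inv_mem ha.2)
            have e1 : k * a⁻¹ * k⁻¹ * a⁻¹ = a * (k * a * k⁻¹ * a)⁻¹ * a⁻¹ := by group
            rw [e1]
            exact h2⟩ }
      have hle : A ≤ K := h.two e₀ he₀ he₀O u hu huB K
        (fun b hb => ⟨h.le hb, B.mul_mem (hkB b hb) hb⟩) ⟨hu, hm⟩ ⟨heu, by
          have h1 := hk e₀ he₀ u hu
          have h2 := hnB e₀ he₀ _ hm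
          have := B.mul_mem h1 h2
          convert this using 1
          group⟩
      exact fun a ha => (hle ha).2
  · -- `k` would act as the non-central `e`
    exfalso
    rcases h.nab with h0 | hn
    · exact zero_ne_one h0
    obtain ⟨g, hg, a, ha, hne⟩ := hn e he hee
    apply hne
    have hmu : k * u * k⁻¹ * (e * u * e⁻¹)⁻¹ ∈ B := by
      have := (Subgroup.mem_normalizer_iff.mp (h.AB (hnA e he u hu)) _).mp heq
      convert this using 1
      group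
    have hle : A ≤ agree A B h.AB e k (hnA e he) := by
      refine h.two e he hee u hu huB _ (le_agree_of_bot hkB (hnB e he) h.le)
        (mem_agree.mpr ⟨hu, hmu⟩) (mem_agree.mpr ⟨hnA e he u hu, ?_⟩)
      have h1 := hk e he u hu
      have h2 := hnB e he _ hmu
      have := B.mul_mem h1 h2
      convert this using 1
      simp [mul_assoc]
    have h1 := (mem_agree.mp (hle (hnA g hg a ha))).2
    have h2 := hk g hg a ha
    have h3 := hnB g hg _ (mem_agree.mp (hle ha)).2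
    have h4 := B.mul_mem (B.mul_mem (B.inv_mem h1) h2) h3
    have : e * (g * a * g⁻¹) * e⁻¹ * (g * (e * a * e⁻¹) * g⁻¹)⁻¹ =
        (k * (g * a * g⁻¹) * k⁻¹ * (e * (g * a * g⁻¹) * e⁻¹)⁻¹)⁻¹ *
        (k * (g * a * g⁻¹) * k⁻¹ * (g * (k * a * k⁻¹) * g⁻¹)⁻¹) *
        (g * (k * a * k⁻¹ * (e * a * e⁻¹)⁻¹) * g⁻¹) := by group
    rw [this]
    exact h4

end Cfsg.Agent.Components.BlockPair
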