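import Cfsg.Agent.Components.BlockPairModel
import Cfsg.Agent.Chars.PSLBinaryUni

/-!
The data of a Baumann block used for pairs of blocks.
-/

set_option autoImplicit false
set_option linter.style.haveILetI false
set_option maxHeartbeats 1000000

open scoped commutatorElement

namespace Cfsg.Agent.Components.BlockPair

variable {G : Type*} [Group G]

/-- `Ω₁(Z(O_p(G)))`. -/
abbrev Uz (p : ℕ) (G : Type*) [Group G] : Subgroup G := Cfsg.omegaOneCenter p (Cfsg.pCore p G)

/-- `[U, E]`. -/
abbrev Vb (p : ℕ) (E : Subgroup G) : Subgroup G := ⁅Uz p G, E⁆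

/-- The exceptional data. -/
structure Exc (p : ℕ) (E W Z : Subgroup G) : Prop where
  p3 : p = 3
  Wle : W ≤ E ⊓ Cfsg.pCore p G
  Wc : ∀ w ∈ W, ∀ a ∈ E ⊓ Cfsg.pCore p G, w * a = a * w
  Wexp : ∀ w ∈ W, w ^ 3 = 1
  Wmax : ∀ x ∈ E ⊓ Cfsg.pCore p G, x ^ 3 = 1 → (∀ a ∈ E ⊓ Cfsg.pCore p G, x * a = a * x) → x ∈ W
  VW : Vb p E ≤ W
  ZW : Z ≤ W
  ZC : Z ≤ Subgroup.centralizer (E : Set G)
  ZC' : W ⊓ Subgroup.centralizer (E : Set G) ≤ Z
  WVZ : W ≤ Vb p E ⊔ Z
  comm : ⁅E ⊓ Cfsg.pCore p G, E ⊓ Cfsg.pCore p G⁆ = Z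
  Zne : Z ≠ ⊥
  nW : Subgroup.normalizer ((E ⊓ Cfsg.pCore p G : Subgroup G) : Set G) ≤ Subgroup.normalizer (W : Set G)
  exp : ∀ a ∈ E ⊓ Cfsg.pCore p G, a ^ 3 ∈ W
  irrS : ∀ M : Subgroup G, M ≤ E ⊓ Cfsg.pCore p G → E ≤ Subgroup.normalizer (M : Set G) → ¬ M ≤ W →
    E ⊓ Cfsg.pCore p G ≤ M ⊔ W
  actS : (CompEl E (E ⊓ Cfsg.pCore p G) W ∧ Nat.card ↥(Vb p E) ≠ p ^ 2) ∨
    (Small p 2 0 (Cfsg.pCore p G) E (E ⊓ Cfsg.pCore p G) W ∧
      Nat.card ↥(E ⊓ Cfsg.pCore p G) = 9 * Nat.card W)
  bq : ∃ b : G, b ∈ Subgroup.normalizer (E : Set G) ∧ IsPGroup p ↥(Subgroup.zpowers b) ∧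
    ¬ ⁅⁅E ⊓ Cfsg.pCore p G, Subgroup.zpowers b⁆, Subgroup.zpowers b⁆ ≤ Z

/-- The data of a block. -/
structure Blk (p : ℕ) (E : Subgroup G) : Prop where
  res : Cfsg.pResidualOf p E = E
  sub : E.IsSubnormal
  nE : Cfsg.pCore p G ≤ Subgroup.normalizer (E : Set G)
  resO : Cfsg.pResidualOf p (E ⊔ Cfsg.pCore p G) = E
  ve : ⁅Vb p E, E⁆ = Vb p E
  irr : ∀ M : Subgroup G, M ≤ Vb p E → E ≤ Subgroup.normalizer (M : Set G) →
    ¬ M ≤ Subgroup.centralizer (E : Set G) → Vb p E ≤ M
  faith : ∀ e ∈ E, (∀ v ∈ Vb p E, e * v = v * e) → e ∈ Cfsg.pCore p G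
  exc : E ⊓ Cfsg.pCore p G = Vb p E ∨ ∃ W Z : Subgroup G, Exc p E W Z
  kind : (∀ [(Cfsg.pCore p G).Normal],
      Cfsg.IsQuasisimple ↥(E.map (QuotientGroup.mk' (Cfsg.pCore p G)))) ∧
      CompEl E (Vb p E) (Vb p E ⊓ Subgroup.centralizer (E : Set G)) ∨
    (p = 2 ∨ p = 3) ∧ Small p (5 - p) (3 - p) (Cfsg.pCore p G) E (Vb p E) ⊥ ∧
      Nat.card ↥(Vb p E) = p ^ 2

theorem zmod_two_third : ∀ x y z : ZMod 2, x + y + z = 0 → z = x + y := by decide

variable [Finite G]

theorem isQuasisimple_image {E O : Subgroup G} [O.Normal] {R : Type*} [Group R]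
    (N : Subgroup ↥E) [N.Normal] (e : ↥E ⧸ N ≃* R) (hN : ∀ x : ↥E, x ∈ N ↔ (x : G) ∈ O)
    (hR : Cfsg.IsQuasisimple R) : Cfsg.IsQuasisimple ↥(E.map (QuotientGroup.mk' O)) := by
  let f : ↥E →* ↥(E.map (QuotientGroup.mk' O)) :=
    ((QuotientGroup.mk' O).comp E.subtype).codRestrict _ fun x => ⟨x, x.2, rfl⟩
  have hf : Function.Surjective f := by
    rintro ⟨_, x, hx, rfl⟩; exact ⟨⟨x, hx⟩, rfl⟩
  have hk : f.ker = N := by
    ext x
    rw [MonoidHom.mem_ker, hN, Subtype.ext_iff]
    exact QuotientGroup.eq_one_iff (x : G)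
  exact isQuasisimple_of_equiv
    (e.symm.trans ((QuotientGroup.quotientMulEquivOfEq hk.symm).trans (QuotientGroup.quotientKerEquivOfSurjective f hf))) hR

/-- A homomorphism trivial on `N` whose range has the order of `E / N` has kernel `N`. -/
theorem ker_eq_of_card {X R R' : Type*} [Group X] [Finite X] [Group R] [Group R'] {N : Subgroup X} [N.Normal]
    (ρ : X →* R) (S : Subgroup R) (hS : ρ.range = S) (e : X ⧸ N ≃* R') (e' : R' ≃* ↥S) (hN : ∀ x ∈ N, ρ x = 1) :
    ∀ x : X, ρ x = 1 ↔ x ∈ N := by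
  have hle : N ≤ ρ.ker := fun x hx => hN x hx
  haveI : Finite ↥S := by rw [← hS]; exact Finite.of_surjective ρ.rangeRestrict ρ.rangeRestrict_surjective
  have h1 : ρ.ker.index = Nat.card ↥S := by rw [Subgroup.index_ker, hS]
  have h2 : N.index = Nat.card ↥S := by rw [Subgroup.index, Nat.card_congr (e.trans e').toEquiv]
  have h3 := Subgroup.card_mul_index ρ.ker
  have h4 := Subgroup.card_mul_index N
  rw [h1] at h3
  rw [h2] at h4
  have h5 : N = ρ.ker := Subgroup.eq_of_le_of_card_ge hle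
    (Nat.le_of_eq (Nat.eq_of_mul_eq_mul_right Nat.card_pos (h3.trans h4.symm)))
  exact fun x => by rw [h5]; exact Iff.rfl

variable {p : ℕ} [hp : Fact p.Prime]

theorem blk_of_baumann (hG : Subgroup.centralizer (Cfsg.pCore p G : Set G) ≤ Cfsg.pCore p G)
    (T : Sylow p G) {E : Subgroup G} (hE : Cfsg.IsBaumannBlock p (T : Subgroup G) E)
    (hsub : E.IsSubnormal) : Blk p E := by
  obtain ⟨hresO, hVU, -⟩ := Block.block_location hG T hE
  obtain ⟨hres, hEB, hQE, hEZ, hcase⟩ := hE
  set O := Cfsg.pCore p G with hO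
  set U := Uz p G with hU
  set Bm := Cfsg.baumannSubgroupOf p (T : Subgroup G) with hBm
  haveI hOn : O.Normal := Cfsg.pCore_normal p G
  have hOp : IsPGroup p O := Core.isPGroup_pCore p G
  have hall : ∀ X : Subgroup G, X ≤ Subgroup.normalizer (O : Set G) := fun X => by
    rw [Subgroup.normalizer_eq_top]; exact le_top
  have hON : O ≤ Subgroup.normalizer (E : Set G) :=
    Block.le_normalizer_block T hres hEB hOp (hall _) (hall _)
  -- `O_p(E) = E ∩ O`
  have hQ : Cfsg.pCoreOf p E = E ⊓ O := by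
    refine le_antisymm (le_inf (Subgroup.map_subtype_le _) ?_) ?_
    · refine Core.le_pCore_of_isSubnormal ?_ ((Core.isPGroup_pCore p ↥E).map _)
      refine Subgroup.IsSubnormal.step _ E (Subgroup.map_subtype_le _) hsub ?_
      haveI : (Cfsg.pCore p ↥E).Normal := Cfsg.pCore_normal p ↥E
      rw [Cfsg.pCoreOf, Subgroup.subgroupOf, Subgroup.comap_map_eq_self_of_injective E.subtype_injective]
      infer_instance
    · refine LocalEven.le_op inf_le_left ?_ (hOp.to_le inf_le_right)
      exact (le_inf Subgroup.le_normalizer (hall E)).trans Subgroup.inf_normalizer_le_normalizer_inf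
  have hpc : ∀ x : ↥E, x ∈ Cfsg.pCore p ↥E ↔ (x : G) ∈ O := fun x => by
    constructor
    · intro hx
      have h1 : (x : G) ∈ Cfsg.pCoreOf p E := ⟨x, hx, rfl⟩
      rw [hQ] at h1; exact h1.2
    · intro hx
      have h1 : (x : G) ∈ Cfsg.pCoreOf p E := hQ ▸ ⟨x.2, hx⟩
      obtain ⟨y, hy, he⟩ := h1
      rwa [← Subtype.ext he]
  rw [hQ] at hVU hQE hcase
  set Q := E ⊓ O with hQdef
  set W := Cfsg.omegaOneCenter p Q with hW
  set Z := W ⊓ Subgroup.centralizer (E : Set G) with hZ
  set V := Vb p E with hV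
  haveI hUn : U.Normal := Subgroup.normalizer_eq_top_iff.mp (top_le_iff.mp
    ((hall ⊤).trans (LocalEven.normalizer_le_normalizer_omegaZ O)))
  have hUO : U ≤ O := (LocalEven.omegaOne_le _).trans inf_le_left
  have hUc : ∀ u ∈ U, ∀ o ∈ O, o * u = u * o := fun u hu o ho =>
    Subgroup.mem_centralizer_iff.mp (LocalEven.mem_omegaZ.mp hu).2.1 o ho
  have hVU' : V ≤ U := Subgroup.commutator_le_left _ _
  have hVn : E ≤ Subgroup.normalizer (V : Set G) := Block.right_le_normalizer_commutator U E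
  have hVE : V ≤ E := Subgroup.le_normalizer_iff_commutator_le_right.mp (hUO.trans hON)
  have hVW : V ≤ W := fun v hv => by
    obtain ⟨h1, h2, h3⟩ := LocalEven.mem_omegaZ.mp (hVU' hv)
    exact LocalEven.mem_omegaZ.mpr ⟨⟨hVE hv, h1⟩, Subgroup.centralizer_le (fun a ha => ha.2) h2, h3⟩
  have hWQ : W ≤ Q := (LocalEven.omegaOne_le _).trans inf_le_left
  have hWc : ∀ w ∈ W, ∀ a ∈ Q, w * a = a * w := fun w hw a ha =>
    (Subgroup.mem_centralizer_iff.mp (LocalEven.mem_omegaZ.mp hw).2.1 a ha).symm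
  have hEW : E ≤ Subgroup.normalizer (W : Set G) :=
    ((le_inf Subgroup.le_normalizer (hall E)).trans Subgroup.inf_normalizer_le_normalizer_inf).trans
      (LocalEven.normalizer_le_normalizer_omegaZ Q)
  -- `[V, E] = V`
  have hve : ⁅V, E⁆ = V := by
    refine le_antisymm (Subgroup.le_normalizer_iff_commutator_le_left.mp hVn) ?_
    set L := ⁅V, E⁆
    have hLn : E ≤ Subgroup.normalizer (L : Set G) := Block.right_le_normalizer_commutator V E
    let K : Subgroup G :=
      { carrier := {g | g ∈ E ∧ ∀ u ∈ U, ⁅g, u⁆ ∈ L}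
        one_mem' := ⟨E.one_mem, fun u _ => by simp [L.one_mem]⟩
        mul_mem' := fun {g h} hg hh => ⟨E.mul_mem hg.1 hh.1, fun u hu => by
          have : ⁅g * h, u⁆ = g * ⁅h, u⁆ * g⁻¹ * ⁅g, u⁆ := by simp only [commutatorElement_def]; group
          rw [this]
          exact L.mul_mem ((Subgroup.mem_normalizer_iff.mp (hLn hg.1) _).mp (hh.2 u hu)) (hg.2 u hu)⟩
        inv_mem' := fun {g} hg => ⟨E.inv_mem hg.1, fun u hu => by
          have : ⁅g⁻¹, u⁆ = g⁻¹ * ⁅g, u⁆⁻¹ * g⁻¹⁻¹ := by simp only [commutatorElement_def]; group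
          rw [this]
          exact (Subgroup.mem_normalizer_iff.mp (hLn (E.inv_mem hg.1)) _).mp (L.inv_mem (hg.2 u hu))⟩ }
    have hEK : E ≤ K := Block.le_of_coprime_mem hres fun e he hcop => ⟨he, fun u hu => by
      set d := ⁅e, u⁆ with hd
      have hdV : d ∈ V := by
        rw [hV, Vb, Subgroup.commutator_comm]; exact Subgroup.commutator_mem_commutator he hu
      have hVL : ∀ v ∈ V, ∀ i : ℕ, (e ^ i * v * (e ^ i)⁻¹) * v⁻¹ ∈ L := fun v hv i => by
        have h1 : e ^ i * v * (e ^ i)⁻¹ * v⁻¹ = ⁅v, e ^ i⁆⁻¹ := by simp only [commutatorElement_def]; group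
        rw [h1]; exact L.inv_mem (Subgroup.commutator_mem_commutator hv (E.pow_mem he i))
      have key : ∀ i : ℕ, ⁅e ^ i, u⁆ * (d ^ i)⁻¹ ∈ L := by
        intro i
        induction i with
        | zero => simp [L.one_mem]
        | succ i ih =>
          have ha : ⁅e ^ (i + 1), u⁆ = e ^ i * d * (e ^ i)⁻¹ * ⁅e ^ i, u⁆ := by
            rw [hd, pow_succ e i]; simp only [commutatorElement_def]; group
          have h1 : ⁅e ^ (i + 1), u⁆ * (d ^ (i + 1))⁻¹ =
              (e ^ i * d * (e ^ i)⁻¹ * d⁻¹) * (d * (⁅e ^ i, u⁆ * (d ^ i)⁻¹) * d⁻¹) := by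
            rw [ha, pow_succ' d i]; group
          rw [h1]
          refine L.mul_mem (hVL d hdV i) ?_
          have hc : d * (⁅e ^ i, u⁆ * (d ^ i)⁻¹) = (⁅e ^ i, u⁆ * (d ^ i)⁻¹) * d := by
            have hiV : ⁅e ^ i, u⁆ * (d ^ i)⁻¹ ∈ V := V.mul_mem (by
              rw [hV, Vb, Subgroup.commutator_comm]; exact Subgroup.commutator_mem_commutator (E.pow_mem he i) hu)
              (V.inv_mem (V.pow_mem hdV i))
            exact (hUc d (hVU' hdV) _ (hUO (hVU' hiV))).symm
          rw [hc, mul_inv_cancel_right]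
          exact ih
      have hn := key (orderOf e)
      rw [pow_orderOf_eq_one, commutatorElement_one_left, one_mul, inv_mem_iff] at hn
      have hdp : d ^ p = 1 := (LocalEven.mem_omegaZ.mp (hVU' hdV)).2.2
      have hg := Nat.gcd_eq_gcd_ab (orderOf e) p
      rw [hcop] at hg
      have : d = (d ^ orderOf e) ^ (Nat.gcdA (orderOf e) p) * (d ^ p) ^ (Nat.gcdB (orderOf e) p) := by
        rw [← zpow_natCast, ← zpow_natCast, ← zpow_mul, ← zpow_mul, ← zpow_add, ← hg]; simp
      rw [this, hdp, one_zpow, mul_one]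
      exact L.zpow_mem hn _⟩
    rw [hV, Vb, Subgroup.commutator_comm]
    exact Subgroup.commutator_le.mpr fun e he u hu => (hEK he).2 u hu
  have hVne : V ≠ ⊥ := fun h => hEZ (le_bot_iff.mp (by
    rw [Subgroup.commutator_comm, ← h]
    refine Subgroup.commutator_mono (fun z hz => ?_) le_rfl
    obtain ⟨h1, h2, h3⟩ := LocalEven.mem_omegaZ.mp hz
    have h4 := Subgroup.centralizer_le (show (O : Set G) ⊆ (T : Subgroup G) from hOp.le_sylow_of_normal T) h2
    exact LocalEven.mem_omegaZ.mpr ⟨hG h4, h4, h3⟩))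
  have hVc : ¬ V ≤ Subgroup.centralizer (E : Set G) := fun h => hVne (by
    rw [← hve, Subgroup.commutator_eq_bot_iff_le_centralizer]; exact h)
  have hZn : ∀ X : Subgroup G, X ≤ W → X ≤ Subgroup.normalizer (Z : Set G) := fun X hX x hx => by
    refine Subgroup.centralizer_le_normalizer _ (Subgroup.mem_centralizer_iff.mpr fun z hz => ?_)
    exact hWc z hz.1 x (hWQ (hX hx))
  -- irreducibility
  have hirrW : (∀ L : Subgroup G, L ≤ W → E ≤ Subgroup.normalizer (L : Set G) →
      ¬ L ≤ Subgroup.centralizer (E : Set G) → W ≤ L ⊔ Z) := by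
    intro L hLW hLn hLc
    rcases hcase with ⟨F, hf, hfin, n, -, -, hsec, -⟩ | ⟨-, m, -, hsec, -⟩
    · exact Block.sl2_section_irreducible hsec hLW hLn fun h => hLc (h.trans inf_le_right)
    · exact Block.perm_section_irreducible ⟨m, rfl⟩ hsec hLW hLn fun h => hLc (h.trans inf_le_right)
  have hirr : ∀ M : Subgroup G, M ≤ V → E ≤ Subgroup.normalizer (M : Set G) →
      ¬ M ≤ Subgroup.centralizer (E : Set G) → V ≤ M := by
    intro M hMV hMn hMc
    have hWM := hirrW M (hMV.trans hVW) hMn hMc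
    rw [← hve]
    refine Subgroup.commutator_le.mpr fun v hv e he => ?_
    have hv' := hWM (hVW hv)
    rw [← SetLike.mem_coe, Subgroup.coe_mul_of_left_le_normalizer_right M Z (hZn M (hMV.trans hVW))] at hv'
    obtain ⟨m, hm, z, hz, rfl⟩ := hv'
    have hze : z * e = e * z := (Subgroup.mem_centralizer_iff.mp hz.2 e he).symm
    have h1 : ⁅m * z, e⁆ = ⁅m, e⁆ := by
      rw [commutatorElement_def, commutatorElement_def]
      calc m * z * e * (m * z)⁻¹ * e⁻¹ = m * (z * e) * z⁻¹ * m⁻¹ * e⁻¹ := by group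
        _ = m * (e * z) * z⁻¹ * m⁻¹ * e⁻¹ := by rw [hze]
        _ = _ := by group
    rw [h1, commutatorElement_def, mul_assoc, mul_assoc, ← mul_assoc e]
    exact M.mul_mem hm ((Subgroup.mem_normalizer_iff.mp (hMn he) _).mp (M.inv_mem hm))
  have hWVZ : W ≤ V ⊔ Z := hirrW V hVW hVn hVc
  have hfix : ∀ e ∈ E, (∀ v ∈ V, e * v = v * e) → ∀ w ∈ W, e * w * e⁻¹ = w := by
    intro e he h w hw
    have hw' := hWVZ hw
    rw [← SetLike.mem_coe, Subgroup.coe_mul_of_left_le_normalizer_right V Z (hZn V hVW)] at hw'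
    obtain ⟨v, hv, z, hz, rfl⟩ := hw'
    have hze : e * z = z * e := Subgroup.mem_centralizer_iff.mp hz.2 e he
    calc e * (v * z) * e⁻¹ = (e * v) * (z * e⁻¹) := by group
      _ = v * (e * z) * e⁻¹ := by rw [h v hv]; group
      _ = v * z := by rw [hze]; group
  -- nonexceptional blocks
  have hQV : Q = W → Q = V := fun h => le_antisymm (by
    calc Q = ⁅Q, E⁆ := hQE.symm
      _ ≤ V := by
        refine Subgroup.commutator_le.mpr fun q hq e he => ?_
        have hq' := hWVZ (h ▸ hq)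
        rw [← SetLike.mem_coe, Subgroup.coe_mul_of_left_le_normalizer_right V Z (hZn V hVW)] at hq'
        obtain ⟨v, hv, z, hz, rfl⟩ := hq'
        have hze : z * e = e * z := (Subgroup.mem_centralizer_iff.mp hz.2 e he).symm
        have h1 : ⁅v * z, e⁆ = ⁅v, e⁆ := by
          rw [commutatorElement_def, commutatorElement_def]
          calc v * z * e * (v * z)⁻¹ * e⁻¹ = v * (z * e) * z⁻¹ * v⁻¹ * e⁻¹ := by group
            _ = v * (e * z) * z⁻¹ * v⁻¹ * e⁻¹ := by rw [hze]
            _ = _ := by group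
        rw [h1]
        exact hve.le (Subgroup.commutator_mem_commutator hv he)) (hVW.trans hWQ)
  -- `V ∩ C(E)` is trivial when `E / Q` is a small group
  have hsmallZ : ∀ r : ℕ, r.Prime → r ≠ p → (∀ e ∈ E, e ^ r ^ 2 ∈ O) →
      V ⊓ Subgroup.centralizer (E : Set G) = ⊥ := by
    intro r hr hrp hpow
    haveI := Fact.mk hr
    obtain ⟨S, -⟩ := Sylow.exists_comap_eq_of_injective (p := r) (f := E.subtype) (default : Sylow r ↥E) E.subtype_injective
    obtain ⟨S'⟩ : Nonempty (Sylow r ↥E) := inferInstance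
    set SG := (S' : Subgroup ↥E).map E.subtype with hSG
    have hSE : SG ≤ E := Subgroup.map_subtype_le _
    have hgen : E ≤ Q ⊔ SG := by
      haveI hNn : (Cfsg.pCore p ↥E).Normal := Cfsg.pCore_normal p ↥E
      have hjoin : Cfsg.pCore p ↥E ⊔ (S' : Subgroup ↥E) = ⊤ := by
        rw [← Subgroup.index_eq_one]
        have h1 := Subgroup.index_dvd_of_le (le_sup_left : Cfsg.pCore p ↥E ≤ Cfsg.pCore p ↥E ⊔ S')
        have h2 := Subgroup.index_dvd_of_le (le_sup_right : (S' : Subgroup ↥E) ≤ Cfsg.pCore p ↥E ⊔ S')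
        have hpg : IsPGroup r (↥E ⧸ Cfsg.pCore p ↥E) := fun x => by
          obtain ⟨y, rfl⟩ := QuotientGroup.mk'_surjective _ x
          refine ⟨2, ?_⟩
          rw [← map_pow]
          refine (QuotientGroup.eq_one_iff _).mpr ((hpc _).mpr ?_)
          simpa using hpow y y.2
        obtain ⟨k, hk⟩ := hpg.exists_card_eq
        rw [Subgroup.index, Subgroup.index] at h1
        rw [← Subgroup.index, hk] at h1
        exact Nat.eq_one_of_dvd_coprimes ((hr.coprime_iff_not_dvd.mpr S'.not_dvd_index).pow_left k) h1 h2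
      intro e he
      have h1 : (⟨e, he⟩ : ↥E) ∈ Cfsg.pCore p ↥E ⊔ (S' : Subgroup ↥E) := by rw [hjoin]; trivial
      have h2 : e ∈ (Cfsg.pCore p ↥E ⊔ (S' : Subgroup ↥E)).map E.subtype := ⟨_, h1, rfl⟩
      rw [Subgroup.map_sup] at h2
      exact (sup_le_sup_right (hQ.le) _) h2
    have hcopS : (Nat.card SG).Coprime (Nat.card V) := by
      obtain ⟨a, ha⟩ := (S'.isPGroup'.map E.subtype).exists_card_eq
      obtain ⟨b, hb⟩ := (hOp.to_le (hVU'.trans hUO)).exists_card_eq
      rw [ha, hb]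
      exact ((Nat.coprime_primes hr hp.out).mpr hrp).pow _ _
    have hVab : IsMulCommutative V := ⟨⟨fun a b => Subtype.ext (hUc b (hVU' b.2) a (hUO (hVU' a.2)))⟩⟩
    have h := Coprime.commutator_inf_centralizer_eq_bot (hSE.trans hVn) hVab hcopS
    refine le_bot_iff.mp (le_trans (le_inf ?_ (inf_le_right.trans (Subgroup.centralizer_le hSE))) h.le)
    refine inf_le_left.trans (hve.ge.trans ?_)
    refine Subgroup.commutator_le.mpr fun v hv e he => ?_
    have he' := hgen he
    rw [← SetLike.mem_coe, Subgroup.coe_mul_of_right_le_normalizer_left Q SG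
      ((hSE.trans (le_inf Subgroup.le_normalizer (hall E))).trans Subgroup.inf_normalizer_le_normalizer_inf)] at he'
    obtain ⟨q, hq, s, hs, rfl⟩ := he'
    have hqv : q * v = v * q := hUc v (hVU' hv) q hq.2
    have hc : ⁅v, s⁆ ∈ V := hve.le (Subgroup.commutator_mem_commutator hv (hSE hs))
    have hqc : q * ⁅v, s⁆ = ⁅v, s⁆ * q := hUc _ (hVU' hc) q hq.2
    have h1 : ⁅v, q * s⁆ = ⁅v, q⁆ * (q * ⁅v, s⁆ * q⁻¹) := by simp only [commutatorElement_def]; group
    rw [h1, (commutatorElement_eq_one_iff_mul_comm).mpr hqv.symm, one_mul, hqc, mul_inv_cancel_right]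
    exact Subgroup.commutator_mem_commutator hv hs
  -- transfer to `V`
  have hrestr : ∀ {X : Type} [AddCommGroup X] (ψ : ↥W →* Multiplicative X),
      (∀ u : ↥W, ψ u = 1 ↔ (u : G) ∈ Z) →
      (∀ a : ↥V, (ψ.comp (Subgroup.inclusion hVW)) a = 1 ↔ (a : G) ∈ V ⊓ Subgroup.centralizer (E : Set G)) ∧
      (∀ u : ↥W, ∃ a : ↥V, (ψ.comp (Subgroup.inclusion hVW)) a = ψ u) := by
    intro X _ ψ hker
    refine ⟨fun a => ?_, fun u => ?_⟩
    · rw [MonoidHom.comp_apply, hker]
      exact ⟨fun h => ⟨a.2, h.2⟩, fun h => ⟨hVW h.1, h.2⟩⟩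
    · have hu := hWVZ u.2
      rw [← SetLike.mem_coe, Subgroup.coe_mul_of_left_le_normalizer_right V Z (hZn V hVW)] at hu
      obtain ⟨v, hv, z, hz, hvz⟩ := hu
      refine ⟨⟨v, hv⟩, ?_⟩
      have h1 : u = Subgroup.inclusion hVW ⟨v, hv⟩ * ⟨z, hz.1⟩ := Subtype.ext hvz.symm
      rw [MonoidHom.comp_apply, h1, map_mul, (hker ⟨z, hz.1⟩).mpr hz, mul_one]
  have hVnZ : E ≤ Subgroup.normalizer ((V ⊓ Subgroup.centralizer (E : Set G) : Subgroup G) : Set G) :=
    (le_inf hVn (Subgroup.le_normalizer.trans (LocalEven.normalizer_le_normalizer_cent E))).trans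
      Subgroup.inf_normalizer_le_normalizer_inf
  have hVVZ : V ≤ Subgroup.normalizer ((V ⊓ Subgroup.centralizer (E : Set G) : Subgroup G) : Set G) := hVE.trans hVnZ
  have hnQW : Subgroup.normalizer (Q : Set G) ≤ Subgroup.normalizer (W : Set G) :=
    LocalEven.normalizer_le_normalizer_omegaZ Q
  have hQW' : Q ≤ Subgroup.normalizer (W : Set G) := Subgroup.le_normalizer.trans hnQW
  have hEQ : E ≤ Subgroup.normalizer (Q : Set G) :=
    (le_inf Subgroup.le_normalizer (hall E)).trans Subgroup.inf_normalizer_le_normalizer_inf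
  haveI hNn : (Cfsg.pCore p ↥E).Normal := Cfsg.pCore_normal p ↥E
  rcases hcase with ⟨F, hf, hfin, n, hcard, ⟨iso⟩, hsec, hQW⟩ | ⟨hp2, m, ⟨iso⟩, hsec, hQW⟩
  · have hsec0 := hsec
    obtain ⟨-, -, ρ, ψ, hρ, hψs, hψk, hact⟩ := hsec
    have hρQ : ∀ x ∈ Cfsg.pCore p ↥E, ρ x = 1 := fun x hx => by
      apply Subtype.ext
      refine Matrix.ext_of_mulVec_single fun i => ?_
      rw [Matrix.SpecialLinearGroup.coe_one, Matrix.one_mulVec]
      obtain ⟨u, hu⟩ := hψs (Multiplicative.ofAdd (Pi.single i 1))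
      obtain ⟨w, hw, hw'⟩ := hact x u
      have : w = u := Subtype.ext (by
        rw [hw, ← hWc u u.2 x ⟨x.2, (hpc x).mp hx⟩, mul_inv_cancel_right])
      rw [this, hu, toAdd_ofAdd] at hw'
      exact hw'.symm
    have hkerρ : ∀ x : ↥E, ρ x = 1 ↔ (x : G) ∈ O := fun x =>
      (ker_eq_of_card ρ _ hρ iso (MulEquiv.refl _) hρQ x).trans (hpc x)
    have hfaith : ∀ e ∈ E, (∀ v ∈ V, e * v = v * e) → e ∈ O := fun e he h => by
      refine (hkerρ ⟨e, he⟩).mp (Subtype.ext (Matrix.ext_of_mulVec_single fun i => ?_))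
      rw [Matrix.SpecialLinearGroup.coe_one, Matrix.one_mulVec]
      obtain ⟨u, hu⟩ := hψs (Multiplicative.ofAdd (Pi.single i 1))
      obtain ⟨w, hw, hw'⟩ := hact ⟨e, he⟩ u
      have : w = u := Subtype.ext (by rw [hw]; exact hfix e he h u u.2)
      rw [this, hu, toAdd_ofAdd] at hw'
      exact hw'.symm
    obtain ⟨hk1, hk2⟩ := hrestr ψ hψk
    set ψV := ψ.comp (Subgroup.inclusion hVW) with hψV
    have hsV : Function.Surjective ψV := fun y => by
      obtain ⟨u, rfl⟩ := hψs y; exact hk2 u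
    have hactV : ∀ (e : ↥E) (a : ↥V) (h : (e : G) * a * (e : G)⁻¹ ∈ V),
        Multiplicative.toAdd (ψV ⟨_, h⟩) = ((ρ e : Matrix (Fin 2) (Fin 2) F)).mulVec (Multiplicative.toAdd (ψV a)) := by
      intro e a h
      obtain ⟨w, hw, hw'⟩ := hact e (Subgroup.inclusion hVW a)
      refine Eq.trans ?_ hw'
      exact congrArg (fun x => Multiplicative.toAdd (ψ x)) (Subtype.ext hw.symm)
    have hn0 : n ≠ 0 := fun h => by
      rw [h, pow_zero] at hcard; exact (Fintype.one_lt_card (α := F)).ne' hcard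
    rcases le_or_gt 4 (Fintype.card F) with hq | hq
    · -- components
      have hperf := Linear.sl2_perfect hq
      have hqs : Cfsg.IsQuasisimple ↥(commutator (Matrix.SpecialLinearGroup (Fin 2) F)) := by
        refine isQuasisimple_of_equiv ((MulEquiv.subgroupCongr hperf).trans Subgroup.topEquiv).symm ?_
        exact ⟨⟨hperf⟩, Chars.PSLBinary.psl_simple hq⟩
      let X1 : Matrix.SpecialLinearGroup (Fin 2) F := ⟨!![1, 1; 0, 1], by simp [Matrix.det_fin_two]⟩
      obtain ⟨x1, hx1⟩ : X1 ∈ ρ.range := by rw [hρ, hperf]; trivial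
      let S₀ : AddSubgroup (Fin 2 → F) :=
        { carrier := {v | v 1 = 0}, zero_mem' := rfl
          add_mem' := fun {a b} (ha : a 1 = 0) (hb : b 1 = 0) => (show a 1 + b 1 = 0 by rw [ha, hb, add_zero])
          neg_mem' := fun {a} (ha : a 1 = 0) => (show -a 1 = 0 by rw [ha, neg_zero]) }
      have hcomp : CompEl E V (V ⊓ Subgroup.centralizer (E : Set G)) := by
        refine compEl_of_model (act := fun (g : Matrix.SpecialLinearGroup (Fin 2) F) v => (g : Matrix (Fin 2) (Fin 2) F).mulVec v)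
          ρ ψV hk1 inf_le_left hVn hactV x1 S₀ (fun a => ?_) ?_ ?_
        · rw [hx1]; simp [S₀, X1, Matrix.mulVec, dotProduct, Matrix.vecHead, Matrix.vecTail]
        · obtain ⟨a, ha⟩ := hsV (Multiplicative.ofAdd ![0, 1])
          exact ⟨a, by rw [ha]; simp [S₀]⟩
        · obtain ⟨a, ha⟩ := hsV (Multiplicative.ofAdd ![0, 1])
          refine ⟨a, fun h => ?_⟩
          rw [ha, hx1] at h
          simpa [X1, Matrix.mulVec, dotProduct] using congrFun h 0
      refine ⟨hres, hsub, hON, hresO, hve, hirr, hfaith, ?_, Or.inl ⟨isQuasisimple_image _ iso hpc hqs, hcomp⟩⟩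
      rcases hQW with h | ⟨hp3, hsec', hQQ, -, hcen, hcard3, hbq⟩
      · exact Or.inl (hQV h)
      right
      have hsec0' := hsec'
      obtain ⟨-, -, ρ', ψ', hρ', hψs', hψk', hact'⟩ := hsec'
      subst hp3
      refine ⟨W, Z, rfl, hWQ, hWc, fun w hw => (LocalEven.mem_omegaZ.mp hw).2.2,
        fun x hx h3 hc => LocalEven.mem_omegaZ.mpr ⟨hx, Subgroup.mem_centralizer_iff.mpr fun a ha => (hc a ha).symm, h3⟩, hVW, inf_le_left, inf_le_right, le_rfl,
        hWVZ, hQQ, ?_, hnQW, ?_, fun M h1 h2 h3 => Block.sl2_section_irreducible hsec0' h1 h2 h3, Or.inl ⟨?_, ?_⟩, ?_⟩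
      · intro h
        rw [hcen, h, Subgroup.card_bot] at hcard3
        exact absurd (Nat.one_lt_pow hn0 (by norm_num : 1 < 3)) (by omega)
      · intro a ha
        refine (hψk' (⟨a, ha⟩ ^ 3)).mp ?_
        rw [map_pow]
        apply Multiplicative.toAdd.injective
        rw [toAdd_pow, toAdd_one]
        funext i
        have h3 : (3 : F) = 0 := by
          have := FiniteField.cast_card_eq_zero F
          rw [hcard, Nat.cast_pow, pow_eq_zero_iff hn0] at this
          exact_mod_cast this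
        rw [Pi.smul_apply, nsmul_eq_mul, Nat.cast_ofNat, h3, zero_mul, Pi.zero_apply]
      · obtain ⟨x1', hx1'⟩ : X1 ∈ ρ'.range := by rw [hρ', hperf]; trivial
        refine compEl_of_model (act := fun (g : Matrix.SpecialLinearGroup (Fin 2) F) v => (g : Matrix (Fin 2) (Fin 2) F).mulVec v)
          ρ' ψ' hψk' hWQ hEQ (fun e a h => ?_) x1' S₀ (fun a => ?_) ?_ ?_
        · obtain ⟨w, hw, hw'⟩ := hact' e a
          rw [← hw']; exact congrArg (fun x => Multiplicative.toAdd (ψ' x)) (Subtype.ext hw.symm)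
        · rw [hx1']; simp [S₀, X1, Matrix.mulVec, dotProduct, Matrix.vecHead, Matrix.vecTail]
        · obtain ⟨a, ha⟩ := hψs' (Multiplicative.ofAdd ![0, 1])
          exact ⟨a, by rw [ha]; simp [S₀]⟩
        · obtain ⟨a, ha⟩ := hψs' (Multiplicative.ofAdd ![0, 1])
          refine ⟨a, fun h => ?_⟩
          rw [ha, hx1'] at h
          simpa [X1, Matrix.mulVec, dotProduct] using congrFun h 0
      · intro hVcard
        have h1 := Nat.card_le_card_of_surjective ψV hsV
        rw [hVcard, Nat.card_congr Multiplicative.toAdd, Nat.card_fun, Nat.card_eq_fintype_card,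
          Nat.card_eq_fintype_card, Fintype.card_fin] at h1
        nlinarith
      · obtain ⟨b, hb, hbW⟩ : ∃ b ∈ Bm, b ∉ Subgroup.centralizer (W : Set G) := by
          by_contra hcon
          push Not at hcon
          apply hVc
          refine Subgroup.le_centralizer_iff.mp ?_
          rw [← hEB]
          refine Subgroup.commutator_le.mpr fun e he b hb => ?_
          have hCV := Subgroup.centralizer_le (G := G) hVW (hcon b hb)
          rw [commutatorElement_def]
          exact Subgroup.mul_mem _ ((Subgroup.mem_normalizer_iff.mp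
            (LocalEven.normalizer_le_normalizer_cent V (hVn he)) b).mp hCV) (Subgroup.inv_mem _ hCV)
        exact ⟨b, Block.baumann_le_normalizer hEB hb, (T.isPGroup'.to_le inf_le_left).to_le (Subgroup.zpowers_le.mpr hb),
          fun h => hbq b hb hbW (h.trans (by rw [hcen]))⟩
    · -- two or three elements
      have hn1 : n = 1 := by
        rcases n with _ | _ | k
        · exact absurd rfl hn0
        · rfl
        · exfalso
          have : 2 ^ 2 ≤ p ^ (k + 1 + 1) := (Nat.pow_le_pow_left hp.out.two_le 2).trans (Nat.pow_le_pow_right hp.out.pos (by omega))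
          omega
      rw [hn1, pow_one] at hcard
      have hp23 : p = 2 ∨ p = 3 := by have := hp.out.two_le; omega
      obtain ⟨hs0, -⟩ := small_of_sl2 hcard hp23 (O := O) ρ ψV hρ hkerρ hsV hk1 inf_le_left hVn hVnZ hVVZ hactV
      have hr : (5 - p).Prime ∧ 5 - p ≠ p := by
        rcases hp23 with rfl | rfl <;> exact ⟨by norm_num, by norm_num⟩
      have hbot := hsmallZ (5 - p) hr.1 hr.2 hs0.pow
      have hs1 : Small p (5 - p) (3 - p) O E V ⊥ := by rw [← hbot]; exact hs0
      have hcardV : Nat.card ↥V = p ^ 2 := by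
        have hi : Function.Injective ψV := (injective_iff_map_eq_one _).mpr fun a ha => by
          have := (hk1 a).mp ha
          rw [hbot] at this
          exact Subtype.ext (Subgroup.mem_bot.mp this)
        rw [Nat.card_eq_of_bijective _ ⟨hi, hsV⟩, Nat.card_congr Multiplicative.toAdd, Nat.card_fun,
          Nat.card_eq_fintype_card, Nat.card_eq_fintype_card, hcard, Fintype.card_fin]
      refine ⟨hres, hsub, hON, hresO, hve, hirr, hfaith, ?_, Or.inr ⟨hp23, hs1, hcardV⟩⟩
      rcases hQW with h | ⟨hp3, hsec', hQQ, -, hcen, hcard3, hbq⟩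
      · exact Or.inl (hQV h)
      right
      have hsec0' := hsec'
      obtain ⟨-, -, ρ', ψ', hρ', hψs', hψk', hact'⟩ := hsec'
      subst hp3
      have hρQ' : ∀ x ∈ Cfsg.pCore 3 ↥E, ρ' x = 1 := fun x hx => by
        apply Subtype.ext
        refine Matrix.ext_of_mulVec_single fun i => ?_
        rw [Matrix.SpecialLinearGroup.coe_one, Matrix.one_mulVec]
        obtain ⟨u, hu⟩ := hψs' (Multiplicative.ofAdd (Pi.single i 1))
        obtain ⟨w, hw, hw'⟩ := hact' x u
        have hc : ((w * u⁻¹ : ↥Q) : G) ∈ W := by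
          have hmem : ⁅(x : G), (u : G)⁆ ∈ W :=
            (hQQ.trans_le inf_le_left) (Subgroup.commutator_mem_commutator ⟨x.2, (hpc x).mp hx⟩ u.2)
          simpa [hw, commutatorElement_def] using hmem
        have := (hψk' _).mpr hc
        rw [map_mul, map_inv, mul_inv_eq_one] at this
        rw [this, hu, toAdd_ofAdd] at hw'
        exact hw'.symm
      have hkerρ' : ∀ x : ↥E, ρ' x = 1 ↔ (x : G) ∈ O := fun x =>
        (ker_eq_of_card ρ' _ hρ' iso (MulEquiv.refl _) hρQ' x).trans (hpc x)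
      obtain ⟨hsS, hexp⟩ := small_of_sl2 hcard hp23 (O := O) ρ' ψ' hρ' hkerρ' hψs' hψk' hWQ hEQ hEW hQW'
        (fun e a h => by
          obtain ⟨w, hw, hw'⟩ := hact' e a
          rw [← hw']; exact congrArg (fun x => Multiplicative.toAdd (ψ' x)) (Subtype.ext hw.symm))
      have hcS : Nat.card ↥Q = 9 * Nat.card ↥W := by
        have hk : ψ'.ker = W.subgroupOf Q := by ext a; exact hψk' a
        rw [← Subgroup.card_mul_index (W.subgroupOf Q), ← hk, Subgroup.index_ker, hk,
          Nat.card_congr (Subgroup.subgroupOfEquivOfLe hWQ).toEquiv, mul_comm]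
        congr 1
        rw [MonoidHom.range_eq_top.mpr hψs', Subgroup.card_top, Nat.card_congr Multiplicative.toAdd, Nat.card_fun,
          Nat.card_eq_fintype_card, Nat.card_eq_fintype_card, hcard, Fintype.card_fin]
        norm_num
      refine ⟨W, Z, rfl, hWQ, hWc, fun w hw => (LocalEven.mem_omegaZ.mp hw).2.2,
        fun x hx h3 hc => LocalEven.mem_omegaZ.mpr ⟨hx, Subgroup.mem_centralizer_iff.mpr fun a ha => (hc a ha).symm, h3⟩, hVW, inf_le_left, inf_le_right, le_rfl,
        hWVZ, hQQ, ?_, hnQW, hexp, fun M h1 h2 h3 => Block.sl2_section_irreducible hsec0' h1 h2 h3, Or.inr ⟨hsS, hcS⟩, ?_⟩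
      · intro h
        rw [hcen, h, Subgroup.card_bot] at hcard3
        exact absurd (Nat.one_lt_pow hn0 (by norm_num : 1 < 3)) (by omega)
      · obtain ⟨b, hb, hbW⟩ : ∃ b ∈ Bm, b ∉ Subgroup.centralizer (W : Set G) := by
          by_contra hcon
          push Not at hcon
          apply hVc
          refine Subgroup.le_centralizer_iff.mp ?_
          rw [← hEB]
          refine Subgroup.commutator_le.mpr fun e he b hb => ?_
          have hCV := Subgroup.centralizer_le (G := G) hVW (hcon b hb)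
          rw [commutatorElement_def]
          exact Subgroup.mul_mem _ ((Subgroup.mem_normalizer_iff.mp
            (LocalEven.normalizer_le_normalizer_cent V (hVn he)) b).mp hCV) (Subgroup.inv_mem _ hCV)
        exact ⟨b, Block.baumann_le_normalizer hEB hb, (T.isPGroup'.to_le inf_le_left).to_le (Subgroup.zpowers_le.mpr hb),
          fun h => hbq b hb hbW (h.trans (by rw [hcen]))⟩
  · subst hp2
    obtain ⟨-, -, ρ, ψ, hρ, heven, hψs, hψk, hact⟩ := hsec
    have hρQ : ∀ x ∈ Cfsg.pCore 2 ↥E, ∀ v : Fin (2 * m + 1) → ZMod 2, ∑ i, v i = 0 → ∀ i, v ((ρ x)⁻¹ i) = v i := by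
      intro x hx v hv i
      obtain ⟨u, hu⟩ := hψs v hv
      obtain ⟨w, hw, hw'⟩ := hact x u
      have : w = u := Subtype.ext (by
        rw [hw, ← hWc u u.2 x ⟨x.2, (hpc x).mp hx⟩, mul_inv_cancel_right])
      have h := hw' i
      rw [this, hu] at h
      exact h.symm
    -- only the identity fixes all even vectors
    have hid : ∀ σ : Equiv.Perm (Fin (2 * m + 1)), (∀ v : Fin (2 * m + 1) → ZMod 2, ∑ i, v i = 0 →
        ∀ i, v (σ⁻¹ i) = v i) → σ = 1 := by
      intro σ h
      by_contra hne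
      obtain ⟨a, ha⟩ : ∃ a, σ⁻¹ a ≠ a := by
        by_contra hcon
        push Not at hcon
        exact hne (inv_eq_one.mp (Equiv.ext hcon))
      obtain ⟨c, hca, hcb⟩ : ∃ c, c ≠ a ∧ c ≠ σ⁻¹ a := by
        by_contra hcon
        push Not at hcon
        have : (Finset.univ : Finset (Fin (2 * m + 1))) = {a, σ⁻¹ a} := by
          ext x; simp only [Finset.mem_univ, Finset.mem_insert, Finset.mem_singleton, true_iff]
          by_cases hx : x = a
          · exact Or.inl hx
          · exact Or.inr (hcon x hx)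
        have := congrArg Finset.card this
        rw [Finset.card_univ, Fintype.card_fin, Finset.card_pair (Ne.symm ha)] at this
        omega
      have := h (Pi.single a 1 + Pi.single c 1) (by
        simp only [Pi.add_apply, Finset.sum_add_distrib, Finset.sum_pi_single', Finset.mem_univ, if_true]; exact CharTwo.add_self_eq_zero _) a
      rw [Pi.add_apply, Pi.single_eq_of_ne ha, Pi.single_eq_of_ne (Ne.symm hcb), Pi.add_apply, Pi.single_eq_same,
        Pi.single_eq_of_ne (Ne.symm hca), add_zero, add_zero] at this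
      exact zero_ne_one this
    have hkerρ : ∀ x : ↥E, ρ x = 1 ↔ (x : G) ∈ O := fun x =>
      (ker_eq_of_card ρ _ hρ iso (MulEquiv.refl _) (fun y hy => hid _ (hρQ y hy)) x).trans (hpc x)
    have hfaith : ∀ e ∈ E, (∀ v ∈ V, e * v = v * e) → e ∈ O := fun e he h => by
      refine (hkerρ ⟨e, he⟩).mp (hid _ fun v hv i => ?_)
      obtain ⟨u, hu⟩ := hψs v hv
      obtain ⟨w, hw, hw'⟩ := hact ⟨e, he⟩ u
      have : w = u := Subtype.ext (by rw [hw]; exact hfix e he h u u.2)
      have h' := hw' i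
      rw [this, hu] at h'
      exact h'.symm
    obtain ⟨hk1, hk2⟩ := hrestr ψ hψk
    set ψV := ψ.comp (Subgroup.inclusion hVW) with hψV
    have hsV : ∀ v : Fin (2 * m + 1) → ZMod 2, ∑ i, v i = 0 → ∃ a : ↥V, Multiplicative.toAdd (ψV a) = v := by
      intro v hv
      obtain ⟨u, hu⟩ := hψs v hv
      obtain ⟨a, ha⟩ := hk2 u
      exact ⟨a, by rw [ha, hu]⟩
    have hactV : ∀ (e : ↥E) (a : ↥V) (h : (e : G) * a * (e : G)⁻¹ ∈ V),
        Multiplicative.toAdd (ψV ⟨_, h⟩) = fun i => Multiplicative.toAdd (ψV a) ((ρ e)⁻¹ i) := by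
      intro e a h
      obtain ⟨w, hw, hw'⟩ := hact e (Subgroup.inclusion hVW a)
      funext i
      refine Eq.trans ?_ (hw' i)
      exact congrFun (congrArg (fun x => Multiplicative.toAdd (ψ x)) (Subtype.ext hw.symm)) i
    obtain h | h | h : m = 0 ∨ m = 1 ∨ 2 ≤ m := by omega
    · -- `E = Q` is impossible
      exfalso
      subst h
      apply hVc
      intro v hv
      refine Subgroup.mem_centralizer_iff.mpr fun e he => ?_
      exact (hUc v (hVU' hv) e ((hkerρ ⟨e, he⟩).mp (Equiv.ext fun i => Fin.ext (by omega))))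
    · subst h
      let π : Multiplicative (Fin 3 → ZMod 2) →* Multiplicative (ZMod 2 × ZMod 2) :=
        AddMonoidHom.toMultiplicative
          { toFun := fun v => (v 0, v 1), map_zero' := rfl, map_add' := fun _ _ => rfl }
      have hcoord : ∀ a : ↥V, ∀ i : Fin 3, Multiplicative.toAdd (ψV a) i =
          ![Multiplicative.toAdd (ψV a) 0, Multiplicative.toAdd (ψV a) 1,
            Multiplicative.toAdd (ψV a) 0 + Multiplicative.toAdd (ψV a) 1] i := by
        intro a i
        have h0 := heven (Subgroup.inclusion hVW a)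
        fin_cases i
        · rfl
        · rfl
        · have h0' := (Fin.sum_univ_three _).symm.trans h0
          exact zmod_two_third _ _ _ h0'
      let ρa : ↥E →* ↥(alternatingGroup (Fin 3)) :=
        ρ.codRestrict _ fun e => hρ ▸ ⟨e, rfl⟩
      have hs0 : Small 2 3 1 O E V (V ⊓ Subgroup.centralizer (E : Set G)) := by
        refine small_of_model alt_three_facts ρa (π.comp ψV) (fun g => ⟨fun _ => trivial, fun _ => ?_⟩) (fun e => ?_) ?_ ?_
          inf_le_left hVn hVnZ hVVZ ?_
        · obtain ⟨e, he⟩ : (g : Equiv.Perm (Fin 3)) ∈ ρ.range := by rw [hρ]; exact g.2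
          exact ⟨e, Subtype.ext he⟩
        · rw [← hkerρ e]; exact Subtype.ext_iff
        · intro y
          obtain ⟨a, ha⟩ := hsV ![(Multiplicative.toAdd y).1, (Multiplicative.toAdd y).2,
            (Multiplicative.toAdd y).1 + (Multiplicative.toAdd y).2] (by
              exact (Fin.sum_univ_three _).trans (CharTwo.add_self_eq_zero _))
          refine ⟨a, Multiplicative.toAdd.injective ?_⟩
          show ((Multiplicative.toAdd (ψV a)) 0, (Multiplicative.toAdd (ψV a)) 1) = _
          rw [ha]; rfl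
        · intro a
          rw [← hk1 a]
          constructor
          · intro h
            have h' : ((Multiplicative.toAdd (ψV a)) 0, (Multiplicative.toAdd (ψV a)) 1) = (0, 0) :=
              congrArg Multiplicative.toAdd h
            apply Multiplicative.toAdd.injective
            funext i
            rw [toAdd_one, Pi.zero_apply, hcoord a i, (Prod.mk.inj h').1, (Prod.mk.inj h').2]
            fin_cases i <;> simp
          · intro h
            show π (ψV a) = 1
            rw [h, map_one]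
        · intro e a h
          show ((Multiplicative.toAdd (ψV ⟨_, h⟩)) 0, (Multiplicative.toAdd (ψV ⟨_, h⟩)) 1) = _
          rw [hactV e a h]
          simp only
          rw [hcoord a ((ρ e)⁻¹ 0), hcoord a ((ρ e)⁻¹ 1)]
          rfl
      have hbot := hsmallZ 3 Nat.prime_three (by norm_num) hs0.pow
      have hs1 : Small 2 3 1 O E V ⊥ := by rw [← hbot]; exact hs0
      have hcardV : Nat.card ↥V = 2 ^ 2 := by
        have hi : Function.Injective (π.comp ψV) := (injective_iff_map_eq_one _).mpr fun a ha => by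
          have h' : ((Multiplicative.toAdd (ψV a)) 0, (Multiplicative.toAdd (ψV a)) 1) = (0, 0) :=
            congrArg Multiplicative.toAdd ha
          have : ψV a = 1 := Multiplicative.toAdd.injective (funext fun i => by
            rw [toAdd_one, Pi.zero_apply, hcoord a i, (Prod.mk.inj h').1, (Prod.mk.inj h').2]
            fin_cases i <;> simp)
          have := (hk1 a).mp this
          rw [hbot] at this
          exact Subtype.ext (Subgroup.mem_bot.mp this)
        have hs : Function.Surjective (π.comp ψV) := fun y => by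
          obtain ⟨a, ha⟩ := hsV ![(Multiplicative.toAdd y).1, (Multiplicative.toAdd y).2,
            (Multiplicative.toAdd y).1 + (Multiplicative.toAdd y).2] (by
              exact (Fin.sum_univ_three _).trans (CharTwo.add_self_eq_zero _))
          refine ⟨a, Multiplicative.toAdd.injective ?_⟩
          show ((Multiplicative.toAdd (ψV a)) 0, (Multiplicative.toAdd (ψV a)) 1) = _
          rw [ha]; rfl
        rw [Nat.card_eq_of_bijective _ ⟨hi, hs⟩, Nat.card_congr Multiplicative.toAdd, Nat.card_prod, Nat.card_zmod]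
        norm_num
      exact ⟨hres, hsub, hON, hresO, hve, hirr, hfaith, Or.inl (hQV hQW), Or.inr ⟨Or.inl rfl, hs1, hcardV⟩⟩
    · have hsimple : IsSimpleGroup ↥(alternatingGroup (Fin (2 * m + 1))) :=
        alternatingGroup.isSimpleGroup (by rw [Nat.card_eq_fintype_card, Fintype.card_fin]; omega)
      have hqs : Cfsg.IsQuasisimple ↥(alternatingGroup (Fin (2 * m + 1))) := by
        refine isQuasisimple_of_isSimpleGroup fun hc => ?_
        have h1 := alternatingGroup.center_eq_bot (α := Fin (2 * m + 1)) (by rw [Nat.card_eq_fintype_card, Fintype.card_fin]; omega)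
        haveI : Nontrivial ↥(alternatingGroup (Fin (2 * m + 1))) := hsimple.toNontrivial
        have h2 : Subgroup.center ↥(alternatingGroup (Fin (2 * m + 1))) = ⊤ :=
          top_le_iff.mp fun x _ => Subgroup.mem_center_iff.mpr fun y => hc.is_comm.comm y x
        exact bot_ne_top (h1.symm.trans h2)
      let i0 : Fin (2 * m + 1) := ⟨0, by omega⟩
      let i1 : Fin (2 * m + 1) := ⟨1, by omega⟩
      let i2 : Fin (2 * m + 1) := ⟨2, by omega⟩
      let i3 : Fin (2 * m + 1) := ⟨3, by omega⟩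
      let i4 : Fin (2 * m + 1) := ⟨4, by omega⟩
      let σ : Equiv.Perm (Fin (2 * m + 1)) := Equiv.swap i0 i1 * Equiv.swap i1 i2
      have hσ : σ ∈ alternatingGroup (Fin (2 * m + 1)) := by
        rw [Equiv.Perm.mem_alternatingGroup, map_mul, Equiv.Perm.sign_swap (by simp [i0, i1]),
          Equiv.Perm.sign_swap (by simp [i1, i2])]
        rfl
      obtain ⟨x1, hx1⟩ : σ ∈ ρ.range := by rw [hρ]; exact hσ
      have hσfix : ∀ i, i ≠ i0 → i ≠ i1 → i ≠ i2 → σ⁻¹ i = i := fun i h0 h1 h2 => by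
        rw [Equiv.Perm.inv_eq_iff_eq]
        simp only [σ, Equiv.Perm.mul_apply]
        rw [Equiv.swap_apply_of_ne_of_ne h1 h2, Equiv.swap_apply_of_ne_of_ne h0 h1]
      let S₀ : AddSubgroup (Fin (2 * m + 1) → ZMod 2) :=
        { carrier := {v | ∀ i, i ≠ i0 → i ≠ i1 → i ≠ i2 → v i = 0}
          zero_mem' := fun _ _ _ _ => rfl
          add_mem' := fun {a b} ha hb i h0 h1 h2 => by simp [ha i h0 h1 h2, hb i h0 h1 h2]
          neg_mem' := fun {a} ha i h0 h1 h2 => by simp [ha i h0 h1 h2] }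
      have hcomp : CompEl E V (V ⊓ Subgroup.centralizer (E : Set G)) := by
        refine compEl_of_model (act := fun (g : Equiv.Perm (Fin (2 * m + 1))) v => fun i => v (g⁻¹ i))
          ρ ψV hk1 inf_le_left hVn hactV x1 S₀ (fun a i h0 h1 h2 => ?_) ?_ ?_
        · rw [hx1, Pi.sub_apply]; show _ - _ = 0; rw [hσfix i h0 h1 h2, sub_self]
        · obtain ⟨a, ha⟩ := hsV (Pi.single i3 1 + Pi.single i4 1) (by
            simp only [Pi.add_apply, Finset.sum_add_distrib, Finset.sum_pi_single', Finset.mem_univ, if_true]; exact CharTwo.add_self_eq_zero _)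
          refine ⟨a, fun h => ?_⟩
          rw [ha] at h
          have := h i3 (by simp [i3, i0]) (by simp [i3, i1]) (by simp [i3, i2])
          simp [i3, i4] at this
        · obtain ⟨a, ha⟩ := hsV (Pi.single i0 1 + Pi.single i3 1) (by
            simp only [Pi.add_apply, Finset.sum_add_distrib, Finset.sum_pi_single', Finset.mem_univ, if_true]; exact CharTwo.add_self_eq_zero _)
          refine ⟨a, fun h => ?_⟩
          rw [ha, hx1] at h
          have := congrFun h i0
          have e : σ⁻¹ i0 ≠ i0 ∧ σ⁻¹ i0 ≠ i3 := by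
            have h' : σ⁻¹ i0 = i2 := by
              rw [Equiv.Perm.inv_eq_iff_eq]
              simp only [σ, Equiv.Perm.mul_apply, Equiv.swap_apply_right]
            rw [h']; simp [i0, i2, i3]
          rw [Pi.add_apply] at this
          rw [Pi.single_eq_of_ne e.1, Pi.single_eq_of_ne e.2, Pi.add_apply, Pi.single_eq_same,
            Pi.single_eq_of_ne (show i0 ≠ i3 by simp [i0, i3]), add_zero, add_zero] at this
          exact zero_ne_one this
      exact ⟨hres, hsub, hON, hresO, hve, hirr, hfaith, Or.inl (hQV hQW),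
        Or.inl ⟨isQuasisimple_image _ iso hpc hqs, hcomp⟩⟩

end Cfsg.Agent.Components.BlockPair
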