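import Cfsg.Agent.Components.BlockPairMain

/-!
Two subnormal blocks are equal or commute: conclusion.
-/

set_option autoImplicit false
set_option linter.style.haveILetI false
set_option maxHeartbeats 1000000

open scoped commutatorElement

namespace Cfsg.Agent.Components.BlockPair

variable {G : Type*} [Group G] [Finite G] {p : ℕ} [hp : Fact p.Prime]

theorem Blk.sb {E : Subgroup G} (h : Blk p E)
    (hs : (p = 2 ∨ p = 3) ∧ Small p (5 - p) (3 - p) (Cfsg.pCore p G) E (Vb p E) ⊥ ∧ Nat.card ↥(Vb p E) = p ^ 2) :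
    SB p E := ⟨h.res, h.sub, h.nE, h.resO, hs.1, hs.2.1, hs.2.2⟩

theorem card_conj_inf (E : Subgroup G) (g : G) :
    Nat.card ↥(E.map (MulAut.conj g).toMonoidHom ⊓ Cfsg.pCore p G) = Nat.card ↥(E ⊓ Cfsg.pCore p G) := by
  conv_lhs => rw [← (LocalEven.cj_eq_self_iff.mpr (core_norm (p := p) g) :
    (Cfsg.pCore p G).map (MulAut.conj g).toMonoidHom = Cfsg.pCore p G)]
  rw [← Subgroup.map_inf _ _ _ (MulAut.conj g).injective, Subgroup.card_map_of_injective (MulAut.conj g).injective]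

/-- A small subnormal block is normalized by every other one. -/
theorem small_normalizes (hG : Subgroup.centralizer (Cfsg.pCore p G : Set G) ≤ Cfsg.pCore p G) :
    ∀ (n : ℕ) (E F : Subgroup G), Blk p E → SB p E → SB p F → Nat.card ↥(E ⊔ F) ≤ n →
      F ≤ Subgroup.normalizer (E : Set G) := by
  intro n
  induction n using Nat.strong_induction_on with
  | _ n ih =>
  intro E F hB hE hF hn
  by_cases htop : E = E ⊔ F
  · exact fun f hf => Subgroup.le_normalizer (by rw [htop]; exact Subgroup.mem_sup_right hf)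
  obtain ⟨M, hMn, hEM, hMlt⟩ : ∃ M : Subgroup ↥(E ⊔ F), M.Normal ∧ E.subgroupOf (E ⊔ F) ≤ M ∧ M < ⊤ := by
    rcases (hE.sub.subgroupOf (K := E ⊔ F)).lt_normal with h | ⟨M, h1, h2, h3⟩
    · exact absurd (le_antisymm le_sup_left (Subgroup.subgroupOf_eq_top.mp h)) htop
    · exact ⟨M, h1, h2, h3⟩
  set MG := M.map (E ⊔ F).subtype with hMG
  have hEMG : E ≤ MG := fun e he => ⟨⟨e, Subgroup.mem_sup_left he⟩, hEM he, rfl⟩
  have hMGlt : Nat.card ↥MG < n := by
    refine lt_of_lt_of_le ?_ hn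
    rw [hMG, Subgroup.card_map_of_injective (E ⊔ F).subtype_injective]
    refine lt_of_le_of_ne (Subgroup.card_le_card_group M) fun h => hMlt.ne (Subgroup.eq_top_of_card_eq M h)
  have hconj : ∀ g ∈ E ⊔ F, E.map (MulAut.conj g).toMonoidHom ≤ MG := by
    rintro g hg _ ⟨e, he, rfl⟩
    exact ⟨_, hMn.conj_mem _ (hEM (show (⟨e, Subgroup.mem_sup_left he⟩ : ↥(E ⊔ F)) ∈ E.subgroupOf (E ⊔ F) from he)) ⟨g, hg⟩, rfl⟩
  -- `E` and a conjugate normalize each other
  have hmut : ∀ g ∈ E ⊔ F, E.map (MulAut.conj g).toMonoidHom ≤ Subgroup.normalizer (E : Set G) ∧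
      E ≤ Subgroup.normalizer ((E.map (MulAut.conj g).toMonoidHom : Subgroup G) : Set G) := by
    intro g hg
    have h1 : ∀ x ∈ E ⊔ F, E.map (MulAut.conj x).toMonoidHom ≤ Subgroup.normalizer (E : Set G) := fun x hx =>
      ih _ hMGlt E _ hB hE (hE.map x) (Subgroup.card_le_of_le (sup_le hEMG (hconj x hx)))
    refine ⟨h1 g hg, ?_⟩
    intro e he
    have h2 := h1 g⁻¹ (Subgroup.inv_mem _ hg) (show g⁻¹ * e * g ∈ _ from ⟨e, he, by simp⟩)
    have h3 := norm_conj (g := g) (H := Subgroup.zpowers (g⁻¹ * e * g)) (K := E) (Subgroup.zpowers_le.mpr h2)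
    refine h3 ⟨g⁻¹ * e * g, Subgroup.mem_zpowers _, ?_⟩
    simp [MulAut.conj_apply, mul_assoc]
  refine hF.small.le_of_gen fun f hf hf2 => ?_
  rw [← LocalEven.cj_eq_self_iff]
  show E.map (MulAut.conj f).toMonoidHom = E
  set E1 := E.map (MulAut.conj f).toMonoidHom with hE1
  have hfX : f ∈ E ⊔ F := Subgroup.mem_sup_right hf
  have hsame : ∀ g ∈ E ⊔ F, Vb p E = Vb p (E.map (MulAut.conj g).toMonoidHom) → E.map (MulAut.conj g).toMonoidHom = E :=
    fun g hg h => (eq_of_same hG hB hE (hE.map g) h (hmut g hg).1 (card_conj_inf E g).le).symm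
  rcases pair_small hE (hE.map f) (hmut f hfX).1 (hmut f hfX).2 with h | ⟨hEC, hE1C⟩
  · exact hsame f hfX h
  by_contra hne
  haveI := uz_normal (p := p) (G := G)
  have hVconj : ∀ g : G, Vb p (E.map (MulAut.conj g).toMonoidHom) = (Vb p E).map (MulAut.conj g).toMonoidHom := fun g => by
    show ⁅Uz p G, _⁆ = (⁅Uz p G, E⁆ : Subgroup G).map _
    rw [Subgroup.map_commutator, show (Uz p G).map (MulAut.conj g).toMonoidHom = Uz p G from
      LocalEven.cj_eq_self_iff.mpr (by rw [Subgroup.normalizer_eq_top]; trivial)]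
  have hin : ∀ g v, v ∈ Vb p E → g * v * g⁻¹ ∈ Vb p (E.map (MulAut.conj g).toMonoidHom) := fun g v hv => by
    rw [hVconj]; exact ⟨v, hv, rfl⟩
  have hdisj : ∀ v, v ∈ Vb p E → v ∈ Vb p E1 → v = 1 := fun v hv hv1 =>
    hE.eq_one_of_fixed hv fun e he => (Subgroup.mem_centralizer_iff.mp (hEC he) v hv1).symm
  obtain ⟨u, hu, hu1⟩ := hE.exists_ne
  have hcomm : ∀ {a b : G}, a ∈ Uz p G → b ∈ Uz p G → a * b = b * a := fun ha hb => uz_comm hb (uz_le ha)
  have hU : ∀ {v : G}, v ∈ Vb p E → v ∈ Uz p G := fun h => vb_le_uz E h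
  have hUf : ∀ {g v : G}, v ∈ Uz p G → g * v * g⁻¹ ∈ Uz p G := fun {g v} h =>
    (uz_normal (p := p) (G := G)).conj_mem v h g
  have hVF : ∀ v ∈ Vb p E, f * v * f⁻¹ * v⁻¹ ∈ Vb p F := fun v hv => by
    have := Subgroup.commutator_mem_commutator (Subgroup.inv_mem _ (hU hv)) hf
    have e : f * v * f⁻¹ * v⁻¹ = v * ⁅v⁻¹, f⁆ * v⁻¹ := by rw [commutatorElement_def]; group
    rw [e, commute_of_mem_vb (E := E) hv (vb_le_uz F this), mul_inv_cancel_right]
    exact this
  let φ : ↥(Vb p E) → ↥(Vb p F) := fun v => ⟨f * v * f⁻¹ * (v : G)⁻¹, hVF v v.2⟩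
  have hinj : Function.Injective φ := by
    rintro ⟨a, ha⟩ ⟨b, hb⟩ h
    have h' : f * a * f⁻¹ * a⁻¹ = f * b * f⁻¹ * b⁻¹ := congrArg Subtype.val h
    have h1 : f * (b⁻¹ * a) * f⁻¹ = b⁻¹ * a := by
      calc f * (b⁻¹ * a) * f⁻¹ = (f * b * f⁻¹)⁻¹ * (f * a * f⁻¹ * a⁻¹) * a := by group
        _ = (f * b * f⁻¹)⁻¹ * (f * b * f⁻¹ * b⁻¹) * a := by rw [h']
        _ = b⁻¹ * a := by group
    have h2 : b⁻¹ * a = 1 := hdisj _ (Subgroup.mul_mem _ (Subgroup.inv_mem _ hb) ha) (by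
      rw [← h1]; exact hin f _ (Subgroup.mul_mem _ (Subgroup.inv_mem _ hb) ha))
    exact Subtype.ext (inv_mul_eq_one.mp h2).symm
  have hbij : Function.Bijective φ := (Nat.bijective_iff_injective_and_card φ).mpr ⟨hinj, by rw [hE.card, hF.card]⟩
  set w := f * u * f⁻¹ * u⁻¹ with hw
  obtain ⟨⟨v, hv⟩, hv'⟩ := hbij.2 ⟨f * w * f⁻¹, conj_mem (norm_vb (Subgroup.le_normalizer hf)) (hVF u hu)⟩
  have hv'' : f * v * f⁻¹ * v⁻¹ = f * w * f⁻¹ := congrArg Subtype.val hv'
  set a2 := f * (f * u * f⁻¹) * f⁻¹ with ha2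
  have heq : a2 * v = f * (u * v) * f⁻¹ := by
    have h1 : a2 = f * w * f⁻¹ * (f * u * f⁻¹) := by rw [ha2, hw]; group
    rw [h1, ← hv'', show f * (u * v) * f⁻¹ = (f * u * f⁻¹) * (f * v * f⁻¹) by group]
    have e1 : f * v * f⁻¹ * v⁻¹ * (f * u * f⁻¹) * v = (f * v * f⁻¹) * (v⁻¹ * (f * u * f⁻¹) * v) := by group
    rw [e1, mul_assoc v⁻¹, hcomm (hUf (g := f) (hU hu)) (hU hv), inv_mul_cancel_left,
      hcomm (hUf (g := f) (hU hv)) (hUf (g := f) (hU hu))]
  have hE2 : a2 ∈ Vb p (E.map (MulAut.conj (f * f)).toMonoidHom) := by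
    have := hin (f * f) u hu
    convert this using 1
    rw [ha2]; group
  by_cases h2 : E.map (MulAut.conj (f * f)).toMonoidHom = E
  · rw [h2] at hE2
    have h3 : a2 * v = 1 := hdisj _ (Subgroup.mul_mem _ hE2 hv) (heq ▸ hin f _ (Subgroup.mul_mem _ hu hv))
    have h4 : u * v = 1 := by
      rw [heq] at h3
      simpa [conj_eq_one_iff] using h3
    have h5 : a2 = u := mul_right_cancel (h3.trans h4.symm)
    have hw1 : w ≠ 1 := fun h => hu1 (hdisj u hu (by
      have h6 := hin f u hu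
      rwa [mul_inv_eq_one.mp h] at h6))
    refine hf2 (hF.small.fix (f * f) (F.mul_mem hf hf) w (hVF u hu) (fun hb => hw1 (Subgroup.mem_bot.mp hb)) (Subgroup.mem_bot.mpr ?_))
    have h7 : f * f * w * (f * f)⁻¹ = w := by
      rw [hw]
      calc f * f * (f * u * f⁻¹ * u⁻¹) * (f * f)⁻¹ = f * (f * (f * u * f⁻¹) * f⁻¹) * f⁻¹ * (f * (f * u * f⁻¹) * f⁻¹)⁻¹ := by group
        _ = _ := by rw [← ha2, h5]
    rw [h7, mul_inv_cancel]
  · rcases pair_small hE (hE.map (f * f)) (hmut _ (Subgroup.mul_mem _ hfX hfX)).1 (hmut _ (Subgroup.mul_mem _ hfX hfX)).2 with h | ⟨hC, -⟩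
    · exact h2 (hsame _ (Subgroup.mul_mem _ hfX hfX) h)
    have hv1 : v = 1 := hE.eq_one_of_fixed hv fun e he => by
      have e1 : e * a2 = a2 * e := (Subgroup.mem_centralizer_iff.mp (hC he) a2 hE2).symm
      have e2 : e * (a2 * v) = a2 * v * e := by
        rw [heq]; exact (Subgroup.mem_centralizer_iff.mp (hEC he) _ (hin f _ (Subgroup.mul_mem _ hu hv))).symm
      refine mul_left_cancel (a := a2) ?_
      calc a2 * (e * v) = e * (a2 * v) := by rw [← mul_assoc, ← e1, mul_assoc]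
        _ = a2 * (v * e) := by rw [e2, mul_assoc]
    rw [hv1, mul_one, mul_one] at heq
    have h3 : f * u * f⁻¹ = u := by
      have := heq
      rw [ha2] at this
      exact mul_left_cancel (mul_right_cancel this)
    exact hu1 (hdisj u hu (by rw [← h3]; exact hin f u hu))

/-- Separated mutually normalizing blocks commute, provided no shared exceptional section. -/
theorem final_commute (hG : Subgroup.centralizer (Cfsg.pCore p G : Set G) ≤ Cfsg.pCore p G) {E F : Subgroup G}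
    (hE : Blk p E) (hF : Blk p F) (hFE : F ≤ Subgroup.normalizer (E : Set G))
    (hEF : E ≤ Subgroup.normalizer (F : Set G))
    (hFC : F ≤ Subgroup.centralizer (Vb p E : Set G)) (hEC : E ≤ Subgroup.centralizer (Vb p F : Set G)) :
    ⁅E, F⁆ = ⊥ := by
  set O := Cfsg.pCore p G with hO
  set Q := E ⊓ O with hQ
  have hc : ∀ e ∈ E, ∀ f ∈ F, f * e * f⁻¹ * e⁻¹ ∈ Q ∧ f * e * f⁻¹ * e⁻¹ ∈ F := by
    intro e he f hf
    have h1 : f * e * f⁻¹ * e⁻¹ ∈ E := E.mul_mem (conj_mem (hFE hf) he) (E.inv_mem he)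
    have h2 : f * e * f⁻¹ * e⁻¹ ∈ F := by
      have := F.mul_mem hf (conj_mem (hEF he) (F.inv_mem hf))
      simpa [mul_assoc] using this
    exact ⟨⟨h1, hE.faith _ h1 fun v hv => (Subgroup.mem_centralizer_iff.mp (hFC h2) v hv).symm⟩, h2⟩
  suffices hQF : ∀ f ∈ F, (orderOf f).Coprime p → ∀ a ∈ Q, f * a = a * f by
    rw [Subgroup.commutator_comm, Subgroup.commutator_eq_bot_iff_le_centralizer]
    refine Block.le_of_coprime_mem hF.res fun f hf hcop => Subgroup.mem_centralizer_iff.mpr fun e he => ?_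
    obtain ⟨j, hj⟩ := Core.isPGroup_pCore p G ⟨_, (hc e he f hf).1.2⟩
    refine (commute_of_fixed_commutator (pow_orderOf_eq_one f) hcop ?_ (by simpa using congrArg Subtype.val hj)).symm
    rw [hQF f hf hcop _ (hc e he f hf).1, mul_inv_cancel_right]
  rcases hE.exc with h | ⟨W, Z, hX⟩
  · intro f hf _ a ha
    exact (Subgroup.mem_centralizer_iff.mp (hFC hf) a (h.le ha)).symm
  have hp3 := hX.p3
  subst hp3
  have hnW : ∀ {x}, x ∈ Subgroup.normalizer (E : Set G) → x ∈ Subgroup.normalizer (W : Set G) :=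
    fun h => hX.nW (norm_inf h)
  have hQW : Q ≤ Subgroup.normalizer (W : Set G) := Subgroup.le_normalizer.trans hX.nW
  have hfQ : ∀ {f}, f ∈ F → f ∈ Subgroup.normalizer (Q : Set G) := fun h => norm_inf (hFE h)
  have heQ : ∀ {e}, e ∈ E → e ∈ Subgroup.normalizer (Q : Set G) := fun h => norm_inf (Subgroup.le_normalizer h)
  set D := ⁅Q, F⁆ with hD
  by_cases hDW : D ≤ W
  · intro f hf hcop
    have hfa : ∀ a ∈ Q, f * a * f⁻¹ * a⁻¹ ∈ W := fun a ha => by
      have := hDW (Subgroup.commutator_mem_commutator ha hf)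
      rw [commutatorElement_def] at this
      have h2 := W.inv_mem this
      simpa [mul_assoc] using h2
    have hfZ : Z ≤ Subgroup.centralizer ({f} : Set G) := by
      rw [← hX.comm]
      refine Subgroup.commutator_le.mpr fun a ha b hb => Subgroup.mem_centralizer_singleton_iff.mpr ?_
      have key : f * ⁅a, b⁆ * f⁻¹ = ⁅a, b⁆ := by
        rw [← MulAut.conj_apply, map_commutatorElement, MulAut.conj_apply, MulAut.conj_apply,
          show f * a * f⁻¹ = (f * a * f⁻¹ * a⁻¹) * a by group, show f * b * f⁻¹ = (f * b * f⁻¹ * b⁻¹) * b by group]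
        have ha' := hfa a ha
        have hb' := hfa b hb
        generalize f * a * f⁻¹ * a⁻¹ = w at ha' ⊢
        generalize f * b * f⁻¹ * b⁻¹ = w' at hb' ⊢
        have e1 := hX.Wc w ha' _ (Q.mul_mem (Q.mul_mem ha (Q.mul_mem (hX.Wle hb') hb)) (Q.inv_mem ha))
        have e2 := hX.Wc w' hb' a ha
        rw [commutatorElement_def, commutatorElement_def]
        calc w * a * (w' * b) * (w * a)⁻¹ * (w' * b)⁻¹ = (w * (a * (w' * b) * a⁻¹)) * w⁻¹ * b⁻¹ * w'⁻¹ := by group
          _ = a * (w' * b) * a⁻¹ * b⁻¹ * w'⁻¹ := by rw [e1]; group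
          _ = (a * w') * b * a⁻¹ * b⁻¹ * w'⁻¹ := by group
          _ = w' * (a * b * a⁻¹ * b⁻¹) * w'⁻¹ := by rw [← e2]; group
          _ = _ := by rw [hX.Wc w' hb' _ (Q.mul_mem (Q.mul_mem (Q.mul_mem ha hb) (Q.inv_mem ha)) (Q.inv_mem hb)), mul_inv_cancel_right]
      calc ⁅a, b⁆ * f = (f * ⁅a, b⁆ * f⁻¹) * f := by rw [key]
        _ = f * ⁅a, b⁆ := by group
    have hfW : W ≤ Subgroup.centralizer ({f} : Set G) := hX.WVZ.trans (sup_le
      (fun v hv => Subgroup.mem_centralizer_singleton_iff.mpr (Subgroup.mem_centralizer_iff.mp (hFC hf) v hv)) hfZ)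
    intro a ha
    exact commute_of_fixed_commutator (j := 1) (pow_orderOf_eq_one f) hcop
      (by rw [← Subgroup.mem_centralizer_singleton_iff.mp (hfW (hfa a ha)), mul_inv_cancel_right])
      (by rw [pow_one]; exact hX.Wexp _ (hfa a ha))
  exfalso
  have hDQ : D ≤ Q := Subgroup.le_normalizer_iff_commutator_le_left.mp fun f hf => hfQ hf
  have hDF : D ≤ F := by
    refine Subgroup.le_normalizer_iff_commutator_le_right.mp ?_
    exact (inf_le_left : Q ≤ E).trans hEF
  have hED : E ≤ Subgroup.normalizer (D : Set G) := fun e he => by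
    rw [← LocalEven.cj_eq_self_iff]
    show (⁅Q, F⁆ : Subgroup G).map (MulAut.conj e).toMonoidHom = _
    rw [Subgroup.map_commutator]
    congr 1
    · exact LocalEven.cj_eq_self_iff.mpr (heQ he)
    · exact LocalEven.cj_eq_self_iff.mpr (hEF he)
  have hFD : F ≤ Subgroup.normalizer (D : Set G) := Block.right_le_normalizer_commutator Q F
  have hQD : Q ≤ D ⊔ W := hX.irrS D hDQ hED hDW
  have hDn : D ≤ Subgroup.normalizer (W : Set G) := hDQ.trans hQW
  have hdec : ∀ a ∈ Q, ∃ d ∈ D, ∃ w ∈ W, a = d * w := fun a ha => by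
    have h := hQD ha
    rw [← SetLike.mem_coe, Subgroup.coe_mul_of_left_le_normalizer_right D W hDn] at h
    obtain ⟨d, hd, w, hw, rfl⟩ := h
    exact ⟨d, hd, w, hw, rfl⟩
  -- some element of `E` moves the section
  obtain ⟨e₀, he₀, a₀, ha₀, hmove⟩ : ∃ e ∈ E, ∃ a ∈ Q, ⁅a, e⁆ ∉ W := by
    rcases hX.actS with ⟨⟨e, he, ⟨a, ha, h⟩, -⟩, -⟩ | ⟨hs, -⟩
    · exact ⟨e, he, a, ha, h⟩
    · obtain ⟨e, he, he2⟩ := hs.exists_gen
      obtain ⟨u, hu, huW⟩ : ∃ u ∈ Q, u ∉ W := by
        by_contra hcon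
        push Not at hcon
        exact hs.nc 1 Q.one_mem fun a ha => Subgroup.mem_sup_right (hcon a ha)
      refine ⟨e, he, u, hu, fun h => he2 ?_⟩
      have h1 := hs.fix e he u hu huW (by
        have h2 := W.inv_mem h
        rw [commutatorElement_def] at h2
        simpa [mul_assoc] using h2)
      exact O.mul_mem h1 h1
  obtain ⟨d₀, hd₀, w₀, hw₀, rfl⟩ := hdec a₀ ha₀
  have hmove' : ⁅d₀, e₀⁆ ∉ W := fun h => hmove (by
    have h1 : ⁅w₀, e₀⁆ ∈ W := by
      rw [commutatorElement_def, mul_assoc, mul_assoc, ← mul_assoc e₀]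
      exact W.mul_mem hw₀ (conj_mem (hnW (Subgroup.le_normalizer he₀)) (W.inv_mem hw₀))
    rw [show ⁅d₀ * w₀, e₀⁆ = d₀ * ⁅w₀, e₀⁆ * d₀⁻¹ * ⁅d₀, e₀⁆ by simp only [commutatorElement_def]; group]
    exact W.mul_mem (conj_mem (hDn hd₀) h1) h)
  rcases hF.exc with h | ⟨W', Z', hY⟩
  · have h1 : d₀ ∈ Vb 3 F := h.le ⟨hDF hd₀, (hDQ hd₀).2⟩
    refine hmove' ?_
    rw [commutatorElement_eq_one_iff_mul_comm.mpr (Subgroup.mem_centralizer_iff.mp (hEC he₀) d₀ h1)]
    exact W.one_mem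
  have hDQ' : D ≤ F ⊓ O := le_inf hDF fun d hd => (hDQ hd).2
  have hQW' : F ⊓ O ≤ Subgroup.normalizer (W' : Set G) := Subgroup.le_normalizer.trans hY.nW
  have hDW' : ¬ D ≤ W' := fun h => by
    apply hX.Zne
    rw [← hX.comm, Subgroup.commutator_eq_bot_iff_le_centralizer]
    intro a ha
    refine Subgroup.mem_centralizer_iff.mpr fun b hb => ?_
    obtain ⟨d, hd, w, hw, rfl⟩ := hdec a ha
    obtain ⟨d', hd', w', hw', rfl⟩ := hdec b hb
    have e1 : d' * d = d * d' := hY.Wc d' (h hd') d (hDQ' hd)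
    have e2 := hX.Wc w' hw' _ (Q.mul_mem (hDQ hd) (hX.Wle hw))
    have e3 := hX.Wc w hw d' (hDQ hd')
    calc d' * w' * (d * w) = d' * (w' * (d * w)) := by group
      _ = (d' * d) * w * w' := by rw [e2]; group
      _ = d * (d' * w) * w' := by rw [e1]; group
      _ = d * (w * d') * w' := by rw [e3]
      _ = d * w * (d' * w') := by group
  have hQD' : F ⊓ O ≤ D ⊔ W' := hY.irrS D hDQ' hFD hDW'
  have hDn' : D ≤ Subgroup.normalizer (W' : Set G) := hDQ'.trans hQW'
  have hdec' : ∀ a ∈ F ⊓ O, ∃ d ∈ D, ∃ w ∈ W', a = d * w := fun a ha => by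
    have h := hQD' ha
    rw [← SetLike.mem_coe, Subgroup.coe_mul_of_left_le_normalizer_right D W' hDn'] at h
    obtain ⟨d, hd, w, hw, rfl⟩ := h
    exact ⟨d, hd, w, hw, rfl⟩
  have hWW : ∀ x ∈ D, x ∈ W' → x ∈ W := fun x hx hx' => by
    refine hX.Wmax x (hDQ hx) (hY.Wexp x hx') fun a ha => ?_
    obtain ⟨d, hd, w, hw, rfl⟩ := hdec a ha
    rw [← mul_assoc, hY.Wc x hx' d (hDQ' hd), mul_assoc, ← hX.Wc w hw x (hDQ hx), mul_assoc]
  have hWW' : ∀ x ∈ D, x ∈ W → x ∈ W' := fun x hx hx' => by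
    refine hY.Wmax x (hDQ' hx) (hX.Wexp x hx') fun a ha => ?_
    obtain ⟨d, hd, w, hw, rfl⟩ := hdec' a ha
    rw [← mul_assoc, hX.Wc x hx' d (hDQ hd), mul_assoc, ← hY.Wc w hw x (hDQ' hx), mul_assoc]
  -- a proper invariant image is impossible
  have comp_contra : ∀ (A B : Subgroup G) (WA ZA WB ZB : Subgroup G), Exc 3 A WA ZA → Exc 3 B WB ZB →
      (B ≤ Subgroup.normalizer (A : Set G)) → (A ≤ Subgroup.normalizer (D : Set G)) →
      (B ≤ Subgroup.normalizer (D : Set G)) → D ≤ A ⊓ O → D ≤ B ⊓ O → A ⊓ O ≤ D ⊔ WA → B ⊓ O ≤ D ⊔ WB →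
      (∀ x ∈ D, x ∈ WB → x ∈ WA) → (∀ a ∈ A, ∀ b ∈ B, b * a * b⁻¹ * a⁻¹ ∈ A ⊓ O) →
      CompEl A (A ⊓ O) WA → False := by
    intro A B WA ZA WB ZB hA hB hBA hAD hBD hDA hDB hAdec hBdec hsub hcomm ⟨e, he, ⟨a, ha, hae⟩, hproper⟩
    set M0 := Subgroup.closure {y | ∃ a ∈ A ⊓ O, y = ⁅a, e⁆} ⊔ WA with hM0
    have heW : e ∈ Subgroup.normalizer (WA : Set G) := hA.nW (norm_inf (Subgroup.le_normalizer he))
    have hM0D : B ≤ Subgroup.normalizer ((M0 ⊓ D : Subgroup G) : Set G) := by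
      intro f hf
      rw [← LocalEven.cj_eq_self_iff]
      refine Subgroup.eq_of_le_of_card_ge ?_ (LocalEven.card_cj _ _).ge
      rintro _ ⟨m, hm, rfl⟩
      refine ⟨?_, conj_mem (hBD hf) hm.2⟩
      refine closure_comm_invariant (x := e⁻¹ * (f * e * f⁻¹)) (norm_inf (hBA hf)) (hA.nW (norm_inf (hBA hf))) heW
        (by group) (fun c hcQ => ?_) hm.1
      have h1 := hcomm e he f hf
      have h2 : e⁻¹ * (f * e * f⁻¹) ∈ A ⊓ O := by
        have h3 := conj_mem (norm_inf (Subgroup.le_normalizer (A.inv_mem he))) h1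
        convert h3 using 1
        group
      exact hA.ZW (hA.comm.le (Subgroup.commutator_mem_commutator hcQ h2))
    have hdW : D ≤ Subgroup.normalizer (WA : Set G) := hDA.trans (Subgroup.le_normalizer.trans hA.nW)
    have hnot : ¬ M0 ⊓ D ≤ WB := by
      intro h
      have ha' := hAdec ha
      rw [← SetLike.mem_coe, Subgroup.coe_mul_of_left_le_normalizer_right D WA hdW] at ha'
      obtain ⟨d, hd, w, hw, rfl⟩ := ha'
      apply hae
      have h1 : ⁅w, e⁆ ∈ WA := by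
        rw [commutatorElement_def, mul_assoc, mul_assoc, ← mul_assoc e]
        exact WA.mul_mem hw (conj_mem heW (WA.inv_mem hw))
      rw [show ⁅d * w, e⁆ = d * ⁅w, e⁆ * d⁻¹ * ⁅d, e⁆ by simp only [commutatorElement_def]; group]
      refine WA.mul_mem (conj_mem (hdW hd) h1) ?_
      have h2 : ⁅d, e⁆ ∈ D := by
        rw [commutatorElement_def, mul_assoc, mul_assoc, ← mul_assoc e]
        exact D.mul_mem hd (conj_mem (hAD he) (D.inv_mem hd))
      exact hsub _ h2 (h ⟨Subgroup.mem_sup_left (Subgroup.subset_closure ⟨d, hDA hd, rfl⟩), h2⟩)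
    have hall := hB.irrS (M0 ⊓ D) (inf_le_right.trans hDB) hM0D hnot
    apply hproper
    refine hAdec.trans (sup_le (fun d hd => ?_) le_sup_right)
    have h := hall (hDB hd)
    rw [← SetLike.mem_coe, Subgroup.coe_mul_of_left_le_normalizer_right _ WB
      ((inf_le_right.trans hDB).trans (Subgroup.le_normalizer.trans hB.nW))] at h
    obtain ⟨m, hm, w, hw, hmw⟩ := h
    have hwD : w ∈ D := by
      have : w = m⁻¹ * d := by rw [← hmw]; group
      rw [this]; exact D.mul_mem (D.inv_mem hm.2) hd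
    rw [← hmw]
    exact Subgroup.mul_mem _ hm.1 (Subgroup.mem_sup_right (hsub w hwD hw))
  have hcE : ∀ a ∈ E, ∀ b ∈ F, b * a * b⁻¹ * a⁻¹ ∈ E ⊓ O := fun a ha b hb => (hc a ha b hb).1
  have hcF : ∀ a ∈ F, ∀ b ∈ E, b * a * b⁻¹ * a⁻¹ ∈ F ⊓ O := fun a ha b hb => by
    have h := hc b hb a ha
    have e : b * a * b⁻¹ * a⁻¹ = (a * b * a⁻¹ * b⁻¹)⁻¹ := by group
    rw [e]
    exact ⟨F.inv_mem h.2, O.inv_mem h.1.2⟩
  rcases hX.actS with ⟨hcomp, -⟩ | ⟨hs, -⟩
  · exact comp_contra E F W Z W' Z' hX hY hFE hED hFD hDQ hDQ' hQD hQD' hWW hcE hcomp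
  rcases hY.actS with ⟨hcomp, -⟩ | ⟨hs', -⟩
  · exact comp_contra F E W' Z' W Z hY hX hEF hFD hED hDQ' hDQ hQD' hQD hWW' hcF hcomp
  -- two small sections
  obtain ⟨u, hu, huW⟩ := SetLike.not_le_iff_exists.mp hDW
  obtain ⟨f, hf, hf2⟩ := hs'.exists_gen
  have huW' : u ∉ W' := fun h => huW (hWW u hu h)
  set w := f * u * f⁻¹ with hwdef
  have hwD : w ∈ D := conj_mem (hFD hf) hu
  have hfW : f ∈ Subgroup.normalizer (W : Set G) := hnW (hFE hf)
  have hwW : w ∉ W := fun h => huW (conj_mem' hfW h)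
  obtain ⟨e, he, heq, hsm⟩ := hs.trans u (hDQ hu) huW w (hDQ hwD) hwW
  have he2 : e * e ∉ O := fun h => by
    have hw := hsm h
    set M := ((Subgroup.zpowers u ⊔ W) ⊓ D) ⊔ W'
    have hle := hs'.two f hf hf2 u (hDQ' hu) huW' M le_sup_right
      (Subgroup.mem_sup_left ⟨Subgroup.mem_sup_left (Subgroup.mem_zpowers u), hu⟩)
      (Subgroup.mem_sup_left ⟨hw, hwD⟩)
    refine hs.nc u (hDQ hu) (hQD.trans (sup_le (fun d hd => ?_) le_sup_right))
    have hd' := hle (hDQ' hd)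
    rw [← SetLike.mem_coe, Subgroup.coe_mul_of_left_le_normalizer_right _ W' (inf_le_right.trans hDn')] at hd'
    obtain ⟨m, hm, x, hx, hmx⟩ := hd'
    have hxD : x ∈ D := by
      have : x = m⁻¹ * d := by rw [← hmx]; group
      rw [this]; exact D.mul_mem (D.inv_mem hm.2) hd
    rw [← hmx]
    exact Subgroup.mul_mem _ hm.1 (Subgroup.mem_sup_right (hWW x hxD hx))
  have h1 : f * w * f⁻¹ * u ∈ W := hWW _ (D.mul_mem (conj_mem (hFD hf) hwD) hu) (by
    simpa using hs'.sq f hf hf2 u (hDQ' hu))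
  have h2 : e * (e * u * e⁻¹) * e⁻¹ * u ∈ W := by simpa using hs.sq e he he2 u (hDQ hu)
  have hKu : Cong W w (e * u * e⁻¹) := by
    have h := conj_mem (hQW (conj_mem (heQ he) (hDQ hu))) heq
    show _ ∈ W
    convert h using 1
    group
  have hKw : Cong W (f * w * f⁻¹) (e * w * e⁻¹) := by
    have h3 : Cong W (f * w * f⁻¹) (e * (e * u * e⁻¹) * e⁻¹) := by
      show _ ∈ W
      have := W.mul_mem h1 (W.inv_mem h2)
      convert this using 1
      group
    exact h3.trans (Cong.conj (hnW (Subgroup.le_normalizer he)) hKu).symm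
  set K := agree Q W hQW e f (fun a ha => conj_mem (heQ he) ha) with hK
  have hWK : W ≤ K := le_agree_of_bot (fun b hb => conj_mem hfW hb)
    (fun b hb => conj_mem (hnW (Subgroup.le_normalizer he)) hb) hX.Wle
  have hmemw : w ∈ K := mem_agree.mpr ⟨hDQ hwD, hKw⟩
  have heu : e * u * e⁻¹ ∈ K := by
    have h3 : e * u * e⁻¹ = (w * (e * u * e⁻¹)⁻¹)⁻¹ * w := by group
    rw [h3]
    exact K.mul_mem (K.inv_mem (hWK hKu)) hmemw
  have hall := hs.two e he he2 u (hDQ hu) huW K hWK (mem_agree.mpr ⟨hDQ hu, hKu⟩) heu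
  rcases hs.nab with h0 | hn
  · exact zero_ne_one h0
  obtain ⟨g, hg, a, ha, hne⟩ := hn e he he2
  apply hne
  have hga := conj_mem (heQ hg) ha
  have c1 : Cong W (e * (g * a * g⁻¹) * e⁻¹) (f * (g * a * g⁻¹) * f⁻¹) := Cong.symm (mem_agree.mp (hall hga)).2
  have c2 : Cong W (f * (g * a * g⁻¹) * f⁻¹) (g * (f * a * f⁻¹) * g⁻¹) := by
    have hc1 : f * g * f⁻¹ * g⁻¹ ∈ Q := (hc g hg f hf).1
    have hy : g * (f * a * f⁻¹) * g⁻¹ ∈ Q := conj_mem (heQ hg) (conj_mem (hfQ hf) ha)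
    have := hX.ZW (hX.comm.le (Subgroup.commutator_mem_commutator hc1 hy))
    show _ ∈ W
    rw [commutatorElement_def] at this
    convert this using 1
    group
  have c3 : Cong W (g * (f * a * f⁻¹) * g⁻¹) (g * (e * a * e⁻¹) * g⁻¹) :=
    Cong.conj (hnW (Subgroup.le_normalizer hg)) (mem_agree.mp (hall ha)).2
  exact (c1.trans c2).trans c3

/-- Mutually normalizing blocks, one of component type, are separated. -/
theorem sep_of_comp {E F : Subgroup G} (hE : Blk p E) (hF : Blk p F)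
    (hFE : F ≤ Subgroup.normalizer (E : Set G)) (hEF : E ≤ Subgroup.normalizer (F : Set G))
    (hO : ∀ e ∈ E, ∀ f ∈ F, e⁻¹ * (f * e * f⁻¹) ∈ Cfsg.pCore p G)
    (hcomp : CompEl E (Vb p E) (Vb p E ⊓ Subgroup.centralizer (E : Set G))) :
    F ≤ Subgroup.centralizer (Vb p E : Set G) ∧ E ≤ Subgroup.centralizer (Vb p F : Set G) := by
  haveI := uz_normal (p := p) (G := G)
  -- either centralizes or the module is contained
  have key : ∀ A B : Subgroup G, Blk p A → B ≤ Subgroup.normalizer (A : Set G) → A ≤ Subgroup.normalizer (B : Set G) →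
      (∀ a ∈ A, ∀ b ∈ B, ∀ v ∈ Vb p A, a * b * a⁻¹ * b⁻¹ * v = v * (a * b * a⁻¹ * b⁻¹)) →
      B ≤ Subgroup.centralizer (Vb p A : Set G) ∨ Vb p A ≤ Vb p B := by
    intro A B hA hBA hAB hcen
    set M := ⁅Vb p A, B⁆
    have hMA : M ≤ Vb p A := Subgroup.le_normalizer_iff_commutator_le_left.mp fun b hb => norm_vb (hBA hb)
    have hMB : M ≤ Vb p B := Subgroup.commutator_mono (vb_le_uz A) le_rfl
    by_cases hM : M ≤ Subgroup.centralizer (A : Set G)
    · left
      have h1 : ⁅⁅A, B⁆, Vb p A⁆ = ⊥ := by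
        rw [Subgroup.commutator_eq_bot_iff_le_centralizer]
        exact Subgroup.commutator_le.mpr fun a ha b hb => Subgroup.mem_centralizer_iff.mpr fun v hv => (hcen a ha b hb v hv).symm
      have h2 : ⁅⁅B, Vb p A⁆, A⁆ = ⊥ := by
        rw [Subgroup.commutator_comm B, Subgroup.commutator_eq_bot_iff_le_centralizer]; exact hM
      have h3 := Subgroup.commutator_commutator_eq_bot_of_rotate (H₁ := Vb p A) (H₂ := A) (H₃ := B) h1 h2
      rw [hA.ve] at h3
      exact Subgroup.le_centralizer_iff.mp (Subgroup.commutator_eq_bot_iff_le_centralizer.mp h3)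
    · right
      refine (hA.irr M hMA (fun a ha => ?_) hM).trans hMB
      rw [← LocalEven.cj_eq_self_iff]
      show (⁅Vb p A, B⁆ : Subgroup G).map (MulAut.conj a).toMonoidHom = _
      rw [Subgroup.map_commutator]
      congr 1
      · exact LocalEven.cj_eq_self_iff.mpr (norm_vb (Subgroup.le_normalizer ha))
      · exact LocalEven.cj_eq_self_iff.mpr (hAB ha)
  have hcen : ∀ e ∈ E, ∀ f ∈ F, ∀ A : Subgroup G, ∀ v ∈ Vb p A,
      e * f * e⁻¹ * f⁻¹ * v = v * (e * f * e⁻¹ * f⁻¹) := fun e he f hf A v hv => by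
    refine uz_comm (vb_le_uz A hv) ?_
    have := hO e⁻¹ (E.inv_mem he) f hf
    convert this using 1
    group
  have hFEne : ∀ A : Subgroup G, Blk p A → Vb p A ≠ ⊥ → ¬ A ≤ Subgroup.centralizer (Vb p A : Set G) := fun A hA hne h =>
    hne (by rw [← hA.ve, Subgroup.commutator_eq_bot_iff_le_centralizer]; exact Subgroup.le_centralizer_iff.mp h)
  have hVne : ∀ A : Subgroup G, Blk p A → ∀ B : Subgroup G, ¬ B ≤ Subgroup.centralizer (Vb p A : Set G) → Vb p A ≠ ⊥ := fun A _ B h e =>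
    h (fun x _ => Subgroup.mem_centralizer_iff.mpr fun v hv => by rw [e] at hv; rw [Subgroup.mem_bot.mp hv, one_mul, mul_one])
  obtain ⟨e, he, ⟨a, ha, hae⟩, hproper⟩ := hcomp
  have hEne : Vb p E ≠ ⊥ := fun h => hae (by
    rw [h] at ha
    rw [Subgroup.mem_bot.mp ha, commutatorElement_one_left]
    exact Subgroup.one_mem _)
  have hcen' : ∀ b ∈ F, ∀ x ∈ E, ∀ v ∈ Vb p F, b * x * b⁻¹ * x⁻¹ * v = v * (b * x * b⁻¹ * x⁻¹) := fun b hb x hx v hv => by
    refine uz_comm (vb_le_uz F hv) ?_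
    have h := conj_mem (core_norm x) (hO x hx b hb)
    convert h using 1
    group
  by_cases hEq : F ≤ Subgroup.centralizer (Vb p E : Set G) ∧ E ≤ Subgroup.centralizer (Vb p F : Set G)
  · exact hEq
  exfalso
  have hV : Vb p E = Vb p F := by
    rcases key E F hE hFE hEF (fun x hx y hy v hv => hcen x hx y hy E v hv) with h1 | h1
    · rcases key F E hF hEF hFE hcen' with h2 | h2
      · exact absurd ⟨h1, h2⟩ hEq
      · exfalso
        -- `V_F ≤ V_E` is centralized by `F`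
        refine hFEne F hF (hVne F hF E ?_) (h1.trans (Subgroup.centralizer_le h2))
        intro h; exact hEq ⟨h1, h⟩
    · rcases key F E hF hEF hFE hcen' with h2 | h2
      · exact absurd (h2.trans (Subgroup.centralizer_le h1)) (hFEne E hE hEne)
      · exact le_antisymm h1 h2
  set B := Vb p E ⊓ Subgroup.centralizer (E : Set G) with hB
  set M := Subgroup.closure {y | ∃ a ∈ Vb p E, y = ⁅a, e⁆} ⊔ B with hM
  have hMV : M ≤ Vb p F := by
    rw [← hV]
    refine sup_le ((Subgroup.closure_le _).mpr ?_) inf_le_left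
    rintro _ ⟨x, hx, rfl⟩
    exact hE.ve.le (Subgroup.commutator_mem_commutator hx he)
  have hFB : F ≤ Subgroup.normalizer (B : Set G) := fun f hf =>
    Subgroup.inf_normalizer_le_normalizer_inf ⟨norm_vb (hFE hf), LocalEven.normalizer_le_normalizer_cent E (hFE hf)⟩
  have heB : e ∈ Subgroup.normalizer (B : Set G) :=
    Subgroup.inf_normalizer_le_normalizer_inf ⟨norm_vb (Subgroup.le_normalizer he), LocalEven.normalizer_le_normalizer_cent E (Subgroup.le_normalizer he)⟩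
  have hFM : F ≤ Subgroup.normalizer (M : Set G) := fun f hf => by
    rw [← LocalEven.cj_eq_self_iff]
    refine Subgroup.eq_of_le_of_card_ge ?_ (LocalEven.card_cj _ _).ge
    rintro _ ⟨m, hm, rfl⟩
    refine closure_comm_invariant (x := e⁻¹ * (f * e * f⁻¹)) (norm_vb (hFE hf)) (hFB hf) heB (by group) (fun c hc => ?_) hm
    rw [commutatorElement_eq_one_iff_mul_comm.mpr (uz_comm (vb_le_uz E hc) (hO e he f hf)).symm]
    exact B.one_mem
  by_cases hMC : M ≤ Subgroup.centralizer (F : Set G)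
  · -- then `e` centralizes `[V, F] = V`
    have hfix : ∀ v ∈ Vb p E, ∀ f ∈ F, e * ⁅v, f⁆ = ⁅v, f⁆ * e := by
      intro v hv f hf
      have hm : ⁅v, e⁆ ∈ M := Subgroup.mem_sup_left (Subgroup.subset_closure ⟨v, hv, rfl⟩)
      have h1 : f * ⁅v, e⁆ = ⁅v, e⁆ * f := Subgroup.mem_centralizer_iff.mp (hMC hm) f hf
      set x := e⁻¹ * (f * e * f⁻¹) with hx
      have hxO := hO e he f hf
      set v' := f * v * f⁻¹ with hv'
      have hv'V : v' ∈ Vb p E := conj_mem (norm_vb (hFE hf)) hv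
      have h2 : ⁅v', e⁆ = ⁅v, e⁆ := by
        have h3 : f * ⁅v, e⁆ * f⁻¹ = ⁅v', e⁆ * (e * ⁅v', x⁆ * e⁻¹) := by
          rw [← MulAut.conj_apply, map_commutatorElement, MulAut.conj_apply, MulAut.conj_apply, ← hv',
            show f * e * f⁻¹ = e * x by rw [hx]; group]
          simp only [commutatorElement_def]; group
        rw [commutatorElement_eq_one_iff_mul_comm.mpr (uz_comm (vb_le_uz E hv'V) hxO).symm, mul_one, mul_inv_cancel, mul_one,
          h1, mul_inv_cancel_right] at h3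
        exact h3.symm
      rw [commutatorElement_def, commutatorElement_def] at h2
      -- `v'⁻¹ v` is fixed by `e`
      have h4 : v' * e * v'⁻¹ = v * e * v⁻¹ := mul_right_cancel h2
      have h5 : (v⁻¹ * v') * e = e * (v⁻¹ * v') := by
        calc v⁻¹ * v' * e = v⁻¹ * (v' * e * v'⁻¹) * v' := by group
          _ = e * (v⁻¹ * v') := by rw [h4]; group
      have h6 : ⁅v, f⁆ = (v⁻¹ * v')⁻¹ := by
        have hc : v * v'⁻¹ = v'⁻¹ * v := commute_of_mem_vb hv (vb_le_uz E (Subgroup.inv_mem _ hv'V))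
        rw [commutatorElement_def, mul_inv_rev, inv_inv, ← hc, hv']
        group
      rw [h6]
      exact ((Commute.symm (h5 : Commute (v⁻¹ * v') e)).inv_right).eq
    apply hae
    have hle : Vb p E ≤ Subgroup.centralizer ({e} : Set G) := by
      conv_lhs => rw [hV, ← hF.ve, ← hV]
      exact Subgroup.commutator_le.mpr fun v hv f hf => Subgroup.mem_centralizer_singleton_iff.mpr (hfix v hv f hf).symm
    rw [commutatorElement_eq_one_iff_mul_comm.mpr (Subgroup.mem_centralizer_singleton_iff.mp (hle ha))]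
    exact B.one_mem
  · exact hproper (hV ▸ hF.irr M hMV hFM hMC)

/-- Two subnormal blocks are equal or commute. -/
theorem blocks_eq_or_commute (hG : Subgroup.centralizer (Cfsg.pCore p G : Set G) ≤ Cfsg.pCore p G) {E F : Subgroup G}
    (hE : Blk p E) (hF : Blk p F) : E = F ∨ ⁅E, F⁆ = ⊥ := by
  haveI hOn : (Cfsg.pCore p G).Normal := Cfsg.pCore_normal p G
  set O := Cfsg.pCore p G with hO
  let π := QuotientGroup.mk' O
  -- component type
  have comp : ∀ A B : Subgroup G, Blk p A → Blk p B → Cfsg.IsQuasisimple ↥(A.map π) →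
      CompEl A (Vb p A) (Vb p A ⊓ Subgroup.centralizer (A : Set G)) → A = B ∨ ⁅A, B⁆ = ⊥ := by
    intro A B hA hB hq hcA
    have hcompA : Cfsg.IsComponent (A.map π) := ⟨hA.sub.map (QuotientGroup.mk'_surjective O), hq⟩
    have hsnB : (B.map π).IsSubnormal := hB.sub.map (QuotientGroup.mk'_surjective O)
    have hle : ∀ X Y : Subgroup G, Blk p X → Blk p Y → X.map π ≤ Y.map π → X ≤ Y := by
      intro X Y hX hY h
      rw [← hX.res, ← hY.resO]
      refine residual_mono ?_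
      intro x hx
      obtain ⟨y, hy, he⟩ := h ⟨x, hx, rfl⟩
      have h1 : y⁻¹ * x ∈ O := (QuotientGroup.eq).mp he
      simpa using Subgroup.mul_mem _ (Subgroup.mem_sup_left (T := O) hy) (Subgroup.mem_sup_right (S := Y) h1)
    rcases component_le_or_commutator_subnormal hcompA hsnB with h | h
    · left
      rcases hB.kind with ⟨hqB, -⟩ | hsB
      · have heq := component_eq_of_le hcompA ⟨hsnB, hqB⟩ h
        exact le_antisymm (hle A B hA hB heq.le) (hle B A hB hA heq.ge)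
      · exfalso
        refine component_not_le_solvable hcompA ?_ h
        haveI := Fact.mk (show (5 - p).Prime by rcases hsB.1 with rfl | rfl <;> norm_num)
        refine Coprime.isSolvable_of_isPGroup (p := 5 - p) ?_
        rintro ⟨_, x, hx, rfl⟩
        refine ⟨2, Subtype.ext ?_⟩
        simpa [π] using (QuotientGroup.eq_one_iff _).mpr (hsB.2.1.pow x hx)
    · have hc : ∀ a ∈ A, ∀ b ∈ B, a * b * a⁻¹ * b⁻¹ ∈ O := fun a ha b hb => by
        have h1 := h.le (Subgroup.commutator_mem_commutator (Subgroup.mem_map_of_mem π ha) (Subgroup.mem_map_of_mem π hb))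
        rw [← map_commutatorElement, Subgroup.mem_bot] at h1
        exact (QuotientGroup.eq_one_iff _).mp h1
      have hn : ∀ X Y : Subgroup G, Blk p X → (∀ x ∈ X, ∀ y ∈ Y, x⁻¹ * (y * x * y⁻¹) ∈ O) →
          Y ≤ Subgroup.normalizer (X : Set G) := by
        intro X Y hX hxy y hy
        rw [← LocalEven.cj_eq_self_iff]
        refine Subgroup.eq_of_le_of_card_ge ?_ (LocalEven.card_cj _ _).ge
        have h1 : X.map (MulAut.conj y).toMonoidHom ≤ X ⊔ O := by
          rintro _ ⟨x, hx, rfl⟩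
          simpa using Subgroup.mul_mem _ (Subgroup.mem_sup_left (T := O) hx) (Subgroup.mem_sup_right (S := X) (hxy x hx y hy))
        have h2 := residual_mono (p := p) h1
        rw [pResidual_map, hX.res, hX.resO] at h2
        exact h2
      have hA' : ∀ a ∈ A, ∀ b ∈ B, a⁻¹ * (b * a * b⁻¹) ∈ O := fun a ha b hb => by
        have h1 := hc a⁻¹ (A.inv_mem ha) b hb
        convert h1 using 1
        group
      have hB' : ∀ b ∈ B, ∀ a ∈ A, b⁻¹ * (a * b * a⁻¹) ∈ O := fun b hb a ha => by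
        have h1 := O.inv_mem (hc a ha b⁻¹ (B.inv_mem hb))
        have h2 := hc a ha b hb
        have h3 := conj_mem (core_norm (p := p) b⁻¹) h2
        convert h3 using 1
        group
      have hBA := hn A B hA hA'
      have hAB := hn B A hB hB'
      obtain ⟨s1, s2⟩ := sep_of_comp hA hB hBA hAB hA' hcA
      exact Or.inr (final_commute hG hA hB hBA hAB s1 s2)
  rcases hE.kind with ⟨hqE, hcE⟩ | hsE
  · exact comp E F hE hF hqE hcE
  rcases hF.kind with ⟨hqF, hcF⟩ | hsF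
  · exact (comp F E hF hE hqF hcF).imp Eq.symm fun h => (Subgroup.commutator_comm E F).trans h
  have hEs := hE.sb hsE
  have hFs := hF.sb hsF
  have hFE := small_normalizes hG _ E F hE hEs hFs le_rfl
  have hEF := small_normalizes hG _ F E hF hFs hEs le_rfl
  rcases pair_small hEs hFs hFE hEF with h | ⟨h1, h2⟩
  · left
    rcases le_total (Nat.card ↥(F ⊓ O)) (Nat.card ↥(E ⊓ O)) with hc | hc
    · exact eq_of_same hG hE hEs hFs h hFE hc
    · exact (eq_of_same hG hF hFs hEs h.symm hEF hc).symm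
  · exact Or.inr (final_commute hG hE hF hFE hEF h2 h1)

end Cfsg.Agent.Components.BlockPair
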