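import Cfsg.Agent.Components.BlockPairExtract
import Cfsg.Agent.Components.Basic

/-!
Two subnormal blocks are equal or commute.
-/

set_option autoImplicit false
set_option linter.style.haveILetI false
set_option maxHeartbeats 1000000

open scoped commutatorElement

namespace Cfsg.Agent.Components.BlockPair

variable {G : Type*} [Group G]

theorem conj_mem {g x : G} {H : Subgroup G} (h : g ∈ Subgroup.normalizer (H : Set G)) (hx : x ∈ H) :
    g * x * g⁻¹ ∈ H := (Subgroup.mem_normalizer_iff.mp h x).mp hx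

theorem conj_mem' {g x : G} {H : Subgroup G} (h : g ∈ Subgroup.normalizer (H : Set G)) (hx : g * x * g⁻¹ ∈ H) :
    x ∈ H := (Subgroup.mem_normalizer_iff.mp h x).mpr hx

theorem comm_sup_central {A B P : Subgroup G} (hA : A ≤ Subgroup.normalizer (B : Set G))
    (hc : ∀ a ∈ A, ∀ b ∈ B, a * b = b * a) (hP : P ≤ Subgroup.normalizer (B : Set G)) :
    ⁅A ⊔ B, P⁆ ≤ ⁅A, P⁆ ⊔ ⁅B, P⁆ := by
  refine Subgroup.commutator_le.mpr fun x hx q hq => ?_
  rw [← SetLike.mem_coe, Subgroup.coe_mul_of_left_le_normalizer_right A B hA] at hx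
  obtain ⟨a, ha, b, hb, rfl⟩ := hx
  have hbq : ⁅b, q⁆ ∈ B := by
    rw [commutatorElement_def, mul_assoc, mul_assoc, ← mul_assoc q]
    exact B.mul_mem hb (conj_mem (hP hq) (B.inv_mem hb))
  have h1 : ⁅a * b, q⁆ = a * ⁅b, q⁆ * a⁻¹ * ⁅a, q⁆ := by simp only [commutatorElement_def]; group
  rw [h1, hc a ha _ hbq, mul_inv_cancel_right]
  exact Subgroup.mul_mem _ (Subgroup.mem_sup_right (Subgroup.commutator_mem_commutator hb hq))
    (Subgroup.mem_sup_left (Subgroup.commutator_mem_commutator ha hq))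

theorem card_sup [Finite G] {A B : Subgroup G} (hAB : A ≤ Subgroup.normalizer (B : Set G)) :
    Nat.card ↥A * Nat.card ↥B = Nat.card ↥(A ⊔ B) * Nat.card ↥(A ⊓ B) := by
  set N := Subgroup.normalizer (B : Set G)
  haveI : (B.subgroupOf N).Normal := Subgroup.normal_in_normalizer
  have hBN : B ≤ N := Subgroup.le_normalizer
  have h := Core.card_sup_mul_card_inf (A.subgroupOf N) (B.subgroupOf N)
  have e : ∀ H : Subgroup G, H ≤ N → Nat.card ↥(H.subgroupOf N) = Nat.card ↥H := fun H hH =>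
    Nat.card_congr (Subgroup.subgroupOfEquivOfLe hH).toEquiv
  rw [← Subgroup.subgroupOf_sup hAB hBN, show A.subgroupOf N ⊓ B.subgroupOf N = (A ⊓ B).subgroupOf N from
    (Subgroup.comap_inf _ _ _).symm, e _ (sup_le hAB hBN), e _ hAB, e _ hBN, e _ (inf_le_left.trans hAB)] at h
  exact h.symm

theorem card_dvd_relIndex [Finite G] {H K : Subgroup G} (h : H ≤ K) : ∃ i, Nat.card ↥K = Nat.card ↥H * i :=
  Subgroup.card_dvd_of_le h

/-- A `p`-element acts quadratically on a section of order `p²`. -/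
theorem quadratic_of_card [Finite G] {p : ℕ} [hp : Fact p.Prime] {A Z P : Subgroup G}
    (hA : IsPGroup p A) (hP : IsPGroup p P) (hPA : P ≤ Subgroup.normalizer (A : Set G))
    (hPZ : P ≤ Subgroup.normalizer (Z : Set G)) (hAZ : A ≤ Subgroup.normalizer (Z : Set G)) (hZA : Z ≤ A)
    (hcard : Nat.card A = p ^ 2 * Nat.card Z) : ⁅⁅A, P⁆, P⁆ ≤ Z := by
  have strict : ∀ V : Subgroup G, V ≤ A → P ≤ Subgroup.normalizer (V : Set G) → Z ≤ V →
      ⁅V, P⁆ ⊔ Z = V → V ≤ Z := by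
    intro V hVA hPV hZV he
    have hW : IsPGroup p (V ⊔ P : Subgroup G) := (hA.to_le hVA).to_sup_of_normal_left' hP hPV
    haveI := hW.isNilpotent
    obtain ⟨n, hn⟩ := Subgroup.nilpotent_iff_lowerCentralSeries.mp ‹Group.IsNilpotent _›
    have key : ∀ k, V ≤ (Subgroup.lowerCentralSeries (⊤ : Subgroup (V ⊔ P : Subgroup G)) k).map
        (V ⊔ P).subtype ⊔ Z := by
      intro k
      induction k with
      | zero => rw [Subgroup.lowerCentralSeries_zero, ← MonoidHom.range_eq_map, Subgroup.range_subtype]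
                exact le_sup_of_le_left le_sup_left
      | succ k ih =>
        set L := (Subgroup.lowerCentralSeries (⊤ : Subgroup (V ⊔ P : Subgroup G)) k).map (V ⊔ P).subtype
        have hLN : L ≤ Subgroup.normalizer (Z : Set G) :=
          (Subgroup.map_subtype_le _).trans (sup_le (hVA.trans hAZ) hPZ)
        rw [Subgroup.lowerCentralSeries_succ, Subgroup.map_commutator]
        refine he.ge.trans (sup_le ?_ le_sup_right)
        intro x hx
        have hx1 : x ∈ ⁅L ⊔ Z, P⁆ := Subgroup.commutator_mono ih le_rfl hx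
        have hcz : ⁅L ⊔ Z, P⁆ ≤ ⁅L, P⁆ ⊔ Z := by
          refine Subgroup.commutator_le.mpr fun y hy q hq => ?_
          rw [← SetLike.mem_coe, Subgroup.coe_mul_of_left_le_normalizer_right L Z hLN] at hy
          obtain ⟨l, hl, z, hz, rfl⟩ := hy
          rw [show ⁅l * z, q⁆ = l * ⁅z, q⁆ * l⁻¹ * ⁅l, q⁆ by simp only [commutatorElement_def]; group]
          refine Subgroup.mul_mem _ (Subgroup.mem_sup_right (conj_mem (hLN hl) ?_))
            (Subgroup.mem_sup_left (Subgroup.commutator_mem_commutator hl hq))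
          rw [commutatorElement_def, mul_assoc, mul_assoc, ← mul_assoc q]
          exact Z.mul_mem hz (conj_mem (hPZ hq) (Z.inv_mem hz))
        refine sup_le_sup_right (Subgroup.commutator_mono le_rfl ?_) Z (hcz hx1)
        rw [← MonoidHom.range_eq_map, Subgroup.range_subtype]; exact le_sup_right
    have h := key n
    rwa [hn, Subgroup.map_bot, bot_sup_eq] at h
  set A1 := ⁅A, P⁆ ⊔ Z with hA1
  have hA1A : A1 ≤ A := sup_le (Subgroup.le_normalizer_iff_commutator_le_left.mp hPA) hZA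
  have hP1 : P ≤ Subgroup.normalizer (A1 : Set G) :=
    (le_inf (Block.right_le_normalizer_commutator A P) hPZ).trans (Subgroup.normalizer_inf_normalizer_le_normalizer_sup _ _)
  set A2 := ⁅A1, P⁆ ⊔ Z with hA2
  have hA2A1 : A2 ≤ A1 := sup_le (Subgroup.le_normalizer_iff_commutator_le_left.mp hP1) le_sup_right
  refine ((Subgroup.commutator_mono (le_sup_left : ⁅A, P⁆ ≤ A1) le_rfl).trans (le_sup_left : _ ≤ A2)).trans ?_
  have hpos : 0 < Nat.card ↥Z := Nat.card_pos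
  have h1 : A1 ≠ A := fun e => by
    have hAZ' := strict A le_rfl hPA hZA e
    have := Subgroup.card_le_of_le hAZ'
    rw [hcard] at this
    have hp4 : 4 ≤ p ^ 2 := by nlinarith [hp.out.two_le]
    nlinarith
  obtain ⟨i, hi⟩ := card_dvd_relIndex (le_sup_right : Z ≤ A1)
  obtain ⟨j, hj⟩ := card_dvd_relIndex (le_sup_right : Z ≤ A2)
  have hidvd : i ∣ p ^ 2 := by
    have := Subgroup.card_dvd_of_le hA1A
    rw [hcard, hi, mul_comm (p ^ 2)] at this
    exact Nat.dvd_of_mul_dvd_mul_left hpos this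
  have hip : i ∣ p := by
    obtain ⟨a, ha, rfl⟩ := (Nat.dvd_prime_pow hp.out).mp hidvd
    rcases (show a ≤ 1 ∨ a = 2 by omega) with ha' | rfl
    · calc p ^ a ∣ p ^ 1 := pow_dvd_pow p ha'
        _ = p := pow_one p
    · exact absurd (Subgroup.eq_of_le_of_card_ge hA1A (by rw [hcard, hi, mul_comm])) h1
  have hjdvd : j ∣ i := by
    have := Subgroup.card_dvd_of_le hA2A1
    rw [hi, hj] at this
    exact Nat.dvd_of_mul_dvd_mul_left hpos this
  rcases (Nat.dvd_prime hp.out).mp hip with rfl | hi'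
  · exact hA2A1.trans (Subgroup.eq_of_le_of_card_ge (le_sup_right : Z ≤ A1) (by rw [hi, mul_one])).ge
  · rw [hi'] at hjdvd
    rcases (Nat.dvd_prime hp.out).mp hjdvd with rfl | hj'
    · exact (Subgroup.eq_of_le_of_card_ge (le_sup_right : Z ≤ A2) (by rw [hj, mul_one])).ge
    · have he : A2 = A1 := Subgroup.eq_of_le_of_card_ge hA2A1 (by rw [hi, hj, hi', hj'])
      exact hA2A1.trans (strict A1 hA1A hP1 le_sup_right he)

/-- `n`-part of an element with `k ^ n` in a `p`-group. -/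
theorem exists_part [Finite G] {p n : ℕ} [Fact p.Prime] {O : Subgroup G} [O.Normal] (hO : IsPGroup p O)
    (hn : n.Coprime p) {k : G} (hk : k ^ n ∈ O) : ∃ m : ℕ, (k ^ m) ^ n = 1 ∧ (k ^ m)⁻¹ * k ∈ O := by
  obtain ⟨a, ha⟩ := hO ⟨_, hk⟩
  have ha' : (k ^ n) ^ p ^ a = 1 := by simpa using congrArg Subtype.val ha
  obtain ⟨m, hm1, hm2⟩ := Nat.chineseRemainder (hn.pow_right a) 1 0
  refine ⟨m, ?_, ?_⟩
  · obtain ⟨c, hc⟩ := Nat.modEq_zero_iff_dvd.mp hm2
    rw [← pow_mul, hc, show p ^ a * c * n = n * p ^ a * c by ring, pow_mul, pow_mul, ha', one_pow]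
  · obtain ⟨c, hc⟩ := Nat.modEq_iff_dvd.mp hm1
    have h1 : (k ^ m)⁻¹ * k = (k ^ n) ^ c := by
      rw [← zpow_natCast k m, ← zpow_neg, ← zpow_natCast k n, ← zpow_mul, ← hc]
      conv_lhs => arg 2; rw [← zpow_one k]
      rw [← zpow_add]; congr 1; push_cast; ring
    rw [h1]; exact O.zpow_mem hk c

/-- Congruence modulo `W`. -/
def Cong (W : Subgroup G) (x y : G) : Prop := x * y⁻¹ ∈ W

theorem Cong.trans {W : Subgroup G} {x y z : G} (h1 : Cong W x y) (h2 : Cong W y z) : Cong W x z := by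
  have := W.mul_mem h1 h2
  simpa [Cong, mul_assoc] using this

theorem Cong.symm {W : Subgroup G} {x y : G} (h : Cong W x y) : Cong W y x := by
  simpa [Cong] using W.inv_mem h

theorem Cong.conj {W : Subgroup G} {x y g : G} (hg : g ∈ Subgroup.normalizer (W : Set G)) (h : Cong W x y) :
    Cong W (g * x * g⁻¹) (g * y * g⁻¹) := by
  have := conj_mem hg h
  simpa [Cong, mul_assoc] using this

theorem Cong.inv {W : Subgroup G} {x y : G} (hx : x ∈ Subgroup.normalizer (W : Set G)) (h : Cong W x y) :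
    Cong W x⁻¹ y⁻¹ := by
  have := conj_mem (Subgroup.inv_mem _ hx) (W.inv_mem h)
  simpa [Cong, mul_assoc] using this

/-- Small subnormal blocks, without the exceptional data. -/
structure SB (p : ℕ) (F : Subgroup G) : Prop where
  res : Cfsg.pResidualOf p F = F
  sub : F.IsSubnormal
  nE : Cfsg.pCore p G ≤ Subgroup.normalizer (F : Set G)
  resO : Cfsg.pResidualOf p (F ⊔ Cfsg.pCore p G) = F
  p23 : p = 2 ∨ p = 3
  small : Small p (5 - p) (3 - p) (Cfsg.pCore p G) F (Vb p F) ⊥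
  card : Nat.card ↥(Vb p F) = p ^ 2

variable [Finite G] {p : ℕ} [hp : Fact p.Prime]

theorem uz_normal : (Uz p G).Normal := by
  haveI : (Cfsg.pCore p G).Normal := Cfsg.pCore_normal p G
  refine Subgroup.normalizer_eq_top_iff.mp (top_le_iff.mp (le_trans ?_ (LocalEven.normalizer_le_normalizer_omegaZ _)))
  rw [Subgroup.normalizer_eq_top]

theorem uz_le : Uz p G ≤ Cfsg.pCore p G := (LocalEven.omegaOne_le _).trans inf_le_left

theorem vb_le_uz (E : Subgroup G) : Vb p E ≤ Uz p G :=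
  haveI := uz_normal (p := p) (G := G); Subgroup.commutator_le_left _ _

theorem uz_comm {u o : G} (hu : u ∈ Uz p G) (ho : o ∈ Cfsg.pCore p G) : o * u = u * o :=
  Subgroup.mem_centralizer_iff.mp (LocalEven.mem_omegaZ.mp hu).2.1 o ho

theorem vb_le {E : Subgroup G} (hE : Cfsg.pCore p G ≤ Subgroup.normalizer (E : Set G)) : Vb p E ≤ E :=
  Subgroup.le_normalizer_iff_commutator_le_right.mp (uz_le.trans hE)

theorem core_norm (x : G) : x ∈ Subgroup.normalizer ((Cfsg.pCore p G : Subgroup G) : Set G) := by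
  haveI : (Cfsg.pCore p G).Normal := Cfsg.pCore_normal p G
  rw [Subgroup.normalizer_eq_top]; trivial

theorem norm_inf {E : Subgroup G} {x : G} (hx : x ∈ Subgroup.normalizer (E : Set G)) :
    x ∈ Subgroup.normalizer ((E ⊓ Cfsg.pCore p G : Subgroup G) : Set G) :=
  Subgroup.inf_normalizer_le_normalizer_inf ⟨hx, core_norm x⟩

theorem norm_vb {E : Subgroup G} {x : G} (hx : x ∈ Subgroup.normalizer (E : Set G)) :
    x ∈ Subgroup.normalizer ((Vb p E : Subgroup G) : Set G) := by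
  haveI := uz_normal (p := p) (G := G)
  rw [← LocalEven.cj_eq_self_iff]
  show (⁅Uz p G, E⁆ : Subgroup G).map (MulAut.conj x).toMonoidHom = _
  rw [Subgroup.map_commutator]
  congr 1
  · exact LocalEven.cj_eq_self_iff.mpr (by rw [Subgroup.normalizer_eq_top]; trivial)
  · exact LocalEven.cj_eq_self_iff.mpr hx

theorem SB.map {F : Subgroup G} (h : SB p F) (g : G) : SB p (F.map (MulAut.conj g).toMonoidHom) := by
  haveI := uz_normal (p := p) (G := G)
  have hO : (Cfsg.pCore p G).map (MulAut.conj g).toMonoidHom = Cfsg.pCore p G :=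
    LocalEven.cj_eq_self_iff.mpr (core_norm g)
  have hU : (Uz p G).map (MulAut.conj g).toMonoidHom = Uz p G :=
    LocalEven.cj_eq_self_iff.mpr (by rw [Subgroup.normalizer_eq_top]; trivial)
  have hV : Vb p (F.map (MulAut.conj g).toMonoidHom) = (Vb p F).map (MulAut.conj g).toMonoidHom := by
    show ⁅Uz p G, _⁆ = (⁅Uz p G, F⁆ : Subgroup G).map _
    rw [Subgroup.map_commutator, hU]
  refine ⟨by rw [pResidual_map, h.res], h.sub.map (MulAut.conj g).surjective, ?_, ?_, h.p23, ?_, ?_⟩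
  · rw [← hO]; exact norm_conj h.nE
  · conv_lhs => rw [← hO, ← Subgroup.map_sup, pResidual_map, h.resO]
  · have := h.small.map (MulAut.conj g) hO
    rwa [hV, ← Subgroup.map_bot (MulAut.conj g).toMonoidHom]
  · rw [hV, Subgroup.card_map_of_injective (MulAut.conj g).injective, h.card]

theorem SB.exists_ne {E : Subgroup G} (h : SB p E) : ∃ u ∈ Vb p E, u ≠ 1 := by
  by_contra hcon
  push Not at hcon
  exact h.small.nc 1 (Subgroup.one_mem _) fun a ha => Subgroup.mem_sup_right (Subgroup.mem_bot.mpr (hcon a ha))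

theorem SB.eq_one_of_fixed {E : Subgroup G} (h : SB p E) {v : G} (hv : v ∈ Vb p E)
    (hc : ∀ e ∈ E, e * v = v * e) : v = 1 := by
  by_contra hv1
  obtain ⟨e, he, he2⟩ := h.small.exists_gen
  have := h.small.fix e he v hv (fun hb => hv1 (Subgroup.mem_bot.mp hb))
    (Subgroup.mem_bot.mpr (by rw [hc e he]; group))
  exact he2 (Subgroup.mul_mem _ this this)

theorem SB.faith {E : Subgroup G} (h : SB p E) {e : G} (he : e ∈ E) (hc : ∀ v ∈ Vb p E, e * v = v * e) :
    e ∈ Cfsg.pCore p G := by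
  obtain ⟨u, hu, hu1⟩ := h.exists_ne
  exact h.small.fix e he u hu (fun hb => hu1 (Subgroup.mem_bot.mp hb))
    (Subgroup.mem_bot.mpr (by rw [hc u hu]; group))

theorem commute_of_mem_vb {E : Subgroup G} {a b : G} (ha : a ∈ Vb p E) (hb : b ∈ Uz p G) : a * b = b * a :=
  uz_comm hb (uz_le (vb_le_uz E ha))

/-- Two mutually normalizing small blocks have equal or separated modules. -/
theorem pair_small {E F : Subgroup G} (hE : SB p E) (hF : SB p F)
    (hFE : F ≤ Subgroup.normalizer (E : Set G)) (hEF : E ≤ Subgroup.normalizer (F : Set G)) :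
    Vb p E = Vb p F ∨ (E ≤ Subgroup.centralizer (Vb p F : Set G) ∧ F ≤ Subgroup.centralizer (Vb p E : Set G)) := by
  have key : ∀ (A B : Subgroup G), SB p A → SB p B → B ≤ Subgroup.normalizer (A : Set G) →
      A ≤ Subgroup.normalizer (B : Set G) → Vb p A = Vb p B ∨ B ≤ Subgroup.centralizer (Vb p A : Set G) := by
    intro A B hA hB hBA hAB
    rcases eq_or_ne ⁅Vb p A, B⁆ ⊥ with h | h
    · exact Or.inr (Subgroup.le_centralizer_iff.mp (Subgroup.commutator_eq_bot_iff_le_centralizer.mp h))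
    left
    set M := ⁅Vb p A, B⁆
    have hMA : M ≤ Vb p A := Subgroup.le_normalizer_iff_commutator_le_left.mp fun b hb => norm_vb (hBA hb)
    have hMB : M ≤ Vb p B := Subgroup.commutator_mono (vb_le_uz A) le_rfl
    have hAM : A ≤ Subgroup.normalizer (M : Set G) := fun a ha => by
      rw [← LocalEven.cj_eq_self_iff]
      show (⁅Vb p A, B⁆ : Subgroup G).map (MulAut.conj a).toMonoidHom = _
      rw [Subgroup.map_commutator]
      congr 1
      · exact LocalEven.cj_eq_self_iff.mpr (norm_vb (Subgroup.le_normalizer ha))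
      · exact LocalEven.cj_eq_self_iff.mpr (hAB ha)
    obtain ⟨u, hu, hu1⟩ : ∃ u ∈ M, u ≠ 1 := by
      by_contra hcon
      push Not at hcon
      exact h ((Subgroup.eq_bot_iff_forall _).mpr hcon)
    obtain ⟨e, he, he2⟩ := hA.small.exists_gen
    have hle := hA.small.two e he he2 u (hMA hu) (fun hb => hu1 (Subgroup.mem_bot.mp hb)) M bot_le hu
      (conj_mem (hAM he) hu)
    exact Subgroup.eq_of_le_of_card_ge (hle.trans hMB) (by rw [hA.card, hB.card])
  rcases key E F hE hF hFE hEF with h | h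
  · exact Or.inl h
  rcases key F E hF hE hEF hFE with h' | h'
  · exact Or.inl h'.symm
  · exact Or.inr ⟨h', h⟩

/-- On a common module every generator agrees with an element of the other block. -/
theorem agree_vb {E F : Subgroup G} (hE : SB p E) (hF : SB p F) (hV : Vb p E = Vb p F) {f : G}
    (hf : f ∈ F) (hf2 : f * f ∉ Cfsg.pCore p G) :
    ∃ e ∈ E, e * e ∉ Cfsg.pCore p G ∧ ∀ v ∈ Vb p E, f * v * f⁻¹ = e * v * e⁻¹ := by
  obtain ⟨u, hu, hu1⟩ := hE.exists_ne
  have hn : ∀ {x v : G}, x ∈ F → v ∈ Vb p E → x * v * x⁻¹ ∈ Vb p E := fun {x v} hx hv => by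
    rw [hV] at hv ⊢; exact conj_mem (norm_vb (Subgroup.le_normalizer hx)) hv
  have hne : ∀ {a : G}, a ≠ 1 → a ∉ (⊥ : Subgroup G) := fun ha hb => ha (Subgroup.mem_bot.mp hb)
  have hwne : f * u * f⁻¹ ≠ 1 := fun h => hu1 (by rwa [conj_eq_one_iff] at h)
  obtain ⟨e, he, heq, hsm⟩ := hE.small.trans u hu (hne hu1) _ (hn hf hu) (hne hwne)
  have heq' : e * u * e⁻¹ = f * u * f⁻¹ := inv_mul_eq_one.mp (Subgroup.mem_bot.mp heq)
  have he2 : e * e ∉ Cfsg.pCore p G := fun h => by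
    have hw := hsm h
    rw [sup_bot_eq] at hw
    have hle := hF.small.two f hf hf2 u (hV ▸ hu) (hne hu1) (Subgroup.zpowers u) bot_le
      (Subgroup.mem_zpowers u) hw
    exact hE.small.nc u hu (hV ▸ hle.trans le_sup_left)
  refine ⟨e, he, he2, ?_⟩
  have h1 := Subgroup.mem_bot.mp (hF.small.sq f hf hf2 u (hV ▸ hu))
  have h2 := Subgroup.mem_bot.mp (hE.small.sq e he he2 u hu)
  rw [heq'] at h2
  have hfw : f * (f * u * f⁻¹) * f⁻¹ = e * (f * u * f⁻¹) * e⁻¹ :=
    mul_right_cancel (mul_right_cancel (h1.trans h2.symm))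
  have hle := hE.small.two e he he2 u hu (hne hu1)
    (agree (Vb p E) ⊥ hE.small.AB e f fun a ha => conj_mem (hE.small.nA he) ha) bot_le
    (mem_agree.mpr ⟨hu, Subgroup.mem_bot.mpr (by rw [← heq', mul_inv_cancel])⟩)
    (mem_agree.mpr ⟨conj_mem (hE.small.nA he) hu, Subgroup.mem_bot.mpr (by rw [heq', hfw, mul_inv_cancel])⟩)
  intro v hv
  exact mul_inv_eq_one.mp (Subgroup.mem_bot.mp (mem_agree.mp (hle hv)).2)

/-- An element of order prime to `p` centralizing a chain in `O` is trivial. -/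
theorem eq_one_of_chain (hG : Subgroup.centralizer (Cfsg.pCore p G : Set G) ≤ Cfsg.pCore p G) {k : G} {n : ℕ}
    (hn : n.Coprime p) (hk : k ^ n = 1) {Q : Subgroup G} (hQO : Q ≤ Cfsg.pCore p G)
    (hkO : ∀ o ∈ Cfsg.pCore p G, k * o * k⁻¹ * o⁻¹ ∈ Q) (hkQ : ∀ a ∈ Q, k * a = a * k) : k = 1 := by
  have hc : k ∈ Subgroup.centralizer (Cfsg.pCore p G : Set G) := by
    refine Subgroup.mem_centralizer_iff.mpr fun o ho => ?_
    obtain ⟨j, hj⟩ := Core.isPGroup_pCore p G ⟨_, hQO (hkO o ho)⟩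
    exact (commute_of_fixed_commutator hk hn (by rw [hkQ _ (hkO o ho), mul_inv_cancel_right])
      (by simpa using congrArg Subtype.val hj)).symm
  obtain ⟨j, hj⟩ := Core.isPGroup_pCore p G ⟨k, hG hc⟩
  exact orderOf_eq_one_iff.mp (Nat.eq_one_of_dvd_coprimes (hn.pow_right j) (orderOf_dvd_of_pow_eq_one hk)
    (orderOf_dvd_of_pow_eq_one (by simpa using congrArg Subtype.val hj)))

theorem residual_mono {A B : Subgroup G} (h : A ≤ B) : Cfsg.pResidualOf p A ≤ Cfsg.pResidualOf p B := by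
  rw [Block.pResidualOf_eq, Block.pResidualOf_eq]
  exact Subgroup.closure_mono fun x hx => ⟨h hx.1, hx.2⟩

/-- Blocks with a common module coincide. -/
theorem eq_of_same (hG : Subgroup.centralizer (Cfsg.pCore p G : Set G) ≤ Cfsg.pCore p G) {E F : Subgroup G}
    (hB : Blk p E) (hE : SB p E) (hF : SB p F) (hV : Vb p E = Vb p F) (hFE : F ≤ Subgroup.normalizer (E : Set G))
    (hcard : Nat.card ↥(F ⊓ Cfsg.pCore p G) ≤ Nat.card ↥(E ⊓ Cfsg.pCore p G)) : E = F := by
  haveI hOn : (Cfsg.pCore p G).Normal := Cfsg.pCore_normal p G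
  haveI := uz_normal (p := p) (G := G)
  set O := Cfsg.pCore p G with hOdef
  set V := Vb p E with hVdef
  set Q := E ⊓ O with hQdef
  set r := 5 - p with hr
  have hrp : (5 - p).Prime ∧ 5 - p ≠ p := by
    rcases hE.p23 with rfl | rfl <;> exact ⟨by norm_num, by norm_num⟩
  have hcop : ∀ j, (r ^ j).Coprime p := fun j => ((Nat.coprime_primes hrp.1 hp.out).mpr hrp.2).pow_left j
  suffices hsuff : F ≤ E ⊔ O by
    have hFE' : F ≤ E := by rw [← hF.res, ← hE.resO]; exact residual_mono hsuff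
    refine le_antisymm ?_ hFE'
    rw [← hE.res, ← hF.resO]
    refine residual_mono (hE.small.le_of_gen fun e he he2 => ?_)
    obtain ⟨f, hf, -, hfe⟩ := agree_vb hF hE hV.symm he he2
    have h1 : f⁻¹ * e ∈ O := hE.faith (E.mul_mem (E.inv_mem (hFE' hf)) he) fun v hv => by
      have h := hfe v (hV ▸ hv)
      calc f⁻¹ * e * v = f⁻¹ * (e * v * e⁻¹) * e := by group
        _ = v * (f⁻¹ * e) := by rw [h]; group
    simpa using Subgroup.mul_mem _ (Subgroup.mem_sup_left hf) (Subgroup.mem_sup_right (S := F) h1)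
  -- the preimage of `O_r(G / O)`
  let π := QuotientGroup.mk' O
  let Rr := (Cfsg.pCore r (G ⧸ O)).comap π
  haveI := Fact.mk hrp.1
  haveI : (Cfsg.pCore r (G ⧸ O)).Normal := Cfsg.pCore_normal r _
  haveI hRn : Rr.Normal := inferInstance
  have hRsub : ∀ X : Subgroup G, X.IsSubnormal → (∀ x ∈ X, x ^ r ^ 2 ∈ O) → X ≤ Rr := by
    intro X hX hpow
    refine Subgroup.map_le_iff_le_comap.mp (Core.le_pCore_of_isSubnormal (hX.map (QuotientGroup.mk'_surjective O)) ?_)
    rintro ⟨_, x, hx, rfl⟩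
    refine ⟨2, Subtype.ext ?_⟩
    simpa [π] using (QuotientGroup.eq_one_iff _).mpr (hpow x hx)
  have hRpow : ∀ x ∈ Rr, ∃ j, x ^ r ^ j ∈ O := by
    intro x hx
    obtain ⟨j, hj⟩ := Core.isPGroup_pCore r (G ⧸ O) ⟨π x, hx⟩
    exact ⟨j, (QuotientGroup.eq_one_iff _).mp (by simpa [π] using congrArg Subtype.val hj)⟩
  have hER : E ≤ Rr := hRsub E hE.sub hE.small.pow
  have hFR : F ≤ Rr := hRsub F hF.sub hF.small.pow
  have hVQ : V ≤ Q := le_inf (vb_le hE.nE) ((vb_le_uz E).trans uz_le)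
  have hVQF : V ≤ F ⊓ O := by rw [hV]; exact le_inf (vb_le hF.nE) ((vb_le_uz F).trans uz_le)
  have hnE : ∀ {x}, x ∈ E → x ∈ Subgroup.normalizer (E : Set G) := fun h => Subgroup.le_normalizer h
  -- `F ∩ O = E ∩ O`
  have hQQ : Q = F ⊓ O := by
    rcases hB.exc with h | ⟨W, Z, hX⟩
    · rw [hQdef, h]
      exact Subgroup.eq_of_le_of_card_ge hVQF (hcard.trans (Nat.le_of_eq (congrArg (fun X : Subgroup G => Nat.card ↥X) h)))
    refine Subgroup.eq_of_le_of_card_ge ?_ hcard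
    have hsS : Small p 2 0 O E Q W := by
      rcases hX.actS with ⟨-, hne⟩ | ⟨hs, -⟩
      · exact absurd hE.card hne
      · exact hs
    obtain ⟨f0, hf0, hf02⟩ := hF.small.exists_gen
    obtain ⟨e0, he0, -, hfe⟩ := agree_vb hE hF hV hf0 hf02
    set k := e0⁻¹ * f0 with hk
    have hkn : k ∈ Subgroup.normalizer (E : Set G) := Subgroup.mul_mem _ (hnE (E.inv_mem he0)) (hFE hf0)
    have hkV : ∀ v ∈ V, k * v = v * k := fun v hv => by
      calc k * v = e0⁻¹ * (f0 * v * f0⁻¹) * f0 := by rw [hk]; group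
        _ = v * k := by rw [hfe v hv, hk]; group
    have hnW : ∀ {x}, x ∈ Subgroup.normalizer (E : Set G) → x ∈ Subgroup.normalizer (W : Set G) :=
      fun h => hX.nW (norm_inf h)
    have hQW : Q ≤ Subgroup.normalizer (W : Set G) := Subgroup.le_normalizer.trans hX.nW
    have hcommQ : ∀ a ∈ Q, ∀ b ∈ Q, ⁅a, b⁆ ∈ W := fun a ha b hb =>
      hX.ZW (hX.comm.le (Subgroup.commutator_mem_commutator ha hb))
    have hkc : ∀ x ∈ E, ∀ a ∈ Q, k * (x * a * x⁻¹) * k⁻¹ * (x * (k * a * k⁻¹) * x⁻¹)⁻¹ ∈ W := by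
      intro x hx a ha
      have hc : k * x * k⁻¹ * x⁻¹ ∈ Q := by
        refine ⟨E.mul_mem (conj_mem hkn hx) (E.inv_mem hx), hE.faith (E.mul_mem (conj_mem hkn hx) (E.inv_mem hx)) fun v hv => ?_⟩
        have hv' : x⁻¹ * v * x ∈ V := by simpa using conj_mem (norm_vb (hnE (E.inv_mem hx))) hv
        have hw : k⁻¹ * (x⁻¹ * v * x) * k = x⁻¹ * v * x := by rw [mul_assoc, ← hkV _ hv', inv_mul_cancel_left]
        calc k * x * k⁻¹ * x⁻¹ * v = k * x * (k⁻¹ * (x⁻¹ * v * x) * k) * k⁻¹ * x⁻¹ := by group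
          _ = k * x * (x⁻¹ * v * x) * k⁻¹ * x⁻¹ := by rw [hw]
          _ = k * v * x * k⁻¹ * x⁻¹ := by group
          _ = v * (k * x * k⁻¹ * x⁻¹) := by rw [hkV v hv]; group
      have hy : x * (k * a * k⁻¹) * x⁻¹ ∈ Q := conj_mem (norm_inf (hnE hx)) (conj_mem (norm_inf hkn) ha)
      have := hcommQ _ hc _ hy
      rw [commutatorElement_def] at this
      convert this using 1
      group
    have hsc := hsS.scalar k (fun a ha => conj_mem (norm_inf hkn) ha) (fun b hb => conj_mem (hnW hkn) hb)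
      (fun a _ h => conj_mem' (hnW hkn) h) (fun a ha => by simpa [pow_succ] using hX.exp a ha) hcommQ hkc
    have hQle : Q ≤ (F ⊓ O ⊓ Q) ⊔ W := by
      intro a ha
      have hf0n : f0 ∈ Subgroup.normalizer (E : Set G) := hFE hf0
      have he0n := hnE he0
      have hy : Cong W (f0 * (f0 * a * f0⁻¹) * f0⁻¹) (e0 * (e0 * a * e0⁻¹) * e0⁻¹) := by
        have hfk : ∀ b, f0 * b * f0⁻¹ = e0 * (k * b * k⁻¹) * e0⁻¹ := fun b => by rw [hk]; group
        rcases hsc with hs | hs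
        · have h1 : ∀ b ∈ Q, Cong W (f0 * b * f0⁻¹) (e0 * b * e0⁻¹) := fun b hb => by
            rw [hfk]; exact Cong.conj (hnW he0n) (hs b hb)
          exact (Cong.conj (hnW hf0n) (h1 a ha)).trans (h1 _ (conj_mem (norm_inf he0n) ha))
        · have h1 : ∀ b ∈ Q, Cong W (f0 * b * f0⁻¹) (e0 * b * e0⁻¹)⁻¹ := fun b hb => by
            rw [hfk, conj_inv]
            exact Cong.conj (hnW he0n) (by simpa [Cong] using hs b hb)
          have h2 := Cong.conj (hnW hf0n) (h1 a ha)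
          have hea := conj_mem (norm_inf (p := p) he0n) ha
          have h3 : Cong W (f0 * (e0 * a * e0⁻¹)⁻¹ * f0⁻¹) (e0 * (e0 * a * e0⁻¹) * e0⁻¹) := by
            rw [← conj_inv]
            simpa using Cong.inv (hQW (conj_mem (norm_inf hf0n) hea)) (h1 _ hea)
          exact h2.trans h3
      have he02 : e0 * e0 ∉ O := fun h => by
        obtain ⟨u, hu, hu1⟩ := hE.exists_ne
        refine hf02 (hF.small.fix (f0 * f0) (F.mul_mem hf0 hf0) u (hV ▸ hu) (fun hb => hu1 (Subgroup.mem_bot.mp hb)) (Subgroup.mem_bot.mpr ?_))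
        have h1 := hfe _ (conj_mem (norm_vb he0n) hu)
        calc f0 * f0 * u * (f0 * f0)⁻¹ * u⁻¹ = f0 * (f0 * u * f0⁻¹) * f0⁻¹ * u⁻¹ := by group
          _ = e0 * (e0 * u * e0⁻¹) * e0⁻¹ * u⁻¹ := by rw [hfe u hu, h1]
          _ = e0 * e0 * u * (e0 * e0)⁻¹ * u⁻¹ := by group
          _ = 1 := by rw [uz_comm (vb_le_uz E hu) h]; group
      have hsq : e0 * (e0 * a * e0⁻¹) * e0⁻¹ * a ∈ W := by
        have := hsS.sq e0 he0 he02 a ha
        simpa using this
      set y := f0 * (f0 * a * f0⁻¹) * f0⁻¹ with hydef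
      have hya : y * a ∈ W := by
        have := W.mul_mem hy hsq
        simpa [mul_assoc] using this
      have hc : y * a⁻¹ ∈ F ⊓ O ⊓ Q := by
        have hyQ : y ∈ Q := conj_mem (norm_inf hf0n) (conj_mem (norm_inf hf0n) ha)
        refine ⟨⟨?_, Subgroup.mul_mem _ hyQ.2 (Subgroup.inv_mem _ ha.2)⟩, Subgroup.mul_mem _ hyQ (Subgroup.inv_mem _ ha)⟩
        have h1 : y * a⁻¹ = (f0 * f0) * (a * (f0 * f0)⁻¹ * a⁻¹) := by rw [hydef]; group
        rw [h1]
        exact F.mul_mem (F.mul_mem hf0 hf0) (conj_mem (hF.nE ha.2) (F.inv_mem (F.mul_mem hf0 hf0)))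
      have haa : a * a ∈ (F ⊓ O ⊓ Q) ⊔ W := by
        have : a * a = (y * a⁻¹)⁻¹ * (y * a) := by group
        rw [this]
        exact Subgroup.mul_mem _ (Subgroup.mem_sup_left (Subgroup.inv_mem _ hc)) (Subgroup.mem_sup_right hya)
      have : a = (a * a) * (a * a) * (a ^ 3)⁻¹ := by group
      rw [this]
      exact Subgroup.mul_mem _ (Subgroup.mul_mem _ haa haa) (Subgroup.mem_sup_right (W.inv_mem (hX.exp a ha)))
    have hW : W ≤ F ⊓ O := by
      refine hX.WVZ.trans (sup_le hVQF ?_)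
      rw [← hX.comm]
      refine Subgroup.commutator_le.mpr fun a ha b hb => ?_
      have ha' := hQle ha
      have hb' := hQle hb
      have hn : F ⊓ O ⊓ Q ≤ Subgroup.normalizer (W : Set G) := inf_le_right.trans hQW
      rw [← SetLike.mem_coe, Subgroup.coe_mul_of_left_le_normalizer_right _ _ hn] at ha' hb'
      obtain ⟨c, hc, w, hw, rfl⟩ := ha'
      obtain ⟨c', hc', w', hw', rfl⟩ := hb'
      have h1 : ⁅c * w, c' * w'⁆ = ⁅c, c'⁆ := by
        have e1 : w * (c' * w') = (c' * w') * w := hX.Wc w hw _ (Subgroup.mul_mem _ hc'.2 (hX.Wle hw'))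
        have e2 : c * w' = w' * c := (hX.Wc w' hw' c hc.2).symm
        rw [commutatorElement_def, commutatorElement_def]
        calc c * w * (c' * w') * (c * w)⁻¹ * (c' * w')⁻¹ = c * (w * (c' * w')) * w⁻¹ * c⁻¹ * w'⁻¹ * c'⁻¹ := by group
          _ = c * c' * w' * c⁻¹ * w'⁻¹ * c'⁻¹ := by rw [e1]; group
          _ = c * c' * c⁻¹ * (c * w') * c⁻¹ * w'⁻¹ * c'⁻¹ := by group
          _ = _ := by rw [e2]; group
      rw [h1, commutatorElement_def]
      exact Subgroup.mul_mem _ (Subgroup.mul_mem _ (Subgroup.mul_mem _ hc.1 hc'.1) (Subgroup.inv_mem _ hc.1)) (Subgroup.inv_mem _ hc'.1)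
    exact hQle.trans (sup_le inf_le_left hW)
  refine hF.small.le_of_gen fun f hf hf2 => ?_
  obtain ⟨e, he, -, hfe⟩ := agree_vb hE hF hV hf hf2
  suffices hk : e⁻¹ * f ∈ O by simpa using Subgroup.mul_mem _ (Subgroup.mem_sup_left (T := O) he) (Subgroup.mem_sup_right (S := E) hk)
  set k := e⁻¹ * f with hkdef
  -- properties closed under powers
  let N : Subgroup G :=
    { carrier := {x | x ∈ Subgroup.normalizer (E : Set G) ∧ x ∈ Subgroup.centralizer (V : Set G) ∧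
        ∀ o ∈ O, x * o * x⁻¹ * o⁻¹ ∈ Q}
      one_mem' := ⟨Subgroup.one_mem _, Subgroup.one_mem _, fun o _ => by simp [Q.one_mem]⟩
      mul_mem' := fun {a b} ha hb => ⟨Subgroup.mul_mem _ ha.1 hb.1, Subgroup.mul_mem _ ha.2.1 hb.2.1, fun o ho => by
        have : a * b * o * (a * b)⁻¹ * o⁻¹ = (a * (b * o * b⁻¹ * o⁻¹) * a⁻¹) * (a * o * a⁻¹ * o⁻¹) := by group
        rw [this]
        exact Q.mul_mem (conj_mem (norm_inf ha.1) (hb.2.2 o ho)) (ha.2.2 o ho)⟩
      inv_mem' := fun {a} ha => ⟨Subgroup.inv_mem _ ha.1, Subgroup.inv_mem _ ha.2.1, fun o ho => by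
        have : a⁻¹ * o * a⁻¹⁻¹ * o⁻¹ = a⁻¹ * (a * o * a⁻¹ * o⁻¹)⁻¹ * a⁻¹⁻¹ := by group
        rw [this]
        exact conj_mem (norm_inf (Subgroup.inv_mem _ ha.1)) (Q.inv_mem (ha.2.2 o ho))⟩ }
  have hON : ∀ o ∈ O, o ∈ Subgroup.centralizer (V : Set G) := fun o ho =>
    Subgroup.mem_centralizer_iff.mpr fun v hv => (uz_comm (vb_le_uz E hv) ho).symm
  have hkN : k ∈ N := by
    refine ⟨Subgroup.mul_mem _ (hnE (E.inv_mem he)) (hFE hf), Subgroup.mem_centralizer_iff.mpr fun v hv => ?_, fun o ho => ?_⟩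
    · symm
      calc k * v = e⁻¹ * (f * v * f⁻¹) * f := by rw [hkdef]; group
        _ = v * k := by rw [hfe v hv, hkdef]; group
    · have h1 : f * o * f⁻¹ * o⁻¹ ∈ Q := by
        rw [hQQ]
        refine ⟨?_, Subgroup.mul_mem _ (conj_mem (core_norm f) ho) (O.inv_mem ho)⟩
        have := F.mul_mem hf (conj_mem (hF.nE ho) (F.inv_mem hf))
        simpa [mul_assoc] using this
      have h2 : e⁻¹ * o * e * o⁻¹ ∈ Q := by
        refine ⟨?_, Subgroup.mul_mem _ (by simpa using conj_mem (core_norm e⁻¹) ho) (O.inv_mem ho)⟩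
        have := E.mul_mem (E.inv_mem he) (conj_mem (hE.nE ho) he)
        simpa [mul_assoc] using this
      have : k * o * k⁻¹ * o⁻¹ = (e⁻¹ * (f * o * f⁻¹ * o⁻¹) * e⁻¹⁻¹) * (e⁻¹ * o * e * o⁻¹) := by rw [hkdef]; group
      rw [this]
      exact Q.mul_mem (conj_mem (norm_inf (hnE (E.inv_mem he))) h1) h2
  obtain ⟨jk, hjk⟩ := hRpow k (Rr.mul_mem (hER (E.inv_mem he)) (hFR hf))
  obtain ⟨m, hm1, hm2⟩ := exists_part (Core.isPGroup_pCore p G) (hcop jk) hjk
  set k0 := k ^ m with hk0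
  have hk0N : k0 ∈ N := N.pow_mem hkN m
  suffices h0 : k0 ∈ O by simpa using O.mul_mem h0 hm2
  rcases hB.exc with h | ⟨W, Z, hX⟩
  · rw [eq_one_of_chain hG (hcop jk) hm1 (inf_le_right : Q ≤ O) hk0N.2.2 fun a ha => by
      replace ha : a ∈ V := h.le ha
      exact (Subgroup.mem_centralizer_iff.mp hk0N.2.1 a ha).symm]
    exact O.one_mem
  -- exceptional blocks
  have hp3 := hX.p3
  subst hp3
  rcases hX.actS with ⟨-, hne⟩ | ⟨hsS, hcardS⟩
  · exact absurd hE.card hne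
  have hnW : ∀ {x}, x ∈ Subgroup.normalizer (E : Set G) → x ∈ Subgroup.normalizer (W : Set G) :=
    fun h => hX.nW (norm_inf h)
  have hQW : Q ≤ Subgroup.normalizer (W : Set G) := Subgroup.le_normalizer.trans hX.nW
  have hnZ : ∀ {x}, x ∈ Subgroup.normalizer (Q : Set G) → x ∈ Subgroup.normalizer (Z : Set G) := fun {x} hx => by
    rw [← hX.comm, ← LocalEven.cj_eq_self_iff]
    show (⁅Q, Q⁆ : Subgroup G).map (MulAut.conj x).toMonoidHom = _
    rw [Subgroup.map_commutator, show Q.map (MulAut.conj x).toMonoidHom = Q from LocalEven.cj_eq_self_iff.mpr hx]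
  have hcommQ : ∀ a ∈ Q, ∀ b ∈ Q, ⁅a, b⁆ ∈ Z := fun a ha b hb =>
    hX.comm.le (Subgroup.commutator_mem_commutator ha hb)
  have hsc0 : ∀ x ∈ N, (∀ a ∈ Q, Cong W (x * a * x⁻¹) a) ∨ (∀ a ∈ Q, x * a * x⁻¹ * a ∈ W) := by
    intro x hx
    refine hsS.scalar x (fun a ha => conj_mem (norm_inf hx.1) ha) (fun b hb => conj_mem (hnW hx.1) hb)
      (fun a _ h => conj_mem' (hnW hx.1) h) (fun a ha => by simpa [pow_succ] using hX.exp a ha)
      (fun a ha b hb => hX.ZW (hcommQ a ha b hb)) ?_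
    intro g hg a ha
    have hc : x * g * x⁻¹ * g⁻¹ ∈ Q := by
      refine ⟨E.mul_mem (conj_mem hx.1 hg) (E.inv_mem hg), hE.faith (E.mul_mem (conj_mem hx.1 hg) (E.inv_mem hg)) fun v hv => ?_⟩
      have hxc : ∀ w ∈ V, x * w * x⁻¹ = w := fun w hw => by
        rw [← Subgroup.mem_centralizer_iff.mp hx.2.1 w hw, mul_inv_cancel_right]
      have hv' : g⁻¹ * v * g ∈ V := by simpa using conj_mem (norm_vb (hnE (E.inv_mem hg))) hv
      have e1 : x⁻¹ * (g⁻¹ * v * g) * x = g⁻¹ * v * g := by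
        conv_rhs => rw [← hxc _ hv']
        rw [hxc _ hv']
        calc x⁻¹ * (g⁻¹ * v * g) * x = x⁻¹ * (x * (g⁻¹ * v * g) * x⁻¹) * x := by rw [hxc _ hv']
          _ = _ := by group
      calc x * g * x⁻¹ * g⁻¹ * v = x * g * (x⁻¹ * (g⁻¹ * v * g) * x) * x⁻¹ * g⁻¹ := by group
        _ = x * g * (g⁻¹ * v * g) * x⁻¹ * g⁻¹ := by rw [e1]
        _ = (x * v * x⁻¹) * (x * g * x⁻¹ * g⁻¹) := by group
        _ = v * (x * g * x⁻¹ * g⁻¹) := by rw [hxc v hv]
    have hy : g * (x * a * x⁻¹) * g⁻¹ ∈ Q := conj_mem (norm_inf (hnE hg)) (conj_mem (norm_inf hx.1) ha)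
    have := hX.ZW (hcommQ _ hc _ hy)
    rw [commutatorElement_def] at this
    convert this using 1
    group
  have hxZ : ∀ x ∈ N, ∀ z ∈ Z, x * z = z * x := by
    intro x hx
    suffices h : Z ≤ Subgroup.centralizer ({x} : Set G) from fun z hz =>
      (Subgroup.mem_centralizer_singleton_iff.mp (h hz)).symm
    rw [← hX.comm]
    refine Subgroup.commutator_le.mpr fun a ha b hb => Subgroup.mem_centralizer_singleton_iff.mpr ?_
    have key : x * ⁅a, b⁆ * x⁻¹ = ⁅a, b⁆ := by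
      rw [← MulAut.conj_apply, map_commutatorElement, MulAut.conj_apply, MulAut.conj_apply]
      have hmod : ∀ c c' w w', c ∈ Q → c' ∈ Q → w ∈ W → w' ∈ W → ⁅w * c, w' * c'⁆ = ⁅c, c'⁆ := by
        intro c c' w w' hc hc' hw hw'
        have e1 := hX.Wc w hw _ (Subgroup.mul_mem _ (Subgroup.mul_mem _ hc (Subgroup.mul_mem _ (hX.Wle hw') hc')) (Subgroup.inv_mem _ hc))
        have e2 := hX.Wc w' hw' c hc
        rw [commutatorElement_def, commutatorElement_def]
        calc w * c * (w' * c') * (w * c)⁻¹ * (w' * c')⁻¹ = (w * (c * (w' * c') * c⁻¹)) * w⁻¹ * c'⁻¹ * w'⁻¹ := by group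
          _ = c * (w' * c') * c⁻¹ * c'⁻¹ * w'⁻¹ := by rw [e1]; group
          _ = (c * w') * c' * c⁻¹ * c'⁻¹ * w'⁻¹ := by group
          _ = w' * (c * c' * c⁻¹ * c'⁻¹) * w'⁻¹ := by rw [← e2]; group
          _ = _ := by rw [hX.Wc w' hw' _ (Subgroup.mul_mem _ (Subgroup.mul_mem _ (Subgroup.mul_mem _ hc hc') (Subgroup.inv_mem _ hc)) (Subgroup.inv_mem _ hc')), mul_inv_cancel_right]
      rcases hsc0 x hx with h | h
      · have ea : x * a * x⁻¹ = (x * a * x⁻¹ * a⁻¹) * a := by group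
        have eb : x * b * x⁻¹ = (x * b * x⁻¹ * b⁻¹) * b := by group
        rw [ea, eb]
        exact hmod a b _ _ ha hb (h a ha) (h b hb)
      · have ea : x * a * x⁻¹ = (x * a * x⁻¹ * a) * a⁻¹ := by group
        have eb : x * b * x⁻¹ = (x * b * x⁻¹ * b) * b⁻¹ := by group
        rw [ea, eb, hmod a⁻¹ b⁻¹ _ _ (Q.inv_mem ha) (Q.inv_mem hb) (h a ha) (h b hb)]
        have h1 : ⁅a⁻¹, b⁻¹⁆ = (b * a)⁻¹ * ⁅b, a⁆⁻¹ * (b * a) := by simp only [commutatorElement_def]; group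
        rw [h1, commutatorElement_inv, mul_assoc,
          hX.Wc _ (hX.ZW (hcommQ a ha b hb)) _ (Q.mul_mem hb ha), inv_mul_cancel_left]
    calc ⁅a, b⁆ * x = (x * ⁅a, b⁆ * x⁻¹) * x := by rw [key]
      _ = x * ⁅a, b⁆ := by group
  have hxW : ∀ x ∈ N, ∀ w ∈ W, x * w = w * x := by
    intro x hx
    suffices h : W ≤ Subgroup.centralizer ({x} : Set G) from fun w hw =>
      (Subgroup.mem_centralizer_singleton_iff.mp (h hw)).symm
    exact hX.WVZ.trans (sup_le (fun v hv => Subgroup.mem_centralizer_singleton_iff.mpr (Subgroup.mem_centralizer_iff.mp hx.2.1 v hv))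
      fun z hz => Subgroup.mem_centralizer_singleton_iff.mpr (hxZ x hx z hz).symm)
  -- trivial on the section implies trivial
  have hchain : ∀ x ∈ N, ∀ n : ℕ, n.Coprime 3 → x ^ n = 1 → (∀ a ∈ Q, Cong W (x * a * x⁻¹) a) → x = 1 := by
    intro x hx n hn hxn hS
    refine eq_one_of_chain hG hn hxn (inf_le_right : Q ≤ O) hx.2.2 fun a ha => ?_
    exact commute_of_fixed_commutator (j := 1) hxn hn (by rw [hxW x hx _ (hS a ha), mul_inv_cancel_right])
      (by rw [pow_one]; exact hX.Wexp _ (hS a ha))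
  rcases hsc0 k0 hk0N with hs | hs
  · rw [hchain k0 hk0N _ (hcop jk) hm1 hs]; exact O.one_mem
  exfalso
  obtain ⟨b, hbE, hbp, hbquad⟩ := hX.bq
  have hbQ := norm_inf (p := 3) hbE
  have hbV := norm_vb (p := 3) hbE
  have hbW := hX.nW hbQ
  have hbZ := hnZ hbQ
  set k' := b * k0 * b⁻¹ with hk'
  have hk'N : k' ∈ N := by
    refine ⟨Subgroup.mul_mem _ (Subgroup.mul_mem _ hbE hk0N.1) (Subgroup.inv_mem _ hbE), Subgroup.mem_centralizer_iff.mpr fun v hv => ?_, fun o ho => ?_⟩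
    · have h1 : b⁻¹ * v * b ∈ V := by simpa using conj_mem (Subgroup.inv_mem _ hbV) hv
      have h2 := Subgroup.mem_centralizer_iff.mp hk0N.2.1 _ h1
      calc v * k' = b * ((b⁻¹ * v * b) * k0) * b⁻¹ := by rw [hk']; group
        _ = b * (k0 * (b⁻¹ * v * b)) * b⁻¹ := by rw [h2]
        _ = k' * v := by rw [hk']; group
    · have h1 := hk0N.2.2 (b⁻¹ * o * b) (by simpa using conj_mem (core_norm b⁻¹) ho)
      have h2 := conj_mem hbQ h1
      convert h2 using 1
      rw [hk']; group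
  have hs' : ∀ a ∈ Q, k' * a * k'⁻¹ * a ∈ W := fun a ha => by
    have h1 : b⁻¹ * a * b ∈ Q := by have h9 := conj_mem (Subgroup.inv_mem _ hbQ) ha; rwa [inv_inv] at h9
    have := conj_mem hbW (hs _ h1)
    convert this using 1
    rw [hk']; group
  set h := k0⁻¹ * k' with hhdef
  have hhN : h ∈ N := N.mul_mem (N.inv_mem hk0N) hk'N
  have hhS : ∀ a ∈ Q, Cong W (h * a * h⁻¹) a := by
    intro a ha
    have hn0 := hnW (Subgroup.inv_mem _ hk0N.1)
    have h1 := conj_mem hn0 (hs' a ha)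
    have h2 := conj_mem hn0 (hs a ha)
    have h3 : Cong W (h * a * h⁻¹) (k0⁻¹ * a⁻¹ * k0⁻¹⁻¹) := by
      show _ ∈ W
      convert h1 using 1
      rw [hhdef]; group
    refine h3.trans ?_
    show k0⁻¹ * a⁻¹ * k0⁻¹⁻¹ * a⁻¹ ∈ W
    have h4 := W.inv_mem h2
    have h5 : k0⁻¹ * a⁻¹ * k0⁻¹⁻¹ * a⁻¹ = (k0⁻¹ * (k0 * a * k0⁻¹ * a) * k0⁻¹⁻¹)⁻¹ := by group
    rw [h5]; exact h4
  have hkR : k0 ∈ Rr := Rr.pow_mem (Rr.mul_mem (hER (E.inv_mem he)) (hFR hf)) m
  obtain ⟨jh, hjh⟩ := hRpow h (Rr.mul_mem (Rr.inv_mem hkR) (hRn.conj_mem k0 hkR b))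
  obtain ⟨mh, hmh1, hmh2⟩ := exists_part (Core.isPGroup_pCore 3 G) (hcop jh) hjh
  have hhO : h ∈ O := by
    have hone : h ^ mh = 1 := by
      refine hchain _ (N.pow_mem hhN mh) _ (hcop jh) hmh1 ?_
      clear hmh1 hmh2
      induction mh with
      | zero => intro a ha; show _ ∈ W; simp [W.one_mem]
      | succ i ih =>
        intro a ha
        have h1 := Cong.conj (hnW hhN.1) (ih a ha)
        have h2 := h1.trans (hhS a ha)
        show _ ∈ W
        have h3 : h ^ (i + 1) * a * (h ^ (i + 1))⁻¹ = h * (h ^ i * a * (h ^ i)⁻¹) * h⁻¹ := by rw [pow_succ']; group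
        rw [h3]; exact h2
    rw [hone, inv_one, one_mul] at hmh2
    exact hmh2
  -- the inverted part
  let X : Subgroup G :=
    { carrier := {a | a ∈ Q ∧ k0 * a * k0⁻¹ * a ∈ Z}
      one_mem' := ⟨Q.one_mem, by simp [Z.one_mem]⟩
      mul_mem' := fun {x y} hx hy => ⟨Q.mul_mem hx.1 hy.1, by
        have hkx : k0 * x * k0⁻¹ ∈ Q := conj_mem (norm_inf hk0N.1) hx.1
        have e : k0 * (x * y) * k0⁻¹ * (x * y) = (k0 * x * k0⁻¹) * (k0 * y * k0⁻¹ * y) * (k0 * x * k0⁻¹)⁻¹ *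
            ((k0 * x * k0⁻¹ * x) * ⁅x⁻¹, y⁻¹⁆) := by rw [commutatorElement_def]; group
        rw [e]
        exact Z.mul_mem (conj_mem (hnZ (Subgroup.le_normalizer hkx)) hy.2)
          (Z.mul_mem hx.2 (hcommQ _ (Q.inv_mem hx.1) _ (Q.inv_mem hy.1)))⟩
      inv_mem' := fun {x} hx => ⟨Q.inv_mem hx.1, by
        have e : k0 * x⁻¹ * k0⁻¹ * x⁻¹ = x * (k0 * x * k0⁻¹ * x)⁻¹ * x⁻¹ := by group
        rw [e]; exact conj_mem (hnZ (Subgroup.le_normalizer hx.1)) (Z.inv_mem hx.2)⟩ }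
  have hXQ : X ≤ Q := fun a ha => ha.1
  have hZX : Z ≤ X := fun z hz => ⟨hX.Wle (hX.ZW hz), by
    rw [hxZ k0 hk0N z hz, mul_inv_cancel_right]; exact Z.mul_mem hz hz⟩
  have hXW : ∀ d ∈ X, d ∈ W → d ∈ Z := fun d hd hdW => by
    have h1 := hd.2
    rw [hxW k0 hk0N d hdW, mul_inv_cancel_right] at h1
    have : d = d * d * (d * d) * (d ^ 3)⁻¹ := by group
    rw [this, hX.Wexp d hdW, inv_one, mul_one]
    exact Z.mul_mem h1 h1
  have hXinv : ∀ a ∈ X, b⁻¹ * a * b ∈ X := by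
    intro a ha
    set a2 := h * a * h⁻¹ with ha2
    have hnh : h ∈ Subgroup.normalizer (Q : Set G) := norm_inf hhN.1
    have ha2Q : a2 ∈ Q := conj_mem hnh ha.1
    have hy : k0 * a * k0⁻¹ * a ∈ Z := ha.2
    have hc : k0 * h * k0⁻¹ * h⁻¹ ∈ Q := hk0N.2.2 h hhO
    set c := k0 * h * k0⁻¹ * h⁻¹ with hcdef
    set y := h * (k0 * a * k0⁻¹) * h⁻¹ with hydef
    have hyQ : y ∈ Q := conj_mem hnh (conj_mem (norm_inf hk0N.1) ha.1)
    have ha2X : a2 ∈ X := by
      refine ⟨ha2Q, ?_⟩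
      have e : k0 * a2 * k0⁻¹ * a2 = ⁅c, y⁆ * (h * (k0 * a * k0⁻¹ * a) * h⁻¹) := by
        rw [commutatorElement_def, hcdef, hydef, ha2]; group
      rw [e]
      exact Z.mul_mem (hcommQ _ hc _ hyQ) (conj_mem (hnZ hnh) hy)
    have hd : a2 * a⁻¹ ∈ Z := hXW _ (X.mul_mem ha2X (X.inv_mem ha)) (hhS a ha.1)
    have hk'a : k' * a * k'⁻¹ * a ∈ Z := by
      have e : k' * a * k'⁻¹ * a = (k0 * a2 * k0⁻¹ * a2) * (a2⁻¹ * (a2 * a⁻¹)⁻¹ * a2⁻¹⁻¹) := by
        rw [ha2, hhdef]; group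
      rw [e]
      exact Z.mul_mem ha2X.2 (conj_mem (hnZ (Subgroup.inv_mem _ (Subgroup.le_normalizer ha2Q))) (Z.inv_mem hd))
    refine ⟨by have h9 := conj_mem (Subgroup.inv_mem _ hbQ) ha.1; rwa [inv_inv] at h9, ?_⟩
    have := conj_mem (Subgroup.inv_mem _ hbZ) hk'a
    convert this using 1
    rw [hk']; group
  have hbX : b ∈ Subgroup.normalizer (X : Set G) := by
    rw [← inv_mem_iff, ← LocalEven.cj_eq_self_iff]
    refine Subgroup.eq_of_le_of_card_ge ?_ (LocalEven.card_cj _ _).ge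
    rintro _ ⟨a, ha, rfl⟩
    simpa using hXinv a ha
  have hQXW : Q = X ⊔ W := by
    refine le_antisymm (fun a ha => ?_) (sup_le hXQ hX.Wle)
    have hsq : ∀ c ∈ Q, k0 * (k0 * c * k0⁻¹) * k0⁻¹ = c := by
      intro c hc
      have hk2 : k0 * k0 = 1 := by
        refine hchain _ (N.mul_mem hk0N hk0N) ((5 - 3) ^ jk) (hcop jk) ?_ fun a ha => ?_
        · rw [← pow_two, ← pow_mul, mul_comm, pow_mul, hm1, one_pow]
        · have h1 := hs a ha
          have h2 := hs _ (conj_mem (norm_inf hk0N.1) ha)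
          show _ ∈ W
          have e : k0 * k0 * a * (k0 * k0)⁻¹ * a⁻¹ = k0 * (k0 * a * k0⁻¹) * k0⁻¹ * (k0 * a * k0⁻¹) *
              ((k0 * a * k0⁻¹)⁻¹ * a⁻¹) := by group
          rw [e]
          have e2 : (k0 * a * k0⁻¹)⁻¹ * a⁻¹ ∈ W := by
            have h6 := W.inv_mem (conj_mem (hQW ha) h1)
            convert h6 using 1
            group
          exact W.mul_mem h2 e2
      calc k0 * (k0 * c * k0⁻¹) * k0⁻¹ = (k0 * k0) * c * (k0 * k0)⁻¹ := by group
        _ = c := by rw [hk2]; group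
    set x := a * (k0 * a * k0⁻¹)⁻¹ with hx
    have hxX : x ∈ X := by
      refine ⟨Q.mul_mem ha (Q.inv_mem (conj_mem (norm_inf hk0N.1) ha)), ?_⟩
      have e : k0 * x * k0⁻¹ * x = (k0 * a * k0⁻¹) * (k0 * (k0 * a * k0⁻¹) * k0⁻¹)⁻¹ * (a * (k0 * a * k0⁻¹)⁻¹) := by
        rw [hx]; group
      rw [e, hsq a ha]
      simp [Z.one_mem]
    have haa : a * a ∈ X ⊔ W := by
      have : a * a = x * (k0 * a * k0⁻¹ * a) := by rw [hx]; group
      rw [this]
      exact Subgroup.mul_mem _ (Subgroup.mem_sup_left hxX) (Subgroup.mem_sup_right (hs a ha))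
    have : a = (a * a) * (a * a) * (a ^ 3)⁻¹ := by group
    rw [this]
    exact Subgroup.mul_mem _ (Subgroup.mul_mem _ haa haa) (Subgroup.mem_sup_right (W.inv_mem (hX.exp a ha)))
  have hcardX : Nat.card ↥X = 3 ^ 2 * Nat.card ↥Z := by
    have h1 := card_sup (hXQ.trans hQW)
    rw [← hQXW, hcardS, show X ⊓ W = Z from le_antisymm (fun d hd => hXW d hd.1 hd.2) (le_inf hZX hX.ZW)] at h1
    have h2 : 0 < Nat.card ↥W := Nat.card_pos
    nlinarith
  have hcardW : Nat.card ↥W = 3 ^ 2 * Nat.card ↥Z := by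
    have hVn : V ≤ Subgroup.normalizer (Z : Set G) := fun v hv => hnZ (Subgroup.le_normalizer (hVQ hv))
    have h1 := card_sup hVn
    rw [show V ⊔ Z = W from le_antisymm (sup_le hX.VW hX.ZW) hX.WVZ, show V ⊓ Z = ⊥ from (Subgroup.eq_bot_iff_forall _).mpr
      fun x hx => hE.eq_one_of_fixed hx.1 fun g hg => Subgroup.mem_centralizer_iff.mp (hX.ZC hx.2) g hg,
      Subgroup.card_bot, mul_one, hE.card] at h1
    exact h1.symm
  set P := Subgroup.zpowers b with hPdef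
  have hQp : IsPGroup 3 Q := (Core.isPGroup_pCore 3 G).to_le inf_le_right
  have hWZ : W ≤ Subgroup.normalizer (Z : Set G) := fun w hw => hnZ (Subgroup.le_normalizer (hX.Wle hw))
  have hPX : P ≤ Subgroup.normalizer (X : Set G) := Subgroup.zpowers_le.mpr hbX
  have hPW : P ≤ Subgroup.normalizer (W : Set G) := Subgroup.zpowers_le.mpr hbW
  have hPZ : P ≤ Subgroup.normalizer (Z : Set G) := Subgroup.zpowers_le.mpr hbZ
  have hq1 := quadratic_of_card (hQp.to_le hXQ) hbp hPX hPZ (fun x hx => hnZ (Subgroup.le_normalizer (hXQ hx))) hZX hcardX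
  have hq2 := quadratic_of_card (hQp.to_le hX.Wle) hbp hPW hPZ hWZ hX.ZW hcardW
  apply hbquad
  show ⁅⁅Q, P⁆, P⁆ ≤ Z
  rw [hQXW]
  have hM1 : ⁅X, P⁆ ≤ X := Subgroup.le_normalizer_iff_commutator_le_left.mp hPX
  have hM2 : ⁅W, P⁆ ≤ W := Subgroup.le_normalizer_iff_commutator_le_left.mp hPW
  refine (Subgroup.commutator_mono (comm_sup_central (hXQ.trans hQW) (fun a ha w hw => (hX.Wc w hw a (hXQ ha)).symm) hPW) le_rfl).trans ?_
  refine (comm_sup_central ?_ (fun a ha w hw => (hX.Wc w (hM2 hw) a (hXQ (hM1 ha))).symm) (Block.right_le_normalizer_commutator W P)).trans (sup_le hq1 hq2)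
  intro a ha
  refine Subgroup.centralizer_le_normalizer _ (Subgroup.mem_centralizer_iff.mpr fun w hw => ?_)
  exact hX.Wc w (hM2 hw) a (hXQ (hM1 ha))

end Cfsg.Agent.Components.BlockPair
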