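import Cfsg.Agent.Components.BlockPairBase
import Mathlib.LinearAlgebra.Matrix.ToLin

/-!
Small natural sections from explicit models.
-/

set_option autoImplicit false
set_option linter.style.haveILetI false

open scoped commutatorElement

namespace Cfsg.Agent.Components.BlockPair

variable {G : Type*} [Group G]

/-- The facts about a model needed for `Small`. -/
structure ModelFacts {R V : Type*} [Group R] [AddCommGroup V] (r t : ℕ) (P : R → Prop) (act : R → V → V) : Prop where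
  exp : ∀ v : V, 2 • v = 0 ∨ 3 • v = 0
  nc : ∀ v : V, ∃ w : V, ∀ i : Fin 6, (i : ℕ) • v ≠ w
  two : ∀ g, P g → g * g ≠ 1 → ∀ v : V, v ≠ 0 → ∀ x : V, ∃ i j : Fin 3, x = (i : ℕ) • v + (j : ℕ) • act g v
  sq : ∀ g, P g → g * g ≠ 1 → ∀ v : V, act g (act g v) + v = t • act g v
  trans : ∀ v : V, v ≠ 0 → ∀ w : V, w ≠ 0 → ∃ g, P g ∧ act g v = w ∧ (g * g = 1 → ∃ i : Fin 3, w = (i : ℕ) • v)
  fix : ∀ g, P g → ∀ v : V, v ≠ 0 → act g v = v → g = 1
  pow : ∀ g, P g → g ^ r ^ 2 = 1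
  gen : ∀ g, P g → ∃ h, P h ∧ h * h ≠ 1 ∧ (g * h) * (g * h) ≠ 1
  nab : t = 1 ∨ ∀ g, P g → g * g ≠ 1 → ∃ h, P h ∧ ∃ v : V, act g (act h v) ≠ act h (act g v)

theorem small_of_model {R V : Type*} [Group R] [AddCommGroup V] {p r t : ℕ} {O E A B : Subgroup G}
    {P : R → Prop} {act : R → V → V} (hF : ModelFacts r t P act)
    (ρ : ↥E →* R) (ψ : ↥A →* Multiplicative V)
    (hρ : ∀ g, (∃ e, ρ e = g) ↔ P g) (hker : ∀ e : ↥E, ρ e = 1 ↔ (e : G) ∈ O)
    (hψs : Function.Surjective ψ) (hψ : ∀ a : ↥A, ψ a = 1 ↔ (a : G) ∈ B) (hle : B ≤ A)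
    (nA : E ≤ Subgroup.normalizer (A : Set G)) (nB : E ≤ Subgroup.normalizer (B : Set G))
    (AB : A ≤ Subgroup.normalizer (B : Set G))
    (hact : ∀ (e : ↥E) (a : ↥A) (h : (e : G) * a * (e : G)⁻¹ ∈ A),
      Multiplicative.toAdd (ψ ⟨_, h⟩) = act (ρ e) (Multiplicative.toAdd (ψ a))) :
    Small p r t O E A B := by
  have hn : ∀ e ∈ E, ∀ a ∈ A, e * a * e⁻¹ ∈ A := fun e he a ha =>
    (Subgroup.mem_normalizer_iff.mp (nA he) a).mp ha
  let φ : ↥A → V := fun a => Multiplicative.toAdd (ψ a)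
  have hact' : ∀ (e : G) (he : e ∈ E) (a : G) (ha : a ∈ A),
      φ ⟨e * a * e⁻¹, hn e he a ha⟩ = act (ρ ⟨e, he⟩) (φ ⟨a, ha⟩) := fun e he a ha => hact ⟨e, he⟩ ⟨a, ha⟩ _
  have h0 : ∀ (a : G) (ha : a ∈ A), φ ⟨a, ha⟩ = 0 ↔ a ∈ B := fun a ha => by
    rw [← hψ ⟨a, ha⟩]; exact toAdd_eq_zero
  have hzero : ∀ x : ↥A, φ x = 0 → (x : G) ∈ B := fun x hx => (h0 x.1 x.2).mp hx
  have hmul : ∀ x y : ↥A, φ (x * y) = φ x + φ y := fun x y => by simp [φ]
  have hinv : ∀ x : ↥A, φ x⁻¹ = -φ x := fun x => by simp [φ]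
  have hpow : ∀ (x : ↥A) (n : ℕ), φ (x ^ n) = n • φ x := fun x n => by simp [φ]
  have hsur : ∀ v : V, ∃ x : ↥A, φ x = v := fun v => by
    obtain ⟨x, hx⟩ := hψs (Multiplicative.ofAdd v); exact ⟨x, by simp [φ, hx]⟩
  have hP : ∀ (e : G) (he : e ∈ E), P (ρ ⟨e, he⟩) := fun e he => (hρ _).mp ⟨_, rfl⟩
  have hsq : ∀ (e : G) (he : e ∈ E), ρ ⟨e, he⟩ * ρ ⟨e, he⟩ = 1 ↔ e * e ∈ O := fun e he => by
    rw [← map_mul, hker]; rfl
  refine ⟨hle, nA, nB, AB, ?_, ?_, ?_, ?_, ?_, ?_, ?_, ?_⟩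
  · intro u hu hle'
    obtain ⟨w, hw⟩ := hF.nc (φ ⟨u, hu⟩)
    obtain ⟨x, rfl⟩ := hsur w
    have hx := hle' x.2
    rw [← SetLike.mem_coe, Subgroup.coe_mul_of_left_le_normalizer_right _ _
      ((Subgroup.zpowers_le.mpr hu).trans AB)] at hx
    obtain ⟨_, ⟨i, rfl⟩, b, hb, hib⟩ := hx
    have hxeq : x = (⟨u, hu⟩ : ↥A) ^ i * ⟨b, hle hb⟩ := Subtype.ext (by simpa using hib.symm)
    have hφx : φ x = i • φ ⟨u, hu⟩ := by
      rw [hxeq, hmul, (h0 b (hle hb)).mpr hb, add_zero]; simp [φ]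
    have hi : 0 ≤ i % 6 ∧ i % 6 < 6 := ⟨Int.emod_nonneg _ (by norm_num), Int.emod_lt_of_pos _ (by norm_num)⟩
    apply hw ⟨(i % 6).toNat, by omega⟩
    rw [hφx]
    show (i % 6).toNat • φ ⟨u, hu⟩ = i • φ ⟨u, hu⟩
    rw [← natCast_zsmul, Int.toNat_of_nonneg hi.1]
    have h6 : (6 : ℤ) • φ ⟨u, hu⟩ = 0 := by
      rcases hF.exp (φ ⟨u, hu⟩) with h | h
      · rw [show (6 : ℤ) = 3 * ((2 : ℕ) : ℤ) by norm_num, mul_zsmul, natCast_zsmul, h, zsmul_zero]
      · rw [show (6 : ℤ) = 2 * ((3 : ℕ) : ℤ) by norm_num, mul_zsmul, natCast_zsmul, h, zsmul_zero]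
    conv_rhs => rw [← Int.mul_ediv_add_emod i 6]
    rw [add_zsmul, mul_comm, mul_zsmul, h6, zsmul_zero, zero_add]
  · intro e he hee u hu huB M hBM huM heM a ha
    obtain ⟨i, j, hij⟩ := hF.two _ (hP e he) (fun h => hee ((hsq e he).mp h)) (φ ⟨u, hu⟩)
      (fun h => huB ((h0 u hu).mp h)) (φ ⟨a, ha⟩)
    rw [← hact', ← hpow, ← hpow, ← hmul] at hij
    set y : ↥A := (⟨u, hu⟩ : ↥A) ^ (i : ℕ) * ⟨e * u * e⁻¹, hn e he u hu⟩ ^ (j : ℕ) with hy
    have h1 : ((y⁻¹ * ⟨a, ha⟩ : ↥A) : G) ∈ B := hzero _ (by rw [hmul, hinv, hij, neg_add_cancel])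
    have h2 : (y : G) ∈ M := by
      simp only [hy, Subgroup.coe_mul, SubgroupClass.coe_pow]
      exact M.mul_mem (M.pow_mem huM _) (M.pow_mem heM _)
    simpa using M.mul_mem h2 (hBM h1)
  · intro e he hee u hu
    have h := hF.sq _ (hP e he) (fun h => hee ((hsq e he).mp h)) (φ ⟨u, hu⟩)
    rw [← hact', ← hact', ← hpow, ← hmul] at h
    have := hzero ((⟨e * (e * u * e⁻¹) * e⁻¹, hn e he _ (hn e he u hu)⟩ * ⟨u, hu⟩ : ↥A) *
      (⟨e * u * e⁻¹, hn e he u hu⟩ ^ t)⁻¹) (by rw [hmul, hinv, h, add_neg_cancel])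
    simpa using this
  · intro u hu huB w hw hwB
    obtain ⟨g, hg, hgv, hg2⟩ := hF.trans (φ ⟨u, hu⟩) (fun h => huB ((h0 u hu).mp h)) (φ ⟨w, hw⟩)
      (fun h => hwB ((h0 w hw).mp h))
    obtain ⟨⟨e, he⟩, rfl⟩ := (hρ g).mpr hg
    rw [← hact'] at hgv
    refine ⟨e, he, ?_, fun hee => ?_⟩
    · simpa using hzero ((⟨e * u * e⁻¹, hn e he u hu⟩ : ↥A)⁻¹ * ⟨w, hw⟩) (by rw [hmul, hinv, hgv, neg_add_cancel])
    · obtain ⟨i, hi⟩ := hg2 ((hsq e he).mpr hee)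
      rw [← hpow] at hi
      have h1 := hzero (((⟨u, hu⟩ : ↥A) ^ (i : ℕ))⁻¹ * ⟨w, hw⟩) (by rw [hmul, hinv, hi, neg_add_cancel])
      have h2 : u ^ (i : ℕ) ∈ Subgroup.zpowers u ⊔ B := Subgroup.mem_sup_left ((Subgroup.zpowers u).pow_mem (Subgroup.mem_zpowers u) _)
      simpa using Subgroup.mul_mem _ h2 (Subgroup.mem_sup_right h1)
  · intro e he u hu huB hfx
    refine (hker ⟨e, he⟩).mp (hF.fix _ (hP e he) _ (fun h => huB ((h0 u hu).mp h)) ?_)
    rw [← hact']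
    have h1 : φ (⟨e * u * e⁻¹, hn e he u hu⟩ * (⟨u, hu⟩ : ↥A)⁻¹) = 0 := (h0 _ (mul_mem (hn e he u hu) (inv_mem hu))).mpr hfx
    rwa [hmul, hinv, add_neg_eq_zero] at h1
  · intro e he
    have h := hF.pow _ (hP e he)
    rw [← map_pow, hker] at h
    simpa using h
  · intro e he
    obtain ⟨g, hg, h1, h2⟩ := hF.gen _ (hP e he)
    obtain ⟨⟨h, hh⟩, rfl⟩ := (hρ g).mpr hg
    refine ⟨h, hh, fun hc => h1 ((hsq h hh).mpr hc), fun hc => h2 ?_⟩
    rw [← map_mul, ← map_mul, hker]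
    exact hc
  · refine hF.nab.imp_right fun hn' e he hee => ?_
    obtain ⟨g, hg, v, hv⟩ := hn' _ (hP e he) (fun h => hee ((hsq e he).mp h))
    obtain ⟨⟨h, hh⟩, rfl⟩ := (hρ g).mpr hg
    obtain ⟨x, rfl⟩ := hsur v
    refine ⟨h, hh, x, x.2, fun hc => hv ?_⟩
    have h1 : φ (⟨e * (h * x * h⁻¹) * e⁻¹, hn e he _ (hn h hh _ x.2)⟩ *
        (⟨h * (e * x * e⁻¹) * h⁻¹, hn h hh _ (hn e he _ x.2)⟩ : ↥A)⁻¹) = 0 := (h0 _ (mul_mem (hn e he _ (hn h hh _ x.2)) (inv_mem (hn h hh _ (hn e he _ x.2))))).mpr hc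
    rw [hmul, hinv, add_neg_eq_zero] at h1
    rw [← hact', ← hact', ← hact', ← hact']
    exact h1

theorem compEl_of_model {R V : Type*} [Group R] [AddCommGroup V] {E A B : Subgroup G}
    {act : R → V → V} (ρ : ↥E →* R) (ψ : ↥A →* Multiplicative V)
    (hψ : ∀ a : ↥A, ψ a = 1 ↔ (a : G) ∈ B) (hle : B ≤ A)
    (nA : E ≤ Subgroup.normalizer (A : Set G))
    (hact : ∀ (e : ↥E) (a : ↥A) (h : (e : G) * a * (e : G)⁻¹ ∈ A),
      Multiplicative.toAdd (ψ ⟨_, h⟩) = act (ρ e) (Multiplicative.toAdd (ψ a)))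
    (e : ↥E) (S₀ : AddSubgroup V) (hin : ∀ a : ↥A, act (ρ e) (Multiplicative.toAdd (ψ a)) - Multiplicative.toAdd (ψ a) ∈ S₀)
    (hout : ∃ a : ↥A, Multiplicative.toAdd (ψ a) ∉ S₀)
    (hmove : ∃ a : ↥A, act (ρ e) (Multiplicative.toAdd (ψ a)) ≠ Multiplicative.toAdd (ψ a)) :
    CompEl E A B := by
  have hn : ∀ a ∈ A, (e : G) * a * (e : G)⁻¹ ∈ A := fun a ha =>
    (Subgroup.mem_normalizer_iff.mp (nA e.2) a).mp ha
  have hc : ∀ a : ↥A, ∃ c : ↥A, (c : G) = ⁅(a : G), (e : G)⁆ ∧ Multiplicative.toAdd (ψ c) =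
      Multiplicative.toAdd (ψ a) - act (ρ e) (Multiplicative.toAdd (ψ a)) := fun a => by
    refine ⟨a * ⟨_, hn a a.2⟩⁻¹, ?_, ?_⟩
    · simp [commutatorElement_def, mul_assoc]
    · rw [map_mul, map_inv, toAdd_mul, toAdd_inv, hact, sub_eq_add_neg]
  refine ⟨e, e.2, ?_, fun hall => ?_⟩
  · obtain ⟨a, ha⟩ := hmove
    obtain ⟨c, hc1, hc2⟩ := hc a
    refine ⟨a, a.2, fun hB => ha ?_⟩
    rw [← hc1] at hB
    rw [(hψ c).mpr hB] at hc2
    exact (sub_eq_zero.mp hc2.symm).symm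
  · let K : Subgroup G := ((S₀.toSubgroup : Subgroup (Multiplicative V)).comap ψ).map A.subtype
    have hK : Subgroup.closure {y | ∃ a ∈ A, y = ⁅a, (e : G)⁆} ⊔ B ≤ K := by
      refine sup_le ((Subgroup.closure_le _).mpr ?_) fun b hb => ?_
      · rintro _ ⟨a, ha, rfl⟩
        obtain ⟨c, hc1, hc2⟩ := hc ⟨a, ha⟩
        refine ⟨c, ?_, hc1⟩
        show Multiplicative.toAdd (ψ c) ∈ S₀
        rw [hc2, ← neg_sub]
        exact S₀.neg_mem (hin _)
      · refine ⟨⟨b, hle hb⟩, ?_, rfl⟩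
        show Multiplicative.toAdd (ψ ⟨b, hle hb⟩) ∈ S₀
        rw [(hψ _).mpr hb, toAdd_one]
        exact S₀.zero_mem
    obtain ⟨a, ha⟩ := hout
    obtain ⟨a', ha', he⟩ := hK (hall a.2)
    rw [show a' = a from Subtype.ext he] at ha'
    exact ha ha'

/-! ### The three models -/

abbrev SL2 (q : ℕ) := Matrix.SpecialLinearGroup (Fin 2) (ZMod q)

def act2 {q : ℕ} (g : SL2 q) (v : Fin 2 → ZMod q) : Fin 2 → ZMod q :=
  (g : Matrix (Fin 2) (Fin 2) (ZMod q)).mulVec v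

set_option synthInstance.maxSize 4000 in
set_option synthInstance.maxHeartbeats 200000 in
theorem sl2_two_facts : ModelFacts 3 1 (fun g : SL2 2 => g ^ 3 = 1) act2 := by
  constructor <;> (try unfold act2) <;> decide +kernel

set_option synthInstance.maxSize 4000 in
set_option synthInstance.maxHeartbeats 200000 in
theorem sl2_three_facts : ModelFacts 2 0 (fun g : SL2 3 => g ^ 4 = 1) act2 := by
  constructor <;> (try unfold act2) <;> decide +kernel

/-- The even weight module of `A₃` in coordinates. -/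
def act3 (σ : ↥(alternatingGroup (Fin 3))) (v : ZMod 2 × ZMod 2) : ZMod 2 × ZMod 2 :=
  (![v.1, v.2, v.1 + v.2] ((σ : Equiv.Perm (Fin 3))⁻¹ 0), ![v.1, v.2, v.1 + v.2] ((σ : Equiv.Perm (Fin 3))⁻¹ 1))

set_option synthInstance.maxSize 4000 in
theorem alt_three_facts : ModelFacts 3 1 (fun _ : ↥(alternatingGroup (Fin 3)) => True) act3 := by
  constructor <;> (try unfold act3) <;> decide +kernel

theorem sl2_commutator_two (g : SL2 2) : g ∈ commutator (SL2 2) ↔ g ^ 3 = 1 := by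
  have h1 : ∀ a b : SL2 2, a ^ 3 = 1 → b ^ 3 = 1 → (a * b) ^ 3 = 1 := by decide +kernel
  have h2 : ∀ a b : SL2 2, ⁅a, b⁆ ^ 3 = 1 := by simp only [commutatorElement_def]; decide +kernel
  have h3 : ∀ g : SL2 2, g ^ 3 = 1 → ∃ a b, g = a * b * a⁻¹ * b⁻¹ := by decide +kernel
  constructor
  · intro hg
    let Q : Subgroup (SL2 2) :=
      { carrier := {g | g ^ 3 = 1}
        one_mem' := one_pow 3
        mul_mem' := fun {a b} => h1 a b
        inv_mem' := fun {a} ha => by show a⁻¹ ^ 3 = 1; rw [inv_pow, ha, inv_one] }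
    exact (show commutator (SL2 2) ≤ Q by rw [commutator_def, Subgroup.commutator_le]; exact fun a _ b _ => h2 a b) hg
  · intro hg
    obtain ⟨a, b, rfl⟩ := h3 g hg
    exact Subgroup.commutator_mem_commutator (Subgroup.mem_top a) (Subgroup.mem_top b)

theorem sl2_commutator_three (g : SL2 3) : g ∈ commutator (SL2 3) ↔ g ^ 4 = 1 := by
  have h1 : ∀ a b : SL2 3, a ^ 4 = 1 → b ^ 4 = 1 → (a * b) ^ 4 = 1 := by decide +kernel
  have h2 : ∀ a b : SL2 3, ⁅a, b⁆ ^ 4 = 1 := by simp only [commutatorElement_def]; decide +kernel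
  have h3 : ∀ g : SL2 3, g ^ 4 = 1 → ∃ a b, g = a * b * a⁻¹ * b⁻¹ := by decide +kernel
  constructor
  · intro hg
    let Q : Subgroup (SL2 3) :=
      { carrier := {g | g ^ 4 = 1}
        one_mem' := one_pow 4
        mul_mem' := fun {a b} => h1 a b
        inv_mem' := fun {a} ha => by show a⁻¹ ^ 4 = 1; rw [inv_pow, ha, inv_one] }
    exact (show commutator (SL2 3) ≤ Q by rw [commutator_def, Subgroup.commutator_le]; exact fun a _ b _ => h2 a b) hg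
  · intro hg
    obtain ⟨a, b, rfl⟩ := h3 g hg
    exact Subgroup.commutator_mem_commutator (Subgroup.mem_top a) (Subgroup.mem_top b)

/-- The models over an arbitrary field of two or three elements. -/
theorem small_of_sl2 {F : Type} [Field F] [Fintype F] {p : ℕ} [hp : Fact p.Prime]
    (hcard : Fintype.card F = p) (hp3 : p = 2 ∨ p = 3) {O E A B : Subgroup G}
    (ρ : ↥E →* Matrix.SpecialLinearGroup (Fin 2) F) (ψ : ↥A →* Multiplicative (Fin 2 → F))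
    (hρ : ρ.range = commutator (Matrix.SpecialLinearGroup (Fin 2) F))
    (hker : ∀ e : ↥E, ρ e = 1 ↔ (e : G) ∈ O)
    (hψs : Function.Surjective ψ) (hψ : ∀ a : ↥A, ψ a = 1 ↔ (a : G) ∈ B) (hle : B ≤ A)
    (nA : E ≤ Subgroup.normalizer (A : Set G)) (nB : E ≤ Subgroup.normalizer (B : Set G))
    (AB : A ≤ Subgroup.normalizer (B : Set G))
    (hact : ∀ (e : ↥E) (a : ↥A) (h : (e : G) * a * (e : G)⁻¹ ∈ A),
      Multiplicative.toAdd (ψ ⟨_, h⟩) =
        ((ρ e : Matrix (Fin 2) (Fin 2) F)).mulVec (Multiplicative.toAdd (ψ a))) :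
    Small p (5 - p) (3 - p) O E A B ∧ ∀ a ∈ A, a ^ p ∈ B := by
  let ε : F ≃+* ZMod p := (ZMod.ringEquivOfPrime F hp.out hcard).symm
  let μ := Matrix.SpecialLinearGroup.map (n := Fin 2) ε.toRingHom
  have hμi : Function.Injective μ := fun x y h => Subtype.ext (Matrix.ext fun i j => ε.injective
    (congrFun (congrFun (congrArg Subtype.val h) i) j))
  let ν : (Fin 2 → F) →+ (Fin 2 → ZMod p) :=
    { toFun := fun v i => ε (v i)
      map_zero' := funext fun i => map_zero ε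
      map_add' := fun v w => funext fun i => map_add ε _ _ }
  have hνi : Function.Injective ν := fun v w h => funext fun i => ε.injective (congrFun h i)
  let ψ' : ↥A →* Multiplicative (Fin 2 → ZMod p) := ν.toMultiplicative.comp ψ
  let ρ' : ↥E →* SL2 p := μ.comp ρ
  have hμs : Function.Surjective μ := fun y =>
    ⟨Matrix.SpecialLinearGroup.map ε.symm.toRingHom y, Subtype.ext (Matrix.ext fun i j => ε.apply_symm_apply _)⟩
  have hrange : ∀ g, (∃ e, ρ' e = g) ↔ g ∈ commutator (SL2 p) := fun g => by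
    rw [← MonoidHom.mem_range, MonoidHom.range_comp, hρ, commutator_def, Subgroup.map_commutator,
      Subgroup.map_top_of_surjective μ hμs, ← commutator_def]
  have hker' : ∀ e : ↥E, ρ' e = 1 ↔ (e : G) ∈ O := fun e => by
    rw [← hker e]; exact map_eq_one_iff μ hμi
  have hψs' : Function.Surjective ψ' := fun y => by
    obtain ⟨a, ha⟩ := hψs (Multiplicative.ofAdd fun i => ε.symm (Multiplicative.toAdd y i))
    refine ⟨a, ?_⟩
    show ν.toMultiplicative (ψ a) = y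
    rw [ha]
    exact Multiplicative.toAdd.injective (funext fun i => ε.apply_symm_apply _)
  have hψ' : ∀ a : ↥A, ψ' a = 1 ↔ (a : G) ∈ B := fun a => by
    rw [← hψ a]
    exact map_eq_one_iff ν.toMultiplicative (fun x y h => Multiplicative.toAdd.injective (hνi (congrArg Multiplicative.toAdd h)))
  have hact' : ∀ (e : ↥E) (a : ↥A) (h : (e : G) * a * (e : G)⁻¹ ∈ A),
      Multiplicative.toAdd (ψ' ⟨_, h⟩) = act2 (ρ' e) (Multiplicative.toAdd (ψ' a)) := fun e a h => by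
    show ν (Multiplicative.toAdd (ψ ⟨_, h⟩)) = _
    rw [hact]
    funext i
    fin_cases i <;> simp [ν, ρ', μ, ψ', act2, Matrix.mulVec, dotProduct]
  refine ⟨?_, fun a ha => ?_⟩
  · rcases hp3 with rfl | rfl
    · exact small_of_model sl2_two_facts ρ' ψ' (fun g => (hrange g).trans (sl2_commutator_two g)) hker' hψs' hψ' hle nA nB AB hact'
    · exact small_of_model sl2_three_facts ρ' ψ' (fun g => (hrange g).trans (sl2_commutator_three g)) hker' hψs' hψ' hle nA nB AB hact'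
  · refine (hψ' (⟨a, ha⟩ ^ p)).mp ?_
    rw [map_pow]
    apply Multiplicative.toAdd.injective
    rw [toAdd_pow, toAdd_one]
    funext i
    simp [ZMod.natCast_self]

end Cfsg.Agent.Components.BlockPair
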