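import Cfsg.Agent.Components.EightBasics
import Cfsg.Agent.Components.IsolatedRankTwo
import Cfsg.Agent.Core.CoprimeAction
import Cfsg.Agent.FGS3.PGroupFrattini

/-!
Odd groups acting on four-groups and on quaternion groups of order eight inside a `2`-group.
-/

set_option autoImplicit false
set_option linter.unusedSectionVars false

namespace Cfsg.Agent.Components.Eight

open scoped commutatorElement

variable {S : Type*} [Group S] [Finite S]

theorem comm_centralizer {A B : Subgroup S} (h : A ≤ Subgroup.centralizer (B : Set S)) {a b : S}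
    (ha : a ∈ A) (hb : b ∈ B) : a * b = b * a := ((Subgroup.mem_centralizer_iff.1 (h ha)) b hb).symm

theorem commutator_eq_bot_of_comm {A B : Subgroup S} (h : ∀ a ∈ A, ∀ b ∈ B, a * b = b * a) :
    ⁅A, B⁆ = ⊥ :=
  Subgroup.commutator_eq_bot_iff_le_centralizer.2 fun a ha =>
    Subgroup.mem_centralizer_iff.2 fun b hb => (h a ha b hb).symm

theorem comm_of_commutator_eq_bot {A B : Subgroup S} (h : ⁅A, B⁆ = ⊥) :
    ∀ a ∈ A, ∀ b ∈ B, a * b = b * a :=
  fun _ ha _ hb => comm_centralizer (Subgroup.commutator_eq_bot_iff_le_centralizer.1 h) ha hb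

theorem mem_pair_of_card_four {Y : Subgroup S} (hY : Nat.card Y = 4) (hY2 : ∀ a ∈ Y, a * a = 1)
    {f e : S} (hf : f ∈ Y) (hf1 : f ≠ 1) (he : e ∈ Y) (he1 : e ≠ 1) (hef : e ≠ f) {a : S} (ha : a ∈ Y) :
    a = 1 ∨ a = f ∨ a = e ∨ a = e * f := by
  have hcomm : e * f = f * e := by
    have h := hY2 _ (Y.mul_mem he hf)
    calc e * f = (e * f)⁻¹ := (inv_eq_of_mul_eq_one_right h).symm
      _ = f⁻¹ * e⁻¹ := by group
      _ = f * e := by
        rw [inv_eq_of_mul_eq_one_right (hY2 f hf), inv_eq_of_mul_eq_one_right (hY2 e he)]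
  obtain ⟨K, -, hK4, -, hm⟩ := exists_four (hY2 f hf) hf1 (hY2 e he) he1 hef hcomm
  have hKY : K ≤ Y := by
    intro k hk
    rcases (hm k).1 hk with rfl | rfl | rfl | rfl
    exacts [Y.one_mem, hf, he, Y.mul_mem he hf]
  exact (hm a).1 ((Subgroup.eq_of_le_of_card_ge hKY (by rw [hY, hK4])).symm ▸ ha)

theorem comm_of_card_four {Y : Subgroup S} (hY2 : ∀ a ∈ Y, a * a = 1) :
    ∀ a ∈ Y, ∀ b ∈ Y, a * b = b * a := by
  intro a ha b hb
  calc a * b = (a * b)⁻¹ := (inv_eq_of_mul_eq_one_right (hY2 _ (Y.mul_mem ha hb))).symm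
    _ = b⁻¹ * a⁻¹ := by group
    _ = b * a := by
      rw [inv_eq_of_mul_eq_one_right (hY2 a ha), inv_eq_of_mul_eq_one_right (hY2 b hb)]

variable {H : Subgroup S} (hH : ∀ h ∈ H, Odd (orderOf h))
include hH

theorem four_fixed_free {Y : Subgroup S} (hY : Nat.card Y = 4) (hY2 : ∀ a ∈ Y, a * a = 1)
    (hHY : H ≤ Subgroup.normalizer (Y : Set S)) (hne : ⁅Y, H⁆ ≠ ⊥) {f : S} (hf : f ∈ Y)
    (hfix : ∀ h ∈ H, h * f * h⁻¹ = f) : f = 1 := by
  by_contra hf1
  apply hne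
  refine commutator_eq_bot_of_comm fun a ha h hh => ?_
  by_cases hcase : a = 1 ∨ a = f
  · rcases hcase with rfl | rfl
    · simp
    · exact (mul_inv_eq_iff_eq_mul.1 (hfix h hh)).symm
  push Not at hcase
  have hconj : ∀ k ∈ H, k * a * k⁻¹ ∈ Y := fun k hk => (Subgroup.mem_normalizer_iff.1 (hHY hk) a).1 ha
  refine (centralizes_of_sq hH (x := a) (fun k hk => ?_) h hh).symm
  have hw : k * a * k⁻¹ * a⁻¹ = 1 ∨ k * a * k⁻¹ * a⁻¹ = f := by
    rcases mem_pair_of_card_four hY hY2 hf hf1 ha hcase.1 hcase.2 (hconj k hk) with e | e | e | e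
    · exact absurd (conj_eq_one_iff.1 e) hcase.1
    · refine absurd ?_ hcase.2
      have e2 : k⁻¹ * (k * a * k⁻¹) * k = k⁻¹ * f * k := by rw [e]
      have e3 : k⁻¹ * f * k = f := by
        have := hfix _ (H.inv_mem hk)
        rwa [inv_inv] at this
      rw [e3] at e2
      simpa [mul_assoc] using e2
    · left; rw [e, mul_inv_cancel]
    · right
      rw [e, comm_of_card_four hY2 a ha f hf, mul_inv_cancel_right]
  rcases hw with e | e <;> rw [e]
  · exact ⟨one_mul 1, fun k _ => by simp⟩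
  · exact ⟨hY2 f hf, hfix⟩

theorem four_le_centralizer {P Y : Subgroup S} (hP : IsPGroup 2 P) (hYP : Y ≤ P)
    (hPY : P ≤ Subgroup.normalizer (Y : Set S)) (hHP : H ≤ Subgroup.normalizer (P : Set S))
    (hY : Nat.card Y = 4) (hY2 : ∀ a ∈ Y, a * a = 1)
    (hHY : H ≤ Subgroup.normalizer (Y : Set S)) (hne : ⁅Y, H⁆ ≠ ⊥) :
    Y ≤ Subgroup.centralizer (P : Set S) := by
  haveI : Fact (Nat.Prime 2) := ⟨Nat.prime_two⟩
  set F := Y ⊓ Subgroup.centralizer (P : Set S) with hF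
  haveI hn : (Y.subgroupOf P).Normal := ⟨fun y hy p => (Subgroup.mem_normalizer_iff.1 (hPY p.2) _).1 hy⟩
  have hne' : Y.subgroupOf P ≠ ⊥ := by
    intro h
    have := congrArg (fun K : Subgroup ↥P => Nat.card K) h
    simp only [Subgroup.card_bot] at this
    rw [Nat.card_congr (Subgroup.subgroupOfEquivOfLe hYP).toEquiv, hY] at this
    omega
  obtain ⟨f, hfne⟩ := Subgroup.ne_bot_iff_exists_ne_one.1
    (IsolatedRankTwo.normal_inf_center_ne_bot hP (N := Y.subgroupOf P) hne')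
  have hfF : ((f : ↥P) : S) ∈ F := by
    refine ⟨f.2.1, Subgroup.mem_centralizer_iff.2 fun p hp => ?_⟩
    exact congrArg Subtype.val (Subgroup.mem_center_iff.1 f.2.2 ⟨p, hp⟩)
  have hf1 : ((f : ↥P) : S) ≠ 1 := fun h => hfne (Subtype.ext (Subtype.ext h))
  have hFH : ∀ h ∈ H, ∀ x ∈ F, h * x * h⁻¹ ∈ F := fun h hh x hx =>
    ⟨(Subgroup.mem_normalizer_iff.1 (hHY hh) x).1 hx.1, Subgroup.mem_centralizer_iff.2 fun p hp => by
      have e := Subgroup.mem_centralizer_iff.1 hx.2 (h⁻¹ * p * h) (by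
        have := (Subgroup.mem_normalizer_iff.1 (hHP (H.inv_mem hh)) p).1 hp
        rwa [inv_inv] at this)
      calc p * (h * x * h⁻¹) = h * (h⁻¹ * p * h * x) * h⁻¹ := by group
        _ = h * (x * (h⁻¹ * p * h)) * h⁻¹ := by rw [e]
        _ = h * x * h⁻¹ * p := by group⟩
  by_contra hle
  refine hf1 (four_fixed_free hH hY hY2 hHY hne f.2.1 fun h hh => ?_)
  by_contra hmove
  apply hle
  intro a ha
  have h1 : h * ((f : ↥P) : S) * h⁻¹ ≠ 1 := fun e => hf1 (conj_eq_one_iff.1 e)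
  rcases mem_pair_of_card_four hY hY2 f.2.1 hf1 (hFH h hh _ hfF).1 h1 hmove ha with rfl | rfl | rfl | rfl
  · exact one_mem _
  · exact hfF.2
  · exact (hFH h hh _ hfF).2
  · exact mul_mem (hFH h hh _ hfF).2 hfF.2

omit hH in
/-- A quaternion group of order eight with involution `z`. -/
structure IsQ (Y : Subgroup S) (z : S) : Prop where
  card : Nat.card Y = 8
  mem : z ∈ Y
  ne : z ≠ 1
  sq : z * z = 1
  central : ∀ y ∈ Y, y * z = z * y
  sq_eq : ∀ y ∈ Y, y ≠ 1 → y ≠ z → y * y = z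
  noncomm : ∃ a ∈ Y, ∃ b ∈ Y, a * b ≠ b * a

omit hH in
theorem IsQ.four_cases {Y : Subgroup S} {z : S} (hQ : IsQ Y z) {y : S} (hy : y ∈ Y) :
    y * y = 1 ∨ y * y = z := by
  by_cases h1 : y = 1
  · left; simp [h1]
  by_cases h2 : y = z
  · left; rw [h2, hQ.sq]
  exact Or.inr (hQ.sq_eq y hy h1 h2)

omit hH in
theorem IsQ.inv_eq {Y : Subgroup S} {z : S} (hQ : IsQ Y z) {y : S} (hy : y ∈ Y) (h1 : y ≠ 1) (h2 : y ≠ z) :
    y⁻¹ = y * z :=
  inv_eq_of_mul_eq_one_right (by rw [← mul_assoc, hQ.sq_eq y hy h1 h2, hQ.sq])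

omit hH in
theorem IsQ.comm_cases {Y : Subgroup S} {z : S} (hQ : IsQ Y z) {a b : S} (ha : a ∈ Y) (hb : b ∈ Y)
    (ha1 : a ≠ 1) (ha2 : a ≠ z) (hab : a * b = b * a) : b = 1 ∨ b = z ∨ b = a ∨ b = a * z := by
  by_cases hb1 : b = 1
  · exact Or.inl hb1
  by_cases hb2 : b = z
  · exact Or.inr (Or.inl hb2)
  have h : a * b * (a * b) = 1 := by
    rw [mul_assoc, ← mul_assoc b a b, ← hab, mul_assoc a b b, hQ.sq_eq b hb hb1 hb2, ← mul_assoc,
      hQ.sq_eq a ha ha1 ha2, hQ.sq]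
  have hab' : a * b = 1 ∨ a * b = z := by
    by_contra hh
    push Not at hh
    exact hQ.ne ((hQ.sq_eq _ (Y.mul_mem ha hb) hh.1 hh.2).symm.trans h)
  rcases hab' with e | e
  · exact Or.inr (Or.inr (Or.inr (by rw [← hQ.inv_eq ha ha1 ha2, inv_eq_of_mul_eq_one_right e])))
  · refine Or.inr (Or.inr (Or.inl ?_))
    rw [← inv_mul_cancel_left a b, e, hQ.inv_eq ha ha1 ha2, mul_assoc, hQ.sq, mul_one]

omit hH in
theorem IsQ.conj_eq {Y : Subgroup S} {z : S} (hQ : IsQ Y z) {a b : S} (ha : a ∈ Y) (hb : b ∈ Y)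
    (hab : a * b ≠ b * a) : a * b * a⁻¹ = b * z := by
  have ha1 : a ≠ 1 := fun h => hab (by simp [h])
  have ha2 : a ≠ z := fun h => hab (by rw [h, hQ.central b hb])
  have hb1 : b ≠ 1 := fun h => hab (by simp [h])
  have hb2 : b ≠ z := fun h => hab (by rw [h, hQ.central a ha])
  have h1 : a * b ≠ 1 := fun h => hab (by rw [h, inv_eq_of_mul_eq_one_right h |>.symm, inv_mul_cancel])
  have h2 : a * b ≠ z := fun h => hab (by
    have e : b = a⁻¹ * z := by rw [← h, inv_mul_cancel_left]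
    rw [h, e, mul_assoc, ← hQ.central a ha, ← mul_assoc, inv_mul_cancel, one_mul])
  have h3 := hQ.sq_eq _ (Y.mul_mem ha hb) h1 h2
  calc a * b * a⁻¹ = (a * b * (a * b)) * b⁻¹ * (a * a)⁻¹ := by group
    _ = z * (b * z) * z⁻¹ := by rw [h3, hQ.inv_eq hb hb1 hb2, hQ.sq_eq a ha ha1 ha2]
    _ = b * z := by rw [← mul_assoc, ← hQ.central b hb]; group

omit hH in
theorem IsQ.closure_eq {Y : Subgroup S} {z : S} (hQ : IsQ Y z) {K : Subgroup S} (hKY : K ≤ Y)
    {a b : S} (ha : a ∈ K) (hb : b ∈ K) (hab : a * b ≠ b * a) : K = Y := by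
  classical
  refine Subgroup.eq_of_le_of_card_ge hKY ?_
  haveI : Fact (Nat.Prime 2) := ⟨Nat.prime_two⟩
  have hd := Subgroup.card_dvd_of_le hKY
  rw [hQ.card] at hd ⊢
  obtain ⟨k, hk, hk'⟩ := (Nat.dvd_prime_pow Nat.prime_two).1 (show Nat.card K ∣ 2 ^ 3 from hd)
  rcases Nat.lt_or_ge k 3 with hlt | hge
  · exfalso
    apply hab
    interval_cases k
    · have hK1 : K = ⊥ := Subgroup.card_eq_one.1 (by simpa using hk')
      rw [hK1] at ha
      rw [Subgroup.mem_bot.1 ha]; simp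
    · haveI : IsCyclic K := isCyclic_of_prime_card (p := 2) (by simpa using hk')
      exact congrArg Subtype.val (IsCyclic.commGroup.mul_comm (⟨a, ha⟩ : K) ⟨b, hb⟩)
    · exact congrArg Subtype.val ((IsPGroup.commGroupOfCardEqPrimeSq (p := 2) hk').mul_comm (⟨a, ha⟩ : K) ⟨b, hb⟩)
  · rw [hk', show k = 3 by omega]; norm_num

omit hH in
/-- A automorphism trivial modulo the centre of a quaternion group is inner. -/
theorem IsQ.inner {Y : Subgroup S} {z : S} (hQ : IsQ Y z) {c : S}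
    (hc : ∀ y ∈ Y, c * y * c⁻¹ = y ∨ c * y * c⁻¹ = y * z) :
    ∃ y₀ ∈ Y, ∀ y ∈ Y, y₀⁻¹ * c * y = y * (y₀⁻¹ * c) := by
  obtain ⟨a, ha, b, hb, hab⟩ := hQ.noncomm
  have hz : a * z * a⁻¹ = z := by rw [hQ.central a ha, mul_inv_cancel_right]
  have key : ∃ y₀ ∈ Y, y₀ * a * y₀⁻¹ = c * a * c⁻¹ ∧ y₀ * b * y₀⁻¹ = c * b * c⁻¹ := by
    rcases hc a ha with e1 | e1 <;> rcases hc b hb with e2 | e2
    · exact ⟨1, Y.one_mem, by simp [e1], by simp [e2]⟩
    · exact ⟨a, ha, by rw [e1, mul_inv_cancel_right], by rw [e2, hQ.conj_eq ha hb hab]⟩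
    · exact ⟨b, hb, by rw [e1, hQ.conj_eq hb ha (Ne.symm hab)], by rw [e2, mul_inv_cancel_right]⟩
    · refine ⟨a * b, Y.mul_mem ha hb, ?_, ?_⟩
      · rw [e1, show a * b * a * (a * b)⁻¹ = a * (b * a * b⁻¹) * a⁻¹ by group,
          hQ.conj_eq hb ha (Ne.symm hab), show a * (a * z) * a⁻¹ = a * (a * z * a⁻¹) by group, hz]
      · rw [e2, show a * b * b * (a * b)⁻¹ = a * b * a⁻¹ by group, hQ.conj_eq ha hb hab]
  obtain ⟨y₀, hy₀, e1, e2⟩ := key
  refine ⟨y₀, hy₀, fun y hy => ?_⟩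
  have hmem : ∀ x, c * x * c⁻¹ = y₀ * x * y₀⁻¹ → y₀⁻¹ * c * x = x * (y₀⁻¹ * c) := fun x h => by
    calc y₀⁻¹ * c * x = y₀⁻¹ * (c * x * c⁻¹) * c := by group
      _ = x * (y₀⁻¹ * c) := by rw [h]; group
  set K := Y ⊓ Subgroup.centralizer ({y₀⁻¹ * c} : Set S)
  have hK : K = Y := hQ.closure_eq inf_le_left
    (a := a) (b := b) ⟨ha, Subgroup.mem_centralizer_singleton_iff.2 (hmem a e1.symm).symm⟩
    ⟨hb, Subgroup.mem_centralizer_singleton_iff.2 (hmem b e2.symm).symm⟩ hab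
  exact (Subgroup.mem_centralizer_singleton_iff.1 (hK.symm ▸ hy : y ∈ K).2).symm

theorem IsQ.moved {Y : Subgroup S} {z : S} (hQ : IsQ Y z) (hHY : H ≤ Subgroup.normalizer (Y : Set S))
    (hne : ⁅Y, H⁆ ≠ ⊥) {a : S} (ha : a ∈ Y) (ha1 : a ≠ 1) (ha2 : a ≠ z) :
    ∃ h ∈ H, a * (h * a * h⁻¹) ≠ h * a * h⁻¹ * a := by
  classical
  by_contra hh
  push Not at hh
  have hconj : ∀ h ∈ H, ∀ y ∈ Y, h * y * h⁻¹ ∈ Y := fun h hh y hy =>
    (Subgroup.mem_normalizer_iff.1 (hHY hh) y).1 hy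
  have hzfix : ∀ h ∈ H, h * z * h⁻¹ = z := by
    intro h hh
    by_contra hne'
    have h1 : h * z * h⁻¹ ≠ 1 := fun e => hQ.ne (conj_eq_one_iff.1 e)
    have h2 := hQ.sq_eq _ (hconj h hh z hQ.mem) h1 hne'
    have h3 : h * z * h⁻¹ * (h * z * h⁻¹) = 1 := by
      rw [show h * z * h⁻¹ * (h * z * h⁻¹) = h * (z * z) * h⁻¹ by group, hQ.sq]; group
    exact hQ.ne (h2.symm.trans h3)
  have hafix : ∀ h ∈ H, h * a = a * h := by
    refine centralizes_of_sq hH fun h hh' => ?_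
    have hw : h * a * h⁻¹ * a⁻¹ = 1 ∨ h * a * h⁻¹ * a⁻¹ = z := by
      rcases hQ.comm_cases ha (hconj h hh' a ha) ha1 ha2 (hh h hh') with e | e | e | e
      · exact absurd (conj_eq_one_iff.1 e) ha1
      · refine absurd ?_ ha2
        have e2 : h⁻¹ * (h * a * h⁻¹) * h = h⁻¹ * z * h := by rw [e]
        have e3 := hzfix _ (H.inv_mem hh')
        rw [inv_inv] at e3
        rw [e3] at e2
        simpa [mul_assoc] using e2
      · left; rw [e, mul_inv_cancel]
      · right; rw [e, hQ.central a ha, mul_inv_cancel_right]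
    rcases hw with e | e <;> rw [e]
    · exact ⟨one_mul 1, fun k _ => by simp⟩
    · exact ⟨hQ.sq, hzfix⟩
  apply hne
  refine commutator_eq_bot_of_comm fun y hy h hh' => ?_
  -- `[h, y]` lies in `⟨a⟩`, fixed by `H`, of exponent 4
  by_cases hya : y * a = a * y
  · rcases hQ.comm_cases ha hy ha1 ha2 hya.symm with rfl | rfl | rfl | rfl
    · simp
    · exact (mul_inv_eq_iff_eq_mul.1 (hzfix h hh')).symm
    · exact (hafix h hh').symm
    · exact (((show Commute h a from hafix h hh').mul_right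
        (show Commute h z from mul_inv_eq_iff_eq_mul.1 (hzfix h hh'))).eq).symm
  set w := h * y * h⁻¹ * y⁻¹ with hw
  have hwY : w ∈ Y := Y.mul_mem (hconj h hh' y hy) (Y.inv_mem hy)
  have hcw : a * w = w * a := by
    have e1 := hQ.conj_eq hy ha hya
    have e2 : h * (y * a * y⁻¹) * h⁻¹ = h * (a * z) * h⁻¹ := by rw [e1]
    have e3 : h * y * h⁻¹ * a * (h * y * h⁻¹)⁻¹ = a * z := by
      calc h * y * h⁻¹ * a * (h * y * h⁻¹)⁻¹ = h * y * (h⁻¹ * a * h) * y⁻¹ * h⁻¹ := by group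
        _ = h * (y * a * y⁻¹) * h⁻¹ := by
          rw [show h⁻¹ * a * h = a by rw [mul_assoc, ← hafix h hh', inv_mul_cancel_left]]; group
        _ = h * (a * z) * h⁻¹ := by rw [e1]
        _ = a * z := by
          rw [show h * (a * z) * h⁻¹ = h * a * h⁻¹ * (h * z * h⁻¹) by group, hzfix h hh',
            hafix h hh', mul_inv_cancel_right]
    have e5 : w * (a * z) * w⁻¹ = a * z := by
      calc w * (a * z) * w⁻¹ = h * y * h⁻¹ * (y⁻¹ * (a * z) * y) * (h * y * h⁻¹)⁻¹ := by rw [hw]; group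
        _ = h * y * h⁻¹ * a * (h * y * h⁻¹)⁻¹ := by rw [← e1]; group
        _ = a * z := e3
    have e6 : (a * z) * w = w * (a * z) := (mul_inv_eq_iff_eq_mul.1 e5).symm
    calc a * w = a * z * w * z := by
          rw [mul_assoc (a * z) w z, hQ.central w hwY, ← mul_assoc (a * z) z w, mul_assoc a z z, hQ.sq,
            mul_one]
      _ = w * (a * z) * z := by rw [e6]
      _ = w * a := by rw [mul_assoc, mul_assoc a z z, hQ.sq, mul_one]
  have hwfix : h * w * h⁻¹ = w := by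
    rcases hQ.comm_cases ha hwY ha1 ha2 hcw with e | e | e | e <;> rw [e]
    · simp
    · exact hzfix h hh'
    · rw [hafix h hh', mul_inv_cancel_right]
    · rw [show h * (a * z) * h⁻¹ = h * a * h⁻¹ * (h * z * h⁻¹) by group, hzfix h hh', hafix h hh',
        mul_inv_cancel_right]
  have hw4 : w ^ 4 = 1 := by
    rw [show (4 : ℕ) = 2 * 2 from rfl, pow_mul, pow_two w]
    rcases hQ.four_cases hwY with e | e <;> rw [e] <;> simp [pow_two, hQ.sq]
  have e : ∀ k : ℕ, h ^ k * y * (h ^ k)⁻¹ = w ^ k * y := by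
    intro k
    induction k with
    | zero => simp
    | succ k ih =>
      calc h ^ (k + 1) * y * (h ^ (k + 1))⁻¹ = h * (h ^ k * y * (h ^ k)⁻¹) * h⁻¹ := by
            rw [pow_succ']; group
        _ = (h * w ^ k * h⁻¹) * (h * y * h⁻¹) := by rw [ih]; group
        _ = w ^ (k + 1) * y := by
          rw [← conj_pow, hwfix, pow_succ, mul_assoc (w ^ k)]
          congr 1
          rw [hw, inv_mul_cancel_right]
  have h1 := e (orderOf h)
  rw [pow_orderOf_eq_one, one_mul, inv_one, mul_one] at h1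
  have h2 : w ^ orderOf h = 1 := mul_right_cancel (b := y) (by rw [one_mul]; exact h1.symm)
  have hw1 : w = 1 := orderOf_eq_one_iff.1 (Nat.eq_one_of_dvd_coprimes
    (Nat.Coprime.pow_left 2 (Nat.coprime_two_left.2 (hH h hh'))) (orderOf_dvd_of_pow_eq_one
      (show w ^ 2 ^ 2 = 1 from hw4)) (orderOf_dvd_of_pow_eq_one h2))
  exact (mul_inv_eq_iff_eq_mul.1 (mul_inv_eq_one.1 (hw ▸ hw1))).symm

/-- A `2`-group normalising a quaternion group on which `H` acts non-trivially induces inner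
automorphisms on it. -/
theorem IsQ.inner_le {P Y : Subgroup S} {z : S} (hP : IsPGroup 2 P) (hYP : Y ≤ P)
    (hPY : P ≤ Subgroup.normalizer (Y : Set S)) (hHP : H ≤ Subgroup.normalizer (P : Set S))
    (hQ : IsQ Y z) (hHY : H ≤ Subgroup.normalizer (Y : Set S)) (hne : ⁅Y, H⁆ ≠ ⊥) :
    P = Y ⊔ (P ⊓ Subgroup.centralizer (Y : Set S)) := by
  classical
  refine le_antisymm (fun c hc => ?_) (sup_le hYP inf_le_left)
  have hinvol : ∀ d : S, ∀ y ∈ Y, d * y * d⁻¹ ∈ Y → y ≠ 1 → y * y = 1 → d * y * d⁻¹ = z := by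
    intro d y hy hd h1 h2
    by_contra hne'
    have e1 : d * y * d⁻¹ ≠ 1 := fun e => h1 (conj_eq_one_iff.1 e)
    have e2 := hQ.sq_eq _ hd e1 hne'
    rw [show d * y * d⁻¹ * (d * y * d⁻¹) = d * (y * y) * d⁻¹ by group, h2, mul_one, mul_inv_cancel] at e2
    exact hQ.ne e2.symm
  have hzP : ∀ d, d ∈ Subgroup.normalizer (Y : Set S) → d * z * d⁻¹ = z := fun d hd =>
    hinvol d z hQ.mem ((Subgroup.mem_normalizer_iff.1 hd z).1 hQ.mem) hQ.ne hQ.sq
  -- the elements of `Y` central modulo `z`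
  let F : Subgroup S :=
    { carrier := {y | y ∈ Y ∧ ∀ d ∈ P, d * y * d⁻¹ = y ∨ d * y * d⁻¹ = y * z}
      one_mem' := ⟨Y.one_mem, fun d _ => Or.inl (by simp)⟩
      mul_mem' := by
        rintro a b ⟨ha, ha'⟩ ⟨hb, hb'⟩
        refine ⟨Y.mul_mem ha hb, fun d hd => ?_⟩
        rw [show d * (a * b) * d⁻¹ = (d * a * d⁻¹) * (d * b * d⁻¹) by group]
        rcases ha' d hd with e | e <;> rcases hb' d hd with e' | e' <;> rw [e, e']
        · exact Or.inl rfl
        · exact Or.inr (mul_assoc a b z).symm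
        · right; rw [mul_assoc a z b, ← hQ.central b hb, mul_assoc]
        · left
          rw [mul_assoc a z, ← mul_assoc z b z, ← hQ.central b hb, mul_assoc b z z, hQ.sq, mul_one]
      inv_mem' := by
        rintro a ⟨ha, ha'⟩
        refine ⟨Y.inv_mem ha, fun d hd => ?_⟩
        rw [show d * a⁻¹ * d⁻¹ = (d * a * d⁻¹)⁻¹ by group]
        rcases ha' d hd with e | e <;> rw [e]
        · exact Or.inl rfl
        · right
          rw [mul_inv_rev, inv_eq_of_mul_eq_one_right hQ.sq, ← hQ.central _ (Y.inv_mem ha)] }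
  -- a nontrivial element of `F`
  haveI : Fact (Nat.Prime 2) := ⟨Nat.prime_two⟩
  set K := Subgroup.zpowers z
  have hKm : ∀ k, k ∈ K ↔ k = 1 ∨ k = z := by
    intro k
    constructor
    · intro hk
      obtain ⟨i, rfl⟩ := Subgroup.mem_zpowers_iff.1 hk
      have h2 : z ^ (2 : ℤ) = 1 := by rw [zpow_two, hQ.sq]
      rcases Int.even_or_odd i with ⟨j, rfl⟩ | ⟨j, rfl⟩
      · left; rw [← two_mul, zpow_mul, h2, one_zpow]
      · right; rw [zpow_add, zpow_mul, h2, one_zpow, one_mul, zpow_one]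
    · rintro (rfl | rfl)
      exacts [one_mem _, Subgroup.mem_zpowers _]
  set N := K.subgroupOf P
  haveI hNn : N.Normal := ⟨fun k hk d => by
    show (d : S) * k * (d : S)⁻¹ ∈ K
    rcases (hKm (k : S)).1 hk with e | e <;> rw [e]
    · simp
    · rw [hzP d (hPY d.2)]; exact Subgroup.mem_zpowers z⟩
  set Yb := (Y.subgroupOf P).map (QuotientGroup.mk' N)
  haveI : (Y.subgroupOf P).Normal := ⟨fun y hy p => (Subgroup.mem_normalizer_iff.1 (hPY p.2) _).1 hy⟩
  haveI : Yb.Normal := Subgroup.Normal.map inferInstance _ (QuotientGroup.mk'_surjective N)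
  obtain ⟨a, ha, b, hb, hab⟩ := hQ.noncomm
  have hYb : Yb ≠ ⊥ := by
    intro h
    have hm : (QuotientGroup.mk' N ⟨a, hYP ha⟩) ∈ Yb := ⟨_, ha, rfl⟩
    rw [h, Subgroup.mem_bot, QuotientGroup.mk'_apply, QuotientGroup.eq_one_iff] at hm
    rcases (hKm _).1 (show a ∈ K from hm) with rfl | rfl
    · exact hab (by simp)
    · exact hab (hQ.central b hb).symm
  obtain ⟨⟨f, hf1, hf2⟩, hfne⟩ := Subgroup.ne_bot_iff_exists_ne_one.1
    (IsolatedRankTwo.normal_inf_center_ne_bot (hP.to_quotient N) (N := Yb) hYb)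
  obtain ⟨y, hy, rfl⟩ := hf1
  have hyF : (y : S) ∈ F := by
    refine ⟨hy, fun d hd => ?_⟩
    have e := Subgroup.mem_center_iff.1 hf2 (QuotientGroup.mk' N ⟨d, hd⟩)
    rw [← map_mul, ← map_mul, QuotientGroup.mk'_apply, QuotientGroup.mk'_apply, QuotientGroup.eq] at e
    have e' : (d * (y : S))⁻¹ * ((y : S) * d) ∈ K := e
    rcases (hKm _).1 e' with h | h
    · left
      rw [inv_mul_eq_one] at h
      rw [h, mul_inv_cancel_right]
    · right
      rw [inv_mul_eq_iff_eq_mul] at h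
      calc d * (y : S) * d⁻¹ = (y : S) * d * z⁻¹ * d⁻¹ := by rw [h]; group
        _ = (y : S) * (d * z * d⁻¹) := by rw [inv_eq_of_mul_eq_one_right hQ.sq]; group
        _ = (y : S) * z := by rw [hzP d (hPY hd)]
  have hy1 : (y : S) ≠ 1 := fun h => hfne (Subtype.ext (by
    show QuotientGroup.mk' N y = 1
    rw [show y = 1 from Subtype.ext h, map_one]))
  have hy2 : (y : S) ≠ z := fun h => hfne (Subtype.ext (by
    show QuotientGroup.mk' N y = 1
    rw [QuotientGroup.mk'_apply, QuotientGroup.eq_one_iff]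
    exact (hKm _).2 (Or.inr h)))
  obtain ⟨h, hh, hnc⟩ := hQ.moved hH hHY hne hy hy1 hy2
  have hhF : h * (y : S) * h⁻¹ ∈ F := by
    refine ⟨(Subgroup.mem_normalizer_iff.1 (hHY hh) _).1 hy, fun d hd => ?_⟩
    have hd' : h⁻¹ * d * h ∈ P := by
      have := (Subgroup.mem_normalizer_iff.1 (hHP (H.inv_mem hh)) d).1 hd
      rwa [inv_inv] at this
    rcases hyF.2 _ hd' with e | e
    · left
      calc d * (h * (y : S) * h⁻¹) * d⁻¹ = h * (h⁻¹ * d * h * y * (h⁻¹ * d * h)⁻¹) * h⁻¹ := by group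
        _ = _ := by rw [e]
    · right
      calc d * (h * (y : S) * h⁻¹) * d⁻¹ = h * (h⁻¹ * d * h * y * (h⁻¹ * d * h)⁻¹) * h⁻¹ := by group
        _ = h * (y : S) * h⁻¹ * (h * z * h⁻¹) := by rw [e]; group
        _ = _ := by rw [hzP h (hHY hh)]
  have hFY : F = Y := hQ.closure_eq (fun x hx => hx.1) hyF hhF hnc
  obtain ⟨y₀, hy₀, hy₀c⟩ := hQ.inner (c := c) fun x hx => (hFY.symm ▸ hx : x ∈ F).2 c hc
  rw [show c = y₀ * (y₀⁻¹ * c) by group]
  refine Subgroup.mul_mem_sup hy₀ ⟨P.mul_mem (P.inv_mem (hYP hy₀)) hc, ?_⟩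
  exact Subgroup.mem_centralizer_iff.2 fun x hx => (hy₀c x hx).symm

end Cfsg.Agent.Components.Eight
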