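import Cfsg.Agent.Components.EightStructure

/-!
`P = [P, H]` without non-cyclic abelian subgroups of order eight: trivial, four, or quaternion.
-/

set_option autoImplicit false
set_option linter.unusedSectionVars false
set_option linter.style.haveILetI false

namespace Cfsg.Agent.Components.Eight

open scoped commutatorElement

variable {S : Type*} [Group S] [Finite S]

theorem classify_abelian {H P : Subgroup S} (hH : ∀ h ∈ H, Odd (orderOf h)) (hP : IsPGroup 2 P)
    (hHP : H ≤ Subgroup.normalizer (P : Set S)) (hPH : ⁅P, H⁆ = P) (hN : NoEight P)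
    (hc : ∀ a ∈ P, ∀ b ∈ P, a * b = b * a) : Small P := by
  classical
  by_cases h0 : P = ⊥
  · exact Or.inl h0
  let O : Subgroup S :=
    { carrier := {a | a ∈ P ∧ a * a = 1}
      one_mem' := ⟨P.one_mem, one_mul 1⟩
      mul_mem' := by
        rintro a b ⟨ha, ha2⟩ ⟨hb, hb2⟩
        refine ⟨P.mul_mem ha hb, ?_⟩
        rw [mul_assoc, ← mul_assoc b a b, hc b hb a ha, mul_assoc a b b, hb2, mul_one, ha2]
      inv_mem' := by
        rintro a ⟨ha, ha2⟩
        exact ⟨P.inv_mem ha, by rw [← mul_inv_rev, ha2, inv_one]⟩ }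
  have hOP : O ≤ P := fun a ha => ha.1
  have hone : ∀ z : S, (∀ a ∈ O, a = 1 ∨ a = z) → P = ⊥ := by
    intro z hz
    have key : ∀ n, ∀ x ∈ P, orderOf x = n → ∀ h ∈ H, h * x = x * h := by
      intro n
      induction n using Nat.strong_induction_on with
      | _ n ih =>
      intro x hx hn
      have hconj : ∀ h ∈ H, ∀ y ∈ P, h * y * h⁻¹ ∈ P := fun h hh y hy =>
        (Subgroup.mem_normalizer_iff.1 (hHP hh) y).1 hy
      by_cases hx2 : x * x = 1
      · -- `x` is `1` or the unique involution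
        intro h hh
        by_cases hx1 : x = 1
        · simp [hx1]
        have e2 : h * x * h⁻¹ ∈ O := ⟨hconj h hh x hx, by
          rw [show h * x * h⁻¹ * (h * x * h⁻¹) = h * (x * x) * h⁻¹ by group, hx2]; group⟩
        have ex : x = z := (hz x ⟨hx, hx2⟩).resolve_left hx1
        have eh := (hz _ e2).resolve_left fun e => hx1 (conj_eq_one_iff.1 e)
        rw [← ex] at eh
        exact mul_inv_eq_iff_eq_mul.1 eh
      have hlt : orderOf (x * x) < n := by
        obtain ⟨k, hk⟩ := (IsPGroup.iff_orderOf (p := 2)).1 hP ⟨x, hx⟩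
        rw [Subgroup.orderOf_mk] at hk
        have hk0 : k ≠ 0 := by
          rintro rfl
          rw [pow_zero, orderOf_eq_one_iff] at hk
          exact hx2 (by simp [hk])
        rw [← pow_two, orderOf_pow' x two_ne_zero, ← hn, hk,
          Nat.gcd_eq_right (dvd_pow_self 2 hk0)]
        exact Nat.div_lt_self (by positivity) one_lt_two
      have hfix2 := ih _ hlt (x * x) (P.mul_mem hx hx) rfl
      refine centralizes_of_sq hH fun h hh => ?_
      set w := h * x * h⁻¹ * x⁻¹ with hw
      have hwP : w ∈ P := P.mul_mem (hconj h hh x hx) (P.inv_mem hx)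
      have hw2 : w * w = 1 := by
        calc w * w = h * x * h⁻¹ * ((x⁻¹ * (h * x * h⁻¹)) * x⁻¹) := by rw [hw]; group
          _ = h * x * h⁻¹ * ((h * x * h⁻¹) * x⁻¹ * x⁻¹) := by
            rw [hc _ (P.inv_mem hx) _ (hconj h hh x hx)]
          _ = (h * (x * x) * h⁻¹) * (x * x)⁻¹ := by group
          _ = 1 := by rw [hfix2 h hh]; group
      refine ⟨hw2, fun k hk => ?_⟩
      rcases hz w ⟨hwP, hw2⟩ with e | e
      · rw [e]; group
      · by_cases hw1 : w = 1
        · rw [hw1]; group
        have e2 : k * w * k⁻¹ ∈ O := ⟨hconj k hk w hwP, by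
          rw [show k * w * k⁻¹ * (k * w * k⁻¹) = k * (w * w) * k⁻¹ by group, hw2]; group⟩
        have eh := (hz _ e2).resolve_left fun e => hw1 (conj_eq_one_iff.1 e)
        rw [← e] at eh
        exact eh
    rw [← hPH]
    exact commutator_eq_bot_of_comm fun x hx h hh => (key _ x hx rfl h hh).symm
  rcases elem_card_le (hN.mono hOP) (fun a ha => ha.2) with hbot | ⟨z, -, -, hz⟩ | h4
  · exact Or.inl (hone 1 fun a ha => Or.inl (Subgroup.mem_bot.1 (hbot ▸ ha)))
  · exact Or.inl (hone z hz)
  · have he : O = P := by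
      refine le_antisymm hOP ?_
      by_contra hlt
      obtain ⟨y, hy, hyO, hy2, -⟩ := exists_sq_mem hP hlt fun d hd k hk _ => by
        rw [hc d hd k hk.1, mul_inv_cancel_right]; exact hk
      exact not_noEight_of_four hOP (fun a ha b hb => hc a ha.1 b hb.1) h4 (fun a ha => ha.2) hy
        (fun a ha => hc y hy a ha.1) hy2 hyO hN
    exact Or.inr (Or.inl ⟨he ▸ h4, fun a ha => (he.symm ▸ ha : a ∈ O).2⟩)

/-- The classification of `P = [P, H]` with no non-cyclic abelian subgroup of order eight. -/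
theorem classify {H : Subgroup S} (hH : ∀ h ∈ H, Odd (orderOf h)) {P : Subgroup S} (hP : IsPGroup 2 P)
    (hHP : H ≤ Subgroup.normalizer (P : Set S)) (hPH : ⁅P, H⁆ = P) (hN : NoEight P) : Small P := by
  classical
  suffices ∀ n, ∀ P : Subgroup S, Nat.card P = n → IsPGroup 2 P →
      H ≤ Subgroup.normalizer (P : Set S) → ⁅P, H⁆ = P → NoEight P → Small P from
    this _ P rfl hP hHP hPH hN
  intro n
  induction n using Nat.strong_induction_on with
  | _ n ih =>
  intro P hn hP hHP hPH hN
  by_cases hc : ∀ a ∈ P, ∀ b ∈ P, a * b = b * a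
  · exact classify_abelian hH hP hHP hPH hN hc
  push Not at hc
  obtain ⟨W, hWP, hcen, hZ, hsq, hcomm, hW2, hcard, -, -⟩ := core hH hP hHP hPH hc
    (fun W hW _ _ _ => hN.mono hW) (fun Y hY hne hY2 hHY hYH hYN => ih _ (by
      rw [← hn]
      by_contra hge
      exact hne (Subgroup.eq_of_le_of_card_ge hY (not_lt.1 hge))) Y rfl hY2 hHY hYH hYN)
  obtain ⟨a, ha, b, hb, hab⟩ := hc
  have haW : a ∉ W := fun h => hab (hcen a h b hb).symm
  have hbW : b ∉ W := fun h => hab (hcen b h a ha)
  rcases hcard with h2 | h4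
  swap
  · exact absurd hN (not_noEight_of_four hWP (fun x hx y hy => hcen y hy x (hWP hx)) h4 hW2 ha
      (fun x hx => hcen x hx a ha) (hsq a ha) haW)
  obtain ⟨z, hzW, hz1⟩ : ∃ z ∈ W, z ≠ 1 := by
    by_contra h
    push Not at h
    rw [(Subgroup.eq_bot_iff_forall W).2 h, Subgroup.card_bot] at h2
    omega
  have hz2 := hW2 z hzW
  have hWm : ∀ w, w ∈ W ↔ w = 1 ∨ w = z := by
    have hle : Subgroup.zpowers z ≤ W := Subgroup.zpowers_le.2 hzW
    have he : Subgroup.zpowers z = W := Subgroup.eq_of_le_of_card_ge hle (by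
      rw [h2, Nat.card_zpowers, orderOf_eq_prime (by rw [pow_two]; exact hz2) hz1])
    intro w
    rw [← he]; exact zpowers_of_sq hz2 w
  have hzc : ∀ p ∈ P, p * z = z * p := hcen z hzW
  have hcases : ∀ x ∈ P, x * x = 1 ∨ x * x = z := fun x hx => (hWm _).1 (hsq x hx)
  -- centralisers
  have hcent : ∀ x ∈ P, x ∉ W → ∀ y ∈ P, x * y = y * x → y = 1 ∨ y = z ∨ y = x ∨ y = x * z := by
    intro x hx hxW y hy hxy
    by_contra hcon
    push Not at hcon
    exact not_noEight_of_pair hz2 hz1 (hWP hzW) hx hy (hzc x hx) (hzc y hy) hxy (hcases x hx) (hcases y hy)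
      (fun h => hxW ((hWm x).2 (Or.inl h))) (fun h => hxW ((hWm x).2 (Or.inr h))) hcon.1 hcon.2.1
      hcon.2.2.1 hcon.2.2.2 hN
  have hcm : ∀ c ∈ P, ∀ x ∈ P, c * x * c⁻¹ = x ∨ c * x * c⁻¹ = x * z := by
    intro c hc x hx
    rcases (hWm _).1 (hcomm c hc x hx) with e | e
    · exact Or.inl (mul_inv_eq_one.1 e)
    · exact Or.inr (by rw [hzc x hx, ← e]; group)
  have hboth : ∀ c ∈ P, a * c = c * a → b * c = c * b → c = 1 ∨ c = z := by
    intro c hc e1 e2
    rcases hcent a ha haW c hc e1 with e | e | e | e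
    · exact Or.inl e
    · exact Or.inr e
    · rw [e] at e2; exact absurd e2.symm hab
    · rw [e] at e2
      refine absurd ?_ hab
      have e' : b * a * z = a * b * z := by
        rw [mul_assoc, e2, mul_assoc a z b, ← hzc b hb, ← mul_assoc]
      exact (mul_right_cancel e').symm
  have hba : b * a * b⁻¹ = a * z := (hcm b hb a ha).resolve_left fun e =>
    hab (mul_inv_eq_iff_eq_mul.1 e).symm
  have hab' : a * b * a⁻¹ = b * z := (hcm a ha b hb).resolve_left fun e =>
    hab (mul_inv_eq_iff_eq_mul.1 e)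
  -- `P` has at most eight elements
  have hcover : ∀ c ∈ P, ∃ u ∈ ({1, a, b, a * b} : Set S), ∃ w ∈ W, c = u * w := by
    intro c hc
    have key : ∀ u ∈ P, u * a * u⁻¹ = c * a * c⁻¹ → u * b * u⁻¹ = c * b * c⁻¹ → u⁻¹ * c ∈ W := by
      intro u hu e1 e2
      refine (hWm _).2 (hboth _ (P.mul_mem (P.inv_mem hu) hc) ?_ ?_)
      · calc a * (u⁻¹ * c) = u⁻¹ * (u * a * u⁻¹) * c := by group
          _ = u⁻¹ * (c * a * c⁻¹) * c := by rw [e1]
          _ = u⁻¹ * c * a := by group
      · calc b * (u⁻¹ * c) = u⁻¹ * (u * b * u⁻¹) * c := by group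
          _ = u⁻¹ * (c * b * c⁻¹) * c := by rw [e2]
          _ = u⁻¹ * c * b := by group
    rcases hcm c hc a ha with e1 | e1 <;> rcases hcm c hc b hb with e2 | e2
    · exact ⟨1, by simp, c, (hWm c).2 (hboth c hc (mul_inv_eq_iff_eq_mul.1 e1).symm
        (mul_inv_eq_iff_eq_mul.1 e2).symm), (one_mul c).symm⟩
    · refine ⟨a, by simp, a⁻¹ * c, key a ha ?_ ?_, (mul_inv_cancel_left a c).symm⟩
      · rw [e1, mul_inv_cancel_right]
      · rw [e2, hab']
    · refine ⟨b, by simp, b⁻¹ * c, key b hb ?_ ?_, (mul_inv_cancel_left b c).symm⟩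
      · rw [e1, hba]
      · rw [e2, mul_inv_cancel_right]
    · refine ⟨a * b, by simp, (a * b)⁻¹ * c, key _ (P.mul_mem ha hb) ?_ ?_,
        (mul_inv_cancel_left (a * b) c).symm⟩
      · rw [e1, show a * b * a * (a * b)⁻¹ = a * (b * a * b⁻¹) * a⁻¹ by group, hba,
          show a * (a * z) * a⁻¹ = a * (a * z * a⁻¹) by group, hzc a ha, mul_inv_cancel_right, hzc a ha]
      · rw [e2, show a * b * b * (a * b)⁻¹ = a * b * a⁻¹ by group, hab']
  have hconj : ∀ h ∈ H, ∀ y ∈ P, h * y * h⁻¹ ∈ P := fun h hh y hy =>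
    (Subgroup.mem_normalizer_iff.1 (hHP hh) y).1 hy
  have hzfix : ∀ h ∈ H, h * z * h⁻¹ = z := by
    intro h hh
    refine ((hWm _).1 ?_).resolve_left fun e => hz1 (conj_eq_one_iff.1 e)
    refine hZ _ (hconj h hh z (hWP hzW)) fun p hp => ?_
    have e := hzc (h⁻¹ * p * h) (by
      have := hconj h⁻¹ (H.inv_mem hh) p hp; rwa [inv_inv] at this)
    calc p * (h * z * h⁻¹) = h * (h⁻¹ * p * h * z) * h⁻¹ := by group
      _ = h * (z * (h⁻¹ * p * h)) * h⁻¹ := by rw [e]
      _ = h * z * h⁻¹ * p := by group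
  -- no involution outside `W`
  have hsqz : ∀ e ∈ P, e ∉ W → e * e = z := by
    intro e he heW
    refine (hcases e he).resolve_left fun he2 => ?_
    by_cases hall : ∀ h ∈ H, h * e * h⁻¹ = e ∨ h * e * h⁻¹ = e * z
    · have hfix : ∀ h ∈ H, h * e = e * h := by
        refine centralizes_of_sq hH fun h hh => ?_
        rcases hall h hh with h' | h' <;> rw [h']
        · rw [mul_inv_cancel]; exact ⟨one_mul 1, fun k _ => by simp⟩
        · rw [hzc e he, mul_inv_cancel_right]; exact ⟨hz2, hzfix⟩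
      apply heW
      refine hZ e he fun p hp => ?_
      have hle : ⁅P, H⁆ ≤ Subgroup.centralizer ({e} : Set S) := by
        rw [Subgroup.commutator_le]
        intro q hq h hh
        have e1 : (h * q * h⁻¹) * e * (h * q * h⁻¹)⁻¹ = q * e * q⁻¹ := by
          calc (h * q * h⁻¹) * e * (h * q * h⁻¹)⁻¹ = h * q * (h⁻¹ * e * h) * q⁻¹ * h⁻¹ := by group
            _ = h * (q * e * q⁻¹) * h⁻¹ := by
              rw [show h⁻¹ * e * h = e by rw [mul_assoc, ← hfix h hh, inv_mul_cancel_left]]; group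
            _ = q * e * q⁻¹ := by
              rcases hcm q hq e he with h' | h' <;> rw [h']
              · rw [hfix h hh, mul_inv_cancel_right]
              · rw [show h * (e * z) * h⁻¹ = h * e * h⁻¹ * (h * z * h⁻¹) by group, hzfix h hh, hfix h hh,
                  mul_inv_cancel_right]
        rw [Subgroup.mem_centralizer_singleton_iff, commutatorElement_def]
        have e2 : (h * q * h⁻¹)⁻¹ * (q * e * q⁻¹) * (h * q * h⁻¹) = e := by rw [← e1]; group
        have e3 : e = (h * q * h⁻¹)⁻¹ * (q * e * q⁻¹) * (h * q * h⁻¹) := e2.symm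
        calc q * h * q⁻¹ * h⁻¹ * e = q * (h * q⁻¹ * h⁻¹ * e * (h * q⁻¹ * h⁻¹)⁻¹) * (h * q⁻¹ * h⁻¹) := by
              group
          _ = q * (q⁻¹ * e * q) * (h * q⁻¹ * h⁻¹) := by
              congr 2
              conv_lhs => rw [e3]
              have e4 : (h * q * h⁻¹) * (h * q * h⁻¹) * e = e * ((h * q * h⁻¹) * (h * q * h⁻¹)) :=
                (hcen _ (hsq _ (hconj h hh q hq)) e he).symm
              have e5 : q * q * e = e * (q * q) := (hcen _ (hsq q hq) e he).symm
              calc h * q⁻¹ * h⁻¹ * ((h * q * h⁻¹)⁻¹ * (q * e * q⁻¹) * (h * q * h⁻¹)) * (h * q⁻¹ * h⁻¹)⁻¹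
                  = ((h * q * h⁻¹) * (h * q * h⁻¹))⁻¹ * (q * e * q⁻¹) *
                      ((h * q * h⁻¹) * (h * q * h⁻¹)) := by group
                _ = ((h * q * h⁻¹) * (h * q * h⁻¹))⁻¹ * ((q * e * q⁻¹) *
                      ((h * q * h⁻¹) * (h * q * h⁻¹))) := by group
                _ = q * e * q⁻¹ := by
                  rw [hcen _ (hsq _ (hconj h hh q hq)) _ (P.mul_mem (P.mul_mem hq he) (P.inv_mem hq)),
                    inv_mul_cancel_left]
                _ = q⁻¹ * ((q * q) * e) * q⁻¹ := by group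
                _ = q⁻¹ * e * q := by rw [e5]; group
          _ = e * (q * h * q⁻¹ * h⁻¹) := by group
      exact Subgroup.mem_centralizer_singleton_iff.1 (hle (by rw [hPH]; exact hp))
    push Not at hall
    obtain ⟨h, hh, hf1, hf2⟩ := hall
    set f := h * e * h⁻¹ with hfdef
    have hfP : f ∈ P := hconj h hh e he
    have hf2' : f * f = 1 := by
      rw [hfdef, show h * e * h⁻¹ * (h * e * h⁻¹) = h * (e * e) * h⁻¹ by group, he2]; group
    have hfW : f ∉ W := by
      intro hf
      rcases (hWm f).1 hf with e' | e'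
      · exact heW (conj_eq_one_iff.1 e' ▸ W.one_mem)
      · exact heW ((hWm e).2 (Or.inr (by
          have e'' : h⁻¹ * f * h = h⁻¹ * z * h := by rw [e']
          rw [hfdef] at e''
          have hz' := hzfix h⁻¹ (H.inv_mem hh)
          rw [inv_inv] at hz'
          rw [hz'] at e''
          simpa [mul_assoc] using e'')))
    have hef : e * f ≠ f * e := fun hc => by
      rcases hcent e he heW f hfP hc with e' | e' | e' | e'
      exacts [hfW ((hWm f).2 (Or.inl e')), hfW ((hWm f).2 (Or.inr e')), hf1 e', hf2 e']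
    -- every element is `u * w`
    have hefz : e * f * e⁻¹ = f * z := (hcm e he f hfP).resolve_left fun e' =>
      hef (mul_inv_eq_iff_eq_mul.1 e')
    have hefsq : e * f * (e * f) = z := by
      calc e * f * (e * f) = e * f * e⁻¹ * (e * e) * f := by group
        _ = z * (f * f) := by rw [hefz, he2, mul_one, hzc f hfP, mul_assoc]
        _ = z := by rw [hf2', mul_one]
    have hfe : f * e * f⁻¹ = e * z := (hcm f hfP e he).resolve_left fun e' =>
      hef (mul_inv_eq_iff_eq_mul.1 e').symm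
    -- the image of `f` under `h` is `e` or `e z`
    have hinv : h * f * h⁻¹ = e ∨ h * f * h⁻¹ = e * z := by
      set g := h * f * h⁻¹ with hgdef
      have hgP : g ∈ P := hconj h hh f hfP
      have hg2 : g * g = 1 := by
        rw [hgdef, show h * f * h⁻¹ * (h * f * h⁻¹) = h * (f * f) * h⁻¹ by group, hf2']; group
      have hfg : f * g ≠ g * f := fun hc => hef (by
        calc e * f = h⁻¹ * (f * g) * h := by rw [hgdef, hfdef]; group
          _ = h⁻¹ * (g * f) * h := by rw [hc]
          _ = f * e := by rw [hgdef, hfdef]; group)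
      have key : ∀ u ∈ P, u * e * u⁻¹ = g * e * g⁻¹ → u * f * u⁻¹ = g * f * g⁻¹ → u⁻¹ * g ∈ W := by
        intro u hu e1 e2
        have c1 : e * (u⁻¹ * g) = u⁻¹ * g * e := by
          calc e * (u⁻¹ * g) = u⁻¹ * (u * e * u⁻¹) * g := by group
            _ = u⁻¹ * (g * e * g⁻¹) * g := by rw [e1]
            _ = u⁻¹ * g * e := by group
        have c2 : f * (u⁻¹ * g) = u⁻¹ * g * f := by
          calc f * (u⁻¹ * g) = u⁻¹ * (u * f * u⁻¹) * g := by group
            _ = u⁻¹ * (g * f * g⁻¹) * g := by rw [e2]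
            _ = u⁻¹ * g * f := by group
        rcases hcent e he heW _ (P.mul_mem (P.inv_mem hu) hgP) c1 with e' | e' | e' | e'
        · exact (hWm _).2 (Or.inl e')
        · exact (hWm _).2 (Or.inr e')
        · rw [e'] at c2; exact absurd c2.symm hef
        · rw [e'] at c2
          refine absurd ?_ hef
          have e'' : f * e * z = e * f * z := by
            rw [mul_assoc, c2, mul_assoc e z f, ← hzc f hfP, ← mul_assoc]
          exact (mul_right_cancel e'').symm
      have hgf : g * f * g⁻¹ = f * z := (hcm g hgP f hfP).resolve_left fun e' =>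
        hfg (mul_inv_eq_iff_eq_mul.1 e').symm
      rcases hcm g hgP e he with e1 | e1
      · have := key e he (by rw [e1, mul_inv_cancel_right]) (by rw [hefz, hgf])
        rcases (hWm _).1 this with e' | e'
        · exact Or.inl (inv_mul_eq_one.1 e').symm
        · exact Or.inr (inv_mul_eq_iff_eq_mul.1 e')
      · exfalso
        have := key (e * f) (P.mul_mem he hfP) (by
          rw [e1, show e * f * e * (e * f)⁻¹ = e * (f * e * f⁻¹) * e⁻¹ by group, hfe,
            show e * (e * z) * e⁻¹ = e * (e * z * e⁻¹) by group, hzc e he, mul_inv_cancel_right, hzc e he])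
          (by rw [hgf, show e * f * f * (e * f)⁻¹ = e * f * e⁻¹ by group, hefz])
        have e2 : g * g = z := by
          rcases (hWm _).1 this with e' | e'
          · rw [← inv_mul_eq_one.1 e', hefsq]
          · have eg := inv_mul_eq_iff_eq_mul.1 e'
            calc g * g = e * f * z * (e * f * z) := by rw [eg]
              _ = e * f * (z * (e * f)) * z := by group
              _ = (e * f * (e * f)) * (z * z) := by rw [← hzc _ (P.mul_mem he hfP)]; group
              _ = z := by rw [hefsq, hz2, mul_one]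
        exact hz1 (e2.symm.trans hg2)
    have hpow : ∀ k : ℕ, (h ^ (2 * k) * e * (h ^ (2 * k))⁻¹ = e ∨ h ^ (2 * k) * e * (h ^ (2 * k))⁻¹ = e * z) := by
      intro k
      induction k with
      | zero => left; simp
      | succ k ih =>
        have hz' : h * z * h⁻¹ = z := hzfix h hh
        have e2 : h ^ (2 * (k + 1)) * e * (h ^ (2 * (k + 1)))⁻¹ =
            h * (h * (h ^ (2 * k) * e * (h ^ (2 * k))⁻¹) * h⁻¹) * h⁻¹ := by
          rw [show 2 * (k + 1) = 1 + (1 + 2 * k) by ring, pow_add, pow_add, pow_one]; group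
        rw [e2]
        rcases ih with e' | e' <;> rw [e']
        · exact hinv
        · rw [show h * (h * (e * z) * h⁻¹) * h⁻¹ = h * (h * e * h⁻¹) * h⁻¹ * (h * (h * z * h⁻¹) * h⁻¹) by
            group, hz', hz', ← hfdef]
          rcases hinv with e'' | e'' <;> rw [e'']
          · exact Or.inr rfl
          · left; rw [mul_assoc, hz2, mul_one]
    obtain ⟨j, hj⟩ := hH h hh
    have hlast : e = h * (h ^ (2 * j) * e * (h ^ (2 * j))⁻¹) * h⁻¹ := by
      have e1 : h ^ (2 * j + 1) = 1 := by rw [← hj]; exact pow_orderOf_eq_one h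
      calc e = h ^ (2 * j + 1) * e * (h ^ (2 * j + 1))⁻¹ := by rw [e1]; group
        _ = _ := by rw [pow_succ']; group
    rcases hpow j with e' | e' <;> rw [e'] at hlast
    · exact hf1 hlast.symm
    · apply hf2
      have hz' := hzfix h hh
      rw [show h * (e * z) * h⁻¹ = h * e * h⁻¹ * (h * z * h⁻¹) by group, hz', ← hfdef] at hlast
      calc f = f * z * z := by rw [mul_assoc, hz2, mul_one]
        _ = e * z := by rw [← hlast]
  have hsqP : ∀ y ∈ P, y ≠ 1 → y ≠ z → y * y = z := fun y hy h1 h2' =>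
    hsqz y hy fun h => ((hWm y).1 h).elim h1 h2'
  refine Or.inr (Or.inr ⟨z, ?_, hWP hzW, hz1, hz2, hzc, hsqP, a, ha, b, hb, hab⟩)
  have h8 : 8 ≤ Nat.card P := by
    haveI : Fact (Nat.Prime 2) := ⟨Nat.prime_two⟩
    obtain ⟨k, hk⟩ := IsPGroup.iff_card.1 hP
    rcases Nat.lt_or_ge k 3 with hlt | hge
    · exfalso
      interval_cases k
      · have hP1 : P = ⊥ := Subgroup.card_eq_one.1 (by simpa using hk)
        rw [hP1, Subgroup.mem_bot] at ha
        exact hab (by simp [ha])
      · haveI : IsCyclic P := isCyclic_of_prime_card (p := 2) (by simpa using hk)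
        exact hab (congrArg Subtype.val (IsCyclic.commGroup.mul_comm (⟨a, ha⟩ : P) ⟨b, hb⟩))
      · exact hab (congrArg Subtype.val
          ((IsPGroup.commGroupOfCardEqPrimeSq (p := 2) hk).mul_comm (⟨a, ha⟩ : P) ⟨b, hb⟩))
    · rw [hk]; exact le_trans (by norm_num) (Nat.pow_le_pow_right (by norm_num) hge)
  refine le_antisymm ?_ h8
  -- at most eight
  let φ : Fin 4 × Fin 2 → S := fun i => ![1, a, b, a * b] i.1 * ![1, z] i.2
  have hsub : (P : Set S) ⊆ Set.range φ := by
    intro c hc
    obtain ⟨u, hu, w, hw, rfl⟩ := hcover c hc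
    simp only [Set.mem_insert_iff, Set.mem_singleton_iff] at hu
    rcases hu with rfl | rfl | rfl | rfl <;> rcases (hWm w).1 hw with rfl | rfl
    exacts [⟨(0, 0), by simp [φ]⟩, ⟨(0, 1), by simp [φ]⟩, ⟨(1, 0), by simp [φ]⟩, ⟨(1, 1), by simp [φ]⟩,
      ⟨(2, 0), by simp [φ]⟩, ⟨(2, 1), by simp [φ]⟩, ⟨(3, 0), by simp [φ]⟩, ⟨(3, 1), by simp [φ]⟩]
  calc Nat.card P ≤ Nat.card (Set.range φ) := Nat.card_mono (Set.toFinite _) hsub
    _ ≤ Nat.card (Fin 4 × Fin 2) := Finite.card_range_le φ
    _ = 8 := by simp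

end Cfsg.Agent.Components.Eight
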