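import Cfsg.Agent.Components.EightAction
import Cfsg.Agent.Components.CoreDetection
import Cfsg.Agent.FGS3.PGroupFrattini
import Cfsg.Prelude.Def_Transfer

/-!
Two-groups `P = [P, H]`, `H` of odd order, with no non-cyclic abelian subgroup of order eight in proper
invariant subgroups.
-/

set_option autoImplicit false
set_option linter.unusedSectionVars false

namespace Cfsg.Agent.Components.Eight

open scoped commutatorElement

variable {S : Type*} [Group S] [Finite S]

/-- The conclusion of the classification of `P = [P, H]` without abelian `4 × 2` or `2 × 2 × 2`. -/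
def Small (Y : Subgroup S) : Prop :=
  Y = ⊥ ∨ (Nat.card Y = 4 ∧ ∀ a ∈ Y, a * a = 1) ∨ ∃ z, IsQ Y z

theorem zpowers_of_sq {z : S} (hz : z * z = 1) (k : S) : k ∈ Subgroup.zpowers z ↔ k = 1 ∨ k = z := by
  constructor
  · intro hk
    obtain ⟨i, rfl⟩ := Subgroup.mem_zpowers_iff.1 hk
    have h2 : z ^ (2 : ℤ) = 1 := by rw [zpow_two, hz]
    rcases Int.even_or_odd i with ⟨j, rfl⟩ | ⟨j, rfl⟩
    · left; rw [← two_mul, zpow_mul, h2, one_zpow]
    · right; rw [zpow_add, zpow_mul, h2, one_zpow, one_mul, zpow_one]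
  · rintro (rfl | rfl)
    exacts [one_mem _, Subgroup.mem_zpowers _]

/-- An elementary group without subgroups of order eight has order at most four. -/
theorem elem_card_le {Y : Subgroup S} (hN : NoEight Y) (h2 : ∀ a ∈ Y, a * a = 1) :
    Y = ⊥ ∨ (∃ z ∈ Y, z ≠ 1 ∧ ∀ a ∈ Y, a = 1 ∨ a = z) ∨ Nat.card Y = 4 := by
  classical
  by_cases h0 : Y = ⊥
  · exact Or.inl h0
  obtain ⟨z, hz, hz1⟩ : ∃ z ∈ Y, z ≠ 1 := by
    by_contra h
    push Not at h
    exact h0 ((Subgroup.eq_bot_iff_forall _).2 h)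
  by_cases hall : ∀ a ∈ Y, a = 1 ∨ a = z
  · exact Or.inr (Or.inl ⟨z, hz, hz1, hall⟩)
  push Not at hall
  obtain ⟨e, he, he1, hez⟩ := hall
  obtain ⟨K, hK, hK4, hK2, hm⟩ := exists_four (h2 z hz) hz1 (h2 e he) he1 hez
    (comm_of_card_four h2 e he z hz)
  have hKY : K ≤ Y := by
    intro k hk
    rcases (hm k).1 hk with rfl | rfl | rfl | rfl
    exacts [Y.one_mem, hz, he, Y.mul_mem he hz]
  refine Or.inr (Or.inr ?_)
  by_cases hYK : Y ≤ K
  · rw [le_antisymm hYK hKY, hK4]
  obtain ⟨y, hy, hyK⟩ := SetLike.not_le_iff_exists.1 hYK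
  exact absurd hN (not_noEight_of_four hKY hK hK4 hK2 hy (fun a ha => comm_of_card_four h2 y hy a (hKY ha))
    (by rw [h2 y hy]; exact K.one_mem) hyK)

/-- Doubling a subgroup by a centralising element. -/
theorem exists_double_central (K : Subgroup S) {y : S}
    (hy : ∀ a ∈ K, y * a = a * y) (hy2 : y * y ∈ K) (hyK : y ∉ K) :
    ∃ L : Subgroup S, K ≤ L ∧ y ∈ L ∧ Nat.card L = 2 * Nat.card K ∧
      ∀ a, a ∈ L ↔ a ∈ K ∨ y⁻¹ * a ∈ K := by
  classical
  have hyinv : ∀ a ∈ K, y⁻¹ * a = a * y⁻¹ := fun a ha =>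
    (Commute.inv_left (show Commute y a from hy a ha)).eq
  let L : Subgroup S :=
    { carrier := {a | a ∈ K ∨ y⁻¹ * a ∈ K}
      one_mem' := Or.inl K.one_mem
      mul_mem' := by
        rintro a b (ha | ha) (hb | hb)
        · exact Or.inl (K.mul_mem ha hb)
        · refine Or.inr ?_
          rw [← mul_assoc, hyinv a ha, mul_assoc]
          exact K.mul_mem ha hb
        · refine Or.inr ?_
          rw [← mul_assoc]
          exact K.mul_mem ha hb
        · refine Or.inl ?_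
          have : a * b = y * y * (y⁻¹ * a) * (y⁻¹ * b) := by
            rw [mul_assoc y y, hy _ ha]
            group
          rw [this]
          exact K.mul_mem (K.mul_mem hy2 ha) hb
      inv_mem' := by
        rintro a (ha | ha)
        · exact Or.inl (K.inv_mem ha)
        · refine Or.inr ?_
          have : y⁻¹ * a⁻¹ = (y⁻¹ * a)⁻¹ * (y * y)⁻¹ := by
            calc y⁻¹ * a⁻¹ = y⁻¹ * ((y⁻¹ * a)⁻¹ * y⁻¹) := by group
              _ = (y⁻¹ * a)⁻¹ * y⁻¹ * y⁻¹ := by
                rw [← mul_assoc, hyinv _ (K.inv_mem ha)]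
              _ = (y⁻¹ * a)⁻¹ * (y * y)⁻¹ := by group
          rw [this]
          exact K.mul_mem (K.inv_mem ha) (K.inv_mem hy2) }
  have hmem : ∀ a, a ∈ L ↔ a ∈ K ∨ y⁻¹ * a ∈ K := fun a => Iff.rfl
  have hKL : K ≤ L := fun a ha => Or.inl ha
  refine ⟨L, hKL, Or.inr (by rw [inv_mul_cancel]; exact K.one_mem), ?_, hmem⟩
  have e : L ≃ K ⊕ K :=
    { toFun := fun a => if h : (a : S) ∈ K then Sum.inl ⟨a, h⟩
        else Sum.inr ⟨y⁻¹ * a, a.2.resolve_left h⟩
      invFun := fun s => match s with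
        | Sum.inl k => ⟨k, hKL k.2⟩
        | Sum.inr k => ⟨y * k, Or.inr (by rw [inv_mul_cancel_left]; exact k.2)⟩
      left_inv := fun a => by
        by_cases h : (a : S) ∈ K
        · simp [h]
        · simp [h]
      right_inv := fun s => by
        rcases s with ⟨k, hk⟩ | ⟨k, hk⟩
        · simp [hk]
        · have : y * k ∉ K := fun h => hyK (by
            have := K.mul_mem h (K.inv_mem hk); rwa [mul_inv_cancel_right] at this)
          simp [this] }
  rw [Nat.card_congr e, Nat.card_sum]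
  ring

variable {H : Subgroup S} (hH : ∀ h ∈ H, Odd (orderOf h))
include hH

theorem coprime_two {P : Subgroup S} (hP : IsPGroup 2 P) : (Nat.card H).Coprime (Nat.card P) := by
  haveI : Fact (Nat.Prime 2) := ⟨Nat.prime_two⟩
  obtain ⟨k, hk⟩ := IsPGroup.iff_card.1 hP
  rw [hk]
  refine Nat.Coprime.pow_right _ ((Nat.Prime.coprime_iff_not_dvd Nat.prime_two).2 fun hd => ?_).symm
  obtain ⟨g, hg⟩ := exists_prime_orderOf_dvd_card' (G := H) 2 hd
  have h2 : orderOf (g : S) = 2 := by rw [Subgroup.orderOf_coe, hg]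
  have := hH g g.2
  rw [h2] at this
  exact absurd this (by decide)

omit hH in
theorem isSolvable_two {P : Subgroup S} (hP : IsPGroup 2 P) : Group.IsSolvable P := by
  haveI : Fact (Nat.Prime 2) := ⟨Nat.prime_two⟩
  haveI := hP.isNilpotent
  infer_instance

theorem commutator_idem {W : Subgroup S} (hW : IsPGroup 2 W) (hHW : H ≤ Subgroup.normalizer (W : Set S)) :
    ⁅⁅W, H⁆, H⁆ = ⁅W, H⁆ :=
  Core.commutator_commutator_eq hHW (Or.inr (isSolvable_two hW)) (coprime_two hH hW)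

/-- A `2`-group without `4 × 2` or `2 × 2 × 2` is centralised by `H`, or is `[W, H]`. -/
theorem small {W : Subgroup S} (hW : IsPGroup 2 W) (hHW : H ≤ Subgroup.normalizer (W : Set S))
    (hN : NoEight W) (hY : Small ⁅W, H⁆) :
    (∀ w ∈ W, ∀ h ∈ H, w * h = h * w) ∨
      ((Nat.card W = 4 ∧ ∀ a ∈ W, a * a = 1) ∧ ⁅W, H⁆ = W) ∨ ((∃ z, IsQ W z) ∧ ⁅W, H⁆ = W) := by
  set Y := ⁅W, H⁆ with hYdef
  have hYW : Y ≤ W := Coprime.commutator_le_of_le_normalizer hHW
  have hWY : W ≤ Subgroup.normalizer (Y : Set S) := Subgroup.normalizer_commutator_ge_left W H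
  have hHY : H ≤ Subgroup.normalizer (Y : Set S) := Subgroup.normalizer_commutator_ge_right W H
  have hidem : ⁅Y, H⁆ = Y := commutator_idem hH hW hHW
  have hconj : ∀ d ∈ W, ∀ k ∈ Y, k ∈ W → d * k * d⁻¹ ∈ Y := fun d hd k hk _ =>
    (Subgroup.mem_normalizer_iff.1 (hWY hd) k).1 hk
  rcases hY with h0 | ⟨h4, h2⟩ | ⟨z, hQ⟩
  · exact Or.inl (comm_of_commutator_eq_bot h0)
  · have hne : ⁅Y, H⁆ ≠ ⊥ := by
      rw [hidem]; intro h; rw [h, Subgroup.card_bot] at h4; omega
    have hc := four_le_centralizer hH hW hYW hWY hHW h4 h2 hHY hne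
    have he : Y = W := by
      refine le_antisymm hYW ?_
      by_contra hlt
      obtain ⟨y, hy, hyY, hy2, -⟩ := exists_sq_mem hW hlt hconj
      exact not_noEight_of_four hYW (comm_of_card_four h2) h4 h2 hy
        (fun a ha => (comm_centralizer hc ha hy).symm) hy2 hyY hN
    exact Or.inr (Or.inl ⟨⟨he ▸ h4, he ▸ h2⟩, he⟩)
  · have hne : ⁅Y, H⁆ ≠ ⊥ := by
      rw [hidem]; intro h; have := hQ.mem; rw [h, Subgroup.mem_bot] at this; exact hQ.ne this
    have hW' := hQ.inner_le hH hW hYW hWY hHW hHY hne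
    have hD : W ⊓ Subgroup.centralizer (Y : Set S) ≤ Y := by
      intro d hd
      have hDK : W ⊓ Subgroup.centralizer (Y : Set S) ≤ Subgroup.zpowers z := by
        by_contra hlt
        obtain ⟨y, hy, hyK, hy2, -⟩ := exists_sq_mem (hW.to_le inf_le_left) hlt (fun d hd k hk _ => by
          rcases (zpowers_of_sq hQ.sq k).1 hk with e | e
          · simp [e]
          · rw [e, (Subgroup.mem_centralizer_iff.1 hd.2 z hQ.mem).symm, mul_inv_cancel_right]
            exact Subgroup.mem_zpowers z)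
        obtain ⟨a, ha, b, hb, hab⟩ := hQ.noncomm
        have ha1 : a ≠ 1 := fun h => hab (by simp [h])
        have ha2 : a ≠ z := fun h => hab (by rw [h, hQ.central b hb])
        have hcy : ∀ x ∈ Y, x * y = y * x := Subgroup.mem_centralizer_iff.1 hy.2
        refine not_noEight_of_pair hQ.sq hQ.ne (hYW hQ.mem) (hYW ha) hy.1 (hQ.central a ha)
          (hcy z hQ.mem).symm (hcy a ha) (hQ.four_cases ha) ((zpowers_of_sq hQ.sq _).1 hy2) ha1 ha2
          (fun h => hyK (h ▸ one_mem _)) (fun h => hyK (h ▸ Subgroup.mem_zpowers z)) ?_ ?_ hN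
        · intro h
          exact hab (by rw [← h]; exact (hcy b hb).symm)
        · intro h
          have e : b * (a * z) = a * z * b := by rw [← h]; exact hcy b hb
          apply hab
          have e' : b * a * z = a * b * z := by
            rw [mul_assoc, e, mul_assoc a z b, ← hQ.central b hb, ← mul_assoc]
          exact (mul_right_cancel e').symm
      rcases (zpowers_of_sq hQ.sq d).1 (hDK hd) with e | e <;> rw [e]
      exacts [Y.one_mem, hQ.mem]
    have he : Y = W := le_antisymm hYW (hW'.le.trans (sup_le le_rfl hD))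
    exact Or.inr (Or.inr ⟨⟨z, he ▸ hQ⟩, he⟩)

/-- A fixed point of `H` in an abelian section of `P = [P, H]` is trivial. -/
theorem mem_of_fixed {P W : Subgroup S} (hHP : H ≤ Subgroup.normalizer (P : Set S))
    (hPH : ⁅P, H⁆ = P) (hWP : W ≤ P) (hPW : P ≤ Subgroup.normalizer (W : Set S))
    (hHW : H ≤ Subgroup.normalizer (W : Set S))
    (hsq : ∀ x ∈ P, x * x ∈ W) (hcomm : ∀ x ∈ P, ∀ y ∈ P, x * y * x⁻¹ * y⁻¹ ∈ W) {x : S} (hx : x ∈ P)
    (hfix : ∀ h ∈ H, h * x = x * h) : x ∈ W := by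
  classical
  haveI := Fintype.ofFinite H
  set N := W.subgroupOf P with hN
  haveI : N.Normal := ⟨fun k hk d => (Subgroup.mem_normalizer_iff.1 (hPW d.2) _).1 hk⟩
  letI : CommGroup (↥P ⧸ N) :=
    { (inferInstance : Group (↥P ⧸ N)) with
      mul_comm := fun a b => by
        obtain ⟨a, rfl⟩ := QuotientGroup.mk_surjective a
        obtain ⟨b, rfl⟩ := QuotientGroup.mk_surjective b
        rw [← QuotientGroup.mk_mul, ← QuotientGroup.mk_mul, QuotientGroup.eq]
        show ((a : S) * b)⁻¹ * ((b : S) * a) ∈ W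
        have := hcomm _ (P.inv_mem b.2) _ (P.inv_mem a.2)
        convert this using 1
        group }
  have hc : ∀ (h : H) (p : ↥P), (h : S) * p * (h : S)⁻¹ ∈ P := fun h p =>
    (Subgroup.mem_normalizer_iff.1 (hHP h.2) _).1 p.2
  let f : ↥P →* ↥P ⧸ N :=
    { toFun := fun p => ∏ h : H, (QuotientGroup.mk (⟨(h : S) * p * (h : S)⁻¹, hc h p⟩ : ↥P) : ↥P ⧸ N)
      map_one' := Finset.prod_eq_one fun h _ => by
        rw [show (⟨(h : S) * ((1 : ↥P) : S) * (h : S)⁻¹, hc h 1⟩ : ↥P) = 1 from Subtype.ext (by simp)]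
        rfl
      map_mul' := fun p q => by
        rw [← Finset.prod_mul_distrib]
        refine Finset.prod_congr rfl fun h _ => ?_
        rw [← QuotientGroup.mk_mul]
        congr 1
        refine Subtype.ext ?_
        show (h : S) * ((p : S) * q) * (h : S)⁻¹ = ((h : S) * p * (h : S)⁻¹) * ((h : S) * q * (h : S)⁻¹)
        group }
  have hker : ∀ p : ↥P, f p = 1 := by
    have hle : ⁅P, H⁆ ≤ f.ker.map P.subtype := by
      rw [Subgroup.commutator_le]
      intro p hp h hh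
      refine ⟨⟨p, hp⟩ * ⟨h * p⁻¹ * h⁻¹, (Subgroup.mem_normalizer_iff.1 (hHP hh) _).1 (P.inv_mem hp)⟩,
        ?_, ?_⟩
      · rw [SetLike.mem_coe, MonoidHom.mem_ker, map_mul]
        have e : f ⟨h * p⁻¹ * h⁻¹, (Subgroup.mem_normalizer_iff.1 (hHP hh) _).1 (P.inv_mem hp)⟩ =
            f (⟨p, hp⟩)⁻¹ := by
          refine Fintype.prod_equiv (Equiv.mulRight (⟨h, hh⟩ : H)) _ _ fun k => ?_
          congr 1
          refine Subtype.ext ?_
          show (k : S) * (h * p⁻¹ * h⁻¹) * (k : S)⁻¹ = ((k : S) * h) * p⁻¹ * ((k : S) * h)⁻¹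
          group
        rw [e, map_inv, mul_inv_cancel]
      · show p * (h * p⁻¹ * h⁻¹) = ⁅p, h⁆
        rw [commutatorElement_def]; group
    intro p
    obtain ⟨q, hq, e⟩ := hle (by rw [hPH]; exact p.2 : (p : S) ∈ ⁅P, H⁆)
    rw [← show q = p from Subtype.ext e]
    exact hq
  have h1 := hker ⟨x, hx⟩
  have h2 : f ⟨x, hx⟩ = (QuotientGroup.mk (⟨x, hx⟩ : ↥P) : ↥P ⧸ N) ^ Nat.card H := by
    show ∏ h : H, _ = _
    rw [Finset.prod_congr rfl (g := fun _ => (QuotientGroup.mk (⟨x, hx⟩ : ↥P) : ↥P ⧸ N)) fun h _ => by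
      congr 1
      exact Subtype.ext (by
        show (h : S) * x * (h : S)⁻¹ = x
        rw [hfix h h.2, mul_inv_cancel_right]), Finset.prod_const, Finset.card_univ, Nat.card_eq_fintype_card]
  rw [h2] at h1
  have hodd : Odd (Nat.card H) := by
    rw [← Nat.not_even_iff_odd, even_iff_two_dvd]
    intro hd
    obtain ⟨g, hg⟩ := exists_prime_orderOf_dvd_card' (hp := ⟨Nat.prime_two⟩) (G := H) 2 hd
    have := hH g g.2
    rw [Subgroup.orderOf_coe, hg] at this
    exact absurd this (by decide)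
  obtain ⟨j, hj⟩ := hodd
  have hsq' : (QuotientGroup.mk (⟨x, hx⟩ : ↥P) : ↥P ⧸ N) ^ 2 = 1 := by
    rw [← QuotientGroup.mk_pow, QuotientGroup.eq_one_iff]
    show ((⟨x, hx⟩ : ↥P) ^ 2 : ↥P).1 ∈ W
    rw [pow_two]; exact hsq x hx
  rw [hj, pow_succ, pow_mul, hsq', one_pow, one_mul, QuotientGroup.eq_one_iff] at h1
  exact h1

/-- The structure of `P = [P, H]` non-abelian. -/
theorem core {P : Subgroup S} (hP : IsPGroup 2 P) (hHP : H ≤ Subgroup.normalizer (P : Set S))
    (hPH : ⁅P, H⁆ = P) (hnc : ∃ a ∈ P, ∃ b ∈ P, a * b ≠ b * a)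
    (hsmall : ∀ W : Subgroup S, W ≤ P → W ≠ P → P ≤ Subgroup.normalizer (W : Set S) →
      H ≤ Subgroup.normalizer (W : Set S) → NoEight W)
    (hclass : ∀ Y : Subgroup S, Y ≤ P → Y ≠ P → IsPGroup 2 Y → H ≤ Subgroup.normalizer (Y : Set S) →
      ⁅Y, H⁆ = Y → NoEight Y → Small Y) :
    ∃ W : Subgroup S, W ≤ P ∧ (∀ w ∈ W, ∀ p ∈ P, p * w = w * p) ∧
      (∀ x ∈ P, (∀ p ∈ P, p * x = x * p) → x ∈ W) ∧ (∀ x ∈ P, x * x ∈ W) ∧
      (∀ x ∈ P, ∀ y ∈ P, x * y * x⁻¹ * y⁻¹ ∈ W) ∧ (∀ w ∈ W, w * w = 1) ∧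
      (Nat.card W = 2 ∨ Nat.card W = 4) ∧ Cfsg.IsSpecial 2 P ∧
      Nat.card (Subgroup.center ↥P) = Nat.card W := by
  classical
  haveI : Fact (Nat.Prime 2) := ⟨Nat.prime_two⟩
  obtain ⟨a₀, ha₀, b₀, hb₀, hab₀⟩ := hnc
  set W := (frattini ↥P).map P.subtype with hWdef
  have hWP : W ≤ P := Subgroup.map_subtype_le _
  have hPW : P ≤ Subgroup.normalizer (W : Set S) :=
    Subgroup.le_normalizer.trans (normalizer_le_normalizer_map_char _)
  have hHW : H ≤ Subgroup.normalizer (W : Set S) := hHP.trans (normalizer_le_normalizer_map_char _)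
  have hsq : ∀ x ∈ P, x * x ∈ W := fun x hx =>
    ⟨⟨x, hx⟩ ^ 2, FGS3.pow_mem_frattini hP _, by simp [pow_two]⟩
  have hcommW : ∀ x ∈ P, ∀ y ∈ P, x * y * x⁻¹ * y⁻¹ ∈ W := fun x hx y hy =>
    ⟨⁅(⟨x, hx⟩ : ↥P), (⟨y, hy⟩ : ↥P)⁆,
      FGS3.commutator_le_frattini hP (Subgroup.commutator_mem_commutator (Subgroup.mem_top _) (Subgroup.mem_top _)),
      by simp [commutatorElement_def]⟩
  have hgen : ∀ K : Subgroup S, K ≤ P → P ≤ K ⊔ W → K = P := by
    intro K hKP hle
    have e : K.subgroupOf P ⊔ frattini ↥P = ⊤ := by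
      apply Subgroup.map_injective (f := P.subtype) P.subtype_injective
      rw [Subgroup.map_sup, Subgroup.map_subgroupOf_eq_of_le hKP, ← MonoidHom.range_eq_map,
        Subgroup.range_subtype]
      exact le_antisymm (sup_le hKP hWP) hle
    exact le_antisymm hKP (Subgroup.subgroupOf_eq_top.1 (frattini_nongenerating e))
  have hWne : W ≠ P := fun h => hab₀ (by
    have := hgen ⊥ bot_le (by rw [h]; exact le_sup_right)
    rw [← this, Subgroup.mem_bot] at ha₀
    simp [ha₀])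
  have hW2 : IsPGroup 2 W := hP.to_le hWP
  have hYW : ⁅W, H⁆ ≤ W := Coprime.commutator_le_of_le_normalizer hHW
  have hWN := hsmall W hWP hWne hPW hHW
  have hYsmall : Small ⁅W, H⁆ := hclass _ (hYW.trans hWP)
    (fun h => hWne (le_antisymm hWP (h.symm.le.trans hYW))) (hW2.to_le hYW)
    (Subgroup.normalizer_commutator_ge_right W H) (commutator_idem hH hW2 hHW) (hWN.mono hYW)
  -- `W` is central
  obtain ⟨hcen, hcase⟩ : (∀ w ∈ W, ∀ p ∈ P, p * w = w * p) ∧
      ((∀ w ∈ W, ∀ h ∈ H, w * h = h * w) ∨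
        (Nat.card W = 4 ∧ (∀ a ∈ W, a * a = 1) ∧ ⁅W, H⁆ ≠ ⊥)) := by
    rcases small hH hW2 hHW hWN hYsmall with h | ⟨⟨h4, h2⟩, he⟩ | ⟨⟨z, hQ⟩, he⟩
    · refine ⟨?_, Or.inl h⟩
      have hWH : ⁅W, H⁆ = ⊥ := commutator_eq_bot_of_comm h
      have hWPle : ⁅W, P⁆ ≤ W := Coprime.commutator_le_of_le_normalizer hPW
      have e1 : ⁅⁅H, W⁆, P⁆ = ⊥ := by
        rw [Subgroup.commutator_comm H W, hWH, Subgroup.commutator_bot_left]
      have e2 : ⁅⁅W, P⁆, H⁆ = ⊥ := eq_bot_iff.2 ((Subgroup.commutator_mono hWPle le_rfl).trans hWH.le)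
      have e3 := Subgroup.commutator_commutator_eq_bot_of_rotate e1 e2
      rw [hPH] at e3
      intro w hw p hp
      exact comm_of_commutator_eq_bot e3 p hp w hw
    · have hne : ⁅W, H⁆ ≠ ⊥ := by
        rw [he]; intro h; rw [h, Subgroup.card_bot] at h4; omega
      exact ⟨fun w hw p hp =>
        (comm_centralizer (four_le_centralizer hH hP hWP hPW hHP h4 h2 hHW hne) hw hp).symm,
        Or.inr ⟨h4, h2, hne⟩⟩
    · exfalso
      have hne : ⁅W, H⁆ ≠ ⊥ := by
        rw [he]; intro h; have := hQ.mem; rw [h, Subgroup.mem_bot] at this; exact hQ.ne this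
      have h1 := hQ.inner_le hH hP hWP hPW hHP hHW hne
      have h2 : P ⊓ Subgroup.centralizer (W : Set S) = P :=
        hgen _ inf_le_left (h1.le.trans (le_of_eq (sup_comm _ _)))
      obtain ⟨a, ha, b, hb, hab⟩ := hQ.noncomm
      exact hab ((Subgroup.mem_centralizer_iff.1 ((h2.symm ▸ hWP ha : a ∈ P ⊓ _).2) b hb).symm)
  -- commutators
  have hC : ∀ x ∈ P, ∀ y ∈ P, (x * y * x⁻¹ * y⁻¹) * (x * y * x⁻¹ * y⁻¹) = 1 := by
    intro x hx y hy
    set c := x * y * x⁻¹ * y⁻¹ with hc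
    have e1 := hcen c (hcommW x hx y hy) x hx
    have e2 := hcen (x * x) (hsq x hx) y hy
    have e3 : x * x * y * (x * x)⁻¹ = c * c * y := by
      calc x * x * y * (x * x)⁻¹ = x * (c * y) * x⁻¹ := by rw [hc]; group
        _ = c * (x * y * x⁻¹) := by rw [← mul_assoc x c y, e1]; group
        _ = c * c * y := by rw [hc]; group
    rw [show x * x * y = y * (x * x) from e2.symm, mul_inv_cancel_right] at e3
    exact mul_right_cancel (b := y) (by rw [one_mul]; exact e3.symm)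
  set E : Subgroup S :=
    { carrier := {w | w ∈ W ∧ w * w = 1}
      one_mem' := ⟨W.one_mem, one_mul 1⟩
      mul_mem' := by
        rintro a b ⟨ha, ha2⟩ ⟨hb, hb2⟩
        refine ⟨W.mul_mem ha hb, ?_⟩
        rw [mul_assoc, ← mul_assoc b a b, hcen a ha b (hWP hb), mul_assoc a b b, hb2, mul_one, ha2]
      inv_mem' := by
        rintro a ⟨ha, ha2⟩
        exact ⟨W.inv_mem ha, by rw [← mul_inv_rev, ha2, inv_one]⟩ }
  set W₀ := ⁅P, P⁆ with hW₀
  have hW₀W : W₀ ≤ W := by
    rw [hW₀, Subgroup.commutator_le]; intro x hx y hy; exact hcommW x hx y hy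
  have hW₀E : W₀ ≤ E := by
    rw [hW₀, Subgroup.commutator_le]; intro x hx y hy; exact ⟨hcommW x hx y hy, hC x hx y hy⟩
  have hcm : ∀ x ∈ P, ∀ y ∈ P, x * y * x⁻¹ * y⁻¹ ∈ W₀ := fun x hx y hy =>
    Subgroup.commutator_mem_commutator hx hy
  have hPW₀ : P ≤ Subgroup.normalizer (W₀ : Set S) := Subgroup.normalizer_commutator_ge_left P P
  have hWW₀ : W ≤ W₀ := by
    rcases hcase with hfix | ⟨h4, h2, hne⟩
    · -- all squares lie in `W₀`
      let T : Subgroup S :=
        { carrier := {x | x ∈ P ∧ x * x ∈ W₀}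
          one_mem' := ⟨P.one_mem, by rw [mul_one]; exact W₀.one_mem⟩
          mul_mem' := by
            rintro x y ⟨hx, hx2⟩ ⟨hy, hy2⟩
            refine ⟨P.mul_mem hx hy, ?_⟩
            rw [show x * y * (x * y) = (x * (y * x * y⁻¹ * x⁻¹) * x⁻¹) * ((x * x) * (y * y)) by group]
            exact W₀.mul_mem ((Subgroup.mem_normalizer_iff.1 (hPW₀ hx) _).1 (hcm y hy x hx))
              (W₀.mul_mem hx2 hy2)
          inv_mem' := by
            rintro x ⟨hx, hx2⟩
            exact ⟨P.inv_mem hx, by rw [← mul_inv_rev]; exact W₀.inv_mem hx2⟩ }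
      have hT : P ≤ T := by
        conv_lhs => rw [← hPH]
        rw [Subgroup.commutator_le]
        intro p hp h hh
        have hq : h * p⁻¹ * h⁻¹ ∈ P := (Subgroup.mem_normalizer_iff.1 (hHP hh) _).1 (P.inv_mem hp)
        have hmem : ⁅p, h⁆ = p * (h * p⁻¹ * h⁻¹) := by rw [commutatorElement_def]; group
        refine ⟨by rw [hmem]; exact P.mul_mem hp hq, ?_⟩
        set q := h * p⁻¹ * h⁻¹ with hqdef
        have hq2 : q * q = (p * p)⁻¹ := by
          rw [show q * q = h * (p * p)⁻¹ * h⁻¹ by rw [hqdef]; group,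
            ← hfix _ (W.inv_mem (hsq p hp)) h hh, mul_inv_cancel_right]
        rw [hmem, show p * q * (p * q) = (p * (q * p * q⁻¹ * p⁻¹) * p⁻¹) * ((p * p) * (q * q)) by group,
          hq2, mul_inv_cancel, mul_one]
        exact (Subgroup.mem_normalizer_iff.1 (hPW₀ hp) _).1 (hcm q hq p hp)
      have hle : frattini ↥P ≤ commutator ↥P := FGS3.frattini_le_of_elementary (p := 2) le_rfl fun a => by
        have h2 : ((a ^ 2 : ↥P) : S) ∈ W₀ := by rw [Subgroup.coe_pow, pow_two]; exact (hT a.2).2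
        rw [hW₀, ← Subgroup.map_subtype_commutator] at h2
        obtain ⟨q, hq, e⟩ := h2
        rwa [← Subtype.ext e]
      rw [hWdef, hW₀, ← Subgroup.map_subtype_commutator]
      exact Subgroup.map_mono hle
    · have hW₀H : ∀ h ∈ H, ∀ w ∈ W₀, h * w * h⁻¹ ∈ W₀ := fun h hh w hw => by
        have hn : h ∈ Subgroup.normalizer (W₀ : Set S) := by
          rw [hW₀, ← Subgroup.map_subtype_commutator]
          exact normalizer_le_normalizer_map_char _ (hHP hh)
        exact (Subgroup.mem_normalizer_iff.1 hn w).1 hw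
      obtain ⟨f, hf, hf1⟩ : ∃ f ∈ W₀, f ≠ 1 := ⟨_, hcm a₀ ha₀ b₀ hb₀, fun h => hab₀ (by
        have := mul_inv_eq_one.1 h
        exact mul_inv_eq_iff_eq_mul.1 this)⟩
      obtain ⟨h, hh, hmove⟩ : ∃ h ∈ H, h * f * h⁻¹ ≠ f := by
        by_contra hcon
        push Not at hcon
        exact hf1 (four_fixed_free hH h4 h2 hHW hne (hW₀W hf) hcon)
      intro w hw
      rcases mem_pair_of_card_four h4 h2 (hW₀W hf) hf1 (hW₀W (hW₀H h hh f hf))
        (fun e => hf1 (conj_eq_one_iff.1 e)) hmove hw with rfl | rfl | rfl | rfl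
      · exact one_mem _
      · exact hf
      · exact hW₀H h hh f hf
      · exact mul_mem (hW₀H h hh f hf) hf
  have hWW : W = W₀ := le_antisymm hWW₀ hW₀W
  have helem : ∀ w ∈ W, w * w = 1 := fun w hw => (hW₀E (hWW ▸ hw)).2
  have hWbot : W ≠ ⊥ := fun h => hab₀ (by
    have := hcommW a₀ ha₀ b₀ hb₀
    rw [h, Subgroup.mem_bot] at this
    exact mul_inv_eq_iff_eq_mul.1 (mul_inv_eq_one.1 this))
  have hcard := (elem_card_le hWN helem).resolve_left hWbot
  -- the centre
  set Z := P ⊓ Subgroup.centralizer (P : Set S) with hZdef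
  have hZcomm : ∀ x ∈ Z, ∀ p ∈ P, p * x = x * p := fun x hx => Subgroup.mem_centralizer_iff.1 hx.2
  have hWZ : W ≤ Z := fun w hw => ⟨hWP hw, Subgroup.mem_centralizer_iff.2 fun p hp => hcen w hw p hp⟩
  have hZne : Z ≠ P := fun h => hab₀ (hZcomm b₀ (h.symm ▸ hb₀) a₀ ha₀)
  have hPZ : P ≤ Subgroup.normalizer (Z : Set S) := by
    intro p hp
    rw [Subgroup.mem_normalizer_iff]
    intro x
    constructor
    · intro hx
      rw [hZcomm x hx p hp, mul_inv_cancel_right]; exact hx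
    · intro hx
      have e := hZcomm _ hx p⁻¹ (P.inv_mem hp)
      have e2 : p * x * p⁻¹ = x :=
        calc p * x * p⁻¹ = p * x * p⁻¹ * p⁻¹ * p := by group
          _ = p⁻¹ * (p * x * p⁻¹) * p := by rw [← e]
          _ = x := by group
      rwa [e2] at hx
  have hHZ : H ≤ Subgroup.normalizer (Z : Set S) := by
    rw [hZdef]
    intro h hh
    rw [Subgroup.mem_normalizer_iff_map_conj_eq, Subgroup.map_inf _ _ _ (MulAut.conj h).injective,
      Subgroup.mem_normalizer_iff_map_conj_eq.1 (hHP hh)]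
    congr 1
    have hn : h ∈ Subgroup.normalizer ((Subgroup.centralizer (P : Set S) : Subgroup S) : Set S) := by
      rw [Subgroup.mem_normalizer_iff]
      intro x
      constructor
      · intro hx
        refine Subgroup.mem_centralizer_iff.2 fun p hp => ?_
        have e := Subgroup.mem_centralizer_iff.1 hx (h⁻¹ * p * h) (by
          have := (Subgroup.mem_normalizer_iff.1 (hHP (H.inv_mem hh)) p).1 hp
          rwa [inv_inv] at this)
        calc p * (h * x * h⁻¹) = h * (h⁻¹ * p * h * x) * h⁻¹ := by group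
          _ = h * (x * (h⁻¹ * p * h)) * h⁻¹ := by rw [e]
          _ = h * x * h⁻¹ * p := by group
      · intro hx
        refine Subgroup.mem_centralizer_iff.2 fun p hp => ?_
        have e := Subgroup.mem_centralizer_iff.1 hx (h * p * h⁻¹)
          ((Subgroup.mem_normalizer_iff.1 (hHP hh) p).1 hp)
        calc p * x = h⁻¹ * (h * p * h⁻¹ * (h * x * h⁻¹)) * h := by group
          _ = h⁻¹ * (h * x * h⁻¹ * (h * p * h⁻¹)) * h := by rw [e]
          _ = x * p := by group
    exact Subgroup.mem_normalizer_iff_map_conj_eq.1 hn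
  have hZN := hsmall Z inf_le_left hZne hPZ hHZ
  have hcentre : Z = W := by
    refine le_antisymm (fun x hx => ?_) hWZ
    by_contra hxW
    rcases hcard with ⟨z, hz, hz1, hzall⟩ | h4
    · have hz2 := helem z hz
      have hmemW : ∀ w ∈ W, w = 1 ∨ w = z := hzall
      have hZ4 : ∀ y ∈ Z, y ∉ W → y = x ∨ y = x * z := by
        intro y hy hyW
        by_contra hcon
        push Not at hcon
        exact not_noEight_of_pair hz2 hz1 (hWZ hz) hx hy (hZcomm z (hWZ hz) x hx.1)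
          (hZcomm z (hWZ hz) y hy.1) (hZcomm y hy x hx.1) (hmemW _ (hsq x hx.1)) (hmemW _ (hsq y hy.1))
          (fun h => hxW (h ▸ W.one_mem)) (fun h => hxW (h ▸ hz)) (fun h => hyW (h ▸ W.one_mem))
          (fun h => hyW (h ▸ hz)) hcon.1 hcon.2 hZN
      have hzfix : ∀ h ∈ H, h * z * h⁻¹ = z := fun h hh =>
        (hmemW _ ((Subgroup.mem_normalizer_iff.1 (hHW hh) z).1 hz)).resolve_left
          fun e => hz1 (conj_eq_one_iff.1 e)
      refine hxW (mem_of_fixed hH hHP hPH hWP hPW hHW hsq hcommW hx.1 ?_)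
      refine centralizes_of_sq hH fun h hh => ?_
      have hw : h * x * h⁻¹ * x⁻¹ = 1 ∨ h * x * h⁻¹ * x⁻¹ = z := by
        rcases hZ4 _ ((Subgroup.mem_normalizer_iff.1 (hHZ hh) x).1 hx)
          (fun h' => hxW ((Subgroup.mem_normalizer_iff.1 (hHW hh) x).2 h')) with e | e
        · left; rw [e, mul_inv_cancel]
        · right; rw [e, hZcomm z (hWZ hz) x hx.1, mul_inv_cancel_right]
      rcases hw with e | e <;> rw [e]
      · exact ⟨one_mul 1, fun k _ => by simp⟩
      · exact ⟨hz2, hzfix⟩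
    · exact not_noEight_of_four hWZ (fun a ha b hb => (hcen b hb a (hWP ha)).symm ▸ rfl) h4 helem hx
        (fun a ha => hcen a ha x hx.1) (hsq x hx.1) hxW hZN
  have hcenter : (Subgroup.center ↥P).map P.subtype = W := by
    rw [← hcentre]
    ext x
    constructor
    · rintro ⟨q, hq, rfl⟩
      exact ⟨q.2, Subgroup.mem_centralizer_iff.2 fun p hp =>
        congrArg Subtype.val (Subgroup.mem_center_iff.1 hq ⟨p, hp⟩)⟩
    · intro hx
      exact ⟨⟨x, hx.1⟩, Subgroup.mem_center_iff.2 fun p => Subtype.ext (hZcomm x hx p p.2), rfl⟩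
  refine ⟨W, hWP, hcen, fun x hx hxc => hcentre ▸ ⟨hx, Subgroup.mem_centralizer_iff.2 hxc⟩, hsq, hcommW,
    helem, ?_, ⟨hP, ?_, ?_⟩, ?_⟩
  · rcases hcard with ⟨z, hz, hz1, hzall⟩ | h4
    · left
      have : W = Subgroup.zpowers z := by
        ext w
        rw [zpowers_of_sq (helem z hz)]
        exact ⟨hzall w, fun h => h.elim (fun e => e ▸ W.one_mem) (fun e => e ▸ hz)⟩
      rw [this, Nat.card_zpowers]
      exact orderOf_eq_prime (by rw [pow_two]; exact helem z hz) hz1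
    · exact Or.inr h4
  · exact Subgroup.map_injective P.subtype_injective hcenter.symm
  · apply Subgroup.map_injective (f := P.subtype) P.subtype_injective
    rw [hcenter, Subgroup.map_subtype_commutator]
    exact hWW.symm
  · rw [← hcenter, Subgroup.card_map_of_injective P.subtype_injective]

end Cfsg.Agent.Components.Eight
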