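import Cfsg.Agent.Components.LThreeFourElem
import Cfsg.Agent.Components.EightBasics
import Cfsg.Agent.LocalEven.Gaschutz

/-!
Central extensions of `PSL₃(4)` by elementary abelian `2`-groups: the preimages of `E₁₆`.
-/

set_option autoImplicit false
set_option linter.unusedSectionVars false
set_option linter.style.haveILetI false

namespace Cfsg.Agent.Components.LThreeFour

variable {X : Type*} [Group X] [Finite X] {F : Type*} [Field F] [Fintype F]

section

variable (hF : Fintype.card F = 4) (f : X →* Matrix.ProjectiveSpecialLinearGroup (Fin 3) F)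
  (hf : Function.Surjective f) (hker : f.ker = Subgroup.center X) (hZ : ∀ z ∈ Subgroup.center X, z * z = 1)

include hF hf hker hZ

theorem sq_const {x y : X} (hx : orderOf (f x) = 2) (hy : orderOf (f y) = 2) : x * x = y * y := by
  obtain ⟨t, ht, e1⟩ := Forms.exists_transvection_of_orderOf_two hF (f x) hx
  obtain ⟨s, hs, e2⟩ := Forms.exists_transvection_of_orderOf_two hF (f y) hy
  obtain ⟨c, hc⟩ := isConj_iff.1 ((QuotientGroup.mk'
    (Subgroup.center (Matrix.SpecialLinearGroup (Fin 3) F))).map_isConj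
    ((Forms.isConj_transvection_three t ht).symm.trans (Forms.isConj_transvection_three s hs)))
  change c * QuotientGroup.mk t * c⁻¹ = QuotientGroup.mk s at hc
  rw [e1, e2] at hc
  obtain ⟨g, rfl⟩ := hf c
  have hz : (g * x * g⁻¹)⁻¹ * y ∈ Subgroup.center X := by
    rw [← hker, MonoidHom.mem_ker]
    simp only [map_mul, map_inv]
    rw [hc, inv_mul_cancel]
  set z := (g * x * g⁻¹)⁻¹ * y with hzdef
  have ey : y = g * x * g⁻¹ * z := by rw [hzdef, mul_inv_cancel_left]
  have hxx : x * x ∈ Subgroup.center X := by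
    rw [← hker, MonoidHom.mem_ker, map_mul, ← pow_two]
    have := pow_orderOf_eq_one (f x)
    rwa [hx] at this
  have hcz := Subgroup.mem_center_iff.1 hz
  calc x * x = g * (x * x) * g⁻¹ := by
        rw [Subgroup.mem_center_iff.1 hxx g, mul_inv_cancel_right]
    _ = (g * x * g⁻¹) * (g * x * g⁻¹) := by group
    _ = y * y := by
      rw [ey, mul_assoc (g * x * g⁻¹) z (g * x * g⁻¹ * z), ← mul_assoc z, ← hcz (g * x * g⁻¹),
        mul_assoc (g * x * g⁻¹) z z, hZ z hz, mul_one]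

theorem sq_eq_one {H : Subgroup X} (hHe : Cfsg.IsElementaryAbelian 2 (H.map f))
    (hH16 : Nat.card ↥(H.map f) = 16) {x : X} (hx : f (x * x) = 1) : x * x = 1 := by
  classical
  by_cases hx1 : f x = 1
  · exact hZ x (hker ▸ MonoidHom.mem_ker.2 hx1)
  have hxord : orderOf (f x) = 2 := orderOf_eq_prime (by rw [pow_two, ← map_mul]; exact hx) hx1
  -- three independent elements of `H`
  obtain ⟨u', hu', hu1⟩ : ∃ u ∈ H.map f, u ≠ 1 := by
    by_contra h
    push Not at h
    rw [(Subgroup.eq_bot_iff_forall _).2 h, Subgroup.card_bot] at hH16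
    omega
  have hsq' : ∀ a ∈ H.map f, a * a = 1 := fun a ha => by rw [← pow_two]; exact hHe.2 a ha
  obtain ⟨v', hv', hv1, hvu⟩ : ∃ v ∈ H.map f, v ≠ 1 ∧ v ≠ u' := by
    by_contra h
    push Not at h
    have hle : ((H.map f : Subgroup (Matrix.ProjectiveSpecialLinearGroup (Fin 3) F)) : Set (Matrix.ProjectiveSpecialLinearGroup (Fin 3) F)) ⊆ (({1, u'} : Finset (Matrix.ProjectiveSpecialLinearGroup (Fin 3) F)) : Set (Matrix.ProjectiveSpecialLinearGroup (Fin 3) F)) := fun a ha => by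
      by_cases ha1 : a = 1
      · simp [ha1]
      · simp [h a ha ha1]
    have h' := (Set.ncard_le_ncard hle).trans_eq (Set.ncard_coe_finset _)
    have h2 : Nat.card ↥(H.map f) = ((H.map f : Subgroup (Matrix.ProjectiveSpecialLinearGroup (Fin 3) F)) : Set (Matrix.ProjectiveSpecialLinearGroup (Fin 3) F)).ncard :=
      Nat.card_coe_set_eq _
    have h3 : ({1, u'} : Finset (Matrix.ProjectiveSpecialLinearGroup (Fin 3) F)).card ≤ 2 := Finset.card_le_two
    omega
  obtain ⟨w', hw', hw1, hwu, hwv, hwuv⟩ :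
      ∃ w ∈ H.map f, w ≠ 1 ∧ w ≠ u' ∧ w ≠ v' ∧ w ≠ u' * v' := by
    by_contra h
    push Not at h
    have hle : ((H.map f : Subgroup (Matrix.ProjectiveSpecialLinearGroup (Fin 3) F)) : Set (Matrix.ProjectiveSpecialLinearGroup (Fin 3) F)) ⊆ (({1, u', v', u' * v'} : Finset (Matrix.ProjectiveSpecialLinearGroup (Fin 3) F)) : Set (Matrix.ProjectiveSpecialLinearGroup (Fin 3) F)) := fun a ha => by
      by_cases ha1 : a = 1
      · simp [ha1]
      by_cases hau : a = u'
      · simp [hau]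
      by_cases hav : a = v'
      · simp [hav]
      · simp [h a ha ha1 hau hav]
    have h' := (Set.ncard_le_ncard hle).trans_eq (Set.ncard_coe_finset _)
    have h2 : Nat.card ↥(H.map f) = ((H.map f : Subgroup (Matrix.ProjectiveSpecialLinearGroup (Fin 3) F)) : Set (Matrix.ProjectiveSpecialLinearGroup (Fin 3) F)).ncard :=
      Nat.card_coe_set_eq _
    have h3 : ({1, u', v', u' * v'} : Finset (Matrix.ProjectiveSpecialLinearGroup (Fin 3) F)).card ≤ 4 :=
      Finset.card_le_four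
    omega
  have hinv : ∀ a ∈ H.map f, a⁻¹ = a := fun a ha => inv_eq_of_mul_eq_one_right (hsq' a ha)
  obtain ⟨u, hu, eu⟩ := hu'
  obtain ⟨v, hv, ev⟩ := hv'
  obtain ⟨w, hw, ew⟩ := hw'
  have hord : ∀ a ∈ H, f a ≠ 1 → orderOf (f a) = 2 := fun a ha ha1 =>
    orderOf_eq_prime (hHe.2 _ ⟨a, ha, rfl⟩) ha1
  set c := x * x
  have hcc : c ∈ Subgroup.center X := by rw [← hker, MonoidHom.mem_ker]; exact hx
  have hc2 : c * c = 1 := hZ c hcc
  have hc : ∀ a ∈ H, f a ≠ 1 → a * a = c := fun a ha ha1 =>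
    (sq_const hF f hf hker hZ hxord (hord a ha ha1)).symm
  -- the commutator of two independent elements is `c`
  have hcomm : ∀ a ∈ H, ∀ b ∈ H, f a ≠ 1 → f b ≠ 1 → f (a * b) ≠ 1 → a * b * a⁻¹ * b⁻¹ = c := by
    intro a ha b hb h1 h2 h3
    have ea := hc a ha h1
    have eb := hc b hb h2
    have eab := hc _ (H.mul_mem ha hb) h3
    have e1 : a⁻¹ = a * c := inv_eq_of_mul_eq_one_right (by rw [← mul_assoc, ea, hc2])
    have e2 : b⁻¹ = b * c := inv_eq_of_mul_eq_one_right (by rw [← mul_assoc, eb, hc2])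
    calc a * b * a⁻¹ * b⁻¹ = a * b * (a * c) * (b * c) := by rw [e1, e2]
      _ = (a * b * (a * b)) * (c * c) := by
        rw [show a * b * (a * c) * (b * c) = a * b * a * (c * b) * c by group,
          ← Subgroup.mem_center_iff.1 hcc b]
        simp only [mul_assoc]
      _ = c := by rw [eab, hc2, mul_one]
  have hne : ∀ a b : X, f a ∈ H.map f → f a ≠ f b → f (a * b) ≠ 1 := fun a b ha h h' => h (by
    rw [← hinv _ ha]
    exact inv_eq_of_mul_eq_one_right (by rw [← map_mul]; exact h'))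
  have nu : f u ≠ 1 := by rw [eu]; exact hu1
  have nv : f v ≠ 1 := by rw [ev]; exact hv1
  have nw : f w ≠ 1 := by rw [ew]; exact hw1
  have nwu : f (w * u) ≠ 1 := hne w u ⟨w, hw, rfl⟩ (by rw [ew, eu]; exact hwu)
  have nwv : f (w * v) ≠ 1 := hne w v ⟨w, hw, rfl⟩ (by rw [ew, ev]; exact hwv)
  have nuv : f (u * v) ≠ 1 := hne u v ⟨u, hu, rfl⟩ (by rw [eu, ev]; exact hvu.symm)
  have nwuv : f (w * (u * v)) ≠ 1 := hne w (u * v) ⟨w, hw, rfl⟩ (by rw [map_mul, ew, eu, ev]; exact hwuv)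
  have k1 := hcomm w hw u hu nw nu nwu
  have k2 := hcomm w hw v hv nw nv nwv
  have k3 := hcomm w hw (u * v) (H.mul_mem hu hv) nw nuv nwuv
  have e : c = c * c := by
    calc c = w * (u * v) * w⁻¹ * (u * v)⁻¹ := k3.symm
      _ = (w * u * w⁻¹ * u⁻¹) * (u * (w * v * w⁻¹ * v⁻¹) * u⁻¹) := by group
      _ = c * c := by rw [k1, k2, Subgroup.mem_center_iff.1 hcc u, mul_inv_cancel_right]
  rw [e, hc2]

theorem structure_preimage {H : Subgroup X} (hZH : Subgroup.center X ≤ H)
    (hHe : Cfsg.IsElementaryAbelian 2 (H.map f)) (hH16 : Nat.card ↥(H.map f) = 16) :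
    Cfsg.IsElementaryAbelian 2 H ∧ Subgroup.centralizer (H : Set X) ≤ H ∧
      ∃ C : Subgroup X, C ≤ Subgroup.normalizer (H : Set X) ∧ C ⊓ H = ⊥ ∧
        H ⊔ C = Subgroup.normalizer (H : Set X) ∧ Nonempty (↥C ≃* Matrix.SpecialLinearGroup (Fin 2) F) := by
  classical
  have hsq1 : ∀ x : X, f (x * x) = 1 → x * x = 1 := fun x => sq_eq_one hF f hf hker hZ hHe hH16
  have hel : ∀ a ∈ H, a * a = 1 := fun a ha => hsq1 a (by
    rw [map_mul, ← pow_two]; exact hHe.2 _ ⟨a, ha, rfl⟩)
  have hHZ : ∀ x : X, f x ∈ H.map f → x ∈ H := by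
    rintro x ⟨h, hh, e⟩
    have hz : h⁻¹ * x ∈ Subgroup.center X := by
      rw [← hker, MonoidHom.mem_ker, map_mul, map_inv, e, inv_mul_cancel]
    simpa using H.mul_mem hh (hZH hz)
  obtain ⟨hC, φ, hφ, hφN, hφK, hNK⟩ := good_of_card hF (H.map f) hHe hH16
  have hNle : ∀ x : X, x ∈ Subgroup.normalizer (H : Set X) ↔ f x ∈ Subgroup.normalizer (H.map f : Set _) := by
    intro x
    rw [Subgroup.mem_normalizer_iff, Subgroup.mem_normalizer_iff]
    constructor
    · intro hx y
      obtain ⟨y, rfl⟩ := hf y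
      constructor
      · intro hy
        exact ⟨x * y * x⁻¹, (hx y).1 (hHZ y hy), by simp⟩
      · intro hy
        refine ⟨y, (hx y).2 (hHZ _ ?_), rfl⟩
        simpa using hy
    · intro hx y
      constructor
      · intro hy
        refine hHZ _ ?_
        simpa using (hx (f y)).1 ⟨y, hy, rfl⟩
      · intro hy
        exact hHZ _ ((hx (f y)).2 ⟨_, hy, by simp⟩)
  refine ⟨⟨Eight.commutative_of (fun a ha b hb => ?_), fun a ha => by rw [pow_two]; exact hel a ha⟩,
    fun x hx => hHZ x (hC (Subgroup.mem_centralizer_iff.2 ?_)), ?_⟩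
  · calc a * b = (a * b)⁻¹ := (inv_eq_of_mul_eq_one_right (hel _ (H.mul_mem ha hb))).symm
      _ = b⁻¹ * a⁻¹ := by group
      _ = b * a := by
        rw [inv_eq_of_mul_eq_one_right (hel a ha), inv_eq_of_mul_eq_one_right (hel b hb)]
  · rintro _ ⟨h, hh, rfl⟩
    rw [← map_mul, ← map_mul, Subgroup.mem_centralizer_iff.1 hx h hh]
  -- the complement
  set D := φ.range.comap f with hD
  have hex : ∀ d : D, ∃ A, φ A = f d := fun d => d.2
  let q : ↥D →* Matrix.SpecialLinearGroup (Fin 2) F :=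
    MonoidHom.mk' (fun d => (hex d).choose) fun d e => hφ (by
      rw [map_mul, (hex (d * e)).choose_spec, (hex d).choose_spec, (hex e).choose_spec, Subgroup.coe_mul,
        map_mul])
  have hq : ∀ d : D, φ (q d) = f d := fun d => (hex d).choose_spec
  have hqsurj : Function.Surjective q := fun A => by
    obtain ⟨x, hx⟩ := hf (φ A)
    refine ⟨⟨x, ⟨A, hx.symm⟩⟩, hφ ?_⟩
    rw [hq]; exact hx
  have hqker : ∀ d : D, q d = 1 ↔ (d : X) ∈ Subgroup.center X := fun d => by
    rw [← hker, MonoidHom.mem_ker, ← hq, map_eq_one_iff φ hφ]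
  set Z := q.ker with hZdef
  haveI : IsMulCommutative Z := ⟨⟨fun a b => Subtype.ext (Subtype.ext
    (Subgroup.mem_center_iff.1 ((hqker b.1).1 b.2) ((a : ↥D) : X)))⟩⟩
  have h2 := charTwo hF
  let U : Subgroup (Matrix.SpecialLinearGroup (Fin 2) F) :=
    { carrier := {A | ∃ r : F, (A : Matrix (Fin 2) (Fin 2) F) = !![1, r; 0, 1]}
      one_mem' := ⟨0, by ext i j; fin_cases i <;> fin_cases j <;> simp⟩
      mul_mem' := by
        rintro A B ⟨r, hr⟩ ⟨s, hs⟩
        refine ⟨r + s, ?_⟩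
        rw [Matrix.SpecialLinearGroup.coe_mul, hr, hs]
        ext i j
        fin_cases i <;> fin_cases j <;> simp [Matrix.mul_apply, Fin.sum_univ_two, add_comm]
      inv_mem' := by
        rintro A ⟨r, hr⟩
        refine ⟨-r, ?_⟩
        rw [Matrix.SpecialLinearGroup.coe_inv, hr, Matrix.adjugate_fin_two]
        ext i j
        fin_cases i <;> fin_cases j <;> simp }
  -- a four subgroup complementing the kernel
  have hω : ∃ ω : F, ω ≠ 0 ∧ ω ≠ 1 := by
    by_contra h
    push Not at h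
    have : Fintype.card F ≤ ({0, 1} : Finset F).card := Finset.card_le_card fun a _ => by
      by_cases ha : a = 0
      · simp [ha]
      · simp [h a ha]
    rw [hF] at this
    have h3 : ({0, 1} : Finset F).card ≤ 2 := Finset.card_le_two
    omega
  obtain ⟨ω, hω0, hω1⟩ := hω
  let um : F → Matrix.SpecialLinearGroup (Fin 2) F := fun r => ⟨!![1, r; 0, 1], by simp [Matrix.det_fin_two]⟩
  obtain ⟨a, ha⟩ := hqsurj (um 1)
  obtain ⟨b, hb⟩ := hqsurj (um ω)
  have hum : ∀ r s, um r * um s = um (r + s) := fun r s => by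
    apply Subtype.ext
    show (!![1, r; 0, 1] : Matrix (Fin 2) (Fin 2) F) * !![1, s; 0, 1] = !![1, r + s; 0, 1]
    ext i j
    fin_cases i <;> fin_cases j <;> simp [Matrix.mul_apply, Fin.sum_univ_two, add_comm]
  have hum0 : um 0 = 1 := by
    apply Subtype.ext
    ext i j
    fin_cases i <;> fin_cases j <;> simp [um]
  have humi : ∀ r s, um r = um s → r = s := fun r s h => by
    have := congrArg (fun A : Matrix.SpecialLinearGroup (Fin 2) F => (A : Matrix (Fin 2) (Fin 2) F) 0 1) h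
    simpa [um] using this
  have hUmem : ∀ A ∈ U, ∃ r, A = um r := fun A ⟨r, hr⟩ => ⟨r, Subtype.ext hr⟩
  have hsqD : ∀ d : D, q d ∈ U → d * d = 1 := fun d hd => Subtype.ext (by
    obtain ⟨r, hr⟩ := hUmem _ hd
    refine hsq1 d ?_
    rw [map_mul, ← hq, ← map_mul, hr, hum, show r + r = 0 by linear_combination r * h2, hum0, map_one])
  have hcommD : ∀ d e : D, q d ∈ U → q e ∈ U → d * e = e * d := fun d e hd he => by
    calc d * e = (d * e)⁻¹ := (inv_eq_of_mul_eq_one_right (hsqD _ (by rw [map_mul]; exact U.mul_mem hd he))).symm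
      _ = e⁻¹ * d⁻¹ := by group
      _ = e * d := by rw [inv_eq_of_mul_eq_one_right (hsqD d hd), inv_eq_of_mul_eq_one_right (hsqD e he)]
  have haU : q a ∈ U := ⟨1, by rw [ha]⟩
  have hbU : q b ∈ U := ⟨ω, by rw [hb]⟩
  have ha1 : a ≠ 1 := fun h => one_ne_zero (humi 1 0 (by rw [hum0, ← ha, h, map_one]))
  have hb1 : b ≠ 1 := fun h => hω0 (humi ω 0 (by rw [hum0, ← hb, h, map_one]))
  have hba : b ≠ a := fun h => hω1 (humi ω 1 (by rw [← ha, ← hb, h]))
  obtain ⟨A, -, -, -, hAm⟩ := Eight.exists_four (hsqD a haU) ha1 (hsqD b hbU) hb1 hba (hcommD b a hbU haU)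
  have hAU : A ≤ U.comap q := by
    intro d hd
    rcases (hAm d).1 hd with rfl | rfl | rfl | rfl
    · exact (U.comap q).one_mem
    · exact haU
    · exact hbU
    · exact (U.comap q).mul_mem hbU haU
  have hAK : A ⊓ Z = ⊥ := by
    rw [eq_bot_iff]
    rintro d ⟨hd, hdZ⟩
    have hd0 : q d = um 0 := by rw [hum0]; exact hdZ
    rcases (hAm d).1 hd with rfl | rfl | rfl | rfl
    · exact one_mem _
    · exact absurd (humi 1 0 (ha.symm.trans hd0)) one_ne_zero
    · exact absurd (humi ω 0 (hb.symm.trans hd0)) hω0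
    · rw [map_mul, hb, ha, hum] at hd0
      exact absurd (show ω = 1 by linear_combination humi _ _ hd0 - h2) hω1
  have hKA : Z ⊔ A = U.comap q := by
    refine le_antisymm (sup_le (fun d hd => ?_) hAU) fun d hd => ?_
    · rw [Subgroup.mem_comap, MonoidHom.mem_ker.1 hd]; exact one_mem _
    obtain ⟨r, hr⟩ := hUmem _ hd
    obtain ⟨y, hy, hyr⟩ : ∃ y ∈ A, q y = um r := by
      have hcases : r = 0 ∨ r = 1 ∨ r = ω ∨ r = ω + 1 := by
        by_contra h
        push Not at h
        have hs : ({0, 1, ω, ω + 1, r} : Finset F).card = 5 := by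
          have e1 : ω + 1 ≠ 0 := fun e => hω1 (by linear_combination e - h2)
          have e2 : ω + 1 ≠ 1 := fun e => hω0 (by linear_combination e)
          have e3 : ω + 1 ≠ ω := fun e => one_ne_zero (show (1 : F) = 0 by linear_combination e)
          simp [Finset.card_insert_of_notMem, hω0, hω1, hω0.symm, hω1.symm, h.1, h.2.1, h.2.2.1, h.2.2.2,
            h.1.symm, h.2.1.symm, h.2.2.1.symm, h.2.2.2.symm, e1, e2, e3, e1.symm, e2.symm, e3.symm]
        have := Finset.card_le_univ ({0, 1, ω, ω + 1, r} : Finset F)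
        rw [hs, hF] at this
        omega
      rcases hcases with rfl | rfl | rfl | rfl
      · exact ⟨1, A.one_mem, by rw [map_one, hum0]⟩
      · exact ⟨a, (hAm a).2 (Or.inr (Or.inl rfl)), ha⟩
      · exact ⟨b, (hAm b).2 (Or.inr (Or.inr (Or.inl rfl))), hb⟩
      · exact ⟨b * a, (hAm _).2 (Or.inr (Or.inr (Or.inr rfl))), by rw [map_mul, hb, ha, hum]⟩
    rw [show d = d * y⁻¹ * y by group]
    exact Subgroup.mul_mem_sup (by rw [hZdef, MonoidHom.mem_ker, map_mul, map_inv, hr, hyr, mul_inv_cancel]) hy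
  have hcop : (Nat.card Z).Coprime (U.comap q).index := by
    haveI : Fact (Nat.Prime 2) := ⟨Nat.prime_two⟩
    rw [Subgroup.index_comap_of_surjective _ hqsurj]
    have hp : IsPGroup 2 Z := fun d => ⟨1, Subtype.ext (Subtype.ext (by
      rw [pow_one, pow_two]; exact hZ _ ((hqker d.1).1 d.2)))⟩
    obtain ⟨k, hk⟩ := IsPGroup.iff_card.1 hp
    rw [hk]
    refine Nat.Coprime.pow_left _ ((Nat.Prime.coprime_iff_not_dvd Nat.prime_two).2 fun hd => ?_)
    -- `U` is a Sylow `2`-subgroup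
    have hU4 : Nat.card U = 4 := by
      rw [← hF, ← Nat.card_eq_fintype_card]
      refine (Nat.card_congr (Equiv.ofBijective (fun r : F => (⟨um r, r, rfl⟩ : U)) ⟨?_, ?_⟩)).symm
      · exact fun r s h => humi r s (congrArg Subtype.val h)
      · rintro ⟨A, r, hr⟩
        exact ⟨r, Subtype.ext (Subtype.ext hr.symm)⟩
    obtain ⟨S, hS⟩ := (IsPGroup.of_card (n := 2) (p := 2) hU4 : IsPGroup 2 U).exists_le_sylow
    have hS4 : Nat.card S ≤ 4 := by
      rw [← hU4]
      refine Subgroup.card_le_of_le fun s hs => ?_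
      -- an element commuting with `U` up to the `2`-group
      obtain ⟨z, hzS, hzc⟩ : ∃ z ∈ (S : Subgroup (Matrix.SpecialLinearGroup (Fin 2) F)),
          z ≠ 1 ∧ ∀ y ∈ (S : Subgroup (Matrix.SpecialLinearGroup (Fin 2) F)), y * z = z * y := by
        haveI : Nontrivial ↥(S : Subgroup (Matrix.SpecialLinearGroup (Fin 2) F)) := by
          rw [Subgroup.nontrivial_iff_ne_bot]
          intro h
          rw [h, le_bot_iff] at hS
          rw [hS, Subgroup.card_bot] at hU4
          omega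
        haveI := S.isPGroup'.center_nontrivial
        obtain ⟨z, hz⟩ := exists_ne (1 : Subgroup.center ↥(S : Subgroup (Matrix.SpecialLinearGroup (Fin 2) F)))
        exact ⟨z.1, z.1.2, fun h => hz (Subtype.ext (Subtype.ext h)), fun y hy =>
          congrArg Subtype.val (Subgroup.mem_center_iff.1 z.2 ⟨y, hy⟩)⟩
      have hcentU : ∀ A : Matrix.SpecialLinearGroup (Fin 2) F, A * um 1 = um 1 * A → A ∈ U := by
        intro A hA
        have e := congrArg (fun y : Matrix.SpecialLinearGroup (Fin 2) F => (y : Matrix (Fin 2) (Fin 2) F)) hA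
        simp only [Matrix.SpecialLinearGroup.coe_mul] at e
        have e00 := congrFun (congrFun e 0) 0
        have e01 := congrFun (congrFun e 0) 1
        simp [um, Matrix.mul_apply, Fin.sum_univ_two] at e00 e01
        have hA10 : (A : Matrix (Fin 2) (Fin 2) F) 1 0 = 0 := by linear_combination e00
        have hdet := A.2
        rw [Matrix.det_fin_two, hA10] at hdet
        have hA11 : (A : Matrix (Fin 2) (Fin 2) F) 0 0 = (A : Matrix (Fin 2) (Fin 2) F) 1 1 := by
          linear_combination e01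
        have hsq : ((A : Matrix (Fin 2) (Fin 2) F) 0 0 - 1) ^ 2 = 0 := by
          linear_combination hdet + (A : Matrix (Fin 2) (Fin 2) F) 0 0 * hA11 +
            (1 - (A : Matrix (Fin 2) (Fin 2) F) 0 0) * h2
        have h00 : (A : Matrix (Fin 2) (Fin 2) F) 0 0 = 1 := sub_eq_zero.1 (pow_eq_zero_iff (two_ne_zero) |>.1 hsq)
        refine ⟨(A : Matrix (Fin 2) (Fin 2) F) 0 1, ?_⟩
        ext i j
        fin_cases i <;> fin_cases j <;> simp [hA10, h00, ← hA11]
      have hzU : z ∈ U := hcentU z ((hzc.2 _ (hS ⟨1, rfl⟩)).symm)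
      obtain ⟨r, hr⟩ := hUmem z hzU
      have hr0 : r ≠ 0 := fun h => hzc.1 (by rw [hr, h, hum0])
      have e := hzc.2 s hs
      rw [hr] at e
      refine hcentU s ?_
      have e2 := congrArg (fun y : Matrix.SpecialLinearGroup (Fin 2) F => (y : Matrix (Fin 2) (Fin 2) F)) e
      simp only [Matrix.SpecialLinearGroup.coe_mul] at e2
      have e00 := congrFun (congrFun e2 0) 0
      have e01 := congrFun (congrFun e2 0) 1
      simp [um, Matrix.mul_apply, Fin.sum_univ_two] at e00 e01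
      have hs10 : (s : Matrix (Fin 2) (Fin 2) F) 1 0 = 0 := by
        rcases e00 with h | h
        · exact absurd h hr0
        · exact h
      have hs11 : (s : Matrix (Fin 2) (Fin 2) F) 0 0 = (s : Matrix (Fin 2) (Fin 2) F) 1 1 := by
        apply mul_left_cancel₀ hr0
        linear_combination e01
      apply Subtype.ext
      simp only [Matrix.SpecialLinearGroup.coe_mul]
      ext i j
      fin_cases i <;> fin_cases j <;> simp [um, Matrix.mul_apply, Fin.sum_univ_two, hs10, hs11, add_comm]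
    have hSU : (S : Subgroup (Matrix.SpecialLinearGroup (Fin 2) F)) = U :=
      (Subgroup.eq_of_le_of_card_ge hS (by rw [hU4]; exact hS4)).symm
    exact S.not_dvd_index (hSU.symm ▸ hd)
  obtain ⟨C', hC'⟩ := LocalEven.gaschutz_exists Z (U.comap q)
    (fun d hd => by rw [Subgroup.mem_comap, MonoidHom.mem_ker.1 hd]; exact one_mem _) hcop A hAU hAK hKA
  have hinj : Function.Injective (q.comp C'.subtype) := by
    rw [injective_iff_map_eq_one]
    intro d hd
    have : ((d : ↥D)) ∈ Z ⊓ C' := ⟨hd, d.2⟩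
    rw [hC'.disjoint.eq_bot, Subgroup.mem_bot] at this
    exact Subtype.ext this
  have hsurj : Function.Surjective (q.comp C'.subtype) := fun B => by
    obtain ⟨d, rfl⟩ := hqsurj B
    obtain ⟨⟨z, c⟩, e⟩ := (hC'.existsUnique d).exists
    refine ⟨c, ?_⟩
    show q c = q d
    rw [← e, map_mul, MonoidHom.mem_ker.1 z.2, one_mul]
  refine ⟨C'.map D.subtype, ?_, ?_, ?_,
    ⟨(C'.equivMapOfInjective D.subtype D.subtype_injective).symm.trans
      (MulEquiv.ofBijective _ ⟨hinj, hsurj⟩)⟩⟩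
  · rintro _ ⟨d, -, rfl⟩
    exact (hNle _).2 (hφN d.2)
  · rw [eq_bot_iff]
    rintro _ ⟨⟨d, hd, rfl⟩, hdH⟩
    have h1 : f d ∈ φ.range ⊓ H.map f := ⟨d.2, ⟨d, hdH, rfl⟩⟩
    rw [hφK, Subgroup.mem_bot] at h1
    have : d ∈ Z ⊓ C' := ⟨show q d = 1 from (hqker d).2 (hker ▸ MonoidHom.mem_ker.2 h1), hd⟩
    rw [hC'.disjoint.eq_bot, Subgroup.mem_bot] at this
    simp [this]
  · refine le_antisymm (sup_le Subgroup.le_normalizer ?_) fun x hx => ?_
    · rintro _ ⟨d, -, rfl⟩
      exact (hNle _).2 (hφN d.2)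
    have h1 := hNK ((hNle x).1 hx)
    rw [← SetLike.mem_coe, Subgroup.coe_mul_of_right_le_normalizer_left _ _ hφN] at h1
    obtain ⟨_, ⟨h, hh, rfl⟩, _, ⟨B, rfl⟩, e⟩ := Set.mem_mul.1 h1
    obtain ⟨c, hc⟩ := hsurj B
    rw [show x = (x * (((c : ↥D) : X))⁻¹) * ((c : ↥D) : X) by group]
    refine Subgroup.mul_mem_sup (hHZ _ ⟨h, hh, ?_⟩) ⟨c, c.2, rfl⟩
    have hc' : φ B = f ((c : ↥D) : X) := by rw [← hq, ← hc]; rfl
    rw [map_mul, map_inv, ← e, ← hc', mul_inv_cancel_right]

end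

theorem sl_two_equiv (hF : Fintype.card F = 4) :
    Nonempty (Matrix.SpecialLinearGroup (Fin 2) F ≃* Matrix.ProjectiveSpecialLinearGroup (Fin 2) F) := by
  have h : Subgroup.center (Matrix.SpecialLinearGroup (Fin 2) F) = ⊥ := by
    rw [eq_bot_iff]
    intro A hA
    obtain ⟨r, hr, hA⟩ := Matrix.SpecialLinearGroup.mem_center_iff.1 hA
    rw [Fintype.card_fin] at hr
    have h1 : r = 1 := sub_eq_zero.1 ((pow_eq_zero_iff two_ne_zero).1
      (show (r - 1) ^ 2 = 0 by linear_combination hr + (1 - r) * charTwo hF))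
    rw [Subgroup.mem_bot]
    apply Subtype.ext
    rw [← hA, h1, map_one]
    rfl
  exact ⟨(QuotientGroup.quotientBot.symm).trans (QuotientGroup.quotientMulEquivOfEq h.symm)⟩

theorem main (hZ : Cfsg.IsElementaryAbelian 2 (Subgroup.center X)) (hF : Fintype.card F = 4)
    (hXL : Nonempty ((X ⧸ Subgroup.center X) ≃* Matrix.ProjectiveSpecialLinearGroup (Fin 3) F))
    (H K : Subgroup X) (hZH : Subgroup.center X ≤ H) (hZK : Subgroup.center X ≤ K)
    (hH : Cfsg.IsElementaryAbelian 2 (H.map (QuotientGroup.mk' (Subgroup.center X))) ∧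
      Nat.card ↥(H.map (QuotientGroup.mk' (Subgroup.center X))) = 16)
    (hK : Cfsg.IsElementaryAbelian 2 (K.map (QuotientGroup.mk' (Subgroup.center X))) ∧
      Nat.card ↥(K.map (QuotientGroup.mk' (Subgroup.center X))) = 16) :
    Cfsg.IsElementaryAbelian 2 H ∧ Cfsg.IsElementaryAbelian 2 K ∧
      H ⊓ K = (Subgroup.center ↥(H ⊔ K)).map (H ⊔ K).subtype ∧
      (∃ C : Subgroup X, C ≤ Subgroup.normalizer (H : Set X) ∧ C ⊓ H = ⊥ ∧ H ⊔ C = Subgroup.normalizer (H : Set X) ∧
        Nonempty (↥C ≃* Matrix.ProjectiveSpecialLinearGroup (Fin 2) F)) ∧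
      (∃ C : Subgroup X, C ≤ Subgroup.normalizer (K : Set X) ∧ C ⊓ K = ⊥ ∧ K ⊔ C = Subgroup.normalizer (K : Set X) ∧
        Nonempty (↥C ≃* Matrix.ProjectiveSpecialLinearGroup (Fin 2) F)) := by
  obtain ⟨e⟩ := hXL
  set f := e.toMonoidHom.comp (QuotientGroup.mk' (Subgroup.center X)) with hfdef
  have hf : Function.Surjective f := e.surjective.comp (QuotientGroup.mk'_surjective _)
  have hker : f.ker = Subgroup.center X := by
    ext x
    simp [hfdef]
  have hz : ∀ z ∈ Subgroup.center X, z * z = 1 := fun z hz => by rw [← pow_two]; exact hZ.2 z hz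
  have tr : ∀ L : Subgroup X, Cfsg.IsElementaryAbelian 2 (L.map (QuotientGroup.mk' (Subgroup.center X))) ∧
      Nat.card ↥(L.map (QuotientGroup.mk' (Subgroup.center X))) = 16 →
      Cfsg.IsElementaryAbelian 2 (L.map f) ∧ Nat.card ↥(L.map f) = 16 := by
    intro L hL
    have e1 : L.map f = (L.map (QuotientGroup.mk' (Subgroup.center X))).map e.toMonoidHom :=
      (Subgroup.map_map _ _ _).symm
    refine ⟨⟨Eight.commutative_of ?_, ?_⟩, ?_⟩
    · rw [e1]
      rintro _ ⟨a, ha, rfl⟩ _ ⟨b, hb, rfl⟩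
      rw [← map_mul, ← map_mul, Eight.comm_of hL.1.1 ha hb]
    · rw [e1]
      rintro _ ⟨a, ha, rfl⟩
      rw [← map_pow, hL.1.2 a ha, map_one]
    · rw [e1, Subgroup.card_map_of_injective (f := e.toMonoidHom) e.injective, hL.2]
  obtain ⟨hHe, hHc, C₁, a1, a2, a3, ⟨a4⟩⟩ := structure_preimage hF f hf hker hz hZH (tr H hH).1 (tr H hH).2
  obtain ⟨hKe, hKc, C₂, b1, b2, b3, ⟨b4⟩⟩ := structure_preimage hF f hf hker hz hZK (tr K hK).1 (tr K hK).2
  obtain ⟨eq2⟩ := sl_two_equiv hF
  refine ⟨hHe, hKe, le_antisymm ?_ ?_, ⟨C₁, a1, a2, a3, ⟨a4.trans eq2⟩⟩, ⟨C₂, b1, b2, b3, ⟨b4.trans eq2⟩⟩⟩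
  · intro x hx
    refine ⟨⟨x, Subgroup.mem_sup_left hx.1⟩, Subgroup.mem_center_iff.2 fun y => Subtype.ext ?_, rfl⟩
    have hle : H ⊔ K ≤ Subgroup.centralizer ({x} : Set X) := sup_le
      (fun a ha => Subgroup.mem_centralizer_singleton_iff.2 (Eight.comm_of hHe.1 ha hx.1))
      (fun a ha => Subgroup.mem_centralizer_singleton_iff.2 (Eight.comm_of hKe.1 ha hx.2))
    exact Subgroup.mem_centralizer_singleton_iff.1 (hle y.2)
  · rintro _ ⟨y, hy, rfl⟩
    have hc : ∀ a ∈ H ⊔ K, a * (y : X) = y * a := fun a ha =>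
      congrArg Subtype.val (Subgroup.mem_center_iff.1 hy ⟨a, ha⟩)
    exact ⟨hHc (Subgroup.mem_centralizer_iff.2 fun a ha => hc a (Subgroup.mem_sup_left ha)),
      hKc (Subgroup.mem_centralizer_iff.2 fun a ha => hc a (Subgroup.mem_sup_right ha))⟩

end Cfsg.Agent.Components.LThreeFour
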