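import Cfsg.Agent.Forms.SLTransv
import Cfsg.Prelude.Def_Transfer
import Mathlib

/-!
The elementary abelian subgroups of order 16 of `PSL₃(4)`: centraliser, normaliser, complement.
-/

set_option autoImplicit false
set_option linter.unusedSectionVars false
set_option linter.style.haveILetI false

namespace Cfsg.Agent.Components.LThreeFour

open Matrix

variable {F : Type*} [Field F] [Fintype F]

local notation "SL3" => Matrix.SpecialLinearGroup (Fin 3) F
local notation "PSL34" => Matrix.ProjectiveSpecialLinearGroup (Fin 3) F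
local notation "π" => QuotientGroup.mk' (Subgroup.center (Matrix.SpecialLinearGroup (Fin 3) F))

theorem charTwo (hF : Fintype.card F = 4) : (2 : F) = 0 := by
  have h := FiniteField.cast_card_eq_zero F
  rw [hF] at h
  exact mul_self_eq_zero.1 (by linear_combination (by exact_mod_cast h : ((4 : ℕ) : F) = 0))

theorem cube_one (hF : Fintype.card F = 4) {a : F} (ha : a ≠ 0) : a ^ 3 = 1 := by
  have := FiniteField.pow_card_sub_one_eq_one a ha
  rwa [hF] at this

/-- What we need to know about an elementary abelian subgroup of order 16. -/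
def Good (F : Type*) [Field F] [Fintype F] {G : Type*} [Group G] (K : Subgroup G) : Prop :=
  Subgroup.centralizer (K : Set G) ≤ K ∧
    ∃ φ : Matrix.SpecialLinearGroup (Fin 2) F →* G, Function.Injective φ ∧
      φ.range ≤ Subgroup.normalizer (K : Set G) ∧ φ.range ⊓ K = ⊥ ∧
      Subgroup.normalizer (K : Set G) ≤ K ⊔ φ.range

theorem Good.map {G G' : Type*} [Group G] [Group G'] {K : Subgroup G} (h : Good F K) (α : G ≃* G') :
    Good F (K.map α.toMonoidHom) := by
  obtain ⟨h1, φ, h2, h3, h4, h5⟩ := h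
  have hr : (α.toMonoidHom.comp φ).range = φ.range.map α.toMonoidHom := MonoidHom.range_comp _ _
  have hN : Subgroup.normalizer (K.map α.toMonoidHom : Set G') =
      (Subgroup.normalizer (K : Set G)).map α.toMonoidHom := (Subgroup.map_equiv_normalizer_eq _ _).symm
  refine ⟨?_, α.toMonoidHom.comp φ, α.injective.comp h2, ?_, ?_, ?_⟩
  · intro x hx
    refine ⟨α.symm x, h1 (Subgroup.mem_centralizer_iff.2 fun k hk => α.injective ?_), by simp⟩
    have := Subgroup.mem_centralizer_iff.1 hx (α k) ⟨k, hk, rfl⟩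
    simpa using this
  · rw [hr, hN]; exact Subgroup.map_mono h3
  · rw [hr, ← Subgroup.map_inf _ _ _ α.injective, h4, Subgroup.map_bot]
  · rw [hr, hN, ← Subgroup.map_sup]; exact Subgroup.map_mono h5

/-- The elements `1 + e₀ (0, a, b)`. -/
def e0 (a b : F) : SL3 := ⟨!![1, a, b; 0, 1, 0; 0, 0, 1], by simp [det_fin_three]⟩

theorem e0_mul (a b c d : F) : e0 a b * e0 c d = e0 (a + c) (b + d) := by
  apply Subtype.ext
  rw [Matrix.SpecialLinearGroup.coe_mul]
  ext i j
  fin_cases i <;> fin_cases j <;> simp [e0, Matrix.mul_apply, Fin.sum_univ_three] <;> ring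

theorem e0_zero : e0 (0 : F) 0 = 1 := by
  apply Subtype.ext
  ext i j
  fin_cases i <;> fin_cases j <;> simp [e0]

/-- The subgroup of the `e0 a b`. -/
def E0 : Subgroup SL3 where
  carrier := {g | ∃ a b : F, g = e0 a b}
  one_mem' := ⟨0, 0, e0_zero.symm⟩
  mul_mem' := by rintro _ _ ⟨a, b, rfl⟩ ⟨c, d, rfl⟩; exact ⟨a + c, b + d, e0_mul a b c d⟩
  inv_mem' := by
    rintro _ ⟨a, b, rfl⟩
    exact ⟨-a, -b, inv_eq_of_mul_eq_one_right (by rw [e0_mul, add_neg_cancel, add_neg_cancel, e0_zero])⟩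

theorem mem_center_scalar {g : SL3} {c : F} (hc : c ^ 3 = 1)
    (hg : (g : Matrix (Fin 3) (Fin 3) F) = c • 1) : g ∈ Subgroup.center SL3 :=
  Matrix.SpecialLinearGroup.mem_center_iff.2 ⟨c, by rw [Fintype.card_fin]; exact hc, by
    rw [hg, Matrix.scalar_apply, Matrix.smul_one_eq_diagonal]⟩

theorem mk_eq_of_smul {g g' : SL3} {c : F} (hc : c ^ 3 = 1)
    (h : (g : Matrix (Fin 3) (Fin 3) F) = c • (g' : Matrix (Fin 3) (Fin 3) F)) : π g = π g' := by
  rw [QuotientGroup.mk'_eq_mk']
  refine ⟨g⁻¹ * g', ?_, by group⟩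
  have : g'⁻¹ * g ∈ Subgroup.center SL3 := mem_center_scalar hc (by
    rw [Matrix.SpecialLinearGroup.coe_mul, h, Matrix.mul_smul, ← Matrix.SpecialLinearGroup.coe_mul,
      inv_mul_cancel, Matrix.SpecialLinearGroup.coe_one])
  have h2 := (Subgroup.center SL3).inv_mem this
  rwa [_root_.mul_inv_rev, inv_inv] at h2

theorem exists_smul_of_mk_eq {g g' : SL3} (h : π g = π g') :
    ∃ c : F, c ^ 3 = 1 ∧ (g : Matrix (Fin 3) (Fin 3) F) = c • (g' : Matrix (Fin 3) (Fin 3) F) := by
  rw [QuotientGroup.mk'_eq_mk'] at h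
  obtain ⟨z, hz, e⟩ := h
  obtain ⟨c, hc, hcz⟩ := Matrix.SpecialLinearGroup.mem_center_iff.1 ((Subgroup.center SL3).inv_mem hz)
  rw [Fintype.card_fin] at hc
  refine ⟨c, hc, ?_⟩
  rw [show g = g' * z⁻¹ by rw [← e]; group, Matrix.SpecialLinearGroup.coe_mul, ← hcz, Matrix.scalar_apply,
    ← Matrix.smul_one_eq_diagonal, Matrix.mul_smul, mul_one]

/-- A unipotent transvection-like matrix cannot be a proper scalar multiple of a conjugate. -/
theorem eq_of_smul_trace (hF : Fintype.card F = 4) {g g' : SL3} {c : F}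
    (hg : Matrix.trace (g : Matrix (Fin 3) (Fin 3) F) = 1) (hg' : Matrix.trace (g' : Matrix (Fin 3) (Fin 3) F) = 1)
    (h : (g : Matrix (Fin 3) (Fin 3) F) = c • (g' : Matrix (Fin 3) (Fin 3) F)) : g = g' := by
  have h2 := congrArg Matrix.trace h
  rw [Matrix.trace_smul, hg, hg', smul_eq_mul, mul_one] at h2
  exact Subtype.ext (by rw [h, ← h2, one_smul])

theorem trace_e0 (hF : Fintype.card F = 4) (a b : F) :
    Matrix.trace (e0 a b : Matrix (Fin 3) (Fin 3) F) = 1 := by
  simp [e0, Matrix.trace_fin_three]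
  linear_combination charTwo hF

theorem trace_conj (g x : SL3) :
    Matrix.trace ((g * x * g⁻¹ : SL3) : Matrix (Fin 3) (Fin 3) F) = Matrix.trace (x : Matrix (Fin 3) (Fin 3) F) := by
  rw [Matrix.SpecialLinearGroup.coe_mul, Matrix.SpecialLinearGroup.coe_mul, Matrix.trace_mul_cycle,
    ← Matrix.SpecialLinearGroup.coe_mul, inv_mul_cancel, Matrix.SpecialLinearGroup.coe_one, one_mul]

/-- The embedding of `SL₂`. -/
def j : Matrix.SpecialLinearGroup (Fin 2) F →* SL3 where
  toFun A := ⟨!![1, 0, 0; 0, (A : Matrix (Fin 2) (Fin 2) F) 0 0, (A : Matrix (Fin 2) (Fin 2) F) 0 1;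
      0, (A : Matrix (Fin 2) (Fin 2) F) 1 0, (A : Matrix (Fin 2) (Fin 2) F) 1 1], by
    have h := A.2
    rw [det_fin_two] at h
    simp [det_fin_three]
    linear_combination h⟩
  map_one' := by
    apply Subtype.ext
    ext i k
    fin_cases i <;> fin_cases k <;> simp
  map_mul' A B := by
    apply Subtype.ext
    show (!![1, 0, 0; 0, ((A * B).1 : Matrix (Fin 2) (Fin 2) F) 0 0, ((A * B).1 : Matrix (Fin 2) (Fin 2) F) 0 1;
        0, ((A * B).1 : Matrix (Fin 2) (Fin 2) F) 1 0, ((A * B).1 : Matrix (Fin 2) (Fin 2) F) 1 1] : Matrix (Fin 3) (Fin 3) F) =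
      !![1, 0, 0; 0, (A.1 : Matrix (Fin 2) (Fin 2) F) 0 0, (A.1 : Matrix (Fin 2) (Fin 2) F) 0 1;
        0, (A.1 : Matrix (Fin 2) (Fin 2) F) 1 0, (A.1 : Matrix (Fin 2) (Fin 2) F) 1 1] *
      !![1, 0, 0; 0, (B.1 : Matrix (Fin 2) (Fin 2) F) 0 0, (B.1 : Matrix (Fin 2) (Fin 2) F) 0 1;
        0, (B.1 : Matrix (Fin 2) (Fin 2) F) 1 0, (B.1 : Matrix (Fin 2) (Fin 2) F) 1 1]
    ext i k
    fin_cases i <;> fin_cases k <;> simp [Matrix.mul_apply, Fin.sum_univ_three, Fin.sum_univ_two]

theorem j_coe (A : Matrix.SpecialLinearGroup (Fin 2) F) : ((j A : SL3) : Matrix (Fin 3) (Fin 3) F) =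
    !![1, 0, 0; 0, (A : Matrix (Fin 2) (Fin 2) F) 0 0, (A : Matrix (Fin 2) (Fin 2) F) 0 1;
      0, (A : Matrix (Fin 2) (Fin 2) F) 1 0, (A : Matrix (Fin 2) (Fin 2) F) 1 1] := rfl

theorem e0_coe (a b : F) : ((e0 a b : SL3) : Matrix (Fin 3) (Fin 3) F) = !![1, a, b; 0, 1, 0; 0, 0, 1] := rfl

theorem j_conj_e0 (A : Matrix.SpecialLinearGroup (Fin 2) F) (a b : F) :
    ∃ a' b' : F, j A * e0 a b * (j A)⁻¹ = e0 a' b' := by
  have hA := A.2
  rw [det_fin_two] at hA
  refine ⟨a * A.1 1 1 - b * A.1 1 0, b * A.1 0 0 - a * A.1 0 1, mul_inv_eq_iff_eq_mul.2 ?_⟩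
  apply Subtype.ext
  simp only [Matrix.SpecialLinearGroup.coe_mul, j_coe, e0_coe]
  ext i k
  fin_cases i <;> fin_cases k <;>
    simp [Matrix.mul_apply, Fin.sum_univ_three]
  · linear_combination -a * hA
  · linear_combination -b * hA

theorem good_E0 (hF : Fintype.card F = 4) : Good F (E0.map π : Subgroup PSL34) := by
  have htr := trace_e0 hF
  refine ⟨?_, (π).comp j, ?_, ?_, ?_, ?_⟩
  · intro x hx
    obtain ⟨g, rfl⟩ := QuotientGroup.mk'_surjective _ x
    have key : ∀ a b : F, g * e0 a b = e0 a b * g := by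
      intro a b
      have e := Subgroup.mem_centralizer_iff.1 hx (π (e0 a b)) ⟨e0 a b, ⟨a, b, rfl⟩, rfl⟩
      have e' : π (g * e0 a b * g⁻¹) = π (e0 a b) := by
        rw [map_mul, map_mul, ← e, map_inv, mul_inv_cancel_right]
      obtain ⟨c, -, hc⟩ := exists_smul_of_mk_eq e'
      exact mul_inv_eq_iff_eq_mul.1 (eq_of_smul_trace hF (by rw [trace_conj, htr]) (htr a b) hc)
    have k1 := congrArg (fun y : SL3 => (y : Matrix (Fin 3) (Fin 3) F)) (key 1 0)
    have k2 := congrArg (fun y : SL3 => (y : Matrix (Fin 3) (Fin 3) F)) (key 0 1)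
    simp only [Matrix.SpecialLinearGroup.coe_mul] at k1 k2
    have f11 := congrFun (congrFun k1 1) 1
    have f21 := congrFun (congrFun k1 2) 1
    have f01 := congrFun (congrFun k1 0) 1
    have f02 := congrFun (congrFun k1 0) 2
    have s02 := congrFun (congrFun k2 0) 2
    have s01 := congrFun (congrFun k2 0) 1
    simp [e0, Matrix.mul_apply, Fin.sum_univ_three] at f11 f21 f01 f02 s02 s01
    set M := (g : Matrix (Fin 3) (Fin 3) F)
    have g10 : M 1 0 = 0 := by linear_combination f11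
    have g20 : M 2 0 = 0 := by linear_combination f21
    have g12 : M 1 2 = 0 := by linear_combination f02
    have g11 : M 0 0 = M 1 1 := by linear_combination f01
    have g22 : M 0 0 = M 2 2 := by linear_combination s02
    have g21 : M 2 1 = 0 := by linear_combination s01
    have hdet : M.det = 1 := g.2
    rw [det_fin_three, g10, g20, g12, g21, ← g11, ← g22] at hdet
    have hc : M 0 0 ^ 3 = 1 := by linear_combination hdet
    refine ⟨e0 (M 0 1 / M 0 0) (M 0 2 / M 0 0), ⟨_, _, rfl⟩, (mk_eq_of_smul hc ?_).symm⟩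
    have h0 : M 0 0 ≠ 0 := fun h => by rw [h] at hc; simp at hc
    ext i k
    fin_cases i <;> fin_cases k <;>
      simp [e0, M, g10, g20, g12, g21] at * <;> first
        | assumption
        | (rw [mul_div_cancel₀ _ h0])
        | exact g11.symm
        | exact g22.symm
  · rw [injective_iff_map_eq_one]
    intro A hA
    obtain ⟨c, -, hc⟩ := exists_smul_of_mk_eq (g := j A) (g' := 1) (by rw [map_one]; exact hA)
    have h00 := congrFun (congrFun hc 0) 0
    simp [j_coe] at h00
    subst h00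
    apply Subtype.ext
    ext i k
    fin_cases i <;> fin_cases k
    · simpa [j_coe] using congrFun (congrFun hc 1) 1
    · simpa [j_coe] using congrFun (congrFun hc 1) 2
    · simpa [j_coe] using congrFun (congrFun hc 2) 1
    · simpa [j_coe] using congrFun (congrFun hc 2) 2
  · rintro _ ⟨A, rfl⟩
    rw [Subgroup.mem_normalizer_iff]
    have key : ∀ B : Matrix.SpecialLinearGroup (Fin 2) F, ∀ y ∈ (E0.map π : Subgroup PSL34),
        π (j B) * y * (π (j B))⁻¹ ∈ (E0.map π : Subgroup PSL34) := by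
      rintro B _ ⟨_, ⟨a, b, rfl⟩, rfl⟩
      obtain ⟨a', b', e⟩ := j_conj_e0 B a b
      exact ⟨e0 a' b', ⟨a', b', rfl⟩, by rw [← map_inv, ← map_mul, ← map_mul, e]⟩
    intro y
    refine ⟨key A y, fun hy => ?_⟩
    have := key A⁻¹ _ hy
    rw [map_inv, map_inv, inv_inv] at this
    simp only [MonoidHom.comp_apply] at this
    rwa [show ∀ u v : PSL34, u⁻¹ * (u * v * u⁻¹) * u = v from fun u v => by group] at this
  · rw [eq_bot_iff]
    rintro _ ⟨⟨A, rfl⟩, ⟨_, ⟨a, b, rfl⟩, e⟩⟩
    obtain ⟨c, -, hc⟩ := exists_smul_of_mk_eq e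
    have h00 := congrFun (congrFun hc 0) 0
    simp [e0_coe, j_coe] at h00
    have h01 := congrFun (congrFun hc 0) 1
    have h02 := congrFun (congrFun hc 0) 2
    simp [e0_coe, j_coe] at h01 h02
    rw [Subgroup.mem_bot, ← e, h01, h02, e0_zero, map_one]
  · intro x hx
    obtain ⟨g, rfl⟩ := QuotientGroup.mk'_surjective _ x
    set M := (g : Matrix (Fin 3) (Fin 3) F) with hM
    obtain ⟨_, ⟨a, b, rfl⟩, he⟩ := (Subgroup.mem_normalizer_iff.1 hx (π (e0 1 0))).1 ⟨e0 1 0, ⟨1, 0, rfl⟩, rfl⟩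
    have he' : π (g * e0 1 0 * g⁻¹) = π (e0 a b) := by rw [map_mul, map_mul, map_inv, he]
    obtain ⟨c, -, hc⟩ := exists_smul_of_mk_eq he'
    have k1 := congrArg (fun y : SL3 => (y : Matrix (Fin 3) (Fin 3) F))
      (mul_inv_eq_iff_eq_mul.1 (eq_of_smul_trace hF (by rw [trace_conj, htr]) (htr a b) hc))
    simp only [Matrix.SpecialLinearGroup.coe_mul] at k1
    have f11 := congrFun (congrFun k1 1) 1
    have f21 := congrFun (congrFun k1 2) 1
    simp [e0, Matrix.mul_apply, Fin.sum_univ_three] at f11 f21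
    have g10 : M 1 0 = 0 := by linear_combination f11
    have g20 : M 2 0 = 0 := by linear_combination f21
    have hdet : M.det = 1 := g.2
    rw [det_fin_three, g10, g20] at hdet
    have h0 : M 0 0 ≠ 0 := fun h => by rw [h] at hdet; simp at hdet
    have hc3 := cube_one hF h0
    have hA : Matrix.det (!![M 1 1 / M 0 0, M 1 2 / M 0 0; M 2 1 / M 0 0, M 2 2 / M 0 0]) = 1 := by
      rw [det_fin_two]
      simp only [Matrix.of_apply, Matrix.cons_val', Matrix.cons_val_zero, Matrix.cons_val_one,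
        Matrix.cons_val_fin_one]
      field_simp
      linear_combination (M 0 0) ^ 2 * hdet - (M 1 1 * M 2 2 - M 1 2 * M 2 1) * hc3
    set A : Matrix.SpecialLinearGroup (Fin 2) F :=
      ⟨!![M 1 1 / M 0 0, M 1 2 / M 0 0; M 2 1 / M 0 0, M 2 2 / M 0 0], hA⟩
    set u := M 0 1 / M 0 0 * (M 2 2 / M 0 0) - M 0 2 / M 0 0 * (M 2 1 / M 0 0)
    set v := M 0 2 / M 0 0 * (M 1 1 / M 0 0) - M 0 1 / M 0 0 * (M 1 2 / M 0 0)
    have hg : π g = π (e0 u v * j A) := by
      refine mk_eq_of_smul hc3 ?_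
      rw [det_fin_two] at hA
      simp only [Matrix.of_apply, Matrix.cons_val', Matrix.cons_val_zero, Matrix.cons_val_one,
        Matrix.cons_val_fin_one] at hA
      simp only [Matrix.SpecialLinearGroup.coe_mul, j_coe, e0_coe]
      ext i k
      fin_cases i <;> fin_cases k <;>
        simp [A, u, v, Matrix.mul_apply, Fin.sum_univ_three, ← hM, g10, g20]
      all_goals
        field_simp at hA ⊢
        first
          | done
          | linear_combination M 0 1 * (-1 : F) * hA
          | linear_combination M 0 2 * (-1 : F) * hA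
    rw [hg, map_mul]
    exact Subgroup.mul_mem_sup ⟨_, ⟨u, v, rfl⟩, rfl⟩ ⟨A, rfl⟩

/-- Either the vectors are parallel, or some minor is non-zero. -/
theorem parallel_or_minor {a b : Fin 3 → F} (ha : a ≠ 0) :
    (∃ c : F, b = c • a) ∨ ∃ i k : Fin 3, a i * b k - a k * b i ≠ 0 := by
  by_contra h
  push Not at h
  obtain ⟨i, hi⟩ := Function.ne_iff.1 ha
  simp only [Pi.zero_apply] at hi
  refine h.1 (b i / a i) (funext fun k => ?_)
  have := h.2 i k
  simp only [Pi.smul_apply, smul_eq_mul]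
  field_simp
  linear_combination this

/-- Two commuting transvections whose product is a transvection share the axis or the direction. -/
theorem parallel_of_product {a b c w x y : Fin 3 → F} (ha : a ≠ 0)
    (hx : x ≠ 0) (hb : b ≠ 0) (hw : w ≠ 0)
    (hcomm : (1 + vecMulVec a w) * (1 + vecMulVec b x) = (1 + vecMulVec b x) * (1 + vecMulVec a w))
    (hprod : (1 + vecMulVec a w) * (1 + vecMulVec b x) = 1 + vecMulVec c y) :
    (∃ r : F, b = r • a) ∨ ∃ r : F, x = r • w := by
  rcases parallel_or_minor (b := b) ha with h | ⟨i, k, hd⟩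
  · exact Or.inl h
  right
  have e1 : ∀ p q, a p * (w ⬝ᵥ b) * x q = b p * (x ⬝ᵥ a) * w q := by
    intro p q
    have := congrFun (congrFun hcomm p) q
    simp only [Matrix.mul_add, Matrix.add_mul, mul_one, one_mul, Matrix.add_apply,
      vecMulVec_mul_vecMulVec, vecMulVec_apply, Pi.smul_apply, smul_eq_mul] at this
    linear_combination this
  have hs : w ⬝ᵥ b = 0 := by
    obtain ⟨q, hq⟩ := Function.ne_iff.1 hx
    simp only [Pi.zero_apply] at hq
    have h1 := e1 i q
    have h2 := e1 k q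
    have h3 : (a i * b k - a k * b i) * ((w ⬝ᵥ b) * x q) = 0 := by linear_combination b k * h1 - b i * h2
    exact (mul_eq_zero.1 ((mul_eq_zero.1 h3).resolve_left hd)).resolve_right hq
  have e2 : ∀ p q, a p * w q + b p * x q = c p * y q := by
    intro p q
    have := congrFun (congrFun hprod p) q
    simp only [Matrix.mul_add, Matrix.add_mul, mul_one, one_mul, Matrix.add_apply,
      vecMulVec_mul_vecMulVec, vecMulVec_apply, Pi.smul_apply, smul_eq_mul, hs] at this
    linear_combination this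
  have hWy : ∀ q, (a i * b k - a k * b i) * w q = (b k * c i - b i * c k) * y q := fun q => by
    linear_combination b k * e2 i q - b i * e2 k q
  have hXy : ∀ q, (a i * b k - a k * b i) * x q = (a i * c k - a k * c i) * y q := fun q => by
    linear_combination a i * e2 k q - a k * e2 i q
  have hα : b k * c i - b i * c k ≠ 0 := fun h => hw (funext fun q => by
    have := hWy q
    rw [h, zero_mul] at this
    exact (mul_eq_zero.1 this).resolve_left hd)
  refine ⟨(a i * c k - a k * c i) / (b k * c i - b i * c k), funext fun q => ?_⟩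
  simp only [Pi.smul_apply, smul_eq_mul]
  rw [div_mul_eq_mul_div, eq_div_iff hα]
  apply mul_left_cancel₀ hd
  linear_combination (b k * c i - b i * c k) * hXy q - (a i * c k - a k * c i) * hWy q

theorem vecMulVec_eq_smul {a b : Fin 3 → F} {r : F} (h : b = r • a) (x : Fin 3 → F) :
    vecMulVec b x = vecMulVec a (r • x) := by
  ext p q
  simp [h, vecMulVec_apply]; ring

/-- A common direction puts the subgroup into a conjugate of `E0`. -/
theorem exists_conj_of_common (hF : Fintype.card F = 4) (K : Subgroup PSL34) (hK : Nat.card K = 16)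
    (a : Fin 3 → F) (ha : a ≠ 0)
    (h : ∀ x ∈ K, ∃ (t : SL3) (w : Fin 3 → F), π t = x ∧ w ⬝ᵥ a = 0 ∧
      (t : Matrix (Fin 3) (Fin 3) F) = 1 + vecMulVec a w) :
    ∃ α : PSL34 ≃* PSL34, K = (E0.map π).map α.toMonoidHom := by
  classical
  obtain ⟨M, c, hc⟩ := Forms.exists_SL_row a ha
  have hc0 : c ≠ 0 := fun h => ha (by rw [hc, h, zero_smul])
  set P : SL3 := ⟨(M : Matrix (Fin 3) (Fin 3) F)ᵀ, by rw [Matrix.det_transpose]; exact M.2⟩
  have hPa : (P : Matrix (Fin 3) (Fin 3) F) *ᵥ (c • Pi.single 0 1) = a := by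
    rw [mulVec_smul, mulVec_single_one]
    funext p
    rw [hc]
    rfl
  refine ⟨MulAut.conj (π P), Subgroup.eq_of_le_of_card_ge (fun x hx => ?_) ?_⟩
  · obtain ⟨t, w, rfl, hw, ht⟩ := h x hx
    refine ⟨π (P⁻¹ * t * P), ⟨_, ?_, rfl⟩, ?_⟩
    · set w' := c • (w ᵥ* (P : Matrix (Fin 3) (Fin 3) F)) with hw'
      have hPe : ((P⁻¹ : SL3) : Matrix (Fin 3) (Fin 3) F) *ᵥ a = c • Pi.single 0 1 := by
        rw [← hPa, mulVec_mulVec, ← Matrix.SpecialLinearGroup.coe_mul, inv_mul_cancel,
          Matrix.SpecialLinearGroup.coe_one, one_mulVec]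
      have hform : ((P⁻¹ * t * P : SL3) : Matrix (Fin 3) (Fin 3) F) = 1 + vecMulVec (Pi.single 0 1) w' := by
        rw [Matrix.SpecialLinearGroup.coe_mul, Matrix.SpecialLinearGroup.coe_mul, ht, mul_add, add_mul, mul_one,
          ← Matrix.SpecialLinearGroup.coe_mul, inv_mul_cancel, Matrix.SpecialLinearGroup.coe_one, mul_vecMulVec,
          vecMulVec_mul, hPe, hw']
        ext p q
        simp [vecMulVec_apply]
      have h0 : w' 0 = 0 := by
        have : w' ⬝ᵥ Pi.single 0 1 = 0 := by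
          rw [hw', smul_dotProduct, ← dotProduct_mulVec]
          have e : (P : Matrix (Fin 3) (Fin 3) F) *ᵥ Pi.single 0 1 = c⁻¹ • a := by
            rw [← hPa, mulVec_smul, smul_smul, inv_mul_cancel₀ hc0, one_smul]
          rw [e, dotProduct_smul, hw, smul_zero, smul_zero]
        simpa using this
      refine ⟨w' 1, w' 2, Subtype.ext ?_⟩
      rw [hform]
      ext p q
      fin_cases p <;> fin_cases q <;> simp [e0, vecMulVec_apply, h0]
    · show π P * π (P⁻¹ * t * P) * (π P)⁻¹ = π t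
      rw [map_mul, map_mul, map_inv]; group
  · rw [hK]
    refine le_trans (Nat.card_le_card_of_surjective
      (fun ab : F × F => (⟨MulAut.conj (π P) (π (e0 ab.1 ab.2)), ⟨_, ⟨_, ⟨ab.1, ab.2, rfl⟩, rfl⟩, rfl⟩⟩ :
        ↥((E0.map π).map (MulAut.conj (π P)).toMonoidHom))) ?_) ?_
    · rintro ⟨_, _, ⟨_, ⟨a', b', rfl⟩, rfl⟩, rfl⟩
      exact ⟨(a', b'), rfl⟩
    · rw [Nat.card_prod, Nat.card_eq_fintype_card, hF]

/-- Transpose inverse on `SL₃`. -/
def tinv : SL3 ≃* SL3 where
  toFun g := ⟨(Matrix.adjugate (g : Matrix (Fin 3) (Fin 3) F))ᵀ, by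
    rw [Matrix.det_transpose, Matrix.det_adjugate, g.2, one_pow]⟩
  invFun g := ⟨(Matrix.adjugate (g : Matrix (Fin 3) (Fin 3) F))ᵀ, by
    rw [Matrix.det_transpose, Matrix.det_adjugate, g.2, one_pow]⟩
  left_inv g := by
    apply Subtype.ext
    show (Matrix.adjugate (Matrix.adjugate g.1)ᵀ)ᵀ = g.1
    rw [Matrix.adjugate_transpose, Matrix.transpose_transpose,
      Matrix.adjugate_adjugate _ (by simp), g.2, one_pow, one_smul]
  right_inv g := by
    apply Subtype.ext
    show (Matrix.adjugate (Matrix.adjugate g.1)ᵀ)ᵀ = g.1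
    rw [Matrix.adjugate_transpose, Matrix.transpose_transpose,
      Matrix.adjugate_adjugate _ (by simp), g.2, one_pow, one_smul]
  map_mul' g h := by
    apply Subtype.ext
    show (Matrix.adjugate (g.1 * h.1))ᵀ = (Matrix.adjugate g.1)ᵀ * (Matrix.adjugate h.1)ᵀ
    rw [Matrix.adjugate_mul_distrib, Matrix.transpose_mul]

/-- The classification. -/
theorem good_of_card (hF : Fintype.card F = 4) (K : Subgroup PSL34) (hKe : Cfsg.IsElementaryAbelian 2 K)
    (hK : Nat.card K = 16) : Good F K := by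
  classical
  have h2 := charTwo hF
  have hsq : ∀ x ∈ K, x ≠ 1 → ∃ (t : SL3) (a w : Fin 3 → F), π t = x ∧ a ≠ 0 ∧ w ≠ 0 ∧ w ⬝ᵥ a = 0 ∧
      (t : Matrix (Fin 3) (Fin 3) F) = 1 + vecMulVec a w := by
    intro x hx h1
    obtain ⟨t, ht, e⟩ := Forms.exists_transvection_of_orderOf_two hF x (orderOf_eq_prime (hKe.2 x hx) h1)
    obtain ⟨a, w, ha, hw, hwa, he⟩ := Forms.exists_vecMulVec_of_isTransvection ht
    exact ⟨t, a, w, e, ha, hw, hwa, he⟩
  choose! T A W hT hA hW hWA hform using hsq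
  have htr : ∀ x ∈ K, x ≠ 1 → Matrix.trace (T x : Matrix (Fin 3) (Fin 3) F) = 1 := by
    intro x hx h1
    rw [hform x hx h1, Matrix.trace_add, Matrix.trace_one, Matrix.trace_vecMulVec, dotProduct_comm,
      hWA x hx h1, add_zero, Fintype.card_fin]
    push_cast
    linear_combination h2
  have hpair : ∀ x ∈ K, x ≠ 1 → ∀ y ∈ K, y ≠ 1 →
      (∃ r : F, A y = r • A x) ∨ ∃ r : F, W y = r • W x := by
    intro x hx hx1 y hy hy1
    by_cases hxy : x = y
    · exact Or.inl ⟨1, by rw [hxy, one_smul]⟩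
    have hcomm : T x * T y = T y * T x := by
      have e : π (T x * T y * (T x)⁻¹) = π (T y) := by
        rw [map_mul, map_mul, map_inv, hT x hx hx1, hT y hy hy1,
          show x * y = y * x from congrArg Subtype.val (hKe.1.is_comm.comm ⟨x, hx⟩ ⟨y, hy⟩),
          mul_inv_cancel_right]
      obtain ⟨c, -, hc⟩ := exists_smul_of_mk_eq e
      exact mul_inv_eq_iff_eq_mul.1 (eq_of_smul_trace hF (by rw [trace_conj, htr y hy hy1]) (htr y hy hy1) hc)
    have hprod1 : x * y ≠ 1 := fun h => hxy (by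
      have e : x * x = 1 := by rw [← pow_two]; exact hKe.2 x hx
      exact mul_left_cancel (a := x) (by rw [h, e]))
    have hxyK := K.mul_mem hx hy
    obtain ⟨c, hc3, hc⟩ := exists_smul_of_mk_eq (g := T x * T y) (g' := T (x * y))
      (by rw [map_mul, hT x hx hx1, hT y hy hy1, hT _ hxyK hprod1])
    have sq : ∀ a w : Fin 3 → F, w ⬝ᵥ a = 0 → (1 + vecMulVec a w) * (1 + vecMulVec a w) = 1 := by
      intro a w h
      ext p q
      simp only [Matrix.mul_add, Matrix.add_mul, mul_one, one_mul, Matrix.add_apply,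
        vecMulVec_mul_vecMulVec, vecMulVec_apply, Pi.smul_apply, h, zero_smul, smul_eq_mul, Pi.zero_apply]
      linear_combination a p * w q * h2
    have sqT : ∀ z ∈ K, z ≠ 1 → T z * T z = 1 := fun z hz hz1 => Subtype.ext (by
      rw [Matrix.SpecialLinearGroup.coe_mul, hform z hz hz1]; exact sq _ _ (hWA z hz hz1))
    have hc1 : c = 1 := by
      have e : (T x * T y) * (T x * T y) = 1 := by
        rw [mul_assoc, ← mul_assoc (T y), ← hcomm, mul_assoc (T x) (T y) (T y), sqT y hy hy1, mul_one,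
          sqT x hx hx1]
      have e2 := congrArg (fun g : SL3 => (g : Matrix (Fin 3) (Fin 3) F)) e
      simp only [Matrix.SpecialLinearGroup.coe_mul, Matrix.SpecialLinearGroup.coe_one] at e2
      have e3 := congrArg (fun g : SL3 => (g : Matrix (Fin 3) (Fin 3) F)) (sqT _ hxyK hprod1)
      simp only [Matrix.SpecialLinearGroup.coe_mul, Matrix.SpecialLinearGroup.coe_one] at e3
      rw [← Matrix.SpecialLinearGroup.coe_mul, hc, Matrix.smul_mul, Matrix.mul_smul, smul_smul, e3] at e2
      have e4 := congrFun (congrFun e2 0) 0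
      simp at e4
      linear_combination hc3 - c * e4
    rw [hc1, one_smul] at hc
    rw [Matrix.SpecialLinearGroup.coe_mul, hform x hx hx1, hform y hy hy1, hform _ hxyK hprod1] at hc
    have hcomm' := congrArg (fun g : SL3 => (g : Matrix (Fin 3) (Fin 3) F)) hcomm
    simp only [Matrix.SpecialLinearGroup.coe_mul, hform x hx hx1, hform y hy hy1] at hcomm'
    exact parallel_of_product (hA x hx hx1) (hW y hy hy1) (hA y hy hy1) (hW x hx hx1) hcomm' hc
  obtain ⟨x₀, hx₀, hx₀1⟩ : ∃ x ∈ K, x ≠ 1 := by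
    by_contra h
    push Not at h
    rw [(Subgroup.eq_bot_iff_forall K).2 h, Subgroup.card_bot] at hK
    omega
  have htrans : ∀ u v z : Fin 3 → F, v ≠ 0 → (∃ r : F, v = r • u) → (∃ r : F, z = r • v) →
      ∃ r : F, z = r • u := by
    rintro u v z - ⟨r, rfl⟩ ⟨s, rfl⟩
    exact ⟨s * r, by rw [smul_smul]⟩
  have hsymm : ∀ u v : Fin 3 → F, v ≠ 0 → (∃ r : F, v = r • u) → ∃ r : F, u = r • v := by
    rintro u v hv ⟨r, rfl⟩
    exact ⟨r⁻¹, by rw [smul_smul, inv_mul_cancel₀ (fun h => hv (by rw [h, zero_smul])), one_smul]⟩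
  have hcommon : (∀ x ∈ K, x ≠ 1 → ∃ r : F, A x = r • A x₀) ∨ (∀ x ∈ K, x ≠ 1 → ∃ r : F, W x = r • W x₀) := by
    by_contra h
    push Not at h
    obtain ⟨⟨y, hy, hy1, hya⟩, z, hz, hz1, hzw⟩ := h
    have hyw := (hpair x₀ hx₀ hx₀1 y hy hy1).resolve_left fun ⟨r, hr⟩ => hya r hr
    have hza := (hpair x₀ hx₀ hx₀1 z hz hz1).resolve_right fun ⟨r, hr⟩ => hzw r hr
    rcases hpair z hz hz1 y hy hy1 with h | h
    · obtain ⟨r, hr⟩ := htrans _ _ _ (hA z hz hz1) hza h
      exact hya r hr
    · obtain ⟨r, hr⟩ := htrans _ _ _ (hW y hy hy1) hyw (hsymm _ _ (hW y hy hy1) h)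
      exact hzw r hr
  rcases hcommon with hc | hc
  · obtain ⟨α, rfl⟩ := exists_conj_of_common hF K hK (A x₀) (hA x₀ hx₀ hx₀1) (by
      intro x hx
      by_cases h1 : x = 1
      · exact ⟨1, 0, by rw [map_one, h1], zero_dotProduct _, by simp⟩
      obtain ⟨r, hr⟩ := hc x hx h1
      refine ⟨T x, r • W x, hT x hx h1, ?_, by rw [hform x hx h1, vecMulVec_eq_smul hr]⟩
      have := hWA x hx h1
      rw [hr, dotProduct_smul] at this
      rw [smul_dotProduct]
      exact this)
    exact (good_E0 hF).map α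
  · set τ : PSL34 ≃* PSL34 := QuotientGroup.congr _ _ (tinv (F := F))
      (Subgroup.characteristic_iff_map_eq.1 inferInstance _)
    obtain ⟨α, hα⟩ := exists_conj_of_common hF (K.map τ.toMonoidHom)
      (by rw [Subgroup.card_map_of_injective (f := τ.toMonoidHom) τ.injective, hK]) (W x₀) (hW x₀ hx₀ hx₀1) (by
      rintro _ ⟨x, hx, rfl⟩
      by_cases h1 : x = 1
      · exact ⟨1, 0, by rw [map_one, h1, map_one], zero_dotProduct _, by simp⟩
      obtain ⟨r, hr⟩ := hc x hx h1
      refine ⟨tinv (T x), r • A x, ?_, ?_, ?_⟩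
      · show π (tinv (T x)) = τ x
        conv_rhs => rw [← hT x hx h1]
        rfl
      · have := hWA x hx h1
        rw [hr, smul_dotProduct, dotProduct_comm] at this
        rw [smul_dotProduct]
        exact this
      · have hinv : (T x)⁻¹ = T x := inv_eq_of_mul_eq_one_right (Subtype.ext (by
          rw [Matrix.SpecialLinearGroup.coe_mul, hform x hx h1]
          ext p q
          simp only [Matrix.mul_add, Matrix.add_mul, mul_one, one_mul, Matrix.add_apply,
            vecMulVec_mul_vecMulVec, vecMulVec_apply, Pi.smul_apply, hWA x hx h1, zero_smul,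
            Matrix.SpecialLinearGroup.coe_one, smul_eq_mul, Pi.zero_apply]
          linear_combination A x p * W x q * h2))
        show (Matrix.adjugate (T x).1)ᵀ = _
        rw [← Matrix.SpecialLinearGroup.coe_inv]
        rw [hinv, hform x hx h1, Matrix.transpose_add, Matrix.transpose_one, Matrix.transpose_vecMulVec,
          vecMulVec_eq_smul hr])
    have h := ((good_E0 hF).map α)
    rw [← hα] at h
    have h' := h.map τ.symm
    rwa [Subgroup.map_map, show τ.symm.toMonoidHom.comp τ.toMonoidHom = MonoidHom.id _ from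
      MonoidHom.ext fun x => τ.symm_apply_apply x, Subgroup.map_id] at h'

end Cfsg.Agent.Components.LThreeFour
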