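import Cfsg.Agent.M24Orbits.Perms2
import Cfsg.Agent.Components.MFourSylData

/-! Kernel checks for the central quotient of a Sylow 2-subgroup of `M24`. -/

set_option autoImplicit false
set_option maxRecDepth 20000

namespace Cfsg.Agent.Components.MFourSyl

open Cfsg.Agent.Golay Cfsg.Agent.M24Orbits

/-- The listed elements. -/
def elts : List ℕ := collectP gens tree idCode [idCode]

/-- The listed elements of the subgroup of index 8. -/
def aelts : List ℕ := collectP agens atree idCode [idCode]

/-- Commuting modulo the central involution. -/
def cmB (x g : ℕ) : Bool := sqB x g g x || sqB x g (comp g x) zc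

/-- Elements of the index 2 subgroup given by the pattern `f` on the generators. -/
def maxGens (f : ℕ) : List ℕ :=
  ((List.range 4).filter fun i => !f.testBit i).map (fun i => gens.getD i idCode) ++
    ((List.range 4).filter fun i => f.testBit i).flatMap fun i =>
      ((List.range 4).filter fun j => f.testBit j).map fun j => comp (gens.getD i idCode) (gens.getD j idCode)

theorem group_ok : groupOK gens tree 1024 = true := by decide +kernel

theorem agroup_ok : groupOK agens atree 128 = true := by decide +kernel

theorem basic_ok : elts.length = 1024 ∧ aelts.length = 128 ∧ aelts.all (elts.contains ·) = true ∧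
    elts.contains zc = true ∧ aelts.contains zc = true ∧ (zc != idCode) = true ∧
    gens.all (fun g => elts.contains (comp idCode g)) = true ∧ gens.length = 4 ∧
    reps.all (elts.contains ·) = true ∧ reps.length = 7 := by decide +kernel

theorem center_ok : (elts.all fun x => !(gens.all fun g => sqB x g g x) || x == idCode || x == zc) = true ∧
    (gens.all fun g => sqB zc g g zc) = true := by decide +kernel

theorem max_ok : ((List.range 15).all fun f =>
    decide ((elts.filter fun x => (maxGens (f + 1)).all (cmB x)).length ≤ 16)) = true := by decide +kernel

theorem elem_ok : (aelts.all fun x => comp x x == idCode || comp x x == zc) = true := by decide +kernel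

theorem coset_ok : (insertAll (aelts ++ reps.flatMap fun r => aelts.map (comp r)) .leaf).isSome = true := by
  decide +kernel

theorem rep_ok : ((List.range 7).all fun i =>
    decide ((aelts.filter fun a => cmB (reps.getD i idCode) a).length ≤ 32) &&
      (List.range 7).all fun j => i == j || decide ((aelts.filter fun a =>
        cmB (reps.getD i idCode) a && cmB (reps.getD j idCode) a).length ≤ 16)) = true := by
  decide +kernel

theorem all_rep_ok : (aelts.filter fun a => reps.all fun r => cmB r a).length ≤ 8 := by decide +kernel

end Cfsg.Agent.Components.MFourSyl
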