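import Cfsg.Agent.Components.MFourSylChecks
import Cfsg.Agent.Components.EightBasics
import Cfsg.Prelude.Def_Transfer
import Cfsg.Agent.FGS3.PGroupFrattini
import Cfsg.Agent.Golay.M24Order

/-! The central quotient of a Sylow 2-subgroup of `M24`. -/

set_option autoImplicit false
set_option maxRecDepth 4000

open Subgroup

namespace Cfsg.Agent.Components.MFourSyl

open Cfsg.Agent.Golay Cfsg.Agent.M24Orbits

theorem elts_facts {x : ℕ} (hx : x ∈ elts) : permOK x = true ∧ x < 2 ^ 120 := by
  have h := collectP_spec gens ⊤ (fun c hc => ⟨permOK_of_isAut (List.all_eq_true.1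
      (Bool.and_eq_true _ _ ▸ group_ok : (gens.all isAut = true) ∧ _).1 c hc), mem_top _⟩)
    (fun x => x < 2 ^ 120) comp_lt tree idCode [idCode] ⟨idCode_ok, mem_top _, by norm_num [idCode]⟩
    (by intro y hy; rw [List.mem_singleton] at hy; subst hy
        exact ⟨idCode_ok, mem_top _, by norm_num [idCode]⟩) x hx
  exact ⟨h.1, h.2.2⟩

/-- The Sylow subgroup. -/
noncomputable def syl : Subgroup (Equiv.Perm Cfsg.GolayPt) := (groupOK_spec group_ok).choose

theorem syl_le : syl ≤ M24 := (groupOK_spec group_ok).choose_spec.1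

theorem syl_card : Nat.card syl = 1024 := (groupOK_spec group_ok).choose_spec.2.1

theorem syl_cover {σ : Equiv.Perm Cfsg.GolayPt} (h : σ ∈ syl) :
    ∃ x ∈ elts, permOK x = true ∧ permOf x = σ :=
  (groupOK_spec group_ok).choose_spec.2.2 σ h

theorem mem_syl {x : ℕ} (hx : x ∈ elts) : permOf x ∈ syl := by
  classical
  have hsub : (syl : Set (Equiv.Perm Cfsg.GolayPt)) ⊆ ((elts.map permOf).toFinset : Set _) := fun σ hσ => by
    obtain ⟨y, hy, -, rfl⟩ := syl_cover hσ
    simpa using ⟨y, hy, rfl⟩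
  have heq := Set.eq_of_subset_of_ncard_le hsub (by
    rw [Set.ncard_coe_finset, ← Nat.card_coe_set_eq]
    refine (List.toFinset_card_le _).trans ?_
    rw [List.length_map, basic_ok.1]
    exact syl_card.ge) (Set.toFinite _)
  rw [← SetLike.mem_coe, heq]
  simpa using ⟨x, hx, rfl⟩

/-- The element with code `x`. -/
noncomputable def el (x : ℕ) : syl :=
  if h : x ∈ elts then ⟨permOf x, mem_syl h⟩ else 1

theorem el_val {x : ℕ} (hx : x ∈ elts) : (el x : Equiv.Perm Cfsg.GolayPt) = permOf x := by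
  rw [el, dif_pos hx]

theorem exists_code (σ : syl) : ∃ x ∈ elts, el x = σ := by
  obtain ⟨x, hx, -, e⟩ := syl_cover σ.2
  exact ⟨x, hx, Subtype.ext (by rw [el_val hx, e])⟩

theorem el_inj {x y : ℕ} (hx : x ∈ elts) (hy : y ∈ elts) (h : el x = el y) : x = y :=
  code_ext (elts_facts hx).2 (elts_facts hy).2 (elts_facts hx).1 (elts_facts hy).1
    (by rw [← el_val hx, ← el_val hy, h])

theorem zc_mem : zc ∈ elts := by simpa using basic_ok.2.2.2.1

theorem id_mem : idCode ∈ elts := groupOK_spec.collectP_acc gens tree idCode [idCode] idCode (by simp)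

theorem el_id : el idCode = 1 := Subtype.ext (by rw [el_val id_mem, permOf_idCode]; rfl)

/-- The central involution. -/
noncomputable def zE : syl := el zc

theorem zE_ne : zE ≠ 1 := fun h => by
  have := basic_ok.2.2.2.2.2.1
  rw [el_inj zc_mem id_mem (by rw [el_id]; exact h)] at this
  simp at this

theorem gen_mem {g : ℕ} (hg : g ∈ gens) : permOK g = true ∧ permOf g ∈ syl := by
  have hok : permOK g = true := permOK_of_isAut (List.all_eq_true.1
    (Bool.and_eq_true _ _ ▸ group_ok : (gens.all isAut = true) ∧ _).1 g hg)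
  refine ⟨hok, ?_⟩
  have hm : comp idCode g ∈ elts := by
    simpa using List.all_eq_true.1 basic_ok.2.2.2.2.2.2.1 g hg
  have := mem_syl hm
  rwa [(permOf_comp idCode_ok hok).2, permOf_idCode, one_mul] at this

theorem center_iff {σ : syl} : σ ∈ center syl ↔ σ = 1 ∨ σ = zE := by
  constructor
  · intro hσ
    obtain ⟨x, hx, rfl⟩ := exists_code σ
    have h := List.all_eq_true.1 center_ok.1 x hx
    simp only [Bool.or_eq_true, Bool.not_eq_true', beq_iff_eq] at h
    rcases h with (h | rfl) | rfl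
    · exfalso
      obtain ⟨g, hg, hn⟩ := List.all_eq_false.1 h
      refine hn ((sqB_iff (elts_facts hx).1 (gen_mem hg).1 (gen_mem hg).1 (elts_facts hx).1).2 ?_)
      have := congrArg Subtype.val (mem_center_iff.1 hσ ⟨permOf g, (gen_mem hg).2⟩)
      simpa [el_val hx] using this.symm
    · exact Or.inl el_id
    · exact Or.inr rfl
  · rintro (rfl | rfl)
    · exact one_mem _
    refine mem_center_iff.2 fun σ => Subtype.ext ?_
    -- everything commutes with `z` as the generators do
    have hle : syl ≤ centralizer ({permOf zc} : Set (Equiv.Perm Cfsg.GolayPt)) := by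
      intro τ hτ
      obtain ⟨x, hx, -, rfl⟩ := syl_cover hτ
      exact (collectP_spec gens (centralizer ({permOf zc} : Set (Equiv.Perm Cfsg.GolayPt)))
        (fun g hg => ⟨(gen_mem hg).1, mem_centralizer_singleton_iff.2
          (((sqB_iff (elts_facts zc_mem).1 (gen_mem hg).1 (gen_mem hg).1 (elts_facts zc_mem).1).1
            (List.all_eq_true.1 center_ok.2 g hg)).symm)⟩)
        (fun _ => True) (fun _ _ => trivial) tree idCode [idCode]
        ⟨idCode_ok, permOf_idCode ▸ one_mem _, trivial⟩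
        (by intro y hy; rw [List.mem_singleton] at hy; subst hy
            exact ⟨idCode_ok, permOf_idCode ▸ one_mem _, trivial⟩) x hx).2.1
    simpa [zE, el_val zc_mem] using mem_centralizer_singleton_iff.1 (hle σ.2)

theorem aelts_sub {x : ℕ} (hx : x ∈ aelts) : x ∈ elts := by
  simpa using List.all_eq_true.1 basic_ok.2.2.1 x hx

theorem rep_sub {i : ℕ} (hi : i < 7) : reps.getD i idCode ∈ elts := by
  have hl : reps.length = 7 := basic_ok.2.2.2.2.2.2.2.2.2
  rw [List.getD_eq_getElem _ _ (by omega)]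
  simpa using List.all_eq_true.1 basic_ok.2.2.2.2.2.2.2.2.1 _ (List.getElem_mem (l := reps) (by omega))

section Quot

variable {S : Type*} [Group S] [Finite S] (π : syl →* S) (hπ : Function.Surjective π)
  (hker : ∀ σ, π σ = 1 ↔ σ = 1 ∨ σ = zE)

include hπ hker

theorem card_quot : Nat.card S = 512 ∧ ∀ T : Subgroup S, Nat.card (T.comap π) = 2 * Nat.card T := by
  classical
  have hk : Nat.card π.ker = 2 := by
    have : (π.ker : Set syl) = {1, zE} := by
      ext σ; simp [hker]
    rw [show Nat.card π.ker = (π.ker : Set syl).ncard from Nat.card_coe_set_eq _, this,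
      Set.ncard_pair zE_ne.symm]
  have h1 : Nat.card S * 2 = 1024 := by
    rw [← syl_card, ← hk, Subgroup.card_eq_card_quotient_mul_card_subgroup π.ker,
      Nat.card_congr (QuotientGroup.quotientKerEquivOfSurjective π hπ).toEquiv]
  refine ⟨by omega, fun T => ?_⟩
  have h2 := (T.comap π).card_mul_index
  rw [Subgroup.index_comap_of_surjective _ hπ, syl_card] at h2
  have h3 := T.card_mul_index
  have h4 : 0 < T.index := Nat.pos_of_ne_zero T.index_ne_zero_of_finite
  have : Nat.card (T.comap π) * T.index = 2 * Nat.card T * T.index := by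
    rw [h2, mul_assoc, h3]; omega
  exact Nat.eq_of_mul_eq_mul_right h4 this

theorem count_le (T : Subgroup S) (L : List ℕ) (hL : ∀ x ∈ elts, π (el x) ∈ T → x ∈ L) :
    2 * Nat.card T ≤ L.length := by
  classical
  rw [← (card_quot π hπ hker).2 T]
  refine le_trans ?_ (List.toFinset_card_le L)
  refine le_trans ?_ (Finset.card_image_le (f := el))
  rw [show Nat.card (T.comap π) = ((T.comap π : Subgroup syl) : Set syl).ncard from Nat.card_coe_set_eq _,
    ← Set.ncard_coe_finset]
  refine Set.ncard_le_ncard (fun σ hσ => ?_) (Finset.finite_toSet _)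
  obtain ⟨x, hx, rfl⟩ := exists_code σ
  rw [Finset.mem_coe, Finset.mem_image]
  exact ⟨x, List.mem_toFinset.2 (hL x hx hσ), rfl⟩

theorem cmB_of_comm {x g : ℕ} (hx : x ∈ elts) (hg : permOK g = true) (hgs : permOf g ∈ syl)
    (h : π (el x) * π ⟨permOf g, hgs⟩ = π ⟨permOf g, hgs⟩ * π (el x)) : cmB x g = true := by
  have hxok := (elts_facts hx).1
  obtain ⟨hgx, egx⟩ := permOf_comp hg hxok
  rw [← map_mul, ← map_mul] at h
  have h1 : π ((⟨permOf g, hgs⟩ * el x)⁻¹ * (el x * ⟨permOf g, hgs⟩)) = 1 := by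
    rw [map_mul, map_inv, h, inv_mul_cancel]
  simp only [cmB, Bool.or_eq_true]
  rcases (hker _).1 h1 with e | e
  · refine Or.inl ((sqB_iff hxok hg hg hxok).2 ?_)
    have := congrArg Subtype.val (inv_mul_eq_one.1 e)
    simpa [el_val hx] using this.symm
  · refine Or.inr ((sqB_iff hxok hg hgx (elts_facts zc_mem).1).2 ?_)
    have := congrArg Subtype.val (inv_mul_eq_iff_eq_mul.1 e)
    simpa [el_val hx, zE, el_val zc_mem, egx] using this

theorem coatom_center {M : Subgroup S} (hM : IsCoatom M) : Nat.card (center M) ≤ 8 := by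
  classical
  have hS : IsPGroup 2 S := IsPGroup.of_card (n := 9) (by rw [(card_quot π hπ hker).1]; norm_num)
  have hidx : M.index = 2 := FGS3.index_of_coatom hS hM
  let g : ℕ → syl := fun i => if h : i < gens.length then ⟨permOf gens[i], (gen_mem (List.getElem_mem h)).2⟩ else 1
  let b : ℕ → Bool := fun i => decide (π (g i) ∉ M)
  set f := (bif b 0 then 1 else 0) + (bif b 1 then 2 else 0) + (bif b 2 then 4 else 0) + (bif b 3 then 8 else 0)
    with hf
  have hlt : f < 16 := by rw [hf]; cases b 0 <;> cases b 1 <;> cases b 2 <;> cases b 3 <;> simp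
  have hbit : ∀ i < 4, f.testBit i = b i := by
    intro i hi
    rw [hf]
    interval_cases i <;> cases b 0 <;> cases b 1 <;> cases b 2 <;> cases b 3 <;> decide
  have hlen : gens.length = 4 := basic_ok.2.2.2.2.2.2.2.1
  have hf0 : f ≠ 0 := by
    intro h0
    refine hM.1 (eq_top_iff.2 fun s _ => ?_)
    obtain ⟨σ, rfl⟩ := hπ s
    have hle : syl ≤ (M.comap π).map syl.subtype := by
      intro τ hτ
      obtain ⟨x, hx, -, rfl⟩ := syl_cover hτ
      refine (collectP_spec gens _ (fun c hc => ⟨(gen_mem hc).1, ?_⟩) (fun _ => True) (fun _ _ => trivial) tree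
        idCode [idCode] ⟨idCode_ok, permOf_idCode ▸ one_mem _, trivial⟩
        (by intro y hy; rw [List.mem_singleton] at hy; subst hy
            exact ⟨idCode_ok, permOf_idCode ▸ one_mem _, trivial⟩) x hx).2.1
      obtain ⟨i, hi, rfl⟩ := List.getElem_of_mem hc
      refine ⟨g i, ?_, by simp only [g, dif_pos hi]; rfl⟩
      have := hbit i (hlen ▸ hi)
      rw [h0, Nat.zero_testBit] at this
      simpa [b] using this.symm
    obtain ⟨σ', hσ', e⟩ := hle σ.2
    rwa [← Subtype.ext e]
  -- elements of `M`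
  have hg : ∀ c ∈ maxGens f, ∃ hc : permOK c = true ∧ permOf c ∈ syl, π ⟨permOf c, hc.2⟩ ∈ M := by
    intro c hc
    simp only [maxGens, List.mem_append, List.mem_map, List.mem_flatMap, List.mem_filter, List.mem_range,
      Bool.not_eq_true'] at hc
    rcases hc with ⟨i, ⟨hi, hb⟩, rfl⟩ | ⟨i, ⟨hi, hbi⟩, j, ⟨hj, hbj⟩, rfl⟩
    · have hi' : i < gens.length := hlen ▸ hi
      rw [List.getD_eq_getElem _ _ hi']
      refine ⟨gen_mem (List.getElem_mem hi'), ?_⟩
      rw [hbit i hi] at hb
      simpa [b, g, hi'] using hb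
    · have hi' : i < gens.length := hlen ▸ hi
      have hj' : j < gens.length := hlen ▸ hj
      rw [List.getD_eq_getElem _ _ hi', List.getD_eq_getElem _ _ hj']
      have ha := gen_mem (List.getElem_mem hi')
      have hb' := gen_mem (List.getElem_mem hj')
      obtain ⟨h1, h2⟩ := permOf_comp ha.1 hb'.1
      refine ⟨⟨h1, by rw [h2]; exact mul_mem ha.2 hb'.2⟩, ?_⟩
      have e : (⟨permOf (comp gens[i] gens[j]), by rw [h2]; exact mul_mem ha.2 hb'.2⟩ : syl) = g i * g j :=
        Subtype.ext (by simp [g, hi', hj', h2])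
      rw [e, map_mul, Subgroup.mul_mem_iff_of_index_two hidx]
      rw [hbit i hi] at hbi
      rw [hbit j hj] at hbj
      simp only [b, decide_eq_true_eq] at hbi hbj
      tauto
  have key := List.all_eq_true.1 max_ok (f - 1) (List.mem_range.2 (by omega))
  rw [decide_eq_true_eq, show f - 1 + 1 = f by omega] at key
  have h2 := count_le π hπ hker ((center M).map M.subtype) _ (fun x hx hxT => ?_) |>.trans key
  · rw [Subgroup.card_map_of_injective M.subtype_injective] at h2
    omega
  · obtain ⟨m, hm, e⟩ := hxT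
    refine List.mem_filter.2 ⟨hx, List.all_eq_true.2 fun c hc => ?_⟩
    obtain ⟨hc', hcM⟩ := hg c hc
    refine cmB_of_comm π hπ hker hx hc'.1 hc'.2 ?_
    rw [← e]
    exact congrArg Subtype.val (mem_center_iff.1 hm ⟨_, hcM⟩).symm

theorem exists_abelian : ∃ A : Subgroup S, Cfsg.IsElementaryAbelian 2 A ∧ Nat.card A = 64 ∧
    (∀ s, s ∈ A ↔ ∃ x ∈ aelts, π (el x) = s) ∧
    ∀ s, s ∈ A ∨ ∃ i < 7, ∃ a ∈ A, s = π (el (reps.getD i idCode)) * a := by
  classical
  obtain ⟨P, -, hPc, hPcov⟩ := groupOK_spec agroup_ok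
  have hsub : (P : Set (Equiv.Perm Cfsg.GolayPt)) ⊆ ((aelts.map permOf).toFinset : Set _) := fun σ hσ => by
    obtain ⟨y, hy, -, rfl⟩ := hPcov σ hσ
    simpa using ⟨y, hy, rfl⟩
  have heq := Set.eq_of_subset_of_ncard_le hsub (by
    rw [Set.ncard_coe_finset, ← Nat.card_coe_set_eq]
    refine (List.toFinset_card_le _).trans ?_
    rw [List.length_map, basic_ok.2.1]
    exact hPc.ge) (Set.toFinite _)
  have hPmem : ∀ σ, σ ∈ P ↔ ∃ x ∈ aelts, permOf x = σ := fun σ => by
    rw [← SetLike.mem_coe, heq]; simp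
  have hPle : P ≤ syl := fun σ hσ => by
    obtain ⟨x, hx, rfl⟩ := (hPmem σ).1 hσ
    exact mem_syl (aelts_sub hx)
  set A := (P.subgroupOf syl).map π with hA
  have hmem : ∀ s, s ∈ A ↔ ∃ x ∈ aelts, π (el x) = s := fun s => by
    constructor
    · rintro ⟨σ, hσ, rfl⟩
      obtain ⟨x, hx, e⟩ := (hPmem _).1 hσ
      exact ⟨x, hx, by rw [show el x = σ from Subtype.ext ((el_val (aelts_sub hx)).trans e)]⟩
    · rintro ⟨x, hx, rfl⟩
      exact ⟨el x, (hPmem _).2 ⟨x, hx, (el_val (aelts_sub hx)).symm⟩, rfl⟩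
  have hcomap : A.comap π = P.subgroupOf syl := by
    refine le_antisymm (fun σ hσ => ?_) (Subgroup.le_comap_map _ _)
    obtain ⟨τ, hτ, e⟩ := hσ
    have h1 : π (τ⁻¹ * σ) = 1 := by rw [map_mul, map_inv, e, inv_mul_cancel]
    have hz : τ⁻¹ * σ ∈ P.subgroupOf syl := by
      rcases (hker _).1 h1 with e' | e'
      · rw [e']; exact one_mem _
      · rw [e']
        exact (hPmem _).2 ⟨zc, by simpa using basic_ok.2.2.2.2.1, (el_val zc_mem).symm⟩
    simpa using mul_mem hτ hz
  have hcard : Nat.card A = 64 := by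
    have := (card_quot π hπ hker).2 A
    rw [hcomap, Nat.card_congr (Subgroup.subgroupOfEquivOfLe hPle).toEquiv, hPc] at this
    omega
  have hsq : ∀ s ∈ A, s * s = 1 := by
    intro s hs
    obtain ⟨x, hx, rfl⟩ := (hmem s).1 hs
    have hok := (elts_facts (aelts_sub hx)).1
    obtain ⟨hc, ec⟩ := permOf_comp hok hok
    have h := List.all_eq_true.1 elem_ok x hx
    simp only [Bool.or_eq_true, beq_iff_eq] at h
    rw [← map_mul, hker]
    rcases h with e | e
    · exact Or.inl (Subtype.ext (by rw [coe_mul, el_val (aelts_sub hx), ← ec, e, permOf_idCode]; rfl))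
    · exact Or.inr (Subtype.ext (by rw [coe_mul, el_val (aelts_sub hx), ← ec, e, zE, el_val zc_mem]))
  refine ⟨A, ⟨Eight.commutative_of fun a ha c hc => ?_, fun a ha => by rw [pow_two]; exact hsq a ha⟩, hcard, hmem,
    fun s => ?_⟩
  · calc a * c = (a * c)⁻¹ := (inv_eq_of_mul_eq_one_right (hsq _ (mul_mem ha hc))).symm
      _ = c⁻¹ * a⁻¹ := mul_inv_rev a c
      _ = c * a := by rw [inv_eq_of_mul_eq_one_right (hsq a ha), inv_eq_of_mul_eq_one_right (hsq c hc)]
  -- the cosets cover
  set l := aelts ++ reps.flatMap fun r => aelts.map (comp r) with hl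
  obtain ⟨t, ht⟩ := Option.isSome_iff_exists.1 coset_ok
  have hnd : l.Nodup := (insertAll_spec l .leaf t ht).1
  have hok : ∀ c ∈ l, permOK c = true ∧ c < 2 ^ 120 ∧ permOf c ∈ syl := by
    intro c hc
    rw [hl, List.mem_append, List.mem_flatMap] at hc
    rcases hc with hc | ⟨r, hr, hc⟩
    · exact ⟨(elts_facts (aelts_sub hc)).1, (elts_facts (aelts_sub hc)).2, mem_syl (aelts_sub hc)⟩
    obtain ⟨a, ha, rfl⟩ := List.mem_map.1 hc
    have hr' : r ∈ elts := by simpa using List.all_eq_true.1 basic_ok.2.2.2.2.2.2.2.2.1 r hr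
    obtain ⟨h1, h2⟩ := permOf_comp (elts_facts hr').1 (elts_facts (aelts_sub ha)).1
    exact ⟨h1, comp_lt _ _, by rw [h2]; exact mul_mem (mem_syl hr') (mem_syl (aelts_sub ha))⟩
  have hlen : l.length = 1024 := by
    have hfl : (reps.flatMap fun r => aelts.map (comp r)).length = 896 := by
      simp [List.length_flatMap, basic_ok.2.1, basic_ok.2.2.2.2.2.2.2.2.2]
    rw [hl, List.length_append, hfl, basic_ok.2.1]
  have hall : (((l.map permOf).toFinset : Set _)) = (syl : Set (Equiv.Perm Cfsg.GolayPt)) := by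
    refine Set.eq_of_subset_of_ncard_le (fun σ hσ => ?_) ?_ (Set.toFinite _)
    · simp only [Finset.mem_coe, List.mem_toFinset, List.mem_map] at hσ
      obtain ⟨c, hc, rfl⟩ := hσ
      exact (hok c hc).2.2
    · rw [Set.ncard_coe_finset, List.toFinset_card_of_nodup, List.length_map, hlen, ← Nat.card_coe_set_eq]
      · exact syl_card.le
      · exact List.Nodup.map_on (fun x hx y hy e => code_ext (hok x hx).2.1 (hok y hy).2.1 (hok x hx).1 (hok y hy).1 e) hnd
  obtain ⟨σ, rfl⟩ := hπ s
  have hσ : (σ : Equiv.Perm Cfsg.GolayPt) ∈ (((l.map permOf).toFinset : Set _)) := by rw [hall]; exact σ.2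
  simp only [Finset.mem_coe, List.mem_toFinset, List.mem_map] at hσ
  obtain ⟨c, hc, hce⟩ := hσ
  rw [hl, List.mem_append, List.mem_flatMap] at hc
  rcases hc with hc | ⟨r, hr, hc⟩
  · exact Or.inl ((hmem _).2 ⟨c, hc, by rw [show el c = σ from Subtype.ext (by rw [el_val (aelts_sub hc), hce])]⟩)
  obtain ⟨a, ha, rfl⟩ := List.mem_map.1 hc
  obtain ⟨i, hi, rfl⟩ := List.getElem_of_mem hr
  have hr' : reps[i] ∈ elts := by simpa using List.all_eq_true.1 basic_ok.2.2.2.2.2.2.2.2.1 _ hr
  refine Or.inr ⟨i, by have := basic_ok.2.2.2.2.2.2.2.2.2; omega, π (el a), (hmem _).2 ⟨a, ha, rfl⟩, ?_⟩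
  rw [List.getD_eq_getElem _ _ hi, ← map_mul]
  refine congrArg π (Subtype.ext ?_)
  rw [coe_mul, el_val hr', el_val (aelts_sub ha), ← hce,
    (permOf_comp (elts_facts hr').1 (elts_facts (aelts_sub ha)).1).2]

theorem abelian_unique {A B : Subgroup S} (hA : Cfsg.IsElementaryAbelian 2 A) (hAc : Nat.card A = 64)
    (hAm : ∀ s, s ∈ A ↔ ∃ x ∈ aelts, π (el x) = s)
    (hcov : ∀ s, s ∈ A ∨ ∃ i < 7, ∃ a ∈ A, s = π (el (reps.getD i idCode)) * a)
    (hB : ∀ x ∈ B, ∀ y ∈ B, x * y = y * x) (hBc : Nat.card B = 64) : B = A := by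
  classical
  haveI : Fintype S := Fintype.ofFinite S
  by_contra hne
  let met : Finset ℕ := (Finset.range 7).filter fun i => ∃ a ∈ A, π (el (reps.getD i idCode)) * a ∈ B
  let K := A ⊓ B
  have hw : ∀ i ∈ met, ∃ x ∈ B, ∃ a ∈ A, x = π (el (reps.getD i idCode)) * a := fun i hi => by
    obtain ⟨a, ha, h⟩ := (Finset.mem_filter.1 hi).2
    exact ⟨_, h, a, ha, rfl⟩
  choose! w hwB hwA using hw
  -- `B` is covered by few cosets of `K`
  have hsize : Nat.card B ≤ (met.card + 1) * Nat.card K := by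
    let KF : Finset S := Finset.univ.filter fun s => s ∈ K
    have hKF : KF.card = Nat.card K := by
      rw [← Set.ncard_coe_finset, show Nat.card K = (K : Set S).ncard from Nat.card_coe_set_eq _]
      congr 1
      ext s; simp [KF]
    have hsub : (B : Set S) ⊆ ((KF ∪ met.biUnion fun i => KF.image (w i * ·) : Finset S) : Set S) := by
      intro s hs
      simp only [Finset.coe_union, Set.mem_union, Finset.mem_coe, Finset.mem_biUnion, Finset.mem_image, KF,
        Finset.mem_filter, Finset.mem_univ, true_and]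
      rcases hcov s with h | ⟨i, hi, a, ha, rfl⟩
      · exact Or.inl ⟨h, hs⟩
      have him : i ∈ met := Finset.mem_filter.2 ⟨Finset.mem_range.2 hi, a, ha, hs⟩
      refine Or.inr ⟨i, him, (w i)⁻¹ * (π (el (reps.getD i idCode)) * a), ⟨?_, B.mul_mem (B.inv_mem (hwB i him)) hs⟩,
        mul_inv_cancel_left _ _⟩
      obtain ⟨a', ha', e⟩ := hwA i him
      rw [e, mul_inv_rev, mul_assoc, inv_mul_cancel_left]
      exact A.mul_mem (A.inv_mem ha') ha
    have h1 := Set.ncard_le_ncard hsub (Finset.finite_toSet _)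
    rw [Set.ncard_coe_finset, ← Nat.card_coe_set_eq] at h1
    refine h1.trans ((Finset.card_union_le _ _).trans ?_)
    have h2 : (met.biUnion fun i => KF.image (w i * ·)).card ≤ met.card * KF.card :=
      Finset.card_biUnion_le_card_mul _ _ _ fun i _ => Finset.card_image_le
    rw [hKF] at h2 ⊢
    rw [add_mul, one_mul]
    omega
  -- elements of `K` are centralised by the representatives met
  have hK : ∀ i ∈ met, ∀ x ∈ aelts, π (el x) ∈ K → cmB (reps.getD i idCode) x = true := by
    intro i hi x hx hxK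
    have hi7 : i < 7 := Finset.mem_range.1 (Finset.mem_filter.1 hi).1
    obtain ⟨a, ha, e⟩ := hwA i hi
    refine cmB_of_comm π hπ hker (rep_sub hi7) (elts_facts (aelts_sub hx)).1 (mem_syl (aelts_sub hx)) ?_
    rw [show (⟨permOf x, mem_syl (aelts_sub hx)⟩ : syl) = el x from Subtype.ext (el_val (aelts_sub hx)).symm]
    have er : π (el (reps.getD i idCode)) = w i * a⁻¹ := by rw [e, mul_inv_cancel_right]
    have hc1 := Eight.comm_of hA.1 (inv_mem ha) hxK.1
    have hc2 := hB _ (hwB i hi) _ hxK.2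
    rw [er, mul_assoc, hc1, ← mul_assoc, hc2, mul_assoc]
  have hKA : ∀ x ∈ elts, π (el x) ∈ K → x ∈ aelts := by
    intro x hx hxK
    obtain ⟨y, hy, e⟩ := (hAm _).1 hxK.1
    have h1 : π ((el y)⁻¹ * el x) = 1 := by rw [map_mul, map_inv, e, inv_mul_cancel]
    rcases (hker _).1 h1 with e' | e'
    · rw [el_inj hx (aelts_sub hy) (inv_mul_eq_one.1 e').symm]; exact hy
    · obtain ⟨P, -, hPc, hPcov⟩ := groupOK_spec agroup_ok
      have hsub : (P : Set (Equiv.Perm Cfsg.GolayPt)) ⊆ ((aelts.map permOf).toFinset : Set _) := fun σ hσ => by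
        obtain ⟨u, hu, -, rfl⟩ := hPcov σ hσ
        simpa using ⟨u, hu, rfl⟩
      have heq := Set.eq_of_subset_of_ncard_le hsub (by
        rw [Set.ncard_coe_finset, ← Nat.card_coe_set_eq]
        refine (List.toFinset_card_le _).trans ?_
        rw [List.length_map, basic_ok.2.1]
        exact hPc.ge) (Set.toFinite _)
      have hPmem : ∀ σ, σ ∈ P ↔ ∃ u ∈ aelts, permOf u = σ := fun σ => by
        rw [← SetLike.mem_coe, heq]; simp
      obtain ⟨u, hu, eu⟩ := (hPmem _).1 (mul_mem ((hPmem _).2 ⟨y, hy, rfl⟩)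
        ((hPmem _).2 ⟨zc, by simpa using basic_ok.2.2.2.2.1, rfl⟩))
      rw [el_inj hx (aelts_sub hu) (by
        rw [inv_mul_eq_iff_eq_mul.1 e']
        exact Subtype.ext (by rw [coe_mul, el_val (aelts_sub hy), el_val (aelts_sub hu), zE, el_val zc_mem, eu]))]
      exact hu
  have hbound : ∀ p : ℕ → Bool, (∀ x ∈ aelts, π (el x) ∈ K → p x = true) →
      2 * Nat.card K ≤ (aelts.filter p).length := fun p hp =>
    count_le π hπ hker K _ fun x hx hxK => List.mem_filter.2 ⟨hKA x hx hxK, hp x (hKA x hx hxK) hxK⟩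
  have hone : ∀ i < 7, ((aelts.filter fun a => cmB (reps.getD i idCode) a).length ≤ 32) ∧ ∀ j < 7, i ≠ j →
      (aelts.filter fun a => cmB (reps.getD i idCode) a && cmB (reps.getD j idCode) a).length ≤ 16 := by
    intro i hi
    have h := List.all_eq_true.1 rep_ok i (List.mem_range.2 hi)
    simp only [Bool.and_eq_true, decide_eq_true_eq, List.all_eq_true, Bool.or_eq_true, beq_iff_eq] at h
    exact ⟨h.1, fun j hj hij => (h.2 j (List.mem_range.2 hj)).resolve_left hij⟩
  have h7 : met.card ≤ 7 := (Finset.card_filter_le _ _).trans (Finset.card_range 7).le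
  rcases Nat.lt_or_ge met.card 1 with h0 | h1
  · refine hne (Subgroup.eq_of_le_of_card_ge (fun s hs => ?_) (by rw [hAc, hBc]))
    rcases hcov s with h | ⟨i, hi, a, ha, rfl⟩
    · exact h
    · have : i ∈ met := Finset.mem_filter.2 ⟨Finset.mem_range.2 hi, a, ha, hs⟩
      rw [Finset.card_eq_zero.1 (show met.card = 0 by omega)] at this
      simp at this
  obtain ⟨i, hi⟩ := Finset.card_pos.1 h1
  have hi7 : i < 7 := Finset.mem_range.1 (Finset.mem_filter.1 hi).1
  have hb1 : 2 * Nat.card K ≤ (aelts.filter fun a => cmB (reps.getD i idCode) a).length :=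
    hbound _ (hK i hi)
  have := (hone i hi7).1
  rw [hBc] at hsize
  rcases Nat.lt_or_ge met.card 2 with h2 | h2
  · have : (met.card + 1) * Nat.card K ≤ 2 * 16 := Nat.mul_le_mul (by omega) (by omega)
    omega
  obtain ⟨j, hj, hji⟩ := Finset.exists_mem_ne (s := met) (by omega) i
  have hj7 : j < 7 := Finset.mem_range.1 (Finset.mem_filter.1 hj).1
  have hb2 := hbound _ (fun x hx hxK => Bool.and_eq_true_iff.2 ⟨hK i hi x hx hxK, hK j hj x hx hxK⟩)
  have hp := (hone i hi7).2 j hj7 hji.symm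
  rcases Nat.lt_or_ge met.card 7 with h3 | h3
  · have : (met.card + 1) * Nat.card K ≤ 7 * 8 := Nat.mul_le_mul (by omega) (by omega)
    omega
  have hall : met = Finset.range 7 :=
    Finset.eq_of_subset_of_card_le (Finset.filter_subset _ _) (by rw [Finset.card_range]; omega)
  have hb3 := hbound (fun a => reps.all fun r => cmB r a) fun x hx hxK => List.all_eq_true.2 fun r hr => by
    obtain ⟨k, hk, rfl⟩ := List.getElem_of_mem hr
    have := hK k (by rw [hall, Finset.mem_range]; have := basic_ok.2.2.2.2.2.2.2.2.2; omega) x hx hxK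
    rwa [List.getD_eq_getElem _ _ hk] at this
  have := all_rep_ok
  have : (met.card + 1) * Nat.card K ≤ 8 * 4 := Nat.mul_le_mul (by omega) (by omega)
  omega

theorem quot_main : (∀ M : Subgroup S, IsCoatom M → Nat.card (center M) ≤ 8) ∧
    (∃ A : Subgroup S, Cfsg.IsElementaryAbelian 2 A ∧ Nat.card A = 64) ∧
    ∀ A B : Subgroup S, IsMulCommutative A → Nat.card A = 64 → IsMulCommutative B → Nat.card B = 64 → A = B := by
  obtain ⟨A₀, h1, h2, h3, h4⟩ := exists_abelian π hπ hker
  refine ⟨fun M hM => coatom_center π hπ hker hM, ⟨A₀, h1, h2⟩, fun A B hA hAc hB hBc => ?_⟩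
  rw [abelian_unique π hπ hker h1 h2 h3 h4 (fun _ hx _ hy => Eight.comm_of hA hx hy) hAc,
    abelian_unique π hπ hker h1 h2 h3 h4 (fun _ hx _ hy => Eight.comm_of hB hx hy) hBc]

end Quot

theorem sylow_main (P : Sylow 2 ↥Cfsg.M24) :
    (∀ M : Subgroup (↥(P : Subgroup ↥Cfsg.M24) ⧸ center ↥(P : Subgroup ↥Cfsg.M24)), IsCoatom M →
        Nat.card ↥(center ↥M) ≤ 8) ∧
      (∃ A : Subgroup (↥(P : Subgroup ↥Cfsg.M24) ⧸ center ↥(P : Subgroup ↥Cfsg.M24)),
        Cfsg.IsElementaryAbelian 2 A ∧ Nat.card ↥A = 64) ∧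
      ∀ A B : Subgroup (↥(P : Subgroup ↥Cfsg.M24) ⧸ center ↥(P : Subgroup ↥Cfsg.M24)),
        IsMulCommutative ↥A → Nat.card ↥A = 64 → IsMulCommutative ↥B → Nat.card ↥B = 64 → A = B := by
  haveI : Fact (Nat.Prime 2) := ⟨Nat.prime_two⟩
  let Q : Sylow 2 M24 := Sylow.ofCard (syl.subgroupOf M24) (by
    rw [Nat.card_congr (Subgroup.subgroupOfEquivOfLe syl_le).toEquiv, syl_card, M24_card]
    decide +kernel)
  let e : syl ≃* (P : Subgroup ↥Cfsg.M24) :=
    (Subgroup.subgroupOfEquivOfLe syl_le).symm.trans (Sylow.equiv Q P)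
  refine quot_main ((QuotientGroup.mk' _).comp e.toMonoidHom)
    ((QuotientGroup.mk'_surjective _).comp e.surjective) fun σ => ?_
  rw [← center_iff]
  show (QuotientGroup.mk' _) (e σ) = 1 ↔ _
  rw [QuotientGroup.mk'_apply, QuotientGroup.eq_one_iff]
  constructor <;> intro h <;> refine mem_center_iff.2 fun τ => ?_
  · exact e.injective (by rw [map_mul, map_mul]; exact mem_center_iff.1 h (e τ))
  · obtain ⟨τ, rfl⟩ := e.surjective τ
    rw [← map_mul, ← map_mul, mem_center_iff.1 h τ]

end Cfsg.Agent.Components.MFourSyl
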