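import Cfsg.Agent.Dickson.Stability
import Cfsg.Agent.Suzuki.ReeEll
import Cfsg.Prelude.Def_LieTwisted
import Cfsg.Agent.Components.TransvectionDisplacement
import Mathlib.GroupTheory.SemidirectProduct
import Mathlib.Tactic.NoncommRing

/-!
`PSL₂(q)`, `q` odd, and the small Ree groups have no quadratic action in their own
characteristic: in `PSL₂` two quadratic unipotents `u`, `v` with `(u v u)² = 1` have `u v u = 1`.
-/

set_option autoImplicit false

namespace Cfsg.Agent.Components.NoQuadraticPSL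

open scoped IsMulCommutative commutatorElement

section Algebra

variable {R : Type*} [Ring R]

theorem eq_one_of_square_zero (h2 : ∀ r : R, r + r = 0 → r = 0) {X Y : R} (hX : X * X = 0)
    (hY : Y * Y = 0) (hW : ((1 + X) * (1 + Y) * (1 + X)) * ((1 + X) * (1 + Y) * (1 + X)) = 1) :
    (1 + X) * (1 + Y) * (1 + X) = 1 := by
  set Z := X * Y + Y * X with hZ
  have hZX : Z * X = X * Y * X := by rw [hZ, add_mul, mul_assoc Y, hX, mul_zero, add_zero]
  have hXZ : X * Z = X * Y * X := by rw [hZ, mul_add, ← mul_assoc, hX, zero_mul, zero_add, mul_assoc]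
  have hZY : Z * Y = Y * X * Y := by rw [hZ, add_mul, mul_assoc X, hY, mul_zero, zero_add]
  have hYZ : Y * Z = Y * X * Y := by rw [hZ, mul_add, ← mul_assoc Y Y, hY, zero_mul, add_zero, mul_assoc]
  have cX : X * Z = Z * X := hXZ.trans hZX.symm
  have cY : Y * Z = Z * Y := hYZ.trans hZY.symm
  have hWf : (1 + X) * (1 + Y) * (1 + X) = 1 + Z + 2 * X + Y + Z * X := by
    rw [hZX, hZ]
    have : (1 + X) * (1 + Y) * (1 + X) = 1 + (X * Y + Y * X) + 2 * X + Y + X * Y * X + X * X := by
      noncomm_ring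
    rw [this, hX, add_zero]
  -- the square, halved
  have hXX : ∀ r : R, X * (X * r) = 0 := fun r => by rw [← mul_assoc, hX, zero_mul]
  have hYY : ∀ r : R, Y * (Y * r) = 0 := fun r => by rw [← mul_assoc, hY, zero_mul]
  have cX' : ∀ r : R, X * (Z * r) = Z * (X * r) := fun r => by rw [← mul_assoc, cX, mul_assoc]
  have cY' : ∀ r : R, Y * (Z * r) = Z * (Y * r) := fun r => by rw [← mul_assoc, cY, mul_assoc]
  have hE : Z * (2 + Z) + (1 + Z) * (2 + Z) * X + (1 + Z) * Y = 0 := by
    refine h2 _ ?_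
    rw [hWf] at hW
    have hexp : (1 + Z + 2 * X + Y + Z * X) * (1 + Z + 2 * X + Y + Z * X) =
        1 + ((Z * (2 + Z) + (1 + Z) * (2 + Z) * X + (1 + Z) * Y) +
          (Z * (2 + Z) + (1 + Z) * (2 + Z) * X + (1 + Z) * Y)) := by
      have hYX : Y * X = Z - X * Y := by rw [hZ]; abel
      have hM : ((2 + Z) * X + Y) * ((2 + Z) * X + Y) = (2 + Z) * Z := by
        have e : ((2 + Z) * X + Y) * ((2 + Z) * X + Y) =
            4 * (X * X) + 2 * (X * (Z * X)) + 2 * (X * Y) + 2 * (Z * (X * X)) + Z * (X * (Z * X)) +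
              Z * (X * Y) + 2 * (Y * X) + Y * (Z * X) + Y * Y := by noncomm_ring
        rw [e, cX' X, cY' X, hX, hY, hYX]
        noncomm_ring
      have hcM : ((2 + Z) * X + Y) * (1 + Z) = (1 + Z) * ((2 + Z) * X + Y) := by
        have : X * Z = Z * X := cX
        simp only [mul_add, add_mul, mul_one, one_mul, mul_assoc, cX, cY]
        noncomm_ring
      have e : (1 + Z + 2 * X + Y + Z * X) = (1 + Z) + ((2 + Z) * X + Y) := by noncomm_ring
      have hsquare : ∀ a b : R, b * a = a * b → (a + b) * (a + b) = a * a + (a * b + a * b) + b * b :=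
        fun a b hab => by rw [add_mul, mul_add, mul_add, hab]; abel
      rw [e, hsquare _ _ hcM, hM]
      noncomm_ring
    rw [hexp] at hW
    exact add_eq_left.1 hW
  have hA : (1 + Z) * (Z * X) = 0 := by
    have h1 := congrArg (fun r => X * r * X) hE
    simp only [mul_zero, zero_mul] at h1
    have e : X * (Z * (2 + Z) + (1 + Z) * (2 + Z) * X + (1 + Z) * Y) * X =
        2 * (X * (Z * X)) + X * (Z * (Z * X)) + 2 * (X * (X * X)) + 3 * (X * (Z * (X * X))) +
          X * (Z * (Z * (X * X))) + X * (Y * X) + X * (Z * (Y * X)) := by noncomm_ring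
    rw [e] at h1
    simp only [cX', hX, mul_zero, zero_add, add_zero, ← mul_assoc X Y X, ← hZX] at h1
    rw [← h1]
    noncomm_ring
  have hB : Z * Z + Z * Z * Z = 0 := by
    have e1 : Z * Z + Z * Z * Z = (1 + Z) * (Z * (X * Y)) + (1 + Z) * (Z * (Y * X)) := by
      rw [← mul_add, ← mul_add, ← hZ]; noncomm_ring
    have e2 : (1 + Z) * (Z * (Y * X)) = Y * ((1 + Z) * (Z * X)) := by
      simp only [mul_add, add_mul, one_mul, mul_assoc, cY']
    have e3 : (1 + Z) * (Z * (X * Y)) = (1 + Z) * (Z * X) * Y := by noncomm_ring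
    rw [e1, e2, e3, hA, zero_mul, mul_zero, add_zero]
  have hZ2 : Z * Z = 0 := by
    have h1 := congrArg (fun r => Z * Z * r) hE
    simp only [mul_zero] at h1
    have e : Z * Z * (Z * (2 + Z) + (1 + Z) * (2 + Z) * X + (1 + Z) * Y) =
        2 * (Z * Z * Z) + Z * (Z * Z * Z) + (Z * Z + Z * Z * Z) * (2 + Z) * X +
          (Z * Z + Z * Z * Z) * Y := by noncomm_ring
    rw [e, hB, zero_mul, zero_mul, zero_mul, add_zero, add_zero] at h1
    have h3 : Z * Z * Z = -(Z * Z) := eq_neg_of_add_eq_zero_right hB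
    rw [h3, mul_neg, mul_neg] at h1
    rw [← mul_assoc Z Z Z, h3] at h1
    have : -(Z * Z) = 0 := by rw [← h1]; noncomm_ring
    exact neg_eq_zero.1 this
  have hZX0 : Z * X = 0 := by
    have e : (1 + Z) * (Z * X) = Z * X + Z * Z * X := by noncomm_ring
    rwa [e, hZ2, zero_mul, add_zero] at hA
  have hE1 : 2 * Z + 2 * X + Y + Z * Y = 0 := by
    have e : Z * (2 + Z) + (1 + Z) * (2 + Z) * X + (1 + Z) * Y =
        2 * Z + Z * Z + 2 * X + 3 * (Z * X) + Z * Z * X + Y + Z * Y := by noncomm_ring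
    rw [e, hZ2, hZX0] at hE
    rw [← hE]; noncomm_ring
  have hZY0 : Z * Y = 0 := by
    have h1 := congrArg (fun r => Z * r) hE1
    simp only [mul_zero] at h1
    have e : Z * (2 * Z + 2 * X + Y + Z * Y) = 2 * (Z * Z) + 2 * (Z * X) + Z * Y + Z * Z * Y := by
      noncomm_ring
    rw [e, hZ2, hZX0] at h1
    simpa using h1
  rw [hZY0, add_zero] at hE1
  have hYeq : Y = -(2 * Z) - 2 * X := by
    rw [← sub_eq_zero, ← hE1]; abel
  have hXY : X * Y = 0 := by
    rw [hYeq, show X * (-(2 * Z) - 2 * X) = -(2 * (X * Z)) - 2 * (X * X) by noncomm_ring, cX, hZX0, hX]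
    simp
  have hYX : Y * X = 0 := by
    rw [hYeq, show (-(2 * Z) - 2 * X) * X = -(2 * (Z * X)) - 2 * (X * X) by noncomm_ring, hZX0, hX]
    simp
  have hZ0 : Z = 0 := by rw [hZ, hXY, hYX, add_zero]
  rw [hWf, hZX0, add_zero, hYeq, hZ0]
  noncomm_ring

theorem pow_one_add {X : R} (hX : X * X = 0) : ∀ k : ℕ, (1 + X) ^ k = 1 + k • X
  | 0 => by simp
  | k + 1 => by
    rw [pow_succ, pow_one_add hX k, add_mul, one_mul, mul_add, mul_one, smul_mul_assoc, hX,
      smul_zero, add_zero, add_smul, one_smul]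
    abel

end Algebra

open Cfsg.Agent.Dickson

variable {G : Type*} [Group G] [Finite G] {p : ℕ} [hp : Fact p.Prime] {V H : Subgroup G}

theorem conjAdd_eq_one_iff [IsMulCommutative V] (hHV : H ≤ Subgroup.normalizer (V : Set G)) (h : H) :
    conjAdd hHV h = 1 ↔ (h : G) ∈ Subgroup.centralizer (V : Set G) := by
  rw [Subgroup.mem_centralizer_iff]
  constructor
  · intro e v hv
    have e' : (h : G) * v * (h : G)⁻¹ = v := congrArg
      (fun L : AddMonoid.End (Additive V) => ((Additive.toMul (L (Additive.ofMul ⟨v, hv⟩)) : V) : G)) e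
    calc v * (h : G) = (h : G) * v * (h : G)⁻¹ * (h : G) := by rw [e']
      _ = (h : G) * v := by group
  · intro e
    refine AddMonoidHom.ext fun v => Additive.toMul.injective (Subtype.ext ?_)
    show (h : G) * (Additive.toMul v : V) * (h : G)⁻¹ = (Additive.toMul v : V)
    rw [← e _ (Additive.toMul v : V).2]; group

theorem quadratic_square [IsMulCommutative V] (hHV : H ≤ Subgroup.normalizer (V : Set G)) {A : Subgroup G}
    (hquad : ⁅⁅V, A⁆, A⁆ = ⊥) {x : H} (hx : (x : G) ∈ A) :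
    (conjAdd hHV x - 1) * (conjAdd hHV x - 1) = 0 := by
  refine AddMonoidHom.ext fun v => ?_
  show (conjAdd hHV x) ((conjAdd hHV x) v - v) - ((conjAdd hHV x) v - v) = 0
  rw [sub_eq_zero]
  apply Additive.toMul.injective
  apply Subtype.ext
  have hc1 : ⁅((Additive.toMul v : V) : G), (x : G)⁆ ∈ ⁅V, A⁆ :=
    Subgroup.commutator_mem_commutator (Additive.toMul v : V).2 hx
  have hc2 : ⁅⁅((Additive.toMul v : V) : G), (x : G)⁆⁻¹, (x : G)⁆ = 1 :=
    Subgroup.mem_bot.1 (hquad ▸ Subgroup.commutator_mem_commutator (inv_mem hc1) hx)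
  rw [commutatorElement_inv, commutatorElement_eq_one_iff_mul_comm] at hc2
  show (x : G) * ((x : G) * (Additive.toMul v : V) * (x : G)⁻¹ / ((Additive.toMul v : V) : G)) * (x : G)⁻¹ =
    (x : G) * (Additive.toMul v : V) * (x : G)⁻¹ / ((Additive.toMul v : V) : G)
  rw [commutatorElement_def] at hc2
  rw [div_eq_mul_inv, ← hc2, mul_inv_cancel_right]

theorem psl_case (hp2 : p ≠ 2) (hV : Cfsg.IsElementaryAbelian p V)
    (hHV : H ≤ Subgroup.normalizer (V : Set G))
    [hn : ((Subgroup.centralizer (V : Set G)).subgroupOf H).Normal]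
    {F : Type*} [Field F] [Fintype F] {n : ℕ} (hF : Fintype.card F = p ^ n)
    (e : ↥H ⧸ (Subgroup.centralizer (V : Set G)).subgroupOf H ≃*
      Matrix.ProjectiveSpecialLinearGroup (Fin 2) F)
    {A : Subgroup G} (hquad : ⁅⁅V, A⁆, A⁆ = ⊥) {x : H} (hxA : (x : G) ∈ A) :
    (x : G) ∈ Subgroup.centralizer (V : Set G) := by
  classical
  haveI := hV.1
  set L := conjAdd hHV with hL
  by_contra hx
  have hexp : ∀ v : Additive V, p • v = 0 := fun v => by
    apply Additive.toMul.injective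
    apply Subtype.ext
    simpa using hV.2 _ (Additive.toMul v).2
  have hX := quadratic_square hHV hquad hxA
  rw [← hL] at hX
  set X := L x - 1 with hXdef
  have hLx : L x = 1 + X := by rw [hXdef]; abel
  set π : ↥H →* Matrix.ProjectiveSpecialLinearGroup (Fin 2) F :=
    e.toMonoidHom.comp (QuotientGroup.mk' _) with hπ
  have hker : ∀ h : H, π h = 1 ↔ L h = 1 := by
    intro h
    rw [hL, conjAdd_eq_one_iff, ← Subgroup.mem_subgroupOf, ← QuotientGroup.eq_one_iff]
    exact ⟨fun h' => e.injective (h'.trans (map_one e).symm), fun h' => by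
      show e (QuotientGroup.mk h) = 1
      rw [h', map_one]⟩
  have hxp : π (x ^ p) = 1 := by
    rw [hker, map_pow, hLx, pow_one_add hX, add_eq_left]
    exact AddMonoidHom.ext fun v => hexp (X v)
  haveI hcF : CharP F p := charP_of_card_eq_prime_pow hF
  obtain ⟨g0, hg0⟩ := QuotientGroup.mk_surjective (π x)
  set c := g0 ^ p with hc
  have hcc : c ∈ Subgroup.center (Matrix.SpecialLinearGroup (Fin 2) F) := by
    rw [← QuotientGroup.eq_one_iff, hc, QuotientGroup.mk_pow, hg0, ← map_pow, hxp]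
  obtain ⟨u, hu, huc⟩ := Matrix.SpecialLinearGroup.mem_center_iff.1 hcc
  rw [Fintype.card_fin] at hu
  have hc2 : c * c = 1 := by
    refine Subtype.ext ?_
    rw [Matrix.SpecialLinearGroup.coe_mul, Matrix.SpecialLinearGroup.coe_one, ← huc, ← map_mul,
      ← sq, hu, map_one]
  set g := g0 * c with hg
  have hgp : g ^ p = 1 := by
    rw [hg, (show Commute g0 c from (Commute.refl g0).pow_right _).mul_pow, ← hc, ← pow_succ']
    obtain ⟨k, hk⟩ := hp.out.odd_of_ne_two hp2
    rw [hk, show 2 * k + 1 + 1 = 2 * (k + 1) by ring, pow_mul, sq, hc2, one_pow]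
  have hgmk : (QuotientGroup.mk g : Matrix.ProjectiveSpecialLinearGroup (Fin 2) F) = π x := by
    rw [hg, QuotientGroup.mk_mul, hg0, (QuotientGroup.eq_one_iff c).2 hcc, mul_one]
  have hg1 : g ≠ 1 := fun h => hx ((conjAdd_eq_one_iff hHV x).1 (hL ▸ (hker x).1 (by
    rw [← hgmk, h, QuotientGroup.mk_one])))
  set M : Matrix (Fin 2) (Fin 2) F := ↑g with hM
  have hnil : IsNilpotent (M - 1) := ⟨p, by
    rw [sub_pow_char_of_commute (p := p) (Commute.one_right M), one_pow, hM,
      ← Matrix.SpecialLinearGroup.coe_pow, hgp, Matrix.SpecialLinearGroup.coe_one, sub_self]⟩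
  obtain ⟨h11, hsq⟩ := TransvectionDisplacement.nilpotent_two hnil
  simp only [Matrix.sub_apply, Matrix.one_apply_eq, Matrix.one_apply_ne (show (0 : Fin 2) ≠ 1 by decide),
    Matrix.one_apply_ne (show (1 : Fin 2) ≠ 0 by decide), sub_zero] at h11 hsq
  obtain ⟨P, hP⟩ : ∃ P : Matrix.SpecialLinearGroup (Fin 2) F,
      ((↑(g * (P * g * P⁻¹) * g) : Matrix (Fin 2) (Fin 2) F)).trace = 0 := by
    have h11' : M 1 1 = 2 - M 0 0 := by linear_combination h11
    by_cases hf : M 0 1 = 0
    · have he : M 0 0 = 1 := by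
        rw [hf, zero_mul, add_zero, mul_self_eq_zero, sub_eq_zero] at hsq
        exact hsq
      have h10 : M 1 0 ≠ 0 := by
        intro h
        refine hg1 (Subtype.ext ?_)
        change M = 1
        ext i k
        fin_cases i <;> fin_cases k
        · simpa using he
        · simpa using hf
        · simpa using h
        · simp; linear_combination h11' - he
      obtain ⟨P, hP0⟩ : ∃ P : Matrix.SpecialLinearGroup (Fin 2) F,
          (↑P : Matrix (Fin 2) (Fin 2) F) = !![1, 1 / M 1 0; 0, 1] :=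
        ⟨⟨_, by simp [Matrix.det_fin_two]⟩, rfl⟩
      refine ⟨P, ?_⟩
      simp only [Matrix.SpecialLinearGroup.coe_mul, Matrix.SpecialLinearGroup.coe_inv, hP0,
        Matrix.trace_fin_two, Matrix.mul_apply, Fin.sum_univ_two, Matrix.adjugate_fin_two,
        Matrix.of_apply, Matrix.cons_val', Matrix.cons_val_zero, Matrix.cons_val_one,
        Matrix.cons_val_fin_one, ← hM]
      rw [he, hf, show M 1 1 = 1 by linear_combination h11' - he]
      field_simp
      ring
    · obtain ⟨P, hP0⟩ : ∃ P : Matrix.SpecialLinearGroup (Fin 2) F,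
          (↑P : Matrix (Fin 2) (Fin 2) F) = !![1, 0; 1 / M 0 1, 1] :=
        ⟨⟨_, by simp [Matrix.det_fin_two]⟩, rfl⟩
      refine ⟨P, ?_⟩
      simp only [Matrix.SpecialLinearGroup.coe_mul, Matrix.SpecialLinearGroup.coe_inv, hP0,
        Matrix.trace_fin_two, Matrix.mul_apply, Fin.sum_univ_two, Matrix.adjugate_fin_two,
        Matrix.of_apply, Matrix.cons_val', Matrix.cons_val_zero, Matrix.cons_val_one,
        Matrix.cons_val_fin_one, ← hM]
      have h10' : M 1 0 = -((M 0 0 - 1) * (M 0 0 - 1)) / M 0 1 := by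
        rw [eq_div_iff hf]; linear_combination hsq
      rw [h11', h10']
      field_simp
      ring
  obtain ⟨h, hh⟩ := (e.surjective.comp (QuotientGroup.mk'_surjective _)) (QuotientGroup.mk P)
  have hh' : π h = QuotientGroup.mk P := hh
  set w := g * (P * g * P⁻¹) * g with hw
  have hw' : π (x * (h * x * h⁻¹) * x) = QuotientGroup.mk w := by
    simp only [hw, map_mul, map_inv, hh', QuotientGroup.mk_mul, QuotientGroup.mk_inv, hgmk]
  have hww : (QuotientGroup.mk (w * w) : Matrix.ProjectiveSpecialLinearGroup (Fin 2) F) = 1 := by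
    rw [QuotientGroup.eq_one_iff, Matrix.SpecialLinearGroup.mem_center_iff]
    refine ⟨-1, by simp, ?_⟩
    have hd : (↑w : Matrix (Fin 2) (Fin 2) F).det = 1 := w.2
    rw [Matrix.det_fin_two] at hd
    rw [Matrix.trace_fin_two] at hP
    rw [Matrix.SpecialLinearGroup.coe_mul]
    ext i k
    fin_cases i <;> fin_cases k <;>
      simp [Matrix.scalar, Matrix.mul_apply, Fin.sum_univ_two]
    · linear_combination hd - (↑w : Matrix (Fin 2) (Fin 2) F) 0 0 * hP
    · linear_combination -(↑w : Matrix (Fin 2) (Fin 2) F) 0 1 * hP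
    · linear_combination -(↑w : Matrix (Fin 2) (Fin 2) F) 1 0 * hP
    · linear_combination hd - (↑w : Matrix (Fin 2) (Fin 2) F) 1 1 * hP
  set Y := L h * X * L h⁻¹ with hYdef
  have hY : Y * Y = 0 := by
    rw [hYdef, show L h * X * L h⁻¹ * (L h * X * L h⁻¹) = L h * X * (L h⁻¹ * L h) * X * L h⁻¹ by
      noncomm_ring, ← map_mul, inv_mul_cancel, map_one, mul_one, mul_assoc (L h) X X, hX, mul_zero,
      zero_mul]
  have hLy : L (h * x * h⁻¹) = 1 + Y := by
    rw [map_mul, map_mul, hLx, hYdef, mul_add, add_mul, mul_one, ← map_mul, mul_inv_cancel, map_one]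
  have hW : L (x * (h * x * h⁻¹) * x) = (1 + X) * (1 + Y) * (1 + X) := by
    rw [map_mul, map_mul, hLy, hLx]
  have hone : π (x * (h * x * h⁻¹) * x) = 1 := by
    rw [hker, hW]
    refine eq_one_of_square_zero ?_ hX hY ?_
    · intro r hr
      refine AddMonoidHom.ext fun v => ?_
      have h1 : r v + r v = 0 := congrArg (fun f : AddMonoid.End (Additive V) => f v) hr
      obtain ⟨k, hk⟩ := hp.out.odd_of_ne_two hp2
      have h2 := hexp (r v)
      rw [hk, add_smul, one_smul, mul_comm, mul_smul, two_nsmul, h1, smul_zero, zero_add] at h2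
      exact h2
    · rw [← hW, ← map_mul, ← hker, map_mul, hw', ← QuotientGroup.mk_mul, hww]
  rw [hw', QuotientGroup.eq_one_iff, Matrix.SpecialLinearGroup.mem_center_iff] at hone
  obtain ⟨s, hs, hsw⟩ := hone
  rw [Fintype.card_fin] at hs
  rw [← hsw, Matrix.trace_fin_two] at hP
  simp [Matrix.scalar] at hP
  have h2F : (2 : F) ≠ 0 := by
    intro h
    have h' : ((2 : ℕ) : F) = 0 := by simpa using h
    rw [CharP.cast_eq_zero_iff F p] at h'
    exact hp2 ((Nat.prime_dvd_prime_iff_eq hp.out Nat.prime_two).1 h')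
  have hs0 : s = 0 := (mul_eq_zero.1 (show (2 : F) * s = 0 by rw [two_mul]; exact hP)).resolve_left h2F
  rw [hs0] at hs
  simp at hs

theorem ree_case {K : Type} [Field K] [Fintype K] {m : ℕ} (hm : 1 ≤ m)
    (hK : Fintype.card K = 3 ^ (2 * m + 1)) [Fact (Nat.Prime 3)] (hV : Cfsg.IsElementaryAbelian 3 V)
    (hHV : H ≤ Subgroup.normalizer (V : Set G))
    (hirr : ∀ U : Subgroup G, U ≤ V → H ≤ Subgroup.normalizer (U : Set G) → U = ⊥ ∨ U = V)
    [hn : ((Subgroup.centralizer (V : Set G)).subgroupOf H).Normal]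
    (e : ↥H ⧸ (Subgroup.centralizer (V : Set G)).subgroupOf H ≃* ↥(Cfsg.Lie.twistedG2 K (3 ^ m)))
    {A : Subgroup G} (hquad : ⁅⁅V, A⁆, A⁆ = ⊥) {x : H} (hxA : (x : G) ∈ A) :
    (x : G) ∈ Subgroup.centralizer (V : Set G) := by
  classical
  by_contra hx
  set N := (Subgroup.centralizer (V : Set G)).subgroupOf H with hN
  set f : ↥H →* MulAut V := (Subgroup.normalizerMonoidHom V).comp (Subgroup.inclusion hHV) with hf
  have happ : ∀ (h : H) (v : V), ((f h v : V) : G) = (h : G) * v * (h : G)⁻¹ := fun h v => rfl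
  have hfker : ∀ h : H, f h = 1 ↔ (h : G) ∈ Subgroup.centralizer (V : Set G) := by
    intro h
    rw [Subgroup.mem_centralizer_iff]
    constructor
    · intro e' v hv
      have e2 := congrArg (fun φ : MulAut V => ((φ ⟨v, hv⟩ : V) : G)) e'
      simp only [happ] at e2
      calc v * (h : G) = (h : G) * v * (h : G)⁻¹ * (h : G) := by
            rw [show (h : G) * v * (h : G)⁻¹ = v from e2]
        _ = (h : G) * v := by group
    · intro e'
      refine MulEquiv.ext fun v => Subtype.ext ?_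
      rw [happ, ← e' _ v.2]
      simp
  set ψ : ↥H ⧸ N →* MulAut V :=
    QuotientGroup.lift N f (fun h hh => (hfker h).2 (Subgroup.mem_subgroupOf.1 hh)) with hψ
  have hψmk : ∀ h : H, ψ (QuotientGroup.mk h) = f h := fun h => rfl
  have hψinj : Function.Injective ψ := by
    refine (injective_iff_map_eq_one ψ).2 fun q hq => ?_
    obtain ⟨h, rfl⟩ := QuotientGroup.mk_surjective q
    rw [hψmk] at hq
    exact (QuotientGroup.eq_one_iff h).2 (Subgroup.mem_subgroupOf.2 ((hfker h).1 hq))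
  have hVp : IsPGroup 3 V := fun v => ⟨1, Subtype.ext (by rw [pow_one]; exact hV.2 v.1 v.2)⟩
  -- the largest normal 3-subgroup of the quotient is trivial
  have hcore : Cfsg.pCore 3 (↥H ⧸ N) = ⊥ := by
    set O := Cfsg.pCore 3 (↥H ⧸ N) with hO
    have hOn : O.Normal := Cfsg.pCore_normal 3 _
    have hOp : IsPGroup 3 O := Core.isPGroup_pCore 3 _
    let act : MulAction O V :=
      { smul := fun o v => ψ o.1 v
        one_smul := fun v => by show ψ ((1 : O) : ↥H ⧸ N) v = v; simp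
        mul_smul := fun a b v => by
          show ψ ((a * b : O) : ↥H ⧸ N) v = ψ a.1 (ψ b.1 v)
          rw [Subgroup.coe_mul, map_mul]; rfl }
    have hV1 : V ≠ ⊥ := by
      rintro rfl
      exact hx (Subgroup.mem_centralizer_iff.2 fun v hv => by
        rw [SetLike.mem_coe, Subgroup.mem_bot] at hv
        rw [hv, one_mul, mul_one])
    have h1 : (1 : V) ∈ MulAction.fixedPoints O V := fun o => map_one _
    obtain ⟨k, hk⟩ := IsPGroup.iff_card.1 hVp
    have hk0 : k ≠ 0 := fun h => hV1 (Subgroup.card_eq_one.1 (by rw [hk, h, pow_zero]))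
    obtain ⟨v, hv, hv1⟩ := hOp.exists_fixed_point_of_prime_dvd_card_of_fixed_point V
      (hk ▸ dvd_pow_self 3 hk0) h1
    let U : Subgroup G :=
      { carrier := {g | ∃ hg : g ∈ V, (⟨g, hg⟩ : V) ∈ MulAction.fixedPoints O V}
        one_mem' := ⟨V.one_mem, h1⟩
        mul_mem' := by
          rintro a b ⟨ha, ha'⟩ ⟨hb, hb'⟩
          refine ⟨V.mul_mem ha hb, fun o => ?_⟩
          show ψ o.1 (⟨a, ha⟩ * ⟨b, hb⟩) = ⟨a, ha⟩ * ⟨b, hb⟩
          rw [map_mul]
          exact congrArg₂ (· * ·) (ha' o) (hb' o)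
        inv_mem' := by
          rintro a ⟨ha, ha'⟩
          refine ⟨V.inv_mem ha, fun o => ?_⟩
          show ψ o.1 (⟨a, ha⟩⁻¹) = ⟨a, ha⟩⁻¹
          rw [map_inv]
          exact congrArg Inv.inv (ha' o) }
    have hUV : U ≤ V := fun g hg => hg.1
    have hUH : H ≤ Subgroup.normalizer (U : Set G) := by
      intro g hg
      refine Subgroup.mem_normalizer_fintype ?_
      rintro a ⟨ha, ha'⟩
      refine ⟨(Subgroup.mem_normalizer_iff.1 (hHV hg) a).1 ha, fun o => ?_⟩
      set gg : ↥H ⧸ N := QuotientGroup.mk ⟨g, hg⟩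
      have hgo : gg⁻¹ * o.1 * gg ∈ O := by
        simpa using hOn.conj_mem o.1 o.2 gg⁻¹
      have e2 : o.1 * gg = gg * (gg⁻¹ * o.1 * gg) := by group
      show ψ o.1 (ψ gg ⟨a, ha⟩) = ψ gg ⟨a, ha⟩
      calc ψ o.1 (ψ gg ⟨a, ha⟩) = ψ (o.1 * gg) ⟨a, ha⟩ := by rw [map_mul]; rfl
        _ = ψ gg (ψ (gg⁻¹ * o.1 * gg) ⟨a, ha⟩) := by rw [e2, map_mul]; rfl
        _ = ψ gg ⟨a, ha⟩ := congrArg (ψ gg) (ha' ⟨_, hgo⟩)
    have hU : U = V := (hirr U hUV hUH).resolve_left fun h => hv1 (Subtype.ext (by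
      have : (v : G) ∈ U := ⟨v.2, hv⟩
      rw [h, Subgroup.mem_bot] at this
      exact this.symm))
    rw [Subgroup.eq_bot_iff_forall]
    intro o ho
    refine (injective_iff_map_eq_one ψ).1 hψinj o (MulEquiv.ext fun w => ?_)
    obtain ⟨hw, hw'⟩ := (show (w : G) ∈ U from hU.symm ▸ w.2)
    exact hw' ⟨o, ho⟩
  -- the faithful model
  let G' := V ⋊[ψ] (↥H ⧸ N)
  haveI : Finite G' := Finite.of_equiv _ SemidirectProduct.equivProd.symm
  set V' : Subgroup G' := (SemidirectProduct.inl : V →* G').range with hV'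
  set H' : Subgroup G' := (SemidirectProduct.inr : ↥H ⧸ N →* G').range with hH'
  have hV'e : Cfsg.IsElementaryAbelian 3 V' := by
    refine ⟨⟨⟨?_⟩⟩, ?_⟩
    · rintro ⟨_, a, rfl⟩ ⟨_, b, rfl⟩
      refine Subtype.ext ?_
      show SemidirectProduct.inl a * SemidirectProduct.inl b =
        SemidirectProduct.inl b * SemidirectProduct.inl a
      rw [← map_mul, ← map_mul]
      exact congrArg _ (hV.1.is_comm.comm a b)
    · rintro _ ⟨a, rfl⟩
      rw [← map_pow, show a ^ 3 = 1 from Subtype.ext (hV.2 a.1 a.2), map_one]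
  have hconj : ∀ (q : ↥H ⧸ N) (v : V), (SemidirectProduct.inr q : G') * SemidirectProduct.inl v *
      (SemidirectProduct.inr q)⁻¹ = SemidirectProduct.inl (ψ q v) := fun q v => by
    rw [SemidirectProduct.inl_aut]; simp
  have hH'V' : H' ≤ Subgroup.normalizer (V' : Set G') := by
    rintro _ ⟨q, rfl⟩
    refine Subgroup.mem_normalizer_fintype ?_
    rintro _ ⟨v, rfl⟩
    exact ⟨ψ q v, (hconj q v).symm⟩
  have hfaith : H' ⊓ Subgroup.centralizer (V' : Set G') = ⊥ := by
    rw [Subgroup.eq_bot_iff_forall]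
    rintro _ ⟨⟨q, rfl⟩, hc⟩
    have : ψ q = 1 := by
      refine MulEquiv.ext fun v => SemidirectProduct.inl_injective (φ := ψ) ?_
      rw [← hconj, ← Subgroup.mem_centralizer_iff.1 hc _ ⟨v, rfl⟩, MulAut.one_apply,
        mul_inv_cancel_right]
    rw [(injective_iff_map_eq_one ψ).1 hψinj q this, map_one]
  set a : G' := SemidirectProduct.inr (QuotientGroup.mk x) with ha
  have hpowx : ∀ i : ℤ, a ^ i = SemidirectProduct.inr (QuotientGroup.mk (x ^ i)) := fun i => by
    rw [ha, ← map_zpow, QuotientGroup.mk_zpow]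
  have hq1 : ⁅V', Subgroup.zpowers a⁆ ≤ (⁅V, A⁆.subgroupOf V).map SemidirectProduct.inl := by
    rw [Subgroup.commutator_le]
    rintro _ ⟨v, rfl⟩ b hb
    obtain ⟨i, rfl⟩ := Subgroup.mem_zpowers_iff.1 hb
    refine ⟨v * ψ (QuotientGroup.mk (x ^ i)) v⁻¹, ?_, ?_⟩
    · rw [SetLike.mem_coe, Subgroup.mem_subgroupOf, Subgroup.coe_mul, hψmk, happ, Subgroup.coe_inv,
        ← mul_assoc, ← mul_assoc]
      refine Subgroup.commutator_mem_commutator v.2 ?_
      rw [Subgroup.coe_zpow]; exact A.zpow_mem hxA i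
    · rw [map_mul, ← hconj, hpowx, commutatorElement_def, map_inv, ← mul_assoc, ← mul_assoc]
  have hquad' : ⁅⁅V', Subgroup.zpowers a⁆, Subgroup.zpowers a⁆ = ⊥ := by
    rw [eq_bot_iff, Subgroup.commutator_le]
    intro c hc b hb
    obtain ⟨w, hw, rfl⟩ := hq1 hc
    obtain ⟨i, rfl⟩ := Subgroup.mem_zpowers_iff.1 hb
    rw [Subgroup.mem_bot, commutatorElement_def, hpowx,
      show (SemidirectProduct.inl w : G') * SemidirectProduct.inr (QuotientGroup.mk (x ^ i)) *
        (SemidirectProduct.inl w)⁻¹ * (SemidirectProduct.inr (QuotientGroup.mk (x ^ i)))⁻¹ =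
        SemidirectProduct.inl (w * ψ (QuotientGroup.mk (x ^ i)) w⁻¹) by
          rw [map_mul, ← hconj, map_inv]; group]
    have h0 : ⁅(w : G), ((x ^ i : H) : G)⁆ = 1 := Subgroup.mem_bot.1 (hquad ▸
      Subgroup.commutator_mem_commutator (Subgroup.mem_subgroupOf.1 hw)
        (by rw [Subgroup.coe_zpow]; exact A.zpow_mem hxA i))
    rw [show w * ψ (QuotientGroup.mk (x ^ i)) w⁻¹ = 1 from Subtype.ext (by
      rw [Subgroup.coe_mul, hψmk, happ, Subgroup.coe_inv, Subgroup.coe_one, ← h0,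
        commutatorElement_def]
      group), map_one]
  have haH : a ∈ H' := ⟨_, rfl⟩
  let eq : (↥H ⧸ N) ≃* H' := MonoidHom.ofInjective SemidirectProduct.inr_injective
  have hnot : (⟨a, haH⟩ : H') ∉ Cfsg.pCore 3 H' := by
    intro hmem
    have hle : (Cfsg.pCore 3 H').comap eq.toMonoidHom ≤ Cfsg.pCore 3 (↥H ⧸ N) := by
      refine Core.le_pCore ((Cfsg.pCore_normal 3 _).comap _) ?_
      exact (Core.isPGroup_pCore 3 H').comap_of_injective _ eq.injective
    have hmem' : (QuotientGroup.mk x : ↥H ⧸ N) ∈ (Cfsg.pCore 3 H').comap eq.toMonoidHom := by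
      rw [Subgroup.mem_comap]; exact hmem
    have h1 := hle hmem'
    rw [hcore, Subgroup.mem_bot, QuotientGroup.eq_one_iff] at h1
    exact hx (Subgroup.mem_subgroupOf.1 h1)
  obtain ⟨T⟩ : Nonempty (Sylow 2 H') := inferInstance
  have hsec := Dickson.section_of_faithful (p := 3) (by norm_num) (PLocal.isPGroup_of_EA hV'e) hH'V'
    hfaith (g := ⟨a, haH⟩) hquad' hnot
  refine hsec.sylow_two_nonabelian (by norm_num) T ⟨⟨fun s t => ?_⟩⟩
  have hctx : Cfsg.Agent.Suzuki.Ree.Ctx K m := Cfsg.Agent.Suzuki.Ree.ctx_of hK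
  set ε : H' →* ↥(Cfsg.Lie.twistedG2 K (3 ^ m)) := (eq.symm.trans e).toMonoidHom with hε
  have hεi : Function.Injective ε := (eq.symm.trans e).injective
  have hsq : ∀ u : T, ε u.1 * ε u.1 = 1 := fun u => by
    obtain ⟨k, hk⟩ := T.isPGroup' u
    exact Cfsg.Agent.Suzuki.Ree.two_element_sq hctx hm (k := k)
      (by rw [← map_pow, ← Subgroup.coe_pow, hk, Subgroup.coe_one, map_one])
  refine Subtype.ext (hεi ?_)
  have h1 := hsq s
  have h2 := hsq t
  have h3 := hsq (s * t)
  rw [Subgroup.coe_mul, map_mul] at h3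
  rw [Subgroup.coe_mul, Subgroup.coe_mul, map_mul, map_mul]
  calc ε s.1 * ε t.1 = ε s.1 * ε t.1 * ((ε t.1 * ε t.1)) := by rw [h2, mul_one]
    _ = (ε s.1 * ε t.1) * ε t.1 * ε t.1 := by group
    _ = _ := by
      have e3 : ε s.1 * ε t.1 = (ε t.1)⁻¹ * (ε s.1)⁻¹ := by
        rw [← mul_inv_rev]; exact eq_inv_of_mul_eq_one_left h3
      rw [mul_assoc (ε s.1 * ε t.1), h2, mul_one, e3, inv_eq_of_mul_eq_one_right h1,
        inv_eq_of_mul_eq_one_right h2]

end Cfsg.Agent.Components.NoQuadraticPSL
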