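/-
Components of involution centralizers inside the layer; components and L-balance.
-/
import Cfsg.Agent.Components.LBalance
import Cfsg.Agent.Components.Standard

set_option autoImplicit false
set_option linter.style.haveILetI false
set_option linter.unusedSectionVars false

open Subgroup
open scoped commutatorElement

namespace Cfsg.Agent.Components.Pump

open LocalCore

variable {X : Type*} [Group X] [Finite X]

/-- A component of even order is generated by its 2-elements. -/
theorem pGen_component {L : Subgroup X} (hL : Cfsg.IsComponent L) (h2 : 2 ∣ Nat.card L) :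
    pGen 2 L = L := by
  haveI : Fact (Nat.Prime 2) := ⟨Nat.prime_two⟩
  set N := (pGen 2 L).subgroupOf L with hN
  haveI : N.Normal := (normal_subgroupOf_iff_le_normalizer (pGen_le 2 L)).mpr fun g hg =>
    mem_normalizer_pGen (Subgroup.le_normalizer hg)
  rcases quasisimple_normal_eq_top_or_le_center hL.2 N with h | h
  · exact le_antisymm (pGen_le 2 L) (Subgroup.subgroupOf_eq_top.mp h)
  · exfalso
    obtain ⟨P⟩ := (inferInstance : Nonempty (Sylow 2 ↥L))
    refine not_dvd_of_perfect_central_sylow (quasisimple_commutator_top hL.2) P (fun g hg => h ?_) h2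
    obtain ⟨k, hk⟩ := P.isPGroup' ⟨g, hg⟩
    exact mem_pGen (k := k) g.2 (congrArg (fun w : ↥(P : Subgroup ↥L) => ((w : ↥L) : X)) hk)

/-- A component of even order lies in the 2-layer. -/
theorem component_le_pLayer_two {L : Subgroup X} (hL : Cfsg.IsComponent L) (h2 : 2 ∣ Nat.card L) :
    L ≤ Cfsg.pLayer 2 X := by
  haveI : Fact (Nat.Prime 2) := ⟨Nat.prime_two⟩
  set f := (pBar 2 X).comp L.subtype
  have hgen := pGen_component hL h2
  have hne : L.map (pBar 2 X) ≠ ⊥ := fun h => by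
    have hle : L ≤ Cfsg.pPrimeCore 2 X := fun g hg =>
      pBar_eq_one_iff.mp (mem_bot.mp (h ▸ mem_map_of_mem (pBar 2 X) hg))
    exact Nat.prime_two.one_lt.ne' (Nat.eq_one_of_dvd_coprimes (Core.card_pPrimeCore_coprime 2 X)
      (h2.trans (Subgroup.card_dvd_of_le hle)) dvd_rfl)
  have hC : Cfsg.IsComponent (L.map (pBar 2 X)) := by
    refine ⟨hL.1.map pBar_surjective, ?_⟩
    haveI : Nontrivial ↥(L.map (pBar 2 X)) := (L.map (pBar 2 X)).nontrivial_iff_ne_bot.mpr hne
    exact isQuasisimple_of_surjective (f := ((pBar 2 X).comp L.subtype).codRestrict (L.map (pBar 2 X))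
      fun x => mem_map_of_mem _ x.2) (by rintro ⟨_, x, hx, rfl⟩; exact ⟨⟨x, hx⟩, rfl⟩) hL.2
  refine le_trans ?_ (pComponent_le_pLayer (isPComponent_pComp hC))
  conv_lhs => rw [← hgen]
  exact LBalance.pGen_mono (le_comap_map _ _)

theorem layer_le_sup {D : Subgroup X} (hD : Cfsg.IsComponent D) :
    Cfsg.layer X ≤ D ⊔ centralizer (D : Set X) := layer_le_iff.mpr fun K hK => by
  rcases eq_or_ne K D with rfl | hne
  · exact le_sup_left
  · exact (components_commute_le hK hD hne).trans le_sup_right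

/-- A component `K` of the centralizer of an involution `a` inside `E(X)` is a component `D` of a single
`⟨a⟩`-orbit: inside `D` if `a` fixes `D`, else the set of the products `d (a d a⁻¹)`. -/
theorem exists_component {a : X} (ha : a * a = 1) {K : Subgroup X} (hK : IsCompAt a K)
    (hKE : K ≤ Cfsg.layer X) :
    ∃ D : Subgroup X, Cfsg.IsComponent D ∧ ¬ K ≤ centralizer (D : Set X) ∧
      ((cj a D = D ∧ K ≤ D) ∨
        (cj a D ≠ D ∧ ∀ k : X, k ∈ K ↔ ∃ d ∈ D, k = d * (a * d * a⁻¹))) := by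
  set Cm := centralizer ({a} : Set X) with hCm
  have hperf : ⁅K, K⁆ = K := by
    have h1 := component_commutator_self hK.2
    have h2 := congrArg (Subgroup.map Cm.subtype) h1
    rwa [Subgroup.map_commutator, Subgroup.map_subgroupOf_eq_of_le hK.1] at h2
  have hKne : ⁅K, K⁆ ≠ ⊥ := fun h => by
    apply component_ne_bot hK.2
    rw [Subgroup.eq_bot_iff_forall]
    intro v hv
    exact Subtype.ext (mem_bot.mp (h ▸ hperf.symm ▸ hv : (v : X) ∈ (⊥ : Subgroup X)))
  obtain ⟨D, hD, hKD⟩ : ∃ D : Subgroup X, Cfsg.IsComponent D ∧ ¬ K ≤ centralizer (D : Set X) := by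
    by_contra h
    simp only [not_exists, not_and, not_not] at h
    apply hKne
    rw [commutator_eq_bot_iff_le_centralizer]
    intro k hk
    rw [mem_centralizer_iff]
    have hle : Cfsg.layer X ≤ centralizer ({k} : Set X) := layer_le_iff.mpr fun L hL g hg =>
      mem_centralizer_singleton_iff.mpr (mem_centralizer_iff.mp ((h L hL) hk : k ∈ centralizer (L : Set X)) g hg)
    exact fun g hg => mem_centralizer_singleton_iff.mp (hle (hKE hg))
  refine ⟨D, hD, hKD, ?_⟩
  set D' := cj a D with hD'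
  have hD'c : Cfsg.IsComponent D' := isComponent_conj hD a
  have hainv : a⁻¹ = a := inv_eq_of_mul_eq_one_right ha
  have hswap : cj a D' = D := by rw [hD', cj_mul, ha, cj_one]
  set W := D ⊔ D' with hW
  have hWE : W ≤ Cfsg.layer X := sup_le (component_le_layer hD) (component_le_layer hD'c)
  have hEn : ∀ L : Subgroup X, Cfsg.IsComponent L → Cfsg.layer X ≤ normalizer (L : Set X) := fun L hL =>
    (normal_subgroupOf_iff_le_normalizer (component_le_layer hL)).mp (component_subgroupOf_layer_normal hL)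
  have hWn : (W.subgroupOf (Cfsg.layer X)).Normal := by
    refine (normal_subgroupOf_iff_le_normalizer hWE).mpr fun g hg => ?_
    refine mem_normalizer_fintype fun w hw => ?_
    have hle : W ≤ W.comap (MulAut.conj g).toMonoidHom := sup_le
      (fun v hv => mem_sup_left ((mem_normalizer_iff.mp (hEn D hD hg) v).mp hv))
      (fun v hv => mem_sup_right ((mem_normalizer_iff.mp (hEn D' hD'c hg) v).mp hv))
    exact hle hw
  have hWsn : W.IsSubnormal :=
    Subgroup.IsSubnormal.step _ _ hWE (inferInstance : (Cfsg.layer X).Normal).isSubnormal hWn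
  -- the dichotomy for `W ∩ C(a)`
  have hdich : K ≤ W ∨ ∀ k ∈ K, ∀ w ∈ W, a * w = w * a → k * w = w * k := by
    rcases component_le_or_commutator_subnormal hK.2 (hWsn.comap Cm.subtype) with h | h
    · exact Or.inl fun k hk => h (show (⟨k, hK.1 hk⟩ : ↥Cm) ∈ K.subgroupOf Cm from hk)
    · refine Or.inr fun k hk w hw hwa => ?_
      have h1 := Subgroup.commutator_mem_commutator
        (show (⟨k, hK.1 hk⟩ : ↥Cm) ∈ K.subgroupOf Cm from hk)
        (show (⟨w, mem_centralizer_singleton_iff.mpr hwa.symm⟩ : ↥Cm) ∈ W.comap Cm.subtype from hw)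
      rw [h, mem_bot, commutatorElement_eq_one_iff_mul_comm] at h1
      exact congrArg Subtype.val h1
  have hka : ∀ k ∈ K, a * k * a⁻¹ = k := fun k hk => by
    rw [← mem_centralizer_singleton_iff.mp (hK.1 hk), mul_inv_cancel_right]
  by_cases hfix : D' = D
  · -- `a` fixes `D`
    refine Or.inl ⟨hfix, ?_⟩
    have hWD : W = D := by rw [hW, hfix, sup_idem]
    rcases hdich with h | h
    · exact hWD ▸ h
    exfalso
    apply hKD
    set N := normalizer (D : Set X)
    have hKN : K ≤ N := hKE.trans (hEn D hD)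
    have haN : a ∈ N := cj_eq_iff.mp hfix
    haveI hCn : ((centralizer (D : Set X)).subgroupOf N).Normal :=
      ⟨fun c hc g => (mem_normalizer_iff.mp (mem_normalizer_centralizer g.2) _).mp hc⟩
    set σ := QuotientGroup.mk' ((centralizer (D : Set X)).subgroupOf N) with hσ
    have hσ1 : ∀ v : ↥N, σ v = 1 ↔ (v : X) ∈ centralizer (D : Set X) := fun v => QuotientGroup.eq_one_iff v
    have hDC : D ≤ normalizer (centralizer (D : Set X) : Set X) := fun d hd =>
      mem_normalizer_centralizer (Subgroup.le_normalizer hd)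
    have hdec : ∀ k ∈ K, ∃ d ∈ D, ∃ c ∈ centralizer (D : Set X), k = d * c ∧
        (∀ e ∈ D, (a * d * a⁻¹) * e * (a * d * a⁻¹)⁻¹ = d * e * d⁻¹) := by
      intro k hk
      have h1 : k ∈ ((D ⊔ centralizer (D : Set X) : Subgroup X) : Set X) := layer_le_sup hD (hKE hk)
      rw [Subgroup.coe_mul_of_left_le_normalizer_right D _ hDC] at h1
      obtain ⟨d, hd, c, hc, hkc⟩ := h1
      have hkc' : d * c = k := hkc
      refine ⟨d, hd, c, hc, hkc'.symm, fun e he => ?_⟩
      have hc' : a * c * a⁻¹ ∈ centralizer (D : Set X) :=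
        (mem_normalizer_iff.mp (mem_normalizer_centralizer haN) c).mp hc
      have e1 : a * d * a⁻¹ * (a * c * a⁻¹) = d * c := by
        rw [hkc', show a * d * a⁻¹ * (a * c * a⁻¹) = a * (d * c) * a⁻¹ by group, hkc', hka k hk]
      have he' : ∀ z ∈ centralizer (D : Set X), z * e * z⁻¹ = e := fun z hz => by
        rw [← mem_centralizer_iff.mp hz e he, mul_inv_cancel_right]
      calc a * d * a⁻¹ * e * (a * d * a⁻¹)⁻¹
          = a * d * a⁻¹ * ((a * c * a⁻¹) * e * (a * c * a⁻¹)⁻¹) * (a * d * a⁻¹)⁻¹ := by rw [he' _ hc']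
        _ = (a * d * a⁻¹ * (a * c * a⁻¹)) * e * (a * d * a⁻¹ * (a * c * a⁻¹))⁻¹ := by group
        _ = d * (c * e * c⁻¹) * d⁻¹ := by rw [e1]; group
        _ = d * e * d⁻¹ := by rw [he' _ hc]
    -- `σ(K)` is abelian
    set Kb := (K.subgroupOf N).map σ
    have hKb : ⁅Kb, Kb⁆ = Kb := by
      rw [← Subgroup.map_commutator]
      congr 1
      apply Subgroup.map_injective N.subtype_injective
      rw [Subgroup.map_commutator, Subgroup.map_subgroupOf_eq_of_le hKN, hperf]
    have hcom : Kb ≤ centralizer (Kb : Set _) := by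
      nth_rewrite 1 [← hKb]
      rw [Subgroup.commutator_le]
      rintro _ ⟨⟨k₁, hk₁N⟩, hk₁, rfl⟩ _ ⟨⟨k₂, hk₂N⟩, hk₂, rfl⟩
      obtain ⟨d₁, hd₁, c₁, hc₁, rfl, hact₁⟩ := hdec k₁ hk₁
      obtain ⟨d₂, hd₂, c₂, hc₂, rfl, hact₂⟩ := hdec k₂ hk₂
      -- `u = [d₁, d₂]` is fixed by `a`
      set u := ⁅d₁, d₂⁆ with hu
      have huD : u ∈ D := by
        rw [hu, commutatorElement_def]
        exact mul_mem (mul_mem (mul_mem hd₁ hd₂) (inv_mem hd₁)) (inv_mem hd₂)
      set e₁ := a * d₁ * a⁻¹ with he₁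
      set e₂ := a * d₂ * a⁻¹ with he₂
      have he₁D : e₁ ∈ D := hfix ▸ mem_cj hd₁
      have hua : a * u = u * a := by
        rw [← mul_inv_eq_iff_eq_mul]
        calc a * u * a⁻¹ = ⁅e₁, e₂⁆ := by
              rw [hu, he₁, he₂, commutatorElement_def, commutatorElement_def]; group
          _ = e₁ * ((e₂ * e₁⁻¹ * e₂⁻¹)) := by rw [commutatorElement_def]; group
          _ = e₁ * (d₂ * e₁⁻¹ * d₂⁻¹) := by rw [hact₂ _ (inv_mem he₁D)]
          _ = (e₁ * d₂ * e₁⁻¹) * d₂⁻¹ := by group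
          _ = u := by rw [hact₁ _ hd₂, hu, commutatorElement_def]
      have hd₁N : d₁ ∈ N := Subgroup.le_normalizer hd₁
      have hd₂N : d₂ ∈ N := Subgroup.le_normalizer hd₂
      have hs : ∀ (d c : X) (hd : d ∈ N) (hc : c ∈ centralizer (D : Set X)) (hdc : d * c ∈ N),
          σ ⟨d * c, hdc⟩ = σ ⟨d, hd⟩ := fun d c hd hc hdc => by
        rw [show (⟨d * c, hdc⟩ : ↥N) = ⟨d, hd⟩ * ⟨c, centralizer_le_normalizer _ hc⟩ from rfl, map_mul,
          (hσ1 ⟨c, centralizer_le_normalizer _ hc⟩).mpr hc, mul_one]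
      rw [hs _ _ hd₁N hc₁ _, hs _ _ hd₂N hc₂ _, ← map_commutatorElement, mem_centralizer_iff]
      rintro _ ⟨k, hk, rfl⟩
      rw [← map_mul, ← map_mul]
      refine congrArg σ (Subtype.ext ?_)
      exact h k hk u (hWD.symm ▸ huD) hua
    have hbot : Kb = ⊥ := by
      rw [← hKb, commutator_eq_bot_iff_le_centralizer]
      exact hcom
    intro k hk
    exact (hσ1 ⟨k, hKN hk⟩).mp (mem_bot.mp (hbot ▸ mem_map_of_mem σ (show (⟨k, hKN hk⟩ : ↥N) ∈ K.subgroupOf N from hk)))
  · -- `a` moves `D`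
    refine Or.inr ⟨hfix, ?_⟩
    have hcD : D' ≤ centralizer (D : Set X) := components_commute_le hD'c hD hfix
    have hfixed : ∀ d ∈ D, a * (d * (a * d * a⁻¹)) = d * (a * d * a⁻¹) * a := fun d hd => by
      rw [← mem_centralizer_iff.mp (hcD (mem_cj hd)) d hd |>.symm] at *
      rw [← mul_inv_eq_iff_eq_mul]
      calc a * (a * d * a⁻¹ * d) * a⁻¹ = (a * a) * d * (a * a)⁻¹ * (a * d * a⁻¹) := by group
        _ = d * (a * d * a⁻¹) := by rw [ha]; group
        _ = _ := (mem_centralizer_iff.mp (hcD (mem_cj hd)) d hd)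
    have hmemW : ∀ d ∈ D, d * (a * d * a⁻¹) ∈ W := fun d hd =>
      mul_mem (mem_sup_left hd) (mem_sup_right (mem_cj hd))
    have hKW : K ≤ W := by
      rcases hdich with h | h
      · exact h
      exfalso
      apply hKD
      intro k hk
      refine BenderCore.commute_of_mod_center (component_commutator_self hD) fun d hd => ?_
      have hkN : k ∈ normalizer (D : Set X) := hEn D hD (hKE hk)
      have hkN' : k ∈ normalizer (D' : Set X) := hEn D' hD'c (hKE hk)
      have h1 := h k hk _ (hmemW d hd) (hfixed d hd)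
      set d' := a * d * a⁻¹ with hd'
      have hd'D : d' ∈ D' := mem_cj hd
      have hx : d * k * d⁻¹ * k⁻¹ = (k * d' * k⁻¹) * d'⁻¹ := by
        have h2 : d * d' = k * d * k⁻¹ * (k * d' * k⁻¹) := by
          rw [show k * d * k⁻¹ * (k * d' * k⁻¹) = k * (d * d') * k⁻¹ by group, h1, mul_inv_cancel_right]
        have h3 : k * d * k⁻¹ = d * d' * (k * d' * k⁻¹)⁻¹ := by rw [h2]; group
        have h5 : d' * (k * d' * k⁻¹)⁻¹ ∈ D' :=
          mul_mem hd'D (inv_mem ((mem_normalizer_iff.mp hkN' _).mp hd'D))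
        have h4 := mem_centralizer_iff.mp (hcD h5) d hd
        calc d * k * d⁻¹ * k⁻¹ = d * (k * d * k⁻¹)⁻¹ := by group
          _ = d * (d' * (k * d' * k⁻¹)⁻¹)⁻¹ * d⁻¹ := by rw [h3]; group
          _ = (d' * (k * d' * k⁻¹)⁻¹)⁻¹ := by
              have h6 := mem_centralizer_iff.mp (hcD (inv_mem h5)) d hd
              rw [h6, mul_inv_cancel_right]
          _ = _ := by group
      refine ⟨?_, hcD (hx ▸ mul_mem ((mem_normalizer_iff.mp hkN' _).mp hd'D) (inv_mem hd'D))⟩
      rw [show d * k * d⁻¹ * k⁻¹ = d * (k * d⁻¹ * k⁻¹) by group]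
      exact mul_mem hd ((mem_normalizer_iff.mp hkN _).mp (inv_mem hd))
    have hDn : D ≤ normalizer (D' : Set X) := (component_le_layer hD).trans (hEn D' hD'c)
    let R : Subgroup X :=
      { carrier := {x | ∃ d ∈ D, x = d * (a * d * a⁻¹)}
        one_mem' := ⟨1, one_mem _, by group⟩
        mul_mem' := by
          rintro _ _ ⟨d, hd, rfl⟩ ⟨e, he, rfl⟩
          refine ⟨d * e, mul_mem hd he, ?_⟩
          have := mem_centralizer_iff.mp (hcD (mem_cj hd)) e he
          calc d * (a * d * a⁻¹) * (e * (a * e * a⁻¹))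
              = d * ((a * d * a⁻¹) * e) * (a * e * a⁻¹) := by group
            _ = d * e * (a * (d * e) * a⁻¹) := by rw [← this]; group
        inv_mem' := by
          rintro _ ⟨d, hd, rfl⟩
          refine ⟨d⁻¹, inv_mem hd, ?_⟩
          have := mem_centralizer_iff.mp (hcD (mem_cj (inv_mem hd))) d⁻¹ (inv_mem hd)
          rw [this]; group }
    have hRC : R ≤ Cm := by
      rintro _ ⟨d, hd, rfl⟩
      exact mem_centralizer_singleton_iff.mpr (hfixed d hd).symm
    -- `K ≤ R`
    have hKR : K ≤ R := by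
      set Z := D ⊓ D'
      have hZc : Z ≤ centralizer (W : Set X) := by
        intro z hz
        rw [mem_centralizer_iff]
        have hle : W ≤ centralizer ({z} : Set X) := sup_le
          (fun d hd => mem_centralizer_singleton_iff.mpr (mem_centralizer_iff.mp (hcD hz.2) d hd))
          (fun d hd => mem_centralizer_singleton_iff.mpr (mem_centralizer_iff.mp (hcD hd) z hz.1).symm)
        exact fun w hw => mem_centralizer_singleton_iff.mp (hle hw)
      have hsplit : ∀ k ∈ K, ∃ r ∈ R, ∃ z ∈ Z, k = r * z := by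
        intro k hk
        have h1 : k ∈ ((D ⊔ D' : Subgroup X) : Set X) := hKW hk
        rw [Subgroup.coe_mul_of_left_le_normalizer_right D D' hDn] at h1
        obtain ⟨d, hd, e', he', hde⟩ := h1
        have hde' : d * e' = k := hde
        obtain ⟨e, he, rfl⟩ := he'
        have hde'' : d * (a * e * a⁻¹) = k := hde'
        have hswapk : e * (a * d * a⁻¹) = k := by
          rw [mem_centralizer_iff.mp (hcD (mem_cj hd)) e he]
          calc a * d * a⁻¹ * e = a * d * a⁻¹ * ((a * a) * e * (a * a)⁻¹) := by rw [ha]; group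
            _ = a * (d * (a * e * a⁻¹)) * a⁻¹ := by group
            _ = k := by rw [hde'', hka k hk]
        refine ⟨d * (a * d * a⁻¹), ⟨d, hd, rfl⟩, (a * d * a⁻¹)⁻¹ * (a * e * a⁻¹), ⟨?_, ?_⟩, ?_⟩
        · have h3 : d * (a * e * a⁻¹) = e * (a * d * a⁻¹) := hde''.trans hswapk.symm
          have h4 : (a * e * a⁻¹) * (a * d * a⁻¹)⁻¹ = d⁻¹ * e := by
            calc a * e * a⁻¹ * (a * d * a⁻¹)⁻¹ = d⁻¹ * (d * (a * e * a⁻¹)) * (a * d * a⁻¹)⁻¹ := by group
              _ = _ := by rw [h3]; group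
          have h5 : (a * e * a⁻¹) * (a * d * a⁻¹)⁻¹ ∈ D := h4 ▸ mul_mem (inv_mem hd) he
          rw [show (a * d * a⁻¹)⁻¹ * (a * e * a⁻¹) =
            (a * d * a⁻¹)⁻¹ * ((a * e * a⁻¹) * (a * d * a⁻¹)⁻¹) * (a * d * a⁻¹) by group,
            mem_centralizer_iff.mp (hcD (inv_mem (mem_cj hd))) _ h5 |>.symm, inv_mul_cancel_right]
          exact h5
        · exact Subgroup.mul_mem _ (Subgroup.inv_mem _ (mem_cj hd)) (mem_cj he)
        · rw [← hde'']; group
      nth_rewrite 1 [← hperf]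
      rw [Subgroup.commutator_le]
      intro k₁ hk₁ k₂ hk₂
      obtain ⟨r₁, hr₁, z₁, hz₁, rfl⟩ := hsplit k₁ hk₁
      obtain ⟨r₂, hr₂, z₂, hz₂, rfl⟩ := hsplit k₂ hk₂
      have hRW : ∀ r ∈ R, r ∈ W := by rintro _ ⟨d, hd, rfl⟩; exact hmemW d hd
      have hc : ∀ z ∈ Z, ∀ r ∈ R, r * z = z * r := fun z hz r hr => mem_centralizer_iff.mp (hZc hz) r (hRW r hr)
      have hzz : Commute z₁ z₂ := (mem_centralizer_iff.mp (hZc hz₁) z₂ (mem_sup_left hz₂.1)).symm
      have : ⁅r₁ * z₁, r₂ * z₂⁆ = ⁅r₁, r₂⁆ := by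
        have c1 : Commute r₁ z₁ := hc z₁ hz₁ r₁ hr₁
        have c2 : Commute r₂ z₁ := hc z₁ hz₁ r₂ hr₂
        have c3 : Commute r₁ z₂ := hc z₂ hz₂ r₁ hr₁
        have c4 : Commute r₂ z₂ := hc z₂ hz₂ r₂ hr₂
        have e1 : z₁ * (r₂ * z₂) * z₁⁻¹ = r₂ * z₂ := by
          rw [← ((c2.mul_left hzz.symm) : Commute (r₂ * z₂) z₁).eq, mul_inv_cancel_right]
        have e2 : z₂ * r₁⁻¹ * z₂⁻¹ = r₁⁻¹ := by rw [← c3.inv_left.eq, mul_inv_cancel_right]
        calc ⁅r₁ * z₁, r₂ * z₂⁆ = r₁ * (z₁ * (r₂ * z₂) * z₁⁻¹) * r₁⁻¹ * (r₂ * z₂)⁻¹ := by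
              rw [commutatorElement_def]; group
          _ = r₁ * r₂ * (z₂ * r₁⁻¹ * z₂⁻¹) * r₂⁻¹ := by rw [e1]; group
          _ = ⁅r₁, r₂⁆ := by rw [e2, commutatorElement_def]
      rw [this, commutatorElement_def]
      exact mul_mem (mul_mem (mul_mem hr₁ hr₂) (inv_mem hr₁)) (inv_mem hr₂)
    intro k
    refine ⟨fun hk => hKR hk, ?_⟩
    rintro ⟨d, hd, rfl⟩
    -- `R` is quasisimple and `K` is subnormal in it
    let r : ↥D →* ↥R := MonoidHom.mk' (fun d => ⟨(d : X) * (a * d * a⁻¹), d, d.2, rfl⟩) fun d e => Subtype.ext (by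
      show (d : X) * e * (a * ((d : X) * e) * a⁻¹) = (d : X) * (a * d * a⁻¹) * ((e : X) * (a * e * a⁻¹))
      have := mem_centralizer_iff.mp (hcD (mem_cj d.2)) (e : X) e.2
      calc (d : X) * e * (a * ((d : X) * e) * a⁻¹) = (d : X) * ((e : X) * (a * d * a⁻¹)) * (a * e * a⁻¹) := by group
        _ = _ := by rw [this]; group)
    have hr : Function.Surjective r := by
      rintro ⟨_, d, hd, rfl⟩
      exact ⟨⟨d, hd⟩, rfl⟩
    haveI : Nontrivial ↥R := R.nontrivial_iff_ne_bot.mpr fun h => hKne (by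
      rw [hperf]; exact le_bot_iff.mp (hKR.trans h.le))
    have hRq : Cfsg.IsQuasisimple ↥R := isQuasisimple_of_surjective hr hD.2
    have hsn : (K.subgroupOf R).IsSubnormal := by
      have := hK.2.1.comap (Subgroup.inclusion hRC)
      exact this
    rcases quasisimple_subnormal_eq_top_or_le_center hRq hsn with htop | hc
    · exact Subgroup.subgroupOf_eq_top.mp htop ⟨d, hd, rfl⟩
    · exfalso
      apply hKne
      rw [commutator_eq_bot_iff_le_centralizer]
      intro k hk
      rw [mem_centralizer_iff]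
      intro g hg
      exact congrArg Subtype.val (mem_center_iff.mp (hc (show (⟨k, hKR hk⟩ : ↥R) ∈ K.subgroupOf R from hk)) ⟨g, hKR hg⟩)

end Cfsg.Agent.Components.Pump
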