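import Cfsg.Agent.Components.Signalizer
import Cfsg.Agent.Components.Local
import Cfsg.Agent.Components.Dihedral
import Cfsg.Agent.Components.CoreDetection

set_option autoImplicit false
set_option linter.style.haveILetI false
set_option linter.unusedSectionVars false

/-!
Thompson's dihedral lemma.
-/

namespace Cfsg.Agent.Components

variable {G : Type*} [Group G] [Finite G]

/-- An element of coprime order centralizing all the cores of a solvable group centralizes it. -/
theorem mem_centralizer_of_cores_tdl {L : Subgroup G} (hLs : Group.IsSolvable ↥L) {b : G}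
    (hbL : b ∈ Subgroup.normalizer (L : Set G)) (hcop : (orderOf b).Coprime (Nat.card L))
    (h : ∀ q : ℕ, q.Prime → b ∈ Subgroup.centralizer
      (((Cfsg.pCore q ↥L).map L.subtype : Subgroup G) : Set G)) :
    b ∈ Subgroup.centralizer (L : Set G) := by
  haveI := hLs
  set Z := Subgroup.zpowers b
  haveI : Group.IsSolvable ↥Z := by
    open scoped IsMulCommutative in infer_instance
  set F := (Cfsg.fittingSubgroup ↥L).map L.subtype with hF
  have hbF : b ∈ Subgroup.centralizer (F : Set G) := by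
    have hle : F ≤ Subgroup.centralizer ({b} : Set G) := by
      rw [hF, Core.fittingSubgroup_eq_iSup, Subgroup.map_iSup]
      refine iSup_le fun q => fun x hx => Subgroup.mem_centralizer_singleton_iff.mpr ?_
      exact Subgroup.mem_centralizer_iff.mp (h q q.2) x hx
    exact Subgroup.mem_centralizer_iff.mpr fun x hx =>
      Subgroup.mem_centralizer_singleton_iff.mp (hle hx)
  have hZF : Z ≤ Subgroup.centralizer (F : Set G) := Subgroup.zpowers_le.mpr hbF
  have hZL : Z ≤ Subgroup.normalizer (L : Set G) := Subgroup.zpowers_le.mpr hbL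
  have hcomm : ⁅L, Z⁆ ≤ F := by
    have h1 : ⁅L, Z⁆ ≤ L := Coprime.commutator_le_of_le_normalizer hZL
    have h2 : ⁅L, Z⁆ ≤ Subgroup.centralizer (F : Set G) := by
      rw [Subgroup.commutator_le]
      intro x hx z hz
      have hxN : x ∈ Subgroup.normalizer (F : Set G) :=
        normalizer_le_normalizer_map_char _ (Subgroup.le_normalizer hx)
      have h3 : x * z * x⁻¹ ∈ Subgroup.centralizer (F : Set G) := by
        refine Subgroup.mem_centralizer_iff.mpr fun f hf => ?_
        have hf' : x⁻¹ * f * x ∈ F := (Subgroup.mem_normalizer_iff''.mp hxN f).mp hf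
        have := Subgroup.mem_centralizer_iff.mp (hZF hz) _ hf'
        calc f * (x * z * x⁻¹) = x * ((x⁻¹ * f * x) * z) * x⁻¹ := by group
          _ = x * (z * (x⁻¹ * f * x)) * x⁻¹ := by rw [this]
          _ = (x * z * x⁻¹) * f := by group
      rw [commutatorElement_def]
      exact mul_mem h3 (inv_mem (hZF hz))
    intro c hc
    have hc' : (⟨c, h1 hc⟩ : ↥L) ∈ Subgroup.centralizer (Cfsg.fittingSubgroup ↥L : Set ↥L) :=
      Subgroup.mem_centralizer_iff.mpr fun f hf => Subtype.ext
        (Subgroup.mem_centralizer_iff.mp (h2 hc) (f : G) (Subgroup.mem_map_of_mem L.subtype hf))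
    exact ⟨⟨c, h1 hc⟩, Core.centralizer_fittingSubgroup_le hc', rfl⟩
  have h2 : ⁅⁅L, Z⁆, Z⁆ = ⊥ := le_bot_iff.mp ((Subgroup.commutator_mono hcomm le_rfl).trans
    (le_of_eq ((Subgroup.commutator_eq_bot_iff_le_centralizer).mpr
      ((Subgroup.le_centralizer_iff).mp hZF))))
  have h3 := Coprime.commutator_eq_bot_of_commutator_commutator hZL
    (by rwa [Nat.card_zpowers]) h2
  rw [Subgroup.commutator_eq_bot_iff_le_centralizer] at h3
  exact Subgroup.mem_centralizer_iff.mpr fun x hx =>
    (Subgroup.mem_centralizer_iff.mp (h3 hx) b (Subgroup.mem_zpowers b)).symm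

/-- An element of an elementary abelian `2`-group not centralizing an odd subgroup inverts some
element on which the whole group acts by signs. -/
theorem exists_eigen_element {A V : Subgroup G} (hA : Cfsg.IsElementaryAbelian 2 A)
    (hV : ¬ 2 ∣ Nat.card V) (hAV : A ≤ Subgroup.normalizer (V : Set G)) {a₀ : G} (ha₀ : a₀ ∈ A)
    (hne : a₀ ∉ Subgroup.centralizer (V : Set G)) :
    ∃ x ∈ V, x ≠ 1 ∧ a₀ * x * a₀⁻¹ = x⁻¹ ∧
      ∀ b ∈ A, b * x * b⁻¹ = x ∨ b * x * b⁻¹ = x⁻¹ := by
  haveI : Fact (Nat.Prime 2) := ⟨Nat.prime_two⟩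
  have hgen := le_iSup_hyperplanes (p := 2) hA hV hAV
  obtain ⟨⟨B, hBA, hBi⟩, y, hy, hya⟩ : ∃ B : {B : Subgroup G // B ≤ A ∧ B.relIndex A ≤ 2},
      ∃ y ∈ V ⊓ Subgroup.centralizer ((B : Subgroup G) : Set G), y * a₀ ≠ a₀ * y := by
    by_contra hc
    push Not at hc
    refine hne (Subgroup.mem_centralizer_iff.mpr fun v hv => ?_)
    have hle : V ≤ Subgroup.centralizer ({a₀} : Set G) := by
      rw [hgen]
      exact iSup_le fun B y hy => Subgroup.mem_centralizer_singleton_iff.mpr (hc B y hy)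
    exact Subgroup.mem_centralizer_singleton_iff.mp (hle hv)
  have ha2 : a₀ * a₀ = 1 := by rw [← pow_two]; exact hA.2 a₀ ha₀
  have hai : a₀⁻¹ = a₀ := inv_eq_of_mul_eq_one_right ha2
  have ha₀B : a₀ ∉ B := fun h => hya ((Subgroup.mem_centralizer_iff.mp hy.2 a₀ h).symm)
  set x := y⁻¹ * (a₀ * y * a₀⁻¹) with hx
  have hxV : x ∈ V := mul_mem (inv_mem hy.1) ((Subgroup.mem_normalizer_iff.mp (hAV ha₀) y).mp hy.1)
  have hinv : a₀ * x * a₀⁻¹ = x⁻¹ := by
    rw [hx, hai]
    simp only [mul_inv_rev, inv_inv, hai, mul_assoc, ha2, mul_one]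
  refine ⟨x, hxV, fun h => hya ?_, hinv, fun b hb => ?_⟩
  · rw [hx, inv_mul_eq_one] at h
    exact (eq_mul_inv_iff_mul_eq.mp h)
  have hBx : ∀ c ∈ B, c * x * c⁻¹ = x := by
    intro c hc
    have h1 : c * y * c⁻¹ = y := by
      rw [Subgroup.mem_centralizer_iff.mp hy.2 c hc, mul_inv_cancel_right]
    have h2 : c * a₀ * c⁻¹ = a₀ := by
      rw [PLocal.comm_of_EA hA (hBA hc) ha₀, mul_inv_cancel_right]
    calc c * x * c⁻¹ = (c * y * c⁻¹)⁻¹ * ((c * a₀ * c⁻¹) * (c * y * c⁻¹) * (c * a₀ * c⁻¹)⁻¹) := by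
          rw [hx]; group
      _ = x := by rw [h1, h2]
  by_cases hbB : b ∈ B
  · exact Or.inl (hBx b hbB)
  right
  have hidx : B.relIndex A = 2 := by
    have h1 : B.relIndex A ≠ 1 := fun h => ha₀B (Subgroup.relIndex_eq_one.mp h ha₀)
    have h0 : B.relIndex A ≠ 0 := Subgroup.index_ne_zero_of_finite
    omega
  have hmem : b * a₀ ∈ B := by
    have := (Subgroup.mul_mem_iff_of_index_two (H := B.subgroupOf A) hidx
      (a := ⟨b, hb⟩) (b := ⟨a₀, ha₀⟩)).mpr (by simp [Subgroup.mem_subgroupOf, hbB, ha₀B])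
    exact Subgroup.mem_subgroupOf.mp this
  have h3 : b = (b * a₀) * a₀ := by rw [mul_assoc, ha2, mul_one]
  have h4 := hBx _ hmem
  calc b * x * b⁻¹ = (b * a₀) * (a₀ * x * a₀⁻¹) * (b * a₀)⁻¹ := by
        conv_lhs => rw [h3]
        group
    _ = x⁻¹ := by rw [hinv, ← conj_inv, h4]

theorem thompson_dihedral_aux {A : Subgroup G} (hA : Cfsg.IsElementaryAbelian 2 A) :
    ∀ (n : ℕ) (A' L : Subgroup G), Nat.card A' = n → A' ≤ A → Group.IsSolvable ↥L →
      Odd (Nat.card L) → A ≤ Subgroup.normalizer (L : Set G) →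
      ∃ (k : ℕ) (a x : Fin k → G),
        (∀ i, a i ∈ A' ∧ x i ∈ L ∧ x i ≠ 1 ∧ a i * x i * (a i)⁻¹ = (x i)⁻¹ ∧
          ∀ b ∈ A, b * x i * b⁻¹ = x i ∨ b * x i * b⁻¹ = (x i)⁻¹) ∧
        (∀ i j, i ≠ j → Commute (a i) (x j) ∧ Commute (x i) (x j)) ∧
        A' ≤ Subgroup.closure (Set.range a) ⊔ (A' ⊓ Subgroup.centralizer (L : Set G)) ∧
        Nat.card A' = 2 ^ k * Nat.card ↥(A' ⊓ Subgroup.centralizer (L : Set G)) := by
  haveI : Fact (Nat.Prime 2) := ⟨Nat.prime_two⟩
  intro n
  induction n using Nat.strong_induction_on with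
  | _ n IH =>
    intro A' L hn hA' hLs hLodd hAL
    by_cases hcen : A' ≤ Subgroup.centralizer (L : Set G)
    · refine ⟨0, Fin.elim0, Fin.elim0, fun i => i.elim0, fun i => i.elim0, ?_, ?_⟩
      · rw [inf_eq_left.mpr hcen]; exact le_sup_right
      · rw [pow_zero, one_mul, inf_eq_left.mpr hcen]
    have hcopA : ∀ b ∈ A, (orderOf b).Coprime (Nat.card L) := fun b hb =>
      (Nat.Coprime.coprime_dvd_left (orderOf_dvd_of_pow_eq_one (hA.2 b hb))
        ((Nat.coprime_two_left).mpr hLodd))
    obtain ⟨q, hq, a₀, ha₀, hne⟩ : ∃ q, q.Prime ∧ ∃ a ∈ A', a ∉ Subgroup.centralizer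
        (((Cfsg.pCore q ↥L).map L.subtype : Subgroup G) : Set G) := by
      by_contra hc
      push Not at hc
      exact hcen fun b hb => mem_centralizer_of_cores_tdl hLs (hAL (hA' hb)) (hcopA b (hA' hb))
        fun q hq => hc q hq b hb
    haveI := Fact.mk hq
    set O : ℕ → Subgroup G := fun t => (Cfsg.pCore t ↥L).map L.subtype with hO
    have hOL : ∀ t, O t ≤ L := fun t => Subgroup.map_subtype_le _
    have hAO : ∀ t, t.Prime → A ≤ Subgroup.normalizer ((O t : Subgroup G) : Set G) := fun t ht => by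
      haveI := Fact.mk ht
      exact hAL.trans (normalizer_le_normalizer_map_char _)
    have hVodd : ¬ 2 ∣ Nat.card (O q) := fun h =>
      (Nat.not_even_iff_odd.mpr hLodd) (even_iff_two_dvd.mpr (h.trans (Subgroup.card_dvd_of_le (hOL q))))
    obtain ⟨x, hxV, hx1, hxinv, heig⟩ := exists_eigen_element hA hVodd (hAO q hq) (hA' ha₀) hne
    have hxL : x ∈ L := hOL q hxV
    have hxodd : Odd (orderOf x) :=
      hLodd.of_dvd_nat ((Subgroup.orderOf_dvd_natCard L hxL))
    have hxx : x⁻¹ ≠ x := by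
      intro h
      have : orderOf x ∣ 2 := orderOf_dvd_of_pow_eq_one (by rw [pow_two]; nth_rw 1 [← h]; exact inv_mul_cancel x)
      rcases (Nat.dvd_prime Nat.prime_two).mp this with h1 | h1
      · exact hx1 (orderOf_eq_one_iff.mp h1)
      · rw [h1] at hxodd; exact (Nat.not_even_iff_odd.mpr hxodd) even_two
    set B := A' ⊓ Subgroup.centralizer ({x} : Set G) with hB
    set L' := L ⊓ Subgroup.centralizer ({x} : Set G) with hL'
    have hfix : ∀ {b : G}, b ∈ A' → (b ∈ B ↔ b * x * b⁻¹ = x) := by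
      intro b hb
      rw [hB, Subgroup.mem_inf, Subgroup.mem_centralizer_singleton_iff, mul_inv_eq_iff_eq_mul]
      exact ⟨fun h => h.2, fun h => ⟨hb, h⟩⟩
    have ha₀B : a₀ ∉ B := fun h => hxx (hxinv.symm.trans ((hfix ha₀).mp h))
    have hidx : B.relIndex A' = 2 := by
      refine Subgroup.index_eq_two_iff.mpr ⟨⟨a₀, ha₀⟩, fun b => ?_⟩
      simp only [Subgroup.mem_subgroupOf, Subgroup.coe_mul]
      rw [hfix b.2, hfix (mul_mem b.2 ha₀)]
      have : (b : G) * a₀ * x * ((b : G) * a₀)⁻¹ = ((b : G) * x * (b : G)⁻¹)⁻¹ := by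
        rw [conj_inv, ← hxinv]; group
      rw [this]
      rcases heig b (hA' b.2) with h | h <;> rw [h]
      · exact Or.inr ⟨rfl, hxx⟩
      · exact Or.inl ⟨inv_inv x, hxx⟩
    have hcardB : Nat.card B * 2 = Nat.card A' := hidx ▸ card_mul_relIndex' (inf_le_left : B ≤ A')
    have hBlt : Nat.card B < n := by have : 0 < Nat.card B := Nat.card_pos; omega
    have hAL' : A ≤ Subgroup.normalizer (L' : Set G) := fun b hb =>
      Coprime.mem_normalizer_of_conj_mem fun y hy => by
        refine ⟨(Subgroup.mem_normalizer_iff.mp (hAL hb) y).mp hy.1, ?_⟩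
        have hyx : Commute y x := Subgroup.mem_centralizer_singleton_iff.mp hy.2
        have : Commute (b * y * b⁻¹) (b * x * b⁻¹) := by
          show _ * _ = _ * _
          calc b * y * b⁻¹ * (b * x * b⁻¹) = b * (y * x) * b⁻¹ := by group
            _ = b * (x * y) * b⁻¹ := by rw [hyx.eq]
            _ = _ := by group
        rcases heig b hb with h | h <;> rw [h] at this
        · exact Subgroup.mem_centralizer_singleton_iff.mpr this
        · exact Subgroup.mem_centralizer_singleton_iff.mpr (Commute.inv_right_iff.mp this)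
    have hCeq : B ⊓ Subgroup.centralizer (L' : Set G) = A' ⊓ Subgroup.centralizer (L : Set G) := by
      refine le_antisymm ?_ (fun b hb => ⟨(hfix hb.1).mpr ?_, Subgroup.centralizer_le inf_le_left hb.2⟩)
      · rintro b ⟨⟨hbA, hbx⟩, hbL'⟩
        refine ⟨hbA, mem_centralizer_of_cores_tdl hLs (hAL (hA' hbA)) (hcopA b (hA' hbA))
          fun t ht => ?_⟩
        haveI := Fact.mk ht
        have hsmall : ∀ v ∈ O t, v * x = x * v → v * b = b * v := fun v hv hvx =>
          Subgroup.mem_centralizer_iff.mp hbL' v ⟨hOL t hv, Subgroup.mem_centralizer_singleton_iff.mpr hvx⟩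
        by_cases htq : t = q
        · subst htq
          have hP : IsPGroup t ↥(Subgroup.zpowers x) :=
            ((Core.isPGroup_pCore t ↥L).map L.subtype).to_le (Subgroup.zpowers_le.mpr hxV)
          have hcp : (orderOf b).Coprime t := by
            refine (hcopA b (hA' hbA)).coprime_dvd_right ?_
            obtain ⟨m, hm⟩ := hP.exists_card_eq
            rw [Nat.card_zpowers] at hm
            rcases m with _ | m
            · exact absurd (orderOf_eq_one_iff.mp (by simpa using hm)) hx1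
            · exact ((dvd_pow_self t m.succ_ne_zero).trans (dvd_of_eq hm.symm)).trans
                (Subgroup.orderOf_dvd_natCard L hxL)
          refine pprime_element_centralizes hP ((Core.isPGroup_pCore t ↥L).map L.subtype)
            ((Subgroup.zpowers_le.mpr hxV).trans Subgroup.le_normalizer) (hAO t ht (hA' hbA)) hcp ?_ ?_
          · refine Subgroup.mem_centralizer_iff.mpr ?_
            rintro _ ⟨i, rfl⟩
            exact (Commute.zpow_left (Subgroup.mem_centralizer_singleton_iff.mp hbx : Commute b x).symm i).eq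
          · intro v hv hvP
            exact hsmall v hv ((Subgroup.mem_centralizer_iff.mp hvP x (Subgroup.mem_zpowers x)).symm)
        · refine Subgroup.mem_centralizer_iff.mpr fun v hv => hsmall v hv ?_
          obtain ⟨v', hv', rfl⟩ := hv
          obtain ⟨x', hx', rfl⟩ := hxV
          have hdis := IsPGroup.disjoint_of_ne t q htq _ _ (Core.isPGroup_pCore t ↥L) (Core.isPGroup_pCore q ↥L)
          simpa using congrArg L.subtype (Subgroup.commute_of_normal_of_disjoint _ _ inferInstance
            inferInstance hdis v' x' hv' hx').eq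
      · rw [← Subgroup.mem_centralizer_iff.mp hb.2 x hxL, mul_inv_cancel_right]
    obtain ⟨k, a, y, hay, hcom, hcl, hcard⟩ := IH _ hBlt B L' rfl (inf_le_left.trans hA')
      (isSolvable_of_le inf_le_left hLs) (hLodd.of_dvd_nat (Subgroup.card_dvd_of_le inf_le_left)) hAL'
    rw [hCeq] at hcl hcard
    -- an element inverting `x` and centralizing all the `y j`
    obtain ⟨a₁, ha₁, ha₁x, ha₁y⟩ : ∃ c ∈ A', c * x * c⁻¹ = x⁻¹ ∧ ∀ j, c * y j * c⁻¹ = y j := by
      have key : ∀ S : Finset (Fin k), (∀ j ∈ S, a₀ * y j * a₀⁻¹ = (y j)⁻¹) →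
          ∃ c ∈ A', c * x * c⁻¹ = x⁻¹ ∧ ∀ j, (j ∈ S → c * y j * c⁻¹ = y j) ∧
            (j ∉ S → c * y j * c⁻¹ = a₀ * y j * a₀⁻¹) := by
        intro S
        induction S using Finset.induction with
        | empty => exact fun _ => ⟨a₀, ha₀, hxinv, fun j => by simp⟩
        | @insert j S hjS ih =>
          intro hS
          obtain ⟨c, hc, hcx, hcy⟩ := ih fun i hi => hS i (Finset.mem_insert_of_mem hi)
          have hcomp : ∀ z : G, c * a j * z * (c * a j)⁻¹ = c * (a j * z * (a j)⁻¹) * c⁻¹ :=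
            fun z => by group
          refine ⟨c * a j, mul_mem hc (hay j).1.1, ?_, fun i => ?_⟩
          · rw [hcomp, (hfix (hay j).1.1).mp (hay j).1, hcx]
          by_cases hij : i = j
          · subst hij
            refine ⟨fun _ => ?_, fun h => absurd (Finset.mem_insert_self _ _) h⟩
            rw [hcomp, (hay i).2.2.2.1, ← conj_inv, (hcy i).2 hjS, hS i (Finset.mem_insert_self _ _), inv_inv]
          · have h1 : a j * y i * (a j)⁻¹ = y i := by
              rw [(hcom j i (Ne.symm hij)).1.eq, mul_inv_cancel_right]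
            rw [hcomp, h1]
            simp only [Finset.mem_insert, hij, false_or]
            exact hcy i
      classical
      obtain ⟨c, hc, hcx, hcy⟩ := key (Finset.univ.filter fun j => a₀ * y j * a₀⁻¹ = (y j)⁻¹)
        fun j hj => (Finset.mem_filter.mp hj).2
      refine ⟨c, hc, hcx, fun j => ?_⟩
      by_cases hj : a₀ * y j * a₀⁻¹ = (y j)⁻¹
      · exact (hcy j).1 (by simp [hj])
      · rw [(hcy j).2 (by simp [hj])]
        exact ((hay j).2.2.2.2 a₀ (hA' ha₀)).resolve_right hj
    refine ⟨k + 1, Fin.cons a₁ a, Fin.cons x y, ?_, ?_, ?_, ?_⟩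
    · intro i
      refine Fin.cases ?_ (fun j => ?_) i
      · simp only [Fin.cons_zero]
        exact ⟨ha₁, hxL, hx1, ha₁x, heig⟩
      · simp only [Fin.cons_succ]
        exact ⟨(hay j).1.1, (hay j).2.1.1, (hay j).2.2.1, (hay j).2.2.2.1, (hay j).2.2.2.2⟩
    · intro i j
      refine Fin.cases ?_ (fun i' => ?_) i <;> refine Fin.cases ?_ (fun j' => ?_) j
      · exact fun h => absurd rfl h
      · intro _
        simp only [Fin.cons_zero, Fin.cons_succ]
        exact ⟨mul_inv_eq_iff_eq_mul.mp (ha₁y j'),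
          (Subgroup.mem_centralizer_singleton_iff.mp (hay j').2.1.2 : Commute (y j') x).symm⟩
      · intro _
        simp only [Fin.cons_zero, Fin.cons_succ]
        exact ⟨Subgroup.mem_centralizer_singleton_iff.mp (hay i').1.2,
          Subgroup.mem_centralizer_singleton_iff.mp (hay i').2.1.2⟩
      · intro h
        simp only [Fin.cons_succ]
        exact hcom i' j' fun e => h (by rw [e])
    · intro b hb
      have ha : a₁ ∈ Subgroup.closure (Set.range (Fin.cons a₁ a : Fin (k + 1) → G)) :=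
        Subgroup.subset_closure ⟨0, rfl⟩
      have hmono : Subgroup.closure (Set.range a) ≤
          Subgroup.closure (Set.range (Fin.cons a₁ a : Fin (k + 1) → G)) :=
        Subgroup.closure_mono fun z ⟨i, hi⟩ => ⟨i.succ, by simpa using hi⟩
      have hB' := (sup_le_sup_right hmono (A' ⊓ Subgroup.centralizer (L : Set G)))
      by_cases hbB : b ∈ B
      · exact hB' (hcl hbB)
      have ha₁B : a₁ ∉ B := fun h => hxx (ha₁x.symm.trans ((hfix ha₁).mp h))
      have h1 : b * a₁ ∈ B := by
        have := (Subgroup.mul_mem_iff_of_index_two (H := B.subgroupOf A') hidx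
          (a := ⟨b, hb⟩) (b := ⟨a₁, ha₁⟩)).mpr (by simp [Subgroup.mem_subgroupOf, hbB, ha₁B])
        exact Subgroup.mem_subgroupOf.mp this
      have h2 : b = b * a₁ * a₁ := by
        rw [mul_assoc, ← pow_two, hA.2 a₁ (hA' ha₁), mul_one]
      rw [h2]
      exact mul_mem (hB' (hcl h1)) (le_sup_left (b := A' ⊓ Subgroup.centralizer (L : Set G)) ha)
    · rw [← hcardB, hcard, pow_succ]
      ring

/-- Thompson's dihedral lemma. -/
theorem thompson_dihedral {L A : Subgroup G} (hLs : Group.IsSolvable ↥L)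
    (hLodd : Odd (Nat.card L)) (hA : Cfsg.IsElementaryAbelian 2 A) (d : ℕ)
    (hAd : Nat.card A = 2 ^ d) (hAL : A ≤ Subgroup.normalizer (L : Set G))
    (hfaith : A ⊓ Subgroup.centralizer (L : Set G) = ⊥) :
    ∃ (Ai : Fin d → Subgroup G) (Li : Fin d → Subgroup G) (n : Fin d → ℕ),
      (∀ i, Ai i ≤ A ∧ Nat.card ↥(Ai i) = 2 ∧ Li i ≤ L ∧ Odd (n i) ∧ 3 ≤ n i ∧
        Nonempty (↥(Ai i ⊔ Li i) ≃* DihedralGroup (n i))) ∧ (⨆ i, Ai i) = A ∧
      ∀ i j, i ≠ j → ∀ x ∈ Ai i ⊔ Li i, ∀ y ∈ Ai j ⊔ Li j, x * y = y * x := by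
  obtain ⟨k, a, x, hax, hcom, hcl, hcard⟩ := thompson_dihedral_aux hA _ A L rfl le_rfl hLs hLodd hAL
  rw [hfaith, sup_bot_eq] at hcl
  rw [hfaith, Subgroup.card_bot, mul_one, hAd] at hcard
  obtain rfl : d = k := Nat.pow_right_injective le_rfl hcard
  have hodd : ∀ i, Odd (orderOf (x i)) := fun i =>
    hLodd.of_dvd_nat (Subgroup.orderOf_dvd_natCard L (hax i).2.1)
  have hne2 : ∀ i, (x i)⁻¹ ≠ x i := by
    intro i h
    have h1 : orderOf (x i) ∣ 2 := orderOf_dvd_of_pow_eq_one (by
      rw [pow_two]; nth_rw 1 [← h]; exact inv_mul_cancel _)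
    rcases (Nat.dvd_prime Nat.prime_two).mp h1 with h2 | h2
    · exact (hax i).2.2.1 (orderOf_eq_one_iff.mp h2)
    · have := hodd i; rw [h2] at this; exact (Nat.not_even_iff_odd.mpr this) even_two
  have ha2 : ∀ i, orderOf (a i) = 2 := by
    intro i
    refine orderOf_eq_prime (hA.2 _ (hax i).1) fun h => hne2 i ?_
    have := (hax i).2.2.2.1
    rw [h] at this
    simpa using this.symm
  have hb2 : ∀ i, orderOf (a i * x i) = 2 := by
    intro i
    refine orderOf_eq_prime ?_ fun h => hne2 i ?_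
    · have h1 := (hax i).2.2.2.1
      rw [invol_inv (ha2 i)] at h1
      rw [pow_two, ← mul_assoc, h1, inv_mul_cancel]
    · have h1 : a i = (x i)⁻¹ := eq_inv_of_mul_eq_one_left h
      have h2 := (hax i).2.2.2.1
      rw [h1] at h2
      simpa using h2.symm
  have hprod : ∀ i, a i * (a i * x i) = x i := fun i => by
    rw [← mul_assoc, invol_mul_self (ha2 i), one_mul]
  refine ⟨fun i => Subgroup.zpowers (a i), fun i => Subgroup.zpowers (x i), fun i => orderOf (x i),
    fun i => ⟨Subgroup.zpowers_le.mpr (hax i).1, by rw [Nat.card_zpowers, ha2],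
      Subgroup.zpowers_le.mpr (hax i).2.1, hodd i, ?_, ?_⟩, ?_, ?_⟩
  · obtain ⟨m, hm⟩ := hodd i
    rcases m with _ | m
    · exact absurd (orderOf_eq_one_iff.mp hm) (hax i).2.2.1
    · dsimp only; omega
  · have hne : a i ≠ a i * x i := fun h => (hax i).2.2.1 (mul_eq_left.mp h.symm)
    have hj : Subgroup.zpowers (a i) ⊔ Subgroup.zpowers (x i) =
        (dihedralHom (ha2 i) (hb2 i)).range := by
      rw [dihedralHom_range]
      refine le_antisymm (sup_le (Subgroup.zpowers_le.mpr (Subgroup.subset_closure (Set.mem_insert _ _)))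
        (Subgroup.zpowers_le.mpr ?_)) ((Subgroup.closure_le _).mpr ?_)
      · have hm := mul_mem_closure_pair (a i) (a i * x i)
        exact (hprod i).subst (motive := fun z => z ∈ Subgroup.closure ({a i, a i * x i} : Set G)) hm
      · rintro z (rfl | rfl)
        · exact Subgroup.mem_sup_left (Subgroup.mem_zpowers _)
        · exact mul_mem (Subgroup.mem_sup_left (Subgroup.mem_zpowers _))
            (Subgroup.mem_sup_right (Subgroup.mem_zpowers _))
    have e := (MulEquiv.subgroupCongr hj).trans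
      (MonoidHom.ofInjective (dihedralHom_injective (ha2 i) (hb2 i) hne)).symm
    rw [hprod i] at e
    exact ⟨e⟩
  · refine le_antisymm (iSup_le fun i => Subgroup.zpowers_le.mpr (hax i).1) (hcl.trans ?_)
    refine (Subgroup.closure_le _).mpr ?_
    rintro _ ⟨i, rfl⟩
    exact le_iSup (fun i => Subgroup.zpowers (a i)) i (Subgroup.mem_zpowers _)
  · intro i j hij
    have hle : Subgroup.zpowers (a i) ⊔ Subgroup.zpowers (x i) ≤
        Subgroup.centralizer ((Subgroup.zpowers (a j) ⊔ Subgroup.zpowers (x j) : Subgroup G) : Set G) := by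
      have hset : ∀ z : G, Commute z (a j) → Commute z (x j) →
          Subgroup.zpowers (a j) ⊔ Subgroup.zpowers (x j) ≤ Subgroup.centralizer ({z} : Set G) :=
        fun z h1 h2 => sup_le
          (Subgroup.zpowers_le.mpr (Subgroup.mem_centralizer_singleton_iff.mpr h1.symm.eq))
          (Subgroup.zpowers_le.mpr (Subgroup.mem_centralizer_singleton_iff.mpr h2.symm.eq))
      refine sup_le (Subgroup.zpowers_le.mpr ?_) (Subgroup.zpowers_le.mpr ?_) <;>
        refine Subgroup.mem_centralizer_iff.mpr fun w hw => ?_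
      · exact Subgroup.mem_centralizer_singleton_iff.mp
          (hset _ (PLocal.comm_of_EA hA (hax i).1 (hax j).1) (hcom i j hij).1 hw)
      · exact Subgroup.mem_centralizer_singleton_iff.mp
          (hset _ ((hcom j i (Ne.symm hij)).1.symm) (hcom i j hij).2 hw)
    intro u hu w hw
    exact (Subgroup.mem_centralizer_iff.mp (hle hu) w hw).symm

end Cfsg.Agent.Components
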