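import Cfsg.Agent.Linear.Transvection
import Mathlib.GroupTheory.Sylow
import Mathlib.Algebra.CharP.Two
import Mathlib.FieldTheory.Finite.Basic

/-!
# Pairs of unipotent subgroups generating `PSL₂(F)`
-/

set_option autoImplicit false

namespace Cfsg.Agent.Components.UnipotentPairs

open Matrix

variable {F : Type*} [Field F]

local notation "SL" => Matrix.SpecialLinearGroup (Fin 2) F
local notation "PSL" => Matrix.ProjectiveSpecialLinearGroup (Fin 2) F

/-- `[[1,t],[0,1]]`. -/
def up (t : F) : SL := ⟨!![1, t; 0, 1], by simp [det_fin_two]⟩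

/-- `[[1,0],[t,1]]`. -/
def low (t : F) : SL := ⟨!![1, 0; t, 1], by simp [det_fin_two]⟩

/-- `[[0,1],[-1,0]]`. -/
def weyl : SL := ⟨!![0, 1; -1, 0], by simp [det_fin_two]⟩

/-- `[[a,0],[0,a⁻¹]]`. -/
def dia (a : F) (ha : a ≠ 0) : SL := ⟨!![a, 0; 0, a⁻¹], by simp [det_fin_two, ha]⟩

@[simp] theorem up_val (t : F) : ((up t : SL) : Matrix (Fin 2) (Fin 2) F) = !![1, t; 0, 1] := rfl

@[simp] theorem low_val (t : F) : ((low t : SL) : Matrix (Fin 2) (Fin 2) F) = !![1, 0; t, 1] := rfl

@[simp] theorem weyl_val : ((weyl : SL) : Matrix (Fin 2) (Fin 2) F) = !![0, 1; -1, 0] := rfl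

@[simp] theorem dia_val (a : F) (ha : a ≠ 0) :
    ((dia a ha : SL) : Matrix (Fin 2) (Fin 2) F) = !![a, 0; 0, a⁻¹] := rfl

/-- The projection to `PSL`. -/
abbrev proj : SL →* PSL := QuotientGroup.mk' (Subgroup.center SL)

theorem up_mul (s t : F) : up s * up t = up (s + t) := by
  ext i j
  fin_cases i <;> fin_cases j <;> simp [Matrix.mul_apply, Fin.sum_univ_two, add_comm]

theorem up_zero : up (0 : F) = 1 := by
  ext i j
  fin_cases i <;> fin_cases j <;> simp

theorem up_inv (t : F) : (up t)⁻¹ = up (-t) := by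
  refine inv_eq_of_mul_eq_one_right ?_
  rw [up_mul, add_neg_cancel, up_zero]

theorem low_mul (s t : F) : low s * low t = low (s + t) := by
  ext i j
  fin_cases i <;> fin_cases j <;> simp [Matrix.mul_apply, Fin.sum_univ_two, add_comm]

theorem low_inv (t : F) : (low t)⁻¹ = low (-t) := by
  refine inv_eq_of_mul_eq_one_right ?_
  rw [low_mul, add_neg_cancel]
  ext i j
  fin_cases i <;> fin_cases j <;> simp

theorem weyl_up (t : F) : weyl * up t = low (-t) * weyl := by
  ext i j
  fin_cases i <;> fin_cases j <;> simp [Matrix.mul_apply, Fin.sum_univ_two]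

theorem up_weyl (t : F) : up t * weyl = weyl * low (-t) := by
  ext i j
  fin_cases i <;> fin_cases j <;> simp [Matrix.mul_apply, Fin.sum_univ_two]

theorem dia_up (a : F) (ha : a ≠ 0) (t : F) : dia a ha * up t = up (a * a * t) * dia a ha := by
  ext i j
  fin_cases i <;> fin_cases j <;>
    simp [Matrix.mul_apply, Fin.sum_univ_two]
  field_simp

theorem low_formula {c : F} (hc : c ≠ 0) (b : F) :
    low (-(b * c ^ 2)) = up (-c⁻¹) * (low c * up b * low (-c)) * up c⁻¹ := by
  ext i j
  fin_cases i <;> fin_cases j <;>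
    simp [Matrix.mul_apply, Fin.sum_univ_two] <;> field_simp <;> ring

theorem eq_top_of_up_low {H : Subgroup SL} (hu : ∀ t, up t ∈ H) (hl : ∀ t, low t ∈ H) : H = ⊤ := by
  refine Linear.eq_top_of_transvection_mem fun i j hij c => ?_
  have h : SpecialLinearGroup.transvection hij c = up c ∨
      SpecialLinearGroup.transvection hij c = low c := by
    fin_cases i <;> fin_cases j
    · exact absurd rfl hij
    · left
      ext a b
      fin_cases a <;> fin_cases b <;> simp [SpecialLinearGroup.transvection_coe]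
    · right
      ext a b
      fin_cases a <;> fin_cases b <;> simp [SpecialLinearGroup.transvection_coe]
    · exact absurd rfl hij
  rcases h with h | h <;> rw [h]
  exacts [hu c, hl c]

/-- `x` moves the upper unipotent group to one generating with it. -/
def Gen (x : PSL) : Prop :=
  ∀ H : Subgroup PSL, (∀ t, proj (up t) ∈ H) → (∀ t, x * proj (up t) * x⁻¹ ∈ H) → H = ⊤

theorem proj_eq_top {H : Subgroup PSL} (hu : ∀ t, proj (up t) ∈ H) (hl : ∀ t, proj (low t) ∈ H) :
    H = ⊤ := by
  have h : H.comap (proj (F := F)) = ⊤ := eq_top_of_up_low hu hl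
  refine Subgroup.comap_injective (QuotientGroup.mk'_surjective (Subgroup.center SL)) ?_
  rw [Subgroup.comap_top]
  exact h

theorem gen_low {c : F} (hc : c ≠ 0) : Gen (proj (low c)) := by
  intro H hu hx
  refine proj_eq_top hu fun t => ?_
  have h : low t = up (-c⁻¹) * (low c * up (-(t / c ^ 2)) * low (-c)) * up c⁻¹ := by
    rw [← low_formula hc]
    congr 1
    field_simp
  rw [h, map_mul, map_mul]
  refine mul_mem (mul_mem (hu _) ?_) (hu _)
  have := hx (-(t / c ^ 2))
  rwa [← map_inv, ← map_mul, ← map_mul, low_inv] at this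

theorem gen_up_weyl (t : F) : Gen (proj (up t * weyl)) := by
  intro H hu hx
  refine proj_eq_top hu fun s => ?_
  have h := hx (-s)
  have e : up t * weyl * up (-s) * (up t * weyl)⁻¹ = up t * low s * (up t)⁻¹ := by
    rw [mul_assoc (up t), weyl_up, neg_neg]
    group
  rw [← map_inv, ← map_mul, ← map_mul, e, map_mul, map_mul, map_inv] at h
  have h2 := mul_mem (mul_mem (inv_mem (hu t)) h) (hu t)
  simpa [mul_assoc] using h2

theorem shift (s t : F) : (up s * weyl)⁻¹ * (up t * weyl) = low (s - t) := by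
  have h : up t * weyl = up s * weyl * low (s - t) := by
    rw [mul_assoc, show s - t = -(t - s) by ring, ← up_weyl, ← mul_assoc, up_mul]
    congr 2
    ring
  rw [h]
  group

theorem proj_up_eq_one {t : F} (h : proj (up t) = 1) : t = 0 := by
  have hz := (QuotientGroup.eq_one_iff (up t)).1 h
  have h1 := congrArg (fun g : SL => g.1 1 1) (Subgroup.mem_center_iff.1 hz (low 1))
  simpa [Matrix.mul_apply, Fin.sum_univ_two] using h1

theorem lower_left_of_eq {M : SL} {t : F} (h : proj M = proj (up t)) : M.1 1 0 = 0 := by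
  have hz : (up t)⁻¹ * M ∈ Subgroup.center SL := QuotientGroup.eq.1 h.symm
  set z := (up t)⁻¹ * M with hz'
  have hM : M = up t * z := by rw [hz']; group
  have h1 := congrArg (fun g : SL => g.1 0 0) (Subgroup.mem_center_iff.1 hz (up 1))
  have h2 : z.1 1 0 = 0 := by simpa [Matrix.mul_apply, Fin.sum_univ_two] using h1
  rw [hM]
  simpa [Matrix.mul_apply, Fin.sum_univ_two] using h2

/-- The image of the upper unipotent group in `PSL`. -/
def upper : Subgroup PSL where
  carrier := Set.range fun t : F => proj (up t)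
  one_mem' := ⟨0, by simp [up_zero]⟩
  mul_mem' := by
    rintro _ _ ⟨s, rfl⟩ ⟨t, rfl⟩
    exact ⟨s + t, by simp only [← up_mul, map_mul]⟩
  inv_mem' := by
    rintro _ ⟨s, rfl⟩
    exact ⟨-s, by simp only [← up_inv, map_inv]⟩

theorem mem_upper {x : PSL} : x ∈ upper (F := F) ↔ ∃ t, proj (up t) = x := Iff.rfl

theorem upper_comm {x y : PSL} (hx : x ∈ upper (F := F)) (hy : y ∈ upper (F := F)) :
    x * y = y * x := by
  obtain ⟨s, rfl⟩ := hx
  obtain ⟨t, rfl⟩ := hy
  simp only [← map_mul, up_mul, add_comm]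

theorem upper_ne_top : upper (F := F) ≠ ⊤ := by
  intro h
  obtain ⟨t, ht⟩ := mem_upper.1 (h ▸ Subgroup.mem_top (proj (low (1 : F))))
  simpa using lower_left_of_eq ht.symm

theorem upper_disjoint_conj {x : PSL} (hx : x ∈ upper (F := F))
    (hy : proj weyl * x * (proj weyl)⁻¹ ∈ upper (F := F)) : x = 1 := by
  obtain ⟨s, rfl⟩ := hx
  obtain ⟨t, ht⟩ := hy
  rw [← map_inv, ← map_mul, ← map_mul] at ht
  have h2 := lower_left_of_eq (M := weyl * up s * weyl⁻¹) ht.symm
  rw [weyl_up, mul_inv_cancel_right] at h2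
  have hs : s = 0 := by simpa using h2
  show proj (up s) = 1
  rw [hs, up_zero, map_one]

theorem card_upper : Nat.card (upper (F := F)) = Nat.card F := by
  refine (Nat.card_congr (Equiv.ofBijective
    (fun t : F => (⟨proj (up t), t, rfl⟩ : upper (F := F))) ⟨fun s t h => ?_, ?_⟩)).symm
  · have h1 : proj (up s) = proj (up t) := congrArg Subtype.val h
    have h2 : proj (up (s - t)) = 1 := by
      rw [sub_eq_add_neg, ← up_mul, map_mul, ← up_inv, map_inv, h1, mul_inv_cancel]
    exact sub_eq_zero.1 (proj_up_eq_one h2)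
  · rintro ⟨_, t, rfl⟩
    exact ⟨t, rfl⟩

theorem prime_cast [Fintype F] {p n : ℕ} [hp : Fact p.Prime] (hF : Fintype.card F = p ^ n) :
    (p : F) = 0 := by
  have h := FiniteField.cast_card_eq_zero F
  rw [hF, Nat.cast_pow] at h
  exact eq_zero_of_pow_eq_zero h

theorem exists_sylow [Fintype F] {p n : ℕ} [hp : Fact p.Prime] (hn : 1 ≤ n)
    (hF : Fintype.card F = p ^ n) : ∃ P : Sylow p PSL, (P : Subgroup PSL) = upper := by
  classical
  let U : Subgroup SL :=
    { carrier := Set.range fun t : F => up t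
      one_mem' := ⟨0, up_zero⟩
      mul_mem' := by
        rintro _ _ ⟨s, rfl⟩ ⟨t, rfl⟩
        exact ⟨s + t, (up_mul s t).symm⟩
      inv_mem' := by
        rintro _ ⟨s, rfl⟩
        exact ⟨-s, (up_inv s).symm⟩ }
  have hU : Nat.card U = p ^ n := by
    rw [← hF, ← Nat.card_eq_fintype_card (α := F)]
    refine (Nat.card_congr (Equiv.ofBijective
      (fun t : F => (⟨up t, t, rfl⟩ : U)) ⟨fun s t h => ?_, ?_⟩)).symm
    · simpa using congrArg (fun g : U => (g : SL).1 0 1) h
    · rintro ⟨_, t, rfl⟩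
      exact ⟨t, rfl⟩
  have hindex : ¬ p ∣ U.index := by
    have h := U.card_mul_index
    rw [hU, Linear.card_SL_two, hF] at h
    rw [Nat.eq_of_mul_eq_mul_left (pow_pos hp.out.pos n) h]
    intro hd
    have h1 : p ∣ (p ^ n) ^ 2 := dvd_pow (dvd_pow_self p (by omega)) (by norm_num)
    have h2 : p ∣ (p ^ n) ^ 2 - ((p ^ n) ^ 2 - 1) := Nat.dvd_sub h1 hd
    rw [Nat.sub_sub_self (Nat.one_le_pow _ _ (pow_pos hp.out.pos n))] at h2
    exact hp.out.not_dvd_one h2
  let P := (IsPGroup.of_card hU).toSylow hindex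
  refine ⟨P.mapSurjective (QuotientGroup.mk'_surjective (Subgroup.center SL)), ?_⟩
  ext x
  constructor
  · rintro ⟨_, ⟨t, rfl⟩, rfl⟩
    exact ⟨t, rfl⟩
  · rintro ⟨t, rfl⟩
    exact ⟨up t, ⟨t, rfl⟩, rfl⟩

theorem sq_closed_eq_top [Fintype F] (A : AddSubgroup F) (h0 : A ≠ ⊥)
    (hA : ∀ a : F, a ≠ 0 → ∀ t ∈ A, a * a * t ∈ A) : A = ⊤ := by
  obtain ⟨⟨w, hw⟩, hw0⟩ := AddSubgroup.ne_bot_iff_exists_ne_zero.1 h0
  have hw' : w ≠ 0 := fun h => hw0 (Subtype.ext h)
  have hsq : ∀ a : F, a * a * w ∈ A := by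
    intro a
    rcases eq_or_ne a 0 with rfl | ha
    · simp
    · exact hA a ha w hw
  refine (AddSubgroup.eq_top_iff' A).2 fun y => ?_
  by_cases h2 : (2 : F) = 0
  · haveI : CharP F 2 := CharTwo.of_one_ne_zero_of_two_eq_zero one_ne_zero h2
    obtain ⟨r, hr⟩ := isSquare_of_charTwo' (y / w)
    have h := hsq r
    rwa [← hr, div_mul_cancel₀ _ hw'] at h
  · have h := A.sub_mem (A.sub_mem (hsq (y / (2 * w) + 1)) (hsq (y / (2 * w)))) hw
    convert h using 1
    field_simp
    ring

end Cfsg.Agent.Components.UnipotentPairs
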